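import Mathlib

/-!
The groups `V^k ⋊ SL₂(F)`, `F` of characteristic two, whose elements are either
conjugate to elements of `SL₂(F)` or have order dividing four.
-/

set_option autoImplicit false
set_option linter.style.haveILetI false

namespace Cfsg.Agent.H17


variable {F : Type*} [Field F] {k : ℕ}

/-- `V^k ⋊ SL₂(F)` with `V^k` the `2 × k` matrices -/
@[ext] structure Aff (F : Type*) [Field F] (k : ℕ) where
  /-- translation part -/
  v : Matrix (Fin 2) (Fin k) F
  /-- linear part -/
  g : Matrix.SpecialLinearGroup (Fin 2) F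

noncomputable instance : Mul (Aff F k) :=
  ⟨fun a b => ⟨a.v + (a.g : Matrix (Fin 2) (Fin 2) F) * b.v, a.g * b.g⟩⟩

noncomputable instance : One (Aff F k) := ⟨⟨0, 1⟩⟩

noncomputable instance : Inv (Aff F k) :=
  ⟨fun a => ⟨-(((a.g⁻¹ : Matrix.SpecialLinearGroup (Fin 2) F) : Matrix (Fin 2) (Fin 2) F) * a.v), a.g⁻¹⟩⟩

@[simp] lemma Aff.mul_v (a b : Aff F k) : (a * b).v = a.v + (a.g : Matrix (Fin 2) (Fin 2) F) * b.v :=
  rfl
@[simp] lemma Aff.mul_g (a b : Aff F k) : (a * b).g = a.g * b.g := rfl
@[simp] lemma Aff.one_v : (1 : Aff F k).v = 0 := rfl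
@[simp] lemma Aff.one_g : (1 : Aff F k).g = 1 := rfl
@[simp] lemma Aff.inv_v (a : Aff F k) :
    (a⁻¹).v = -(((a.g⁻¹ : Matrix.SpecialLinearGroup (Fin 2) F) : Matrix (Fin 2) (Fin 2) F) * a.v) := rfl
@[simp] lemma Aff.inv_g (a : Aff F k) : (a⁻¹).g = a.g⁻¹ := rfl

noncomputable instance : Group (Aff F k) :=
  Group.ofLeftAxioms
    (by
      intro a b c
      ext1
      · simp [Matrix.mul_add, add_assoc, Matrix.mul_assoc]
      · simp [mul_assoc])
    (by
      intro a
      ext1
      · simp
      · simp)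
    (by
      intro a
      ext1
      · simp only [Aff.mul_v, Aff.inv_v, Aff.inv_g, Aff.one_v]
        simp
      · simp)

/-- the embedding of `SL₂` -/
noncomputable def affI : Matrix.SpecialLinearGroup (Fin 2) F →* Aff F k where
  toFun g := ⟨0, g⟩
  map_one' := rfl
  map_mul' a b := by
    ext1
    · simp
    · simp

lemma affI_injective : Function.Injective (affI : Matrix.SpecialLinearGroup (Fin 2) F →* Aff F k) := by
  intro a b h
  exact congrArg Aff.g h

lemma mat_sq (M : Matrix (Fin 2) (Fin 2) F) :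
    M * M = M.trace • M - M.det • (1 : Matrix (Fin 2) (Fin 2) F) := by
  ext i j
  fin_cases i <;> fin_cases j <;>
    simp [Matrix.mul_apply, Fin.sum_univ_two, Matrix.det_fin_two, Matrix.trace_fin_two] <;> ring

variable [CharP F 2]

lemma two_eq_zero' : (2 : F) = 0 := CharP.cast_eq_zero F 2 |> fun h => by exact_mod_cast h

lemma add_self_mat {m n : Type*} (w : Matrix m n F) : w + w = 0 := by
  ext i j
  simp only [Matrix.add_apply, Matrix.zero_apply]
  rw [← two_mul, two_eq_zero', zero_mul]

lemma sl_mul_self_of_trace (g : Matrix.SpecialLinearGroup (Fin 2) F)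
    (h : (g : Matrix (Fin 2) (Fin 2) F).trace = 0) : g * g = 1 := by
  apply Subtype.ext
  have h1 := mat_sq (g : Matrix (Fin 2) (Fin 2) F)
  rw [h, zero_smul, Matrix.SpecialLinearGroup.det_coe, one_smul, zero_sub] at h1
  rw [Matrix.SpecialLinearGroup.coe_mul, h1, Matrix.SpecialLinearGroup.coe_one]
  rw [← sub_eq_zero, sub_eq_add_neg]
  exact add_self_mat _

/-- an element of order two -/
lemma exists_sl_two : ∃ t : Matrix.SpecialLinearGroup (Fin 2) F, orderOf t = 2 := by
  let t : Matrix.SpecialLinearGroup (Fin 2) F := ⟨!![1, 1; 0, 1], by simp [Matrix.det_fin_two]⟩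
  have ht : t ≠ 1 := by
    intro h
    have := congrArg (fun A : Matrix.SpecialLinearGroup (Fin 2) F =>
      (A : Matrix (Fin 2) (Fin 2) F) 0 1) h
    simp [t] at this
  have ht2 : t ^ 2 = 1 := by
    rw [pow_two]
    apply sl_mul_self_of_trace
    have h2 : (2 : F) = 0 := two_eq_zero'
    simp only [t, Matrix.trace_fin_two, Matrix.of_apply, Matrix.cons_val_zero, Matrix.cons_val_one]
    have h3 : (1 : F) + 1 = 2 := by norm_num
    simp [h3, h2]
  exact ⟨t, orderOf_eq_prime (hp := ⟨Nat.prime_two⟩) ht2 ht⟩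

/-- if the trace vanishes then `a ^ 4 = 1` -/
theorem Aff.pow_four_of_trace (a : Aff F k)
    (h : (a.g : Matrix (Fin 2) (Fin 2) F).trace = 0) : a ^ 4 = 1 := by
  have hg : a.g * a.g = 1 := sl_mul_self_of_trace a.g h
  have h2 : (a * a).g = 1 := hg
  have h3 : a ^ 4 = (a * a) * (a * a) := by
    rw [show 4 = 2 + 2 from rfl, pow_add, pow_two]
  rw [h3]
  ext1
  · rw [Aff.mul_v, h2, Matrix.SpecialLinearGroup.coe_one, Matrix.one_mul, Aff.one_v]
    exact add_self_mat _
  · rw [Aff.mul_g, h2, mul_one]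
    rfl

/-- if the trace is not zero then `a` is conjugate to its linear part -/
theorem Aff.orderOf_of_trace (a : Aff F k)
    (h : (a.g : Matrix (Fin 2) (Fin 2) F).trace ≠ 0) : orderOf a = orderOf a.g := by
  set M : Matrix (Fin 2) (Fin 2) F := (a.g : Matrix (Fin 2) (Fin 2) F) with hM
  have hdet1 : M.det = 1 := Matrix.SpecialLinearGroup.det_coe _
  have hdet : (1 - M).det = -M.trace := by
    have h1 : (1 - M).det = 1 - M.trace + M.det := by
      simp [Matrix.det_fin_two, Matrix.trace_fin_two]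
      ring
    rw [h1, hdet1]
    have h2 : (2 : F) = 0 := two_eq_zero'
    linear_combination h2
  have hunit : IsUnit (1 - M).det := by
    rw [hdet]
    exact (IsUnit.neg_iff _).2 (isUnit_iff_ne_zero.2 h)
  let u : Matrix (Fin 2) (Fin k) F := (1 - M)⁻¹ * a.v
  have hu : u - M * u = a.v := by
    have h1 : u - M * u = (1 - M) * u := by
      rw [Matrix.sub_mul, Matrix.one_mul]
    rw [h1, ← Matrix.mul_assoc, Matrix.mul_nonsing_inv _ hunit, Matrix.one_mul]
  let c : Aff F k := ⟨u, 1⟩
  have hconj : a = c * affI a.g * c⁻¹ := by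
    have h1 : (c * affI a.g).v = u := by simp [c, affI]
    have h2 : (c * affI a.g).g = a.g := by simp [c, affI]
    have h3 : (c⁻¹).v = -u := by simp [c]
    have h4 : (c⁻¹).g = 1 := by simp [c]
    ext1
    · show a.v = (c * affI a.g * c⁻¹).v
      rw [Aff.mul_v, h1, h2, h3, Matrix.mul_neg, ← sub_eq_add_neg]
      exact hu.symm
    · show a.g = (c * affI a.g * c⁻¹).g
      rw [Aff.mul_g, h2, h4, mul_one]
  have h3 : c * affI a.g * c⁻¹ = MulAut.conj c (affI a.g) := rfl
  conv_lhs => rw [hconj, h3, MulEquiv.orderOf_eq]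
  exact orderOf_injective _ affI_injective _

omit [CharP F 2] in
lemma Aff.card_lt [Finite F] (N : ℕ) : N < Nat.card (Aff F N) := by
  have h1 : Function.Injective (fun w : Matrix (Fin 2) (Fin N) F => (⟨w, 1⟩ : Aff F N)) := by
    intro a b h
    exact congrArg Aff.v h
  haveI : Finite (Matrix.SpecialLinearGroup (Fin 2) F) := Subtype.finite
  haveI : Finite (Aff F N) := by
    have e : Aff F N ≃ Matrix (Fin 2) (Fin N) F × Matrix.SpecialLinearGroup (Fin 2) F :=
      { toFun := fun a => (a.v, a.g)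
        invFun := fun p => ⟨p.1, p.2⟩
        left_inv := fun a => rfl
        right_inv := fun p => rfl }
    exact Finite.of_equiv _ e.symm
  have h2 := Nat.card_le_card_of_injective _ h1
  have h3 : Nat.card (Matrix (Fin 2) (Fin N) F) = ((Nat.card F) ^ N) ^ 2 := by
    show Nat.card (Fin 2 → Fin N → F) = _
    rw [Nat.card_fun, Nat.card_fun, Nat.card_fin, Nat.card_fin]
  have hq : 2 ≤ Nat.card F := by
    haveI : Nontrivial F := inferInstance
    exact Finite.one_lt_card
  have h4 : N < 2 ^ N := Nat.lt_two_pow_self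
  have h5 : 2 ^ N ≤ (Nat.card F) ^ N := Nat.pow_le_pow_left hq N
  have h6 : (Nat.card F) ^ N ≤ ((Nat.card F) ^ N) ^ 2 :=
    Nat.le_self_pow (by norm_num) _
  omega

omit [CharP F 2] in
lemma Aff.finite [Finite F] : Finite (Aff F k) := by
  haveI : Finite (Matrix.SpecialLinearGroup (Fin 2) F) := Subtype.finite
  have e : Aff F k ≃ Matrix (Fin 2) (Fin k) F × Matrix.SpecialLinearGroup (Fin 2) F :=
    { toFun := fun a => (a.v, a.g)
      invFun := fun p => ⟨p.1, p.2⟩
      left_inv := fun a => rfl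
      right_inv := fun p => rfl }
  exact Finite.of_equiv _ e.symm

/-- a finite group is isomorphic to a group in `Type` -/
lemma toType0' (S : Type*) [Group S] [Finite S] : ∃ (T : Type) (_ : Group T), Nonempty (T ≃* S) :=
  ⟨Fin (Nat.card S), (Finite.equivFin S).symm.group, ⟨(Finite.equivFin S).symm.mulEquiv⟩⟩

/-- In characteristic 2, PSL₂ is SL₂. -/
noncomputable def pslEquiv (F : Type*) [Field F] [CharP F 2] :
    Matrix.ProjectiveSpecialLinearGroup (Fin 2) F ≃* Matrix.SpecialLinearGroup (Fin 2) F := by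
  have hbot : Subgroup.center (Matrix.SpecialLinearGroup (Fin 2) F) = ⊥ := by
    rw [eq_bot_iff]
    intro A hA
    obtain ⟨r, hr, hrA⟩ := Matrix.SpecialLinearGroup.mem_center_iff.1 hA
    rw [Subgroup.mem_bot]
    have hr1 : r = 1 := by
      rw [Fintype.card_fin] at hr
      have h2 : (r - 1) * (r - 1) = 0 := by
        have h3 : (2 : F) = 0 := two_eq_zero'
        linear_combination hr - (r - 1) * h3
      rcases mul_self_eq_zero.1 h2 with h4
      exact sub_eq_zero.1 h4
    apply Subtype.ext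
    rw [← hrA, hr1]
    simp
  exact (QuotientGroup.quotientMulEquivOfEq hbot).trans QuotientGroup.quotientBot

end Cfsg.Agent.H17
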