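import Mathlib

/-! # Integer vectors with constant inner products (coherence, abstract form) -/

set_option autoImplicit false

namespace Cfsg.Agent.H17.Brd

open Finset

variable {I : Type*} [Fintype I]

/-- Integer dot product. -/
def ip (u v : I → ℤ) : ℤ := ∑ i, u i * v i

theorem ip_comm (u v : I → ℤ) : ip u v = ip v u := by
  simp [ip, mul_comm]

theorem ip_sub_left (u v w : I → ℤ) : ip (u - v) w = ip u w - ip v w := by
  simp [ip, sub_mul, sum_sub_distrib]

theorem ip_sub_right (u v w : I → ℤ) : ip u (v - w) = ip u v - ip u w := by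
  simp [ip, mul_sub, sum_sub_distrib]

theorem ip_add_right (u v w : I → ℤ) : ip u (v + w) = ip u v + ip u w := by
  simp [ip, mul_add, sum_add_distrib]

theorem ip_add_left (u v w : I → ℤ) : ip (u + v) w = ip u w + ip v w := by
  simp [ip, add_mul, sum_add_distrib]

variable [DecidableEq I]

theorem ip_single_right (u : I → ℤ) (a : I) : ip u (Pi.single a 1) = u a := by
  simp [ip, Pi.single_apply]

theorem ip_single_left (u : I → ℤ) (a : I) : ip (Pi.single a 1) u = u a := by
  rw [ip_comm, ip_single_right]

theorem ip_self_nonneg (u : I → ℤ) : 0 ≤ ip u u :=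
  sum_nonneg fun i _ => mul_self_nonneg (u i)

theorem eq_zero_of_ip_self (u : I → ℤ) (h : ip u u = 0) : u = 0 := by
  funext i
  have h1 := (sum_eq_zero_iff_of_nonneg (fun i _ => mul_self_nonneg (u i))).1 h i (mem_univ i)
  simpa using h1

/-- A vector of norm two with vanishing weighted sum (positive weights) is a difference of two
distinct basis vectors. -/
theorem norm_two_form (u d : I → ℤ) (hd : ∀ i, 0 < d i) (hu : ip u u = 2) (h0 : ip u d = 0) :
    ∃ a b, a ≠ b ∧ u = Pi.single a 1 - Pi.single b 1 := by
  have hpos : ∃ a, 0 < u a := by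
    by_contra hcon
    push Not at hcon
    have h1 : ∀ i ∈ (univ : Finset I), u i * d i ≤ 0 := fun i _ =>
      mul_nonpos_of_nonpos_of_nonneg (hcon i) (hd i).le
    have h2 := (sum_eq_zero_iff_of_nonpos h1).1 h0
    have h3 : u = 0 := by
      funext i
      have := h2 i (mem_univ i)
      rcases mul_eq_zero.1 this with h | h
      · simpa using h
      · exact absurd h (hd i).ne'
    rw [h3] at hu
    simp [ip] at hu
  have hneg : ∃ b, u b < 0 := by
    by_contra hcon
    push Not at hcon
    have h1 : ∀ i ∈ (univ : Finset I), 0 ≤ u i * d i := fun i _ =>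
      mul_nonneg (hcon i) (hd i).le
    have h2 := (sum_eq_zero_iff_of_nonneg h1).1 h0
    have h3 : u = 0 := by
      funext i
      have := h2 i (mem_univ i)
      rcases mul_eq_zero.1 this with h | h
      · simpa using h
      · exact absurd h (hd i).ne'
    rw [h3] at hu
    simp [ip] at hu
  obtain ⟨a, ha⟩ := hpos
  obtain ⟨b, hb⟩ := hneg
  have hab : a ≠ b := by
    rintro rfl
    omega
  refine ⟨a, b, hab, ?_⟩
  have hsplit : ip u u = u a * u a + (u b * u b + ∑ i ∈ (univ.erase a).erase b, u i * u i) := by
    unfold ip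
    rw [← add_sum_erase univ (fun i => u i * u i) (mem_univ a),
      ← add_sum_erase (univ.erase a) (fun i => u i * u i)
        (mem_erase.2 ⟨hab.symm, mem_univ b⟩)]
  have hrest : 0 ≤ ∑ i ∈ (univ.erase a).erase b, u i * u i :=
    sum_nonneg fun i _ => mul_self_nonneg (u i)
  have ha2 : 1 ≤ u a := ha
  have hb2 : u b ≤ -1 := by omega
  have ha3 : u a = 1 := by nlinarith
  have hb3 : u b = -1 := by nlinarith
  have hrest0 : ∑ i ∈ (univ.erase a).erase b, u i * u i = 0 := by
    rw [ha3, hb3] at hsplit
    rw [hu] at hsplit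
    omega
  have hz := (sum_eq_zero_iff_of_nonneg (fun i _ => mul_self_nonneg (u i))).1 hrest0
  funext i
  by_cases hia : i = a
  · subst hia
    simp [ha3, Pi.single_apply, hab]
  by_cases hib : i = b
  · subst hib
    simp [hb3, Pi.single_apply, hab.symm]
  have h1 := hz i (mem_erase.2 ⟨hib, mem_erase.2 ⟨hia, mem_univ i⟩⟩)
  have h2 : u i = 0 := by simpa using h1
  simp [h2, Pi.single_apply, hia, hib]

/-- The inner product of two differences of basis vectors. -/
theorem ip_diff (a b c f : I) :
    ip ((Pi.single a 1 : I → ℤ) - Pi.single b 1) (Pi.single c 1 - Pi.single f 1) =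
      (if a = c then 1 else 0) - (if a = f then 1 else 0) - (if b = c then 1 else 0) +
        (if b = f then 1 else 0) := by
  rw [ip_sub_right, ip_single_right, ip_single_right]
  simp only [Pi.sub_apply, Pi.single_apply]
  have e1 : ∀ x y : I, (if x = y then (1 : ℤ) else 0) = if y = x then 1 else 0 := fun x y => by
    by_cases h : x = y
    · simp [h]
    · simp [h, Ne.symm h]
  rw [e1 c a, e1 c b, e1 f a, e1 f b]
  ring

theorem diff_dichotomy {a b c f : I} (hab : a ≠ b) (hcf : c ≠ f)
    (h : ip ((Pi.single a 1 : I → ℤ) - Pi.single b 1) (Pi.single c 1 - Pi.single f 1) = 1) :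
    (a = c ∧ b ≠ f) ∨ (b = f ∧ a ≠ c) := by
  rw [ip_diff] at h
  by_cases h1 : a = c
  · subst h1
    by_cases h4 : b = f
    · subst h4
      simp [hab, hab.symm] at h
    · left
      exact ⟨rfl, h4⟩
  · by_cases h4 : b = f
    · right
      exact ⟨h4, h1⟩
    · exfalso
      simp only [if_neg h1, if_neg h4] at h
      split_ifs at h <;> omega

/-- Coherence, abstract form.  Integer vectors of norm `e + 1` with pairwise inner products `e`,
orthogonal to a positive vector and at least `e + 3` in number share a common part. -/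
theorem coherent (V : Finset (I → ℤ)) (e : ℤ) (hnorm : ∀ v ∈ V, ip v v = e + 1)
    (hip : ∀ v ∈ V, ∀ v' ∈ V, v ≠ v' → ip v v' = e) (d : I → ℤ) (hd : ∀ i, 0 < d i)
    (h0 : ∀ v ∈ V, ip v d = 0) (hcard : e + 3 ≤ V.card) (he : 0 ≤ e) :
    ∃ (w : I → ℤ) (η : ℤ) (b : (I → ℤ) → I), (η = 1 ∨ η = -1) ∧
      (∀ v ∈ V, w (b v) = 0 ∧ v = w + η • Pi.single (b v) 1) ∧
      (∀ v ∈ V, ∀ v' ∈ V, b v = b v' → v = v') := by
  classical
  have hne : V.Nonempty := by
    rw [← card_pos]
    omega
  obtain ⟨v₀, hv₀⟩ := hne
  set V' := V.erase v₀ with hV'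
  have hV'card : (V'.card : ℤ) = V.card - 1 := by
    rw [hV', card_erase_of_mem hv₀]
    have : 0 < V.card := card_pos.2 ⟨v₀, hv₀⟩
    push_cast [Nat.cast_sub this]
    ring
  have hmem : ∀ v ∈ V', v ∈ V ∧ v ≠ v₀ := fun v hv => by
    rw [hV', mem_erase] at hv
    exact ⟨hv.2, hv.1⟩
  -- differences
  have hdiff : ∀ v ∈ V', ∃ a b, a ≠ b ∧ v - v₀ = Pi.single a 1 - Pi.single b 1 := by
    intro v hv
    obtain ⟨h1, h2⟩ := hmem v hv
    refine norm_two_form _ d hd ?_ ?_
    · rw [ip_sub_left, ip_sub_right, ip_sub_right, hnorm v h1, hnorm v₀ hv₀, hip v h1 v₀ hv₀ h2,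
        hip v₀ hv₀ v h1 h2.symm]
      ring
    · rw [ip_sub_left, h0 v h1, h0 v₀ hv₀]
      ring
  have hcard' : 2 ≤ V'.card := by
    have : (2 : ℤ) ≤ V'.card := by rw [hV'card]; omega
    exact_mod_cast this
  obtain ⟨v₁, hv₁⟩ : V'.Nonempty := by
    rw [← card_pos]
    omega
  haveI : Nonempty I := by
    obtain ⟨a, _⟩ := hdiff v₁ hv₁
    exact ⟨a⟩
  choose! pos neg hpn hvdiff using hdiff
  have hpair : ∀ v ∈ V', ∀ v' ∈ V', v ≠ v' →
      (pos v = pos v' ∧ neg v ≠ neg v') ∨ (neg v = neg v' ∧ pos v ≠ pos v') := by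
    intro v hv v' hv' hne
    refine diff_dichotomy (hpn v hv) (hpn v' hv') ?_
    rw [← hvdiff v hv, ← hvdiff v' hv']
    obtain ⟨h1, h2⟩ := hmem v hv
    obtain ⟨h3, h4⟩ := hmem v' hv'
    rw [ip_sub_left, ip_sub_right, ip_sub_right, hip v h1 v' h3 hne, hnorm v₀ hv₀,
      hip v h1 v₀ hv₀ h2, hip v₀ hv₀ v' h3 h4.symm]
    ring
  have hv₀u : ∀ v ∈ V', v₀ (pos v) - v₀ (neg v) = -1 := by
    intro v hv
    obtain ⟨h1, h2⟩ := hmem v hv
    have h3 : ip v₀ (v - v₀) = -1 := by
      rw [ip_sub_right, hnorm v₀ hv₀, hip v₀ hv₀ v h1 h2.symm]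
      ring
    rw [hvdiff v hv, ip_sub_right, ip_single_right, ip_single_right] at h3
    exact h3
  -- sum of squares bound
  have hbound : ∀ (f : (I → ℤ) → I), (∀ v ∈ V', ∀ v' ∈ V', f v = f v' → v = v') →
      ∀ c : ℤ, (∀ v ∈ V', v₀ (f v) = c) → c ≠ 0 → False := by
    intro f hf c hc hc0
    have h1 : ∑ i ∈ V'.image f, v₀ i * v₀ i ≤ ip v₀ v₀ := by
      unfold ip
      exact sum_le_sum_of_subset_of_nonneg (subset_univ _) fun i _ _ => mul_self_nonneg _
    rw [sum_image (fun a ha b hb h => hf a ha b hb h)] at h1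
    have h2 : ∑ v ∈ V', v₀ (f v) * v₀ (f v) = V'.card * (c * c) := by
      rw [sum_congr rfl fun v hv => by rw [hc v hv]]
      simp
    rw [h2, hnorm v₀ hv₀, hV'card] at h1
    have h3 : 1 ≤ c * c := by
      have : 0 < c * c := mul_self_pos.2 hc0
      omega
    have h4 : ((V.card : ℤ) - 1) * 1 ≤ ((V.card : ℤ) - 1) * (c * c) :=
      mul_le_mul_of_nonneg_left h3 (by omega)
    omega
  by_cases hcase : ∃ v₂ ∈ V', v₂ ≠ v₁ ∧ pos v₂ = pos v₁
  · -- all positive parts coincide
    obtain ⟨v₂, hv₂, hne21, hpp⟩ := hcase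
    have hall : ∀ v ∈ V', pos v = pos v₁ := by
      intro v hv
      by_cases h1 : v = v₁
      · rw [h1]
      by_cases h2 : v = v₂
      · rw [h2, hpp]
      rcases hpair v hv v₁ hv₁ h1 with h3 | ⟨h3, h4⟩
      · exact h3.1
      rcases hpair v hv v₂ hv₂ h2 with h5 | ⟨h5, h6⟩
      · rw [h5.1, hpp]
      exfalso
      rcases hpair v₂ hv₂ v₁ hv₁ hne21 with h7 | ⟨h7, h8⟩
      · exact h7.2 (by rw [← h5, h3])
      · exact h8 hpp
    have hninj : ∀ v ∈ V', ∀ v' ∈ V', neg v = neg v' → v = v' := by
      intro v hv v' hv' h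
      by_contra hne
      rcases hpair v hv v' hv' hne with h3 | ⟨h3, h4⟩
      · exact h3.2 h
      · exact h4 (by rw [hall v hv, hall v' hv'])
    set π := pos v₁ with hπ
    have hvals : ∀ v ∈ V', v₀ (neg v) = v₀ π + 1 := by
      intro v hv
      have := hv₀u v hv
      rw [hall v hv] at this
      omega
    have hπ0 : v₀ π = -1 := by
      by_contra hcon
      exact hbound neg hninj (v₀ π + 1) hvals (by omega)
    refine ⟨v₀ + Pi.single π 1, -1, fun v => if v = v₀ then π else neg v, Or.inr rfl, ?_, ?_⟩
    · intro v hv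
      by_cases h : v = v₀
      · subst h
        simp only [if_true]
        constructor
        · simp [hπ0]
        · funext i
          simp
      · have hv' : v ∈ V' := by
          rw [hV', mem_erase]
          exact ⟨h, hv⟩
        simp only [if_neg h]
        have h1 := hvals v hv'
        have h2 : neg v ≠ π := by
          have := hpn v hv'
          rw [hall v hv'] at this
          exact this.symm
        constructor
        · simp [h1, hπ0, Pi.single_apply, h2]
        · have h3 := hvdiff v hv'
          rw [hall v hv'] at h3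
          have h4 : v = v₀ + (Pi.single π 1 - Pi.single (neg v) 1) := by
            rw [← h3]
            abel
          rw [h4]
          conv_rhs => rw [← h4]
          funext i
          simp only [Pi.add_apply, Pi.sub_apply, Pi.smul_apply, smul_eq_mul]
          ring
    · intro v hv v' hv' h
      by_cases h1 : v = v₀ <;> by_cases h2 : v' = v₀
      · rw [h1, h2]
      · exfalso
        simp only [if_pos h1, if_neg h2] at h
        have hv'' : v' ∈ V' := by
          rw [hV', mem_erase]
          exact ⟨h2, hv'⟩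
        have := hpn v' hv''
        rw [hall v' hv''] at this
        exact this h
      · exfalso
        simp only [if_neg h1, if_pos h2] at h
        have hv'' : v ∈ V' := by
          rw [hV', mem_erase]
          exact ⟨h1, hv⟩
        have := hpn v hv''
        rw [hall v hv''] at this
        exact this h.symm
      · simp only [if_neg h1, if_neg h2] at h
        exact hninj v (by rw [hV', mem_erase]; exact ⟨h1, hv⟩) v'
          (by rw [hV', mem_erase]; exact ⟨h2, hv'⟩) h
  · -- all negative parts coincide
    push Not at hcase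
    have hall : ∀ v ∈ V', neg v = neg v₁ := by
      intro v hv
      by_cases h1 : v = v₁
      · rw [h1]
      rcases hpair v hv v₁ hv₁ h1 with h3 | ⟨h3, h4⟩
      · exact absurd h3.1 (hcase v hv h1)
      · exact h3
    have hpinj : ∀ v ∈ V', ∀ v' ∈ V', pos v = pos v' → v = v' := by
      intro v hv v' hv' h
      by_contra hne
      rcases hpair v hv v' hv' hne with h3 | ⟨h3, h4⟩
      · exact h3.2 (by rw [hall v hv, hall v' hv'])
      · exact h4 h
    set ν := neg v₁ with hν
    have hvals : ∀ v ∈ V', v₀ (pos v) = v₀ ν - 1 := by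
      intro v hv
      have := hv₀u v hv
      rw [hall v hv] at this
      omega
    have hν0 : v₀ ν = 1 := by
      by_contra hcon
      exact hbound pos hpinj (v₀ ν - 1) hvals (by omega)
    refine ⟨v₀ - Pi.single ν 1, 1, fun v => if v = v₀ then ν else pos v, Or.inl rfl, ?_, ?_⟩
    · intro v hv
      by_cases h : v = v₀
      · subst h
        simp only [if_true]
        constructor
        · simp [hν0]
        · funext i
          simp
      · have hv' : v ∈ V' := by
          rw [hV', mem_erase]
          exact ⟨h, hv⟩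
        simp only [if_neg h]
        have h1 := hvals v hv'
        have h2 : pos v ≠ ν := by
          have := hpn v hv'
          rw [hall v hv'] at this
          exact this
        constructor
        · simp [h1, hν0, Pi.single_apply, h2]
        · have h3 := hvdiff v hv'
          rw [hall v hv'] at h3
          have h4 : v = v₀ + (Pi.single (pos v) 1 - Pi.single ν 1) := by
            rw [← h3]
            abel
          rw [h4]
          conv_rhs => rw [← h4]
          funext i
          simp only [Pi.add_apply, Pi.sub_apply, Pi.smul_apply, smul_eq_mul]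
          ring
    · intro v hv v' hv' h
      by_cases h1 : v = v₀ <;> by_cases h2 : v' = v₀
      · rw [h1, h2]
      · exfalso
        simp only [if_pos h1, if_neg h2] at h
        have hv'' : v' ∈ V' := by
          rw [hV', mem_erase]
          exact ⟨h2, hv'⟩
        have := hpn v' hv''
        rw [hall v' hv''] at this
        exact this h.symm
      · exfalso
        simp only [if_neg h1, if_pos h2] at h
        have hv'' : v ∈ V' := by
          rw [hV', mem_erase]
          exact ⟨h1, hv⟩
        have := hpn v hv''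
        rw [hall v hv''] at this
        exact this h
      · simp only [if_neg h1, if_neg h2] at h
        exact hpinj v (by rw [hV', mem_erase]; exact ⟨h1, hv⟩) v'
          (by rw [hV', mem_erase]; exact ⟨h2, hv'⟩) h

end Cfsg.Agent.H17.Brd
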