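import Cfsg.Agent.Lib.H21.CharBasis
import Cfsg.Agent.Lib.H17.Brd0

/-! # Fourier coefficients of characters on a cyclic subgroup of prime order -/

set_option autoImplicit false
set_option linter.unusedSectionVars false
set_option linter.style.haveILetI false
set_option linter.unusedSimpArgs false
set_option linter.unusedVariables false

namespace Cfsg.Agent.H17.Brd

open Cfsg Cfsg.Agent.H21 Finset
open scoped ComplexConjugate

universe u

variable {G : Type u} [Group G] {p : ℕ} [hp : Fact p.Prime]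

/-- The additive character of `ZMod p`. -/
noncomputable abbrev ψ : AddChar (ZMod p) ℂ := ZMod.stdAddChar

/-- The powers of `x` indexed by `ZMod p`. -/
def X (x : G) (a : ZMod p) : G := x ^ a.val

theorem X_zero (x : G) : X x (0 : ZMod p) = 1 := by
  simp [X]

theorem X_one (x : G) : X x (1 : ZMod p) = x := by
  have h : (1 : ZMod p).val = 1 := ZMod.val_one p
  simp [X, h]

theorem X_mul_pow {x : G} (hx : x ^ p = 1) (a c : ZMod p) :
    X x a ^ c.val = X x (a * c) := by
  unfold X
  rw [← pow_mul, ZMod.val_mul]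
  conv_rhs => rw [← pow_mod_orderOf]
  have h1 : orderOf x ∣ p := orderOf_dvd_of_pow_eq_one hx
  have h2 : (a.val * c.val) % p % orderOf x = (a.val * c.val) % orderOf x :=
    Nat.mod_mod_of_dvd _ h1
  rw [h2, pow_mod_orderOf]

theorem X_eq_one_iff {x : G} (hx : orderOf x = p) (a : ZMod p) : X x a = 1 ↔ a = 0 := by
  constructor
  · intro h
    have h1 : p ∣ a.val := by
      have h0 : orderOf x ∣ a.val := orderOf_dvd_of_pow_eq_one h
      rwa [hx] at h0
    have h2 : a.val < p := ZMod.val_lt a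
    have h3 : a.val = 0 := Nat.eq_zero_of_dvd_of_lt h1 h2
    exact (ZMod.val_eq_zero a).1 h3
  · rintro rfl
    exact X_zero x

theorem psi_surj {z : ℂ} (hz : z ^ p = 1) : ∃ n : ZMod p, ψ n = z := by
  have hp0 : p ≠ 0 := hp.out.ne_zero
  have h1 : IsPrimitiveRoot (Complex.exp (2 * Real.pi * Complex.I / p)) p :=
    Complex.isPrimitiveRoot_exp p hp0
  obtain ⟨i, -, hi⟩ := h1.eq_pow_of_pow_eq_one hz
  refine ⟨(i : ZMod p), ?_⟩
  have h2 : (ψ (1 : ZMod p)) = Complex.exp (2 * Real.pi * Complex.I / p) := by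
    have := ZMod.stdAddChar_coe (N := p) 1
    simpa using this
  have h3 : ((i : ZMod p)) = i • (1 : ZMod p) := by simp
  rw [h3, AddChar.map_nsmul_eq_pow, h2, hi]

theorem psi_pow_val (n a : ZMod p) : (ψ n) ^ a.val = ψ (n * a) := by
  rw [← AddChar.map_nsmul_eq_pow]
  congr 1
  simp [mul_comm]

theorem sum_psi (t : ZMod p) : ∑ a : ZMod p, ψ (a * t) = if t = 0 then (p : ℂ) else 0 := by
  classical
  have h := AddChar.sum_mulShift (R := ZMod p) (R' := ℂ) (ψ := ZMod.stdAddChar) t
    (ZMod.isPrimitive_stdAddChar p)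
  rw [h, ZMod.card]
  split_ifs <;> simp

/-- Fourier coefficient of `χ` along the powers of `x`. -/
noncomputable def cf (χ : G → ℂ) (x : G) (j : ZMod p) : ℂ :=
  (p : ℂ)⁻¹ * ∑ a : ZMod p, ψ (-(a * j)) * χ (X x a)

theorem cf_nat [Finite G] {χ : G → ℂ} (hχ : IsCharacter G χ) {x : G} (hx : orderOf x = p)
    (j : ZMod p) : ∃ m : ℕ, cf χ x j = m := by
  classical
  obtain ⟨n, ρ, rfl⟩ := hχ
  have hp0 : p ≠ 0 := hp.out.ne_zero
  have hpc : (p : ℂ) ≠ 0 := by exact_mod_cast hp0
  have hxp : x ^ p = 1 := by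
    rw [← hx]
    exact pow_orderOf_eq_one x
  have hpow : (ρ x) ^ p = 1 := by
    rw [← map_pow, hxp, map_one]
  obtain ⟨ι, hι, b, μ, h1, h2⟩ := exists_eigenbasis_of_pow_eq_one (ρ x) p hp0 hpow
  choose N hN using fun i => psi_surj (p := p) (h2 i)
  have hval : ∀ a : ZMod p, ρ.character (X x a) = ∑ i, ψ (N i * a) := by
    intro a
    have h3 : ∀ i, ρ (X x a) (b i) = ψ (N i * a) • b i := by
      intro i
      have h4 : ∀ k : ℕ, ρ (x ^ k) (b i) = (μ i) ^ k • b i := by
        intro k
        induction k with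
        | zero => simp
        | succ k ih =>
          rw [pow_succ, map_mul, Module.End.mul_apply, h1, map_smul, ih, smul_smul, pow_succ,
            mul_comm]
      unfold X
      rw [h4, ← psi_pow_val, hN]
    unfold Representation.character
    exact trace_of_eigenbasis _ b _ h3
  refine ⟨(univ.filter fun i => N i = j).card, ?_⟩
  unfold cf
  simp_rw [hval]
  have h5 : ∀ a : ZMod p, ψ (-(a * j)) * ∑ i, ψ (N i * a) = ∑ i, ψ (a * (N i - j)) := by
    intro a
    rw [mul_sum]
    refine sum_congr rfl fun i _ => ?_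
    rw [← AddChar.map_add_eq_mul]
    congr 1
    ring
  simp_rw [h5]
  rw [sum_comm]
  simp_rw [sum_psi, sub_eq_zero]
  rw [sum_ite, sum_const_zero, add_zero, sum_const, nsmul_eq_mul, mul_left_comm,
    inv_mul_cancel₀ hpc, mul_one]

/-- The sum of all Fourier coefficients. -/
theorem sum_cf (χ : G → ℂ) (x : G) : ∑ j : ZMod p, cf χ x j = χ 1 := by
  classical
  have hp0 : p ≠ 0 := hp.out.ne_zero
  have hpc : (p : ℂ) ≠ 0 := by exact_mod_cast hp0
  unfold cf
  rw [← mul_sum, sum_comm]
  have h1 : ∀ a : ZMod p, ∑ j : ZMod p, ψ (-(a * j)) * χ (X x a) =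
      (if a = 0 then (p : ℂ) else 0) * χ (X x a) := by
    intro a
    rw [← sum_mul]
    congr 1
    have h2 : ∀ j : ZMod p, -(a * j) = j * (-a) := fun j => by ring
    simp_rw [h2]
    rw [sum_psi]
    simp
  simp_rw [h1]
  simp [X_zero, hpc]

end Cfsg.Agent.H17.Brd
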