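import Cfsg.Agent.Lib.H17.Brd1

/-! # Brauer's relation for an element of prime order with self-centralizing cyclic group -/

set_option autoImplicit false
set_option linter.unusedSectionVars false
set_option linter.style.haveILetI false
set_option linter.unusedSimpArgs false
set_option linter.unusedVariables false

namespace Cfsg.Agent.H17.Brd

open Cfsg Cfsg.Agent.H21 Finset
open scoped ComplexConjugate

universe u

variable {G : Type u} [Group G] {p : ℕ} [hp : Fact p.Prime]

open Classical in
/-- The multipliers `r` with `x ^ r` conjugate to `x`. -/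
noncomputable def Rs (x : G) : Finset (ZMod p) := univ.filter fun r => IsConj (X x r) x

theorem mem_Rs {x : G} {r : ZMod p} : r ∈ Rs (p := p) x ↔ IsConj (X x r) x := by
  classical
  simp [Rs]

theorem one_mem_Rs (x : G) : (1 : ZMod p) ∈ Rs x := by
  rw [mem_Rs, X_one]

theorem isConj_X_iff {x : G} (hx : orderOf x = p) {a b : ZMod p} (hb : b ≠ 0) :
    IsConj (X x a) (X x b) ↔ a * b⁻¹ ∈ Rs (p := p) x := by
  haveI : Fact p.Prime := hp
  have hxp : x ^ p = 1 := by
    rw [← hx]
    exact pow_orderOf_eq_one x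
  rw [mem_Rs]
  constructor
  · intro h
    have h1 := h.pow (b⁻¹).val
    rw [X_mul_pow hxp, X_mul_pow hxp, mul_inv_cancel₀ hb, X_one] at h1
    exact h1
  · intro h
    have h1 := h.pow b.val
    rw [X_mul_pow hxp, mul_assoc, inv_mul_cancel₀ hb, mul_one] at h1
    exact h1

theorem centralizer_X {x : G} (hx : orderOf x = p) {b : ZMod p} (hb : b ≠ 0) :
    Subgroup.centralizer ({X x b} : Set G) = Subgroup.centralizer ({x} : Set G) := by
  have hxp : x ^ p = 1 := by
    rw [← hx]
    exact pow_orderOf_eq_one x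
  have h1 : X x b ^ (b⁻¹).val = x := by
    rw [X_mul_pow hxp, mul_inv_cancel₀ hb, X_one]
  ext c
  simp only [Subgroup.mem_centralizer_singleton_iff]
  constructor
  · intro h
    have h2 : Commute c (X x b) := h
    have h3 : Commute c (X x b ^ (b⁻¹).val) := h2.pow_right _
    rw [h1] at h3
    exact h3
  · intro h
    have h2 : Commute c x := h
    exact h2.pow_right _

section Main

variable [Fintype G] [Fintype (IrrCharacter G)]

/-- `conj` of the coefficient. -/
theorem conj_psi (t : ZMod p) : conj (ψ (-t)) = ψ t := by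
  rw [← AddChar.map_neg_eq_conj]
  simp

/-- The basic kernel. -/
noncomputable def cc (j a : ZMod p) : ℂ := ψ (-(a * j)) - 1

theorem cc_zero (j : ZMod p) : cc j 0 = 0 := by
  simp [cc]

theorem conj_cc (j a : ZMod p) : conj (cc j a) = ψ (a * j) - 1 := by
  unfold cc
  rw [map_sub, conj_psi, map_one]

theorem cf_sub (χ : G → ℂ) (x : G) (j : ZMod p) :
    cf χ x j - cf χ x (0 : ZMod p) = (p : ℂ)⁻¹ * ∑ a : ZMod p, cc j a * χ (X x a) := by
  unfold cf cc
  rw [← mul_sub, ← sum_sub_distrib]
  congr 1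
  refine sum_congr rfl fun a _ => ?_
  simp only [mul_zero, neg_zero, AddChar.map_zero_eq_one]
  ring

/-- The main computation: column orthogonality gives the inner products. -/
theorem sum_cf_sub_mul {x : G} (hx : orderOf x = p)
    (hC : Subgroup.centralizer ({x} : Set G) = Subgroup.zpowers x) {j k : ZMod p}
    (hj : j ≠ 0) (hk : k ≠ 0) :
    ∑ χ : IrrCharacter G, (cf χ.1 x j - cf χ.1 x (0 : ZMod p)) * conj (cf χ.1 x k - cf χ.1 x (0 : ZMod p)) =
      ((Rs (p := p) x).card : ℂ) + (((Rs (p := p) x).filter fun r => r * j = k).card : ℂ) := by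
  classical
  have hp0 : p ≠ 0 := hp.out.ne_zero
  have hpc : (p : ℂ) ≠ 0 := by exact_mod_cast hp0
  -- the double sum
  have h1 : ∀ χ : IrrCharacter G, (cf χ.1 x j - cf χ.1 x (0 : ZMod p)) * conj (cf χ.1 x k - cf χ.1 x (0 : ZMod p)) =
      (p : ℂ)⁻¹ * (p : ℂ)⁻¹ * ∑ a : ZMod p, ∑ b : ZMod p,
        cc j a * conj (cc k b) * (χ.1 (X x a) * conj (χ.1 (X x b))) := by
    intro χ
    rw [cf_sub, cf_sub, map_mul, map_sum, map_inv₀, Complex.conj_natCast]
    simp_rw [map_mul]
    rw [mul_mul_mul_comm, sum_mul_sum]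
    congr 1
    refine sum_congr rfl fun a _ => sum_congr rfl fun b _ => ?_
    ring
  simp_rw [h1]
  rw [← mul_sum]
  have hswap : (∑ χ : IrrCharacter G, ∑ a : ZMod p, ∑ b : ZMod p,
        cc j a * conj (cc k b) * (χ.1 (X x a) * conj (χ.1 (X x b)))) =
      ∑ b : ZMod p, ∑ a : ZMod p, cc j a * conj (cc k b) *
        (∑ χ : IrrCharacter G, χ.1 (X x a) * conj (χ.1 (X x b))) := by
    calc _ = ∑ a : ZMod p, ∑ χ : IrrCharacter G, ∑ b : ZMod p,
          cc j a * conj (cc k b) * (χ.1 (X x a) * conj (χ.1 (X x b))) := sum_comm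
      _ = ∑ a : ZMod p, ∑ b : ZMod p, ∑ χ : IrrCharacter G,
          cc j a * conj (cc k b) * (χ.1 (X x a) * conj (χ.1 (X x b))) :=
          sum_congr rfl fun a _ => sum_comm
      _ = ∑ b : ZMod p, ∑ a : ZMod p, ∑ χ : IrrCharacter G,
          cc j a * conj (cc k b) * (χ.1 (X x a) * conj (χ.1 (X x b))) := sum_comm
      _ = _ := by simp_rw [mul_sum]
  rw [hswap]
  have hS : ∀ a b : ZMod p, cc j a * conj (cc k b) *
      (∑ χ : IrrCharacter G, χ.1 (X x a) * conj (χ.1 (X x b))) =
      if b = 0 then 0 else (if a * b⁻¹ ∈ Rs (p := p) x then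
        cc j a * conj (cc k b) * (p : ℂ) else 0) := by
    intro a b
    by_cases hb : b = 0
    · subst hb
      simp [cc_zero]
    rw [if_neg hb]
    by_cases hab : a * b⁻¹ ∈ Rs (p := p) x
    · rw [if_pos hab]
      have h2 := (isConj_X_iff hx hb).2 hab
      rw [column_orthogonality_of_isConj h2, centralizer_X hx hb, hC, Nat.card_zpowers, hx]
    · rw [if_neg hab]
      have h2 : ¬ IsConj (X x a) (X x b) := fun h => hab ((isConj_X_iff hx hb).1 h)
      rw [column_orthogonality_of_not_isConj h2, mul_zero]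
  simp_rw [hS]
  -- change of variables `a = r b`
  have h3 : ∀ b : ZMod p, (∑ a : ZMod p, if b = 0 then (0 : ℂ) else (if a * b⁻¹ ∈ Rs (p := p) x then
        cc j a * conj (cc k b) * (p : ℂ) else 0)) =
      (p : ℂ) * ∑ r ∈ Rs (p := p) x, (conj (cc k b) * cc j (r * b)) := by
    intro b
    by_cases hb : b = 0
    · subst hb
      simp [cc_zero]
    simp only [if_neg hb]
    rw [← sum_filter, mul_sum]
    refine sum_bij (fun a _ => a * b⁻¹) ?_ ?_ ?_ ?_
    · intro a ha
      exact (mem_filter.1 ha).2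
    · intro a _ a' _ h
      exact mul_right_cancel₀ (inv_ne_zero hb) h
    · intro r hr
      refine ⟨r * b, mem_filter.2 ⟨mem_univ _, ?_⟩, ?_⟩
      · rwa [mul_assoc, mul_inv_cancel₀ hb, mul_one]
      · rw [mul_assoc, mul_inv_cancel₀ hb, mul_one]
    · intro a _
      rw [inv_mul_cancel_right₀ hb]
      ring
  simp_rw [h3]
  rw [← mul_sum, sum_comm]
  -- the inner sum for fixed `r`
  have h4 : ∀ r ∈ Rs (p := p) x, (∑ b : ZMod p, conj (cc k b) * cc j (r * b)) =
      (p : ℂ) * ((if r * j = k then 1 else 0) + 1) := by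
    intro r hr
    have hr0 : r ≠ 0 := by
      rintro rfl
      have h5 := mem_Rs.1 hr
      rw [X_zero] at h5
      have h6 : x = 1 := isConj_one_right.1 h5
      have h7 : orderOf x = 1 := by rw [h6]; exact orderOf_one
      rw [hx] at h7
      exact hp.out.one_lt.ne' h7
    have h5 : ∀ b : ZMod p, conj (cc k b) * cc j (r * b) =
        ψ (b * (k - r * j)) - ψ (b * k) - ψ (b * (-(r * j))) + 1 := by
      intro b
      rw [conj_cc]
      unfold cc
      have h6 : ψ (b * k) * ψ (-(r * b * j)) = ψ (b * (k - r * j)) := by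
        rw [← AddChar.map_add_eq_mul]
        congr 1
        ring
      have h7 : -(r * b * j) = b * (-(r * j)) := by ring
      rw [← h6, h7]
      ring
    simp_rw [h5]
    rw [sum_add_distrib, sum_sub_distrib, sum_sub_distrib, sum_psi, sum_psi, sum_psi]
    have hrj : -(r * j) ≠ 0 := neg_ne_zero.2 (mul_ne_zero hr0 hj)
    simp only [if_neg hk, if_neg hrj, sub_zero, sum_const, card_univ, ZMod.card, nsmul_eq_mul,
      mul_one, sub_eq_zero]
    by_cases h8 : k = r * j
    · simp [h8]
      ring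
    · have h9 : ¬ r * j = k := fun h => h8 h.symm
      simp [h8, h9]
  rw [sum_congr rfl fun r hr => by rw [h4 r hr]]
  rw [← mul_sum, sum_add_distrib, sum_ite, sum_const_zero, add_zero, sum_const, sum_const]
  simp only [nsmul_eq_mul, mul_one]
  generalize (((Rs (p := p) x).filter fun r => r * j = k).card : ℂ) = c1
  generalize ((Rs (p := p) x).card : ℂ) = c2
  field_simp
  ring

end Main

end Cfsg.Agent.H17.Brd
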