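import Cfsg.Agent.Lib.H17.Brd2

/-! # Brauer's relation: integral form -/

set_option autoImplicit false
set_option linter.unusedSectionVars false
set_option linter.style.haveILetI false
set_option linter.unusedSimpArgs false
set_option linter.unusedVariables false

namespace Cfsg.Agent.H17.Brd

open Cfsg Cfsg.Agent.H21 Finset
open scoped ComplexConjugate

universe u

variable {G : Type u} [Group G] {p : ℕ} [hp : Fact p.Prime]

section Main

variable [Fintype G] [Fintype (IrrCharacter G)]

/-- The multiplicity of the `j`-th eigenvalue of `x` in `χ`. -/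
noncomputable def mm {x : G} (hx : orderOf x = p) (χ : IrrCharacter G) (j : ZMod p) : ℕ :=
  (cf_nat (isCharacter_of_irr χ.2) hx j).choose

theorem mm_spec {x : G} (hx : orderOf x = p) (χ : IrrCharacter G) (j : ZMod p) :
    cf χ.1 x j = mm hx χ j :=
  (cf_nat (isCharacter_of_irr χ.2) hx j).choose_spec

/-- The vector of differences of multiplicities. -/
noncomputable def vv {x : G} (hx : orderOf x = p) (j : ZMod p) : IrrCharacter G → ℤ :=
  fun χ => (mm hx χ j : ℤ) - mm hx χ 0

theorem vv_cast {x : G} (hx : orderOf x = p) (j : ZMod p) (χ : IrrCharacter G) :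
    ((vv hx j χ : ℤ) : ℂ) = cf χ.1 x j - cf χ.1 x (0 : ZMod p) := by
  rw [mm_spec hx χ j, mm_spec hx χ 0]
  simp [vv]

/-- The degree vector. -/
noncomputable def dd : IrrCharacter G → ℤ := fun χ => (charDegree χ.1 : ℤ)

theorem dd_pos (χ : IrrCharacter G) : 0 < dd χ := by
  have := irr_charDegree_pos χ.2
  simp only [dd]
  exact_mod_cast this

theorem dd_cast (χ : IrrCharacter G) : ((dd χ : ℤ) : ℂ) = χ.1 1 := by
  simp only [dd, Int.cast_natCast]
  exact (one_eq_charDegree (isCharacter_of_irr χ.2)).symm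

theorem ip_vv {x : G} (hx : orderOf x = p)
    (hC : Subgroup.centralizer ({x} : Set G) = Subgroup.zpowers x) {j k : ZMod p}
    (hj : j ≠ 0) (hk : k ≠ 0) :
    ip (vv hx j) (vv hx k) = ((Rs (p := p) x).card : ℤ) +
      (((Rs (p := p) x).filter fun r => r * j = k).card : ℤ) := by
  classical
  have h := sum_cf_sub_mul (G := G) hx hC hj hk
  have h1 : ((ip (vv hx j) (vv hx k) : ℤ) : ℂ) =
      ∑ χ : IrrCharacter G, (cf χ.1 x j - cf χ.1 x (0 : ZMod p)) *
        conj (cf χ.1 x k - cf χ.1 x (0 : ZMod p)) := by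
    unfold ip
    push_cast
    refine sum_congr rfl fun χ _ => ?_
    rw [vv_cast, ← vv_cast hx k, map_intCast]
  rw [h] at h1
  exact_mod_cast h1

theorem ip_vv_dd {x : G} (hx : orderOf x = p) (j : ZMod p) : ip (vv hx j) dd = 0 := by
  classical
  have hp0 : p ≠ 0 := hp.out.ne_zero
  have hpc : (p : ℂ) ≠ 0 := by exact_mod_cast hp0
  have h1 : ((ip (vv hx j) dd : ℤ) : ℂ) =
      (p : ℂ)⁻¹ * ∑ a : ZMod p, cc j a * ∑ χ : IrrCharacter G, χ.1 (X x a) * conj (χ.1 1) := by
    unfold ip
    push_cast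
    have h2 : ∀ χ : IrrCharacter G, ((vv hx j χ : ℤ) : ℂ) * ((dd χ : ℤ) : ℂ) =
        (p : ℂ)⁻¹ * ∑ a : ZMod p, cc j a * (χ.1 (X x a) * conj (χ.1 1)) := by
      intro χ
      rw [vv_cast, cf_sub, mul_assoc, sum_mul]
      have h3 : ((dd χ : ℤ) : ℂ) = conj (χ.1 1) := by
        rw [← dd_cast, map_intCast]
      rw [h3]
      congr 1
      refine sum_congr rfl fun a _ => ?_
      ring
    simp_rw [h2]
    rw [← mul_sum]
    congr 1
    simp_rw [mul_sum]
    rw [sum_comm]
  have h4 : ∑ a : ZMod p, cc j a * ∑ χ : IrrCharacter G, χ.1 (X x a) * conj (χ.1 1) = 0 := by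
    refine sum_eq_zero fun a _ => ?_
    by_cases ha : a = 0
    · subst ha
      rw [cc_zero, zero_mul]
    · have h5 : ¬ IsConj (X x a) (1 : G) := fun h =>
        ha ((X_eq_one_iff hx a).1 (isConj_one_left.1 h))
      rw [column_orthogonality_of_not_isConj h5, mul_zero]
  rw [h4, mul_zero] at h1
  exact_mod_cast h1

/-- The principal character. -/
noncomputable def oo : IrrCharacter G := ⟨fun _ => 1, isIrrCharacter_one⟩

theorem vv_oo {x : G} (hx : orderOf x = p) {j : ZMod p} (hj : j ≠ 0) : vv hx j (oo (G := G)) = -1 := by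
  classical
  have hp0 : p ≠ 0 := hp.out.ne_zero
  have hpc : (p : ℂ) ≠ 0 := by exact_mod_cast hp0
  have h1 : ∀ t : ZMod p, cf (oo (G := G)).1 x t = if t = 0 then 1 else 0 := by
    intro t
    unfold cf oo
    simp only [mul_one]
    have h2 : ∀ a : ZMod p, -(a * t) = a * (-t) := fun a => by ring
    simp_rw [h2]
    rw [sum_psi]
    simp only [neg_eq_zero]
    split_ifs
    · field_simp
    · simp
  have h3 : ((vv hx j (oo (G := G)) : ℤ) : ℂ) = -1 := by
    rw [vv_cast, h1, h1]
    simp [hj]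
  exact_mod_cast h3

theorem sum_mm {x : G} (hx : orderOf x = p) (χ : IrrCharacter G) :
    ∑ j : ZMod p, mm hx χ j = charDegree χ.1 := by
  have h1 := sum_cf χ.1 x (p := p)
  simp_rw [mm_spec hx] at h1
  rw [one_eq_charDegree (isCharacter_of_irr χ.2)] at h1
  exact_mod_cast h1

theorem dd_eq {x : G} (hx : orderOf x = p) (χ : IrrCharacter G) :
    dd χ = p * (mm hx χ 0 : ℤ) + ∑ j ∈ univ.erase (0 : ZMod p), vv hx j χ := by
  classical
  have h1 := sum_mm hx χ
  have h2 : dd χ = ∑ j : ZMod p, (mm hx χ j : ℤ) := by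
    simp only [dd]
    exact_mod_cast h1.symm
  rw [h2, ← add_sum_erase univ _ (mem_univ (0 : ZMod p))]
  unfold vv
  rw [sum_sub_distrib, sum_const, card_erase_of_mem (mem_univ _), card_univ, ZMod.card]
  have hp1 : 1 ≤ p := hp.out.one_lt.le
  rw [nsmul_eq_mul]
  push_cast [Nat.cast_sub hp1]
  ring

theorem ip_smul_single_left [DecidableEq (IrrCharacter G)] (η : ℤ) (B : IrrCharacter G)
    (u : IrrCharacter G → ℤ) : ip (η • Pi.single B (1 : ℤ)) u = η * u B := by
  unfold ip
  simp [Pi.single_apply, mul_sum]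

/-- **Brauer's relation.** -/
theorem brauer_relation {x : G} (hx : orderOf x = p)
    (hC : Subgroup.centralizer ({x} : Set G) = Subgroup.zpowers x) (e : ℕ)
    (he : (Rs (p := p) x).card = e) (hbig : e * (e + 2) < p - 1) :
    ∃ (w : IrrCharacter G → ℤ) (η : ℤ) (B : IrrCharacter G), (η = 1 ∨ η = -1) ∧
      w oo = -1 ∧ w B = 0 ∧ ip w w = e ∧ ip w dd + η * dd B = 0 ∧
      (∀ χ, w χ ≠ 0 → dd χ ≡ - w χ [ZMOD p]) ∧ dd B ≡ e * η [ZMOD p] := by
  classical
  have hp1 : 1 < p := hp.out.one_lt
  have hone : (1 : ZMod p) ≠ 0 := one_ne_zero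
  set J : Finset (ZMod p) := univ.erase 0 with hJ
  have hJmem : ∀ {j : ZMod p}, j ∈ J ↔ j ≠ 0 := fun {j} => by simp [hJ]
  have hJcard : J.card = p - 1 := by
    rw [hJ, card_erase_of_mem (mem_univ _), card_univ, ZMod.card]
  set v : ZMod p → IrrCharacter G → ℤ := vv hx with hv
  have hcount : ∀ {j k : ZMod p}, j ≠ 0 → ((Rs (p := p) x).filter fun r => r * j = k).card =
      if k * j⁻¹ ∈ Rs (p := p) x then 1 else 0 := by
    intro j k hj
    split_ifs with h
    · rw [card_eq_one]
      refine ⟨k * j⁻¹, ?_⟩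
      ext r
      simp only [mem_filter, mem_singleton]
      constructor
      · rintro ⟨_, rfl⟩
        rw [mul_inv_cancel_right₀ hj]
      · rintro rfl
        exact ⟨h, inv_mul_cancel_right₀ hj k⟩
    · rw [card_eq_zero, filter_eq_empty_iff]
      rintro r hr rfl
      rw [mul_inv_cancel_right₀ hj] at h
      exact h hr
  have hipv : ∀ {j k : ZMod p}, j ≠ 0 → k ≠ 0 →
      ip (v j) (v k) = (e : ℤ) + if k * j⁻¹ ∈ Rs (p := p) x then 1 else 0 := by
    intro j k hj hk
    rw [hv, ip_vv hx hC hj hk, hcount hj, he]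
    split_ifs <;> simp
  have hnorm : ∀ {j : ZMod p}, j ≠ 0 → ip (v j) (v j) = (e : ℤ) + 1 := by
    intro j hj
    rw [hipv hj hj, mul_inv_cancel₀ hj, if_pos (one_mem_Rs x)]
  have heq : ∀ {j k : ZMod p}, j ≠ 0 → k ≠ 0 → (v j = v k ↔ k * j⁻¹ ∈ Rs (p := p) x) := by
    intro j k hj hk
    constructor
    · intro h
      have h1 := hipv hj hk
      rw [← h, hnorm hj] at h1
      by_contra hcon
      rw [if_neg hcon] at h1
      omega
    · intro h
      have h1 := hipv hj hk
      rw [if_pos h] at h1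
      have h2 : ip (v j - v k) (v j - v k) = 0 := by
        rw [ip_sub_left, ip_sub_right, ip_sub_right, hnorm hj, hnorm hk, ip_comm (v k) (v j), h1]
        ring
      exact sub_eq_zero.1 (eq_zero_of_ip_self _ h2)
  set V : Finset (IrrCharacter G → ℤ) := J.image v with hV
  have hVmem : ∀ {u}, u ∈ V ↔ ∃ j, j ≠ 0 ∧ v j = u := fun {u} => by
    simp [hV, hJmem]
  have hVcard : (e : ℤ) + 3 ≤ V.card := by
    have hfib : ∀ a ∈ J.image v, (J.filter fun k => v k = a).card ≤ e := by
      intro a ha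
      obtain ⟨j, hj, rfl⟩ := hVmem.1 ha
      rw [← he]
      refine card_le_card_of_injOn (fun k => k * j⁻¹) ?_ ?_
      · intro k hk
        have hk' := mem_filter.1 hk
        exact (heq hj (hJmem.1 hk'.1)).1 hk'.2.symm
      · intro k _ k' _ h
        exact mul_right_cancel₀ (inv_ne_zero hj) h
    have h1 := card_le_mul_card_image J e hfib
    rw [hJcard] at h1
    by_contra hcon
    push Not at hcon
    have h2 : V.card ≤ e + 2 := by omega
    have h3 : e * (J.image v).card ≤ e * (e + 2) := Nat.mul_le_mul_left e h2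
    omega
  obtain ⟨w, η, b, hη, hwb, hbinj⟩ := coherent V (e : ℤ)
    (by
      intro u hu
      obtain ⟨j, hj, rfl⟩ := hVmem.1 hu
      exact hnorm hj)
    (by
      intro u hu u' hu' hne
      obtain ⟨j, hj, rfl⟩ := hVmem.1 hu
      obtain ⟨k, hk, rfl⟩ := hVmem.1 hu'
      rw [hipv hj hk, if_neg (fun h => hne ((heq hj hk).2 h)), add_zero])
    dd dd_pos
    (by
      intro u hu
      obtain ⟨j, hj, rfl⟩ := hVmem.1 hu
      exact ip_vv_dd hx j)
    hVcard (by positivity)
  have hvV : ∀ {j : ZMod p}, j ≠ 0 → v j ∈ V := fun {j} hj => hVmem.2 ⟨j, hj, rfl⟩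
  have hval : ∀ {j : ZMod p}, j ≠ 0 → ∀ χ, v j χ = w χ + η * if χ = b (v j) then 1 else 0 := by
    intro j hj χ
    have h1 := (hwb _ (hvV hj)).2
    have h2 := congrFun h1 χ
    conv_lhs => rw [h2]
    simp [Pi.single_apply]
  set B := b (v 1) with hB
  have hwB : w B = 0 := (hwb _ (hvV hone)).1
  have hη2 : η * η = 1 := by
    rcases hη with rfl | rfl <;> norm_num
  have hbinj' : ∀ {j : ZMod p}, j ≠ 0 → (b (v j) = B ↔ v j = v 1) := by
    intro j hj
    constructor
    · intro h
      exact hbinj _ (hvV hj) _ (hvV hone) h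
    · intro h
      rw [hB, h]
  refine ⟨w, η, B, hη, ?_, hwB, ?_, ?_, ?_, ?_⟩
  · -- w oo = -1
    by_cases hBo : B = oo
    · exfalso
      have h1 : 1 < V.card := by
        have : (e : ℤ) + 3 ≤ V.card := hVcard
        have h2 : (3 : ℤ) ≤ V.card := by omega
        have h3 : 3 ≤ V.card := by exact_mod_cast h2
        omega
      obtain ⟨u, hu, hne⟩ := exists_mem_ne h1 (v 1)
      obtain ⟨j, hj, rfl⟩ := hVmem.1 hu
      have h2 := hval hj (oo (G := G))
      have h3 : v j (oo (G := G)) = -1 := vv_oo hx hj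
      have h4 : (oo : IrrCharacter G) ≠ b (v j) := by
        intro h
        rw [← hBo] at h
        exact hne ((hbinj' hj).1 h.symm)
      rw [if_neg h4, mul_zero, add_zero, h3] at h2
      rw [hBo] at hwB
      omega
    · have h2 := hval hone (oo (G := G))
      have h3 : v 1 (oo (G := G)) = -1 := vv_oo hx hone
      have h4 : (oo : IrrCharacter G) ≠ b (v 1) := fun h => hBo h.symm
      rw [if_neg h4, mul_zero, add_zero, h3] at h2
      exact h2.symm
  · -- norm of w
    have h1 := hnorm hone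
    have h2 : v 1 = w + η • Pi.single B 1 := (hwb _ (hvV hone)).2
    rw [h2, ip_add_left, ip_add_right, ip_add_right, ip_smul_single_left, ip_smul_single_left,
      ip_comm w (η • Pi.single B 1), ip_smul_single_left] at h1
    have h3 : (η • Pi.single B (1 : ℤ) : IrrCharacter G → ℤ) B = η := by simp
    rw [hwB, h3] at h1
    have h4 : (e : ℤ) = ip w w := by
      nlinarith
    exact h4.symm
  · -- relation
    have h1 := ip_vv_dd (G := G) hx (1 : ZMod p)
    have h2 : v 1 = w + η • Pi.single B 1 := (hwb _ (hvV hone)).2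
    rw [hv] at h2
    rw [h2, ip_add_left, ip_smul_single_left] at h1
    exact h1
  · -- congruence for the common part
    intro χ hχ
    have h1 : ∀ j ∈ J, v j χ = w χ := by
      intro j hj
      have hj' := hJmem.1 hj
      have h2 := hval hj' χ
      have h3 : χ ≠ b (v j) := by
        rintro rfl
        exact hχ (hwb _ (hvV hj')).1
      rw [if_neg h3, mul_zero, add_zero] at h2
      exact h2
    have h2 := dd_eq hx χ
    rw [← hJ] at h2
    rw [sum_congr rfl h1, sum_const, hJcard, nsmul_eq_mul] at h2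
    rw [Int.modEq_iff_dvd, h2]
    refine ⟨-(mm hx χ 0 : ℤ) - w χ, ?_⟩
    push_cast [Nat.cast_sub hp1.le]
    ring
  · -- congruence for the exceptional character
    have h1 : ∀ j ∈ J, v j B = if j ∈ Rs (p := p) x then η else 0 := by
      intro j hj
      have hj' := hJmem.1 hj
      have h2 := hval hj' B
      rw [hwB, zero_add] at h2
      rw [h2]
      by_cases h3 : j ∈ Rs (p := p) x
      · rw [if_pos h3]
        have h4 : v 1 = v j := (heq hone hj').2 (by simpa using h3)
        have h5 : B = b (v j) := by rw [hB, h4]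
        rw [if_pos h5, mul_one]
      · rw [if_neg h3]
        have h5 : B ≠ b (v j) := by
          intro h
          have h6 := (hbinj' hj').1 h.symm
          exact h3 (by simpa using (heq hone hj').1 h6.symm)
        rw [if_neg h5, mul_zero]
    have h2 := dd_eq hx B
    rw [← hJ, sum_congr rfl h1, sum_ite, sum_const_zero, add_zero, sum_const, nsmul_eq_mul] at h2
    have h3 : (J.filter fun j => j ∈ Rs (p := p) x) = Rs (p := p) x := by
      ext j
      simp only [mem_filter, and_iff_right_iff_imp]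
      intro hj
      rw [hJmem]
      rintro rfl
      have h5 := mem_Rs.1 hj
      rw [X_zero] at h5
      have h6 : x = 1 := isConj_one_right.1 h5
      have h7 : orderOf x = 1 := by rw [h6]; exact orderOf_one
      rw [hx] at h7
      exact hp.out.one_lt.ne' h7
    rw [h3, he] at h2
    rw [Int.modEq_iff_dvd, h2]
    refine ⟨-(mm hx B 0 : ℤ), ?_⟩
    ring

end Main

end Cfsg.Agent.H17.Brd
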