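import Cfsg.Agent.Lib.H17.Brd3
import Cfsg.Agent.Lib.H22.Codegree
import Cfsg.Agent.Lib.H19.CyclicSylow

/-! # Brauer's relation for simple groups: numerical conclusions -/

set_option autoImplicit false
set_option linter.unusedSectionVars false
set_option linter.style.haveILetI false
set_option linter.unusedSimpArgs false
set_option linter.unusedVariables false

namespace Cfsg.Agent.H17.Brd

open Cfsg Cfsg.Agent.H21 Finset
open scoped ComplexConjugate

universe u

section Counting

variable {G : Type u} [Group G] {p : ℕ} [hp : Fact p.Prime]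

theorem X_mem_zpowers (x : G) (a : ZMod p) : X x a ∈ Subgroup.zpowers x :=
  Subgroup.npow_mem_zpowers x a.val

theorem exists_X_eq [Finite G] {x : G} (hx : orderOf x = p) {y : G} (hy : y ∈ Subgroup.zpowers x) :
    ∃ a : ZMod p, X x a = y := by
  haveI : NeZero p := ⟨hp.out.ne_zero⟩
  obtain ⟨k, hk⟩ := (mem_powers_iff_mem_zpowers).2 hy
  refine ⟨(k : ZMod p), ?_⟩
  rw [← hk]
  unfold X
  rw [ZMod.val_natCast, ← hx, pow_mod_orderOf]

/-- The normalizer of `⟨x⟩` has order `|R| * |C(x)|`. -/
theorem card_normalizer_zpowers [Finite G] {x : G} (hx : orderOf x = p) :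
    Nat.card (Subgroup.normalizer ((Subgroup.zpowers x : Subgroup G) : Set G)) =
      (Rs (p := p) x).card * Nat.card (Subgroup.centralizer ({x} : Set G)) := by
  classical
  haveI := Fintype.ofFinite G
  have hxp : x ^ p = 1 := by
    rw [← hx]
    exact pow_orderOf_eq_one x
  set N := Subgroup.normalizer ((Subgroup.zpowers x : Subgroup G) : Set G) with hN
  set C := Subgroup.centralizer ({x} : Set G) with hCdef
  have hmemN : ∀ g : G, g ∈ N ↔ g * x * g⁻¹ ∈ Subgroup.zpowers x := by
    intro g
    constructor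
    · intro hg
      have h1 := (Subgroup.mem_normalizer_iff.1 hg x).1 (Subgroup.mem_zpowers x)
      exact h1
    · intro hg
      have hgz : Subgroup.zpowers (g * x * g⁻¹) ≤ Subgroup.zpowers x :=
        Subgroup.zpowers_le.2 hg
      have hcard : Nat.card (Subgroup.zpowers (g * x * g⁻¹)) = Nat.card (Subgroup.zpowers x) := by
        rw [Nat.card_zpowers, Nat.card_zpowers]
        have : g * x * g⁻¹ = MulAut.conj g x := rfl
        rw [this, MulEquiv.orderOf_eq]
      have heq := Subgroup.eq_of_le_of_card_ge hgz hcard.ge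
      rw [Subgroup.mem_normalizer_iff]
      intro y
      constructor
      · intro hy
        obtain ⟨k, rfl⟩ := Subgroup.mem_zpowers_iff.1 hy
        have : g * x ^ k * g⁻¹ = (g * x * g⁻¹) ^ k := by
          rw [conj_zpow]
        rw [this]
        exact Subgroup.zpow_mem _ hg k
      · intro hy
        rw [← heq] at hy
        obtain ⟨k, hk⟩ := Subgroup.mem_zpowers_iff.1 hy
        have h2 : g * x ^ k * g⁻¹ = g * y * g⁻¹ := by
          rw [← hk, conj_zpow]
        have h3 : x ^ k = y := mul_left_cancel (mul_right_cancel h2)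
        rw [← h3]
        exact Subgroup.zpow_mem _ (Subgroup.mem_zpowers x) k
  -- fibers of `g ↦ g x g⁻¹`
  have hfib : ∀ r ∈ Rs (p := p) x,
      (univ.filter fun g : G => g * x * g⁻¹ = X x r).card = Nat.card C := by
    intro r hr
    obtain ⟨g₀, hg₀⟩ := isConj_iff.1 (mem_Rs.1 hr).symm
    rw [Nat.card_eq_fintype_card (α := C), ← Finset.card_univ]
    symm
    refine card_bij (fun c _ => g₀ * c.1) ?_ ?_ ?_
    · intro c _
      rw [mem_filter]
      refine ⟨mem_univ _, ?_⟩
      have hc : c.1 * x = x * c.1 := by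
        have := Subgroup.mem_centralizer_singleton_iff.1 c.2
        exact this
      rw [← hg₀]
      calc g₀ * c.1 * x * (g₀ * c.1)⁻¹ = g₀ * (c.1 * x) * c.1⁻¹ * g₀⁻¹ := by group
        _ = g₀ * x * g₀⁻¹ := by rw [hc]; group
    · intro c _ c' _ h
      exact Subtype.ext (mul_left_cancel h)
    · intro g hg
      have hg' := (mem_filter.1 hg).2
      refine ⟨⟨g₀⁻¹ * g, ?_⟩, mem_univ _, by simp⟩
      rw [Subgroup.mem_centralizer_singleton_iff]
      rw [← hg₀] at hg'
      have h2 : (g₀⁻¹ * g) * x = x * (g₀⁻¹ * g) := by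
        have h3 : g₀ * x * g₀⁻¹ = g * x * g⁻¹ := hg'.symm
        have h4 : x * (g₀⁻¹ * g) = g₀⁻¹ * (g₀ * x * g₀⁻¹) * g := by group
        rw [h4, h3]
        group
      exact h2
  -- disjoint union
  have hNfin : (univ.filter fun g : G => g ∈ N) =
      (Rs (p := p) x).biUnion fun r => univ.filter fun g : G => g * x * g⁻¹ = X x r := by
    ext g
    simp only [mem_filter, mem_univ, true_and, mem_biUnion]
    constructor
    · intro hg
      obtain ⟨a, ha⟩ := exists_X_eq hx ((hmemN g).1 hg)
      refine ⟨a, ?_, ha.symm⟩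
      rw [mem_Rs, ha]
      exact (isConj_iff.2 ⟨g, rfl⟩).symm
    · rintro ⟨r, hr, hg⟩
      rw [hmemN, hg]
      exact X_mem_zpowers x r
  have hcardN : Nat.card N = (univ.filter fun g : G => g ∈ N).card := by
    rw [Nat.card_eq_fintype_card, Fintype.card_subtype]
  rw [hcardN, hNfin, card_biUnion]
  · rw [sum_congr rfl hfib, sum_const, smul_eq_mul]
  · intro r hr s hs hne
    change Disjoint _ _
    rw [Finset.disjoint_left]
    intro g hg hg'
    have h1 := (mem_filter.1 hg).2
    have h2 := (mem_filter.1 hg').2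
    apply hne
    have h3 : X x r = X x s := by rw [← h1, ← h2]
    unfold X at h3
    have h4 := pow_inj_mod.1 h3
    rw [hx, Nat.mod_eq_of_lt (ZMod.val_lt r), Nat.mod_eq_of_lt (ZMod.val_lt s)] at h4
    exact ZMod.val_injective p h4

end Counting

section Simple

variable {G : Type u} [Group G] [Finite G]

/-- A nonprincipal irreducible character of a non-commutative simple group has degree `> 1`. -/
theorem degree_ne_one [hS : IsSimpleGroup G] (hnc : ¬ IsMulCommutative G) (χ : IrrCharacter G)
    (hχ : χ ≠ H22.oneIrr G) : charDegree χ.1 ≠ 1 := by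
  classical
  intro h1
  have hker := H22.ker_eq_bot_of_simple hS χ hχ
  have hmul := linear_mul (isCharacter_of_irr χ.2) h1
  have hone := linear_one (isCharacter_of_irr χ.2) h1
  apply hnc
  refine ⟨⟨fun a b => ?_⟩⟩
  have h2 : (a * b * a⁻¹ * b⁻¹) ∈ charKer χ.1 (isCharacter_of_irr χ.2) := by
    rw [mem_charKer]
    have h3 : χ.1 (a * b * a⁻¹ * b⁻¹) = χ.1 a * χ.1 b * χ.1 a⁻¹ * χ.1 b⁻¹ := by
      rw [hmul, hmul, hmul]
    have h4 : χ.1 a * χ.1 a⁻¹ = 1 := by
      rw [← hmul, mul_inv_cancel, hone]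
    have h5 : χ.1 b * χ.1 b⁻¹ = 1 := by
      rw [← hmul, mul_inv_cancel, hone]
    rw [h3, hone]
    calc χ.1 a * χ.1 b * χ.1 a⁻¹ * χ.1 b⁻¹ = (χ.1 a * χ.1 a⁻¹) * (χ.1 b * χ.1 b⁻¹) := by ring
      _ = 1 := by rw [h4, h5, one_mul]
  rw [hker, Subgroup.mem_bot] at h2
  have h6 : a * b = b * a := by
    have h7 : a * b * a⁻¹ = b := by
      rw [mul_inv_eq_one] at h2
      exact h2
    rw [mul_inv_eq_iff_eq_mul] at h7
    exact h7
  exact h6

/-- Self-centralizing generator of a Sylow subgroup of prime order in a simple group, when the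
normalizer has order `p * e` with `e` prime. -/
theorem exists_self_central [hS : IsSimpleGroup G] {p e : ℕ} [hp : Fact p.Prime] (he : e.Prime)
    (P : Sylow p G) (hP : Nat.card (P : Subgroup G) = p) (hlt : p < Nat.card G)
    (hN : Nat.card (Subgroup.normalizer ((P : Subgroup G) : Set G)) = p * e) :
    ∃ x : G, orderOf x = p ∧ Subgroup.centralizer ({x} : Set G) = Subgroup.zpowers x ∧
      (Rs (p := p) x).card = e := by
  classical
  haveI : Fact (Nat.card (P : Subgroup G)).Prime := by rw [hP]; exact hp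
  haveI : IsCyclic (P : Subgroup G) := isCyclic_of_prime_card rfl
  obtain ⟨g, hg⟩ := IsCyclic.exists_generator (α := (P : Subgroup G))
  set x : G := g.1 with hxdef
  have hzp : Subgroup.zpowers x = (P : Subgroup G) := by
    apply Subgroup.eq_of_le_of_card_ge
    · rw [Subgroup.zpowers_le]
      exact g.2
    · have h1 : orderOf g = Nat.card (P : Subgroup G) := orderOf_eq_card_of_forall_mem_zpowers hg
      rw [Nat.card_zpowers, hxdef, Subgroup.orderOf_coe, h1]
  have hx : orderOf x = p := by
    rw [← Nat.card_zpowers, hzp, hP]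
  refine ⟨x, hx, ?_⟩
  have hCN : Subgroup.centralizer ({x} : Set G) ≤
      Subgroup.normalizer ((P : Subgroup G) : Set G) := by
    rw [← hzp]
    intro c hc
    have hc' : c * x = x * c := Subgroup.mem_centralizer_singleton_iff.1 hc
    rw [Subgroup.mem_normalizer_iff]
    intro y
    constructor
    · intro hy
      obtain ⟨k, rfl⟩ := Subgroup.mem_zpowers_iff.1 hy
      have h1 : Commute c x := hc'
      have h2 : c * x ^ k * c⁻¹ = x ^ k := by
        rw [(h1.zpow_right k).eq, mul_inv_cancel_right]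
      rw [h2]
      exact hy
    · intro hy
      have h1 : Commute c x := hc'
      obtain ⟨k, hk⟩ := Subgroup.mem_zpowers_iff.1 hy
      have h2 : c * x ^ k * c⁻¹ = x ^ k := by
        rw [(h1.zpow_right k).eq, mul_inv_cancel_right]
      have h3 : c * y * c⁻¹ = c * x ^ k * c⁻¹ := by rw [h2]; exact hk.symm
      have h4 : y = x ^ k := mul_left_cancel (mul_right_cancel h3)
      rw [h4]
      exact Subgroup.zpow_mem _ (Subgroup.mem_zpowers x) k
  have hzC : Subgroup.zpowers x ≤ Subgroup.centralizer ({x} : Set G) := by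
    intro y hy
    rw [Subgroup.mem_centralizer_singleton_iff]
    obtain ⟨k, rfl⟩ := Subgroup.mem_zpowers_iff.1 hy
    exact ((Commute.refl x).zpow_left k).eq
  have hcardC : ∃ c, Nat.card (Subgroup.centralizer ({x} : Set G)) = p * c ∧ c ∣ e := by
    have h1 : Nat.card (Subgroup.zpowers x) ∣ Nat.card (Subgroup.centralizer ({x} : Set G)) :=
      Subgroup.card_dvd_of_le hzC
    rw [Nat.card_zpowers, hx] at h1
    obtain ⟨c, hc⟩ := h1
    refine ⟨c, hc, ?_⟩
    have h2 : Nat.card (Subgroup.centralizer ({x} : Set G)) ∣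
        Nat.card (Subgroup.normalizer ((P : Subgroup G) : Set G)) :=
      Subgroup.card_dvd_of_le hCN
    rw [hc, hN] at h2
    exact Nat.dvd_of_mul_dvd_mul_left hp.out.pos h2
  obtain ⟨c, hc, hce⟩ := hcardC
  have hcases := (Nat.dvd_prime he).1 hce
  have hCeq : Subgroup.centralizer ({x} : Set G) = Subgroup.zpowers x := by
    rcases hcases with rfl | rfl
    · symm
      apply Subgroup.eq_of_le_of_card_ge hzC
      rw [hc, Nat.card_zpowers, hx, mul_one]
    · exfalso
      have hCN' : Subgroup.centralizer ({x} : Set G) =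
          Subgroup.normalizer ((P : Subgroup G) : Set G) :=
        Subgroup.eq_of_le_of_card_ge hCN (by rw [hc, hN])
      have hle : Subgroup.normalizer ((P : Subgroup G) : Set G) ≤
          Subgroup.centralizer ((P : Subgroup G) : Set G) := by
        rw [← hCN', ← hzp]
        intro c hc y hy
        have hc' : Commute c x := Subgroup.mem_centralizer_singleton_iff.1 hc
        obtain ⟨k, rfl⟩ := Subgroup.mem_zpowers_iff.1 hy
        exact ((hc'.zpow_right k).eq).symm
      obtain ⟨R, hRn, hRc⟩ := H19.burnside_complement P hle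
      have hcard := hRc.card_mul
      rcases hS.eq_bot_or_eq_top_of_normal R hRn with rfl | rfl
      · rw [Subgroup.card_bot, one_mul, hP] at hcard
        omega
      · rw [Subgroup.card_top, hP] at hcard
        have h3 : Nat.card G * p = Nat.card G * 1 := by rw [hcard, mul_one]
        have h4 := Nat.eq_of_mul_eq_mul_left Nat.card_pos h3
        exact hp.out.one_lt.ne' h4
  refine ⟨hCeq, ?_⟩
  have h1 := card_normalizer_zpowers (G := G) hx
  rw [hzp, hN, hCeq, Nat.card_zpowers, hx] at h1
  have h2 : p * e = p * (Rs (p := p) x).card := by rw [h1, mul_comm]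
  exact (Nat.eq_of_mul_eq_mul_left hp.out.pos h2).symm

end Simple

section SumSq

variable {I : Type*} [DecidableEq I]

theorem sum_sq_one (s : Finset I) (w : I → ℤ) (h : ∑ i ∈ s, w i * w i = 1) :
    ∃ a ∈ s, (w a = 1 ∨ w a = -1) ∧ ∀ i ∈ s, i ≠ a → w i = 0 := by
  have hex : ∃ a ∈ s, w a ≠ 0 := by
    by_contra hcon
    push Not at hcon
    rw [sum_eq_zero fun i hi => by rw [hcon i hi, mul_zero]] at h
    omega
  obtain ⟨a, ha, ha0⟩ := hex
  rw [← add_sum_erase s _ ha] at h
  have hrest : 0 ≤ ∑ i ∈ s.erase a, w i * w i := sum_nonneg fun i _ => mul_self_nonneg _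
  have hpos : 0 < w a * w a := mul_self_pos.2 ha0
  have h1 : w a * w a = 1 := by omega
  have h2 : ∑ i ∈ s.erase a, w i * w i = 0 := by omega
  refine ⟨a, ha, ?_, ?_⟩
  · exact Int.eq_one_or_neg_one_of_mul_eq_one' h1 |>.elim (fun h => Or.inl h.1) (fun h => Or.inr h.1)
  · intro i hi hia
    have := (sum_eq_zero_iff_of_nonneg (fun i _ => mul_self_nonneg _)).1 h2 i
      (mem_erase.2 ⟨hia, hi⟩)
    simpa using this

theorem sum_sq_two (s : Finset I) (w : I → ℤ) (h : ∑ i ∈ s, w i * w i = 2) :
    ∃ a ∈ s, ∃ b ∈ s, a ≠ b ∧ (w a = 1 ∨ w a = -1) ∧ (w b = 1 ∨ w b = -1) ∧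
      ∀ i ∈ s, i ≠ a → i ≠ b → w i = 0 := by
  have hex : ∃ a ∈ s, w a ≠ 0 := by
    by_contra hcon
    push Not at hcon
    rw [sum_eq_zero fun i hi => by rw [hcon i hi, mul_zero]] at h
    omega
  obtain ⟨a, ha, ha0⟩ := hex
  rw [← add_sum_erase s _ ha] at h
  have hrest : 0 ≤ ∑ i ∈ s.erase a, w i * w i := sum_nonneg fun i _ => mul_self_nonneg _
  have hpos : 0 < w a * w a := mul_self_pos.2 ha0
  have h1 : w a * w a = 1 := by
    have h3 : w a * w a ≤ 2 := by omega
    have h4 : w a * w a ≠ 2 := by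
      intro h5
      have h6 : -2 < w a ∧ w a < 2 := by
        constructor <;> nlinarith
      obtain ⟨h7, h8⟩ := h6
      have h9 : w a = -1 ∨ w a = 0 ∨ w a = 1 := by omega
      rcases h9 with h9 | h9 | h9 <;> rw [h9] at h5 <;> omega
    omega
  have h2 : ∑ i ∈ s.erase a, w i * w i = 1 := by omega
  obtain ⟨b, hb, hb1, hb2⟩ := sum_sq_one _ w h2
  have hb' := mem_erase.1 hb
  refine ⟨a, ha, b, hb'.2, hb'.1.symm, ?_, hb1, ?_⟩
  · exact Int.eq_one_or_neg_one_of_mul_eq_one' h1 |>.elim (fun h => Or.inl h.1) (fun h => Or.inr h.1)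
  · intro i hi hia hib
    exact hb2 i (mem_erase.2 ⟨hia, hi⟩) hib

end SumSq

end Cfsg.Agent.H17.Brd
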