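import Cfsg.Agent.Lib.H17.Brd4

/-! # Brauer's relation for simple groups: the cases `e = 2, 3` -/

set_option autoImplicit false
set_option linter.unusedSectionVars false
set_option linter.style.haveILetI false
set_option linter.unusedSimpArgs false
set_option linter.unusedVariables false

namespace Cfsg.Agent.H17.Brd

open Cfsg Cfsg.Agent.H21 Finset
open scoped ComplexConjugate

universe u

variable {G : Type u} [Group G] [Finite G]

theorem not_comm_of_card [hS : IsSimpleGroup G] (h : ¬ (Nat.card G).Prime) :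
    ¬ IsMulCommutative G := by
  intro hc
  apply h
  letI : CommGroup G := { (inferInstance : Group G) with mul_comm := fun a b => hc.is_comm.comm a b }
  exact IsSimpleGroup.prime_card

theorem card_normalizer_of_sylow_number {p : ℕ} [hp : Fact p.Prime] (P : Sylow p G) {n m : ℕ}
    (hn : Nat.card (Sylow p G) = n) (hG : Nat.card G = n * m) (hn0 : 0 < n) :
    Nat.card (Subgroup.normalizer ((P : Subgroup G) : Set G)) = m := by
  have h1 := (Subgroup.normalizer ((P : Subgroup G) : Set G)).card_mul_index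
  have h0 : (Subgroup.normalizer ((P : Subgroup G) : Set G)).index = Nat.card (Sylow p G) :=
    P.card_eq_index_normalizer.symm
  rw [h0, hn, hG] at h1
  rw [mul_comm] at h1
  exact Nat.eq_of_mul_eq_mul_left hn0 h1

/-- The relation for `e = 2`. -/
theorem rel_e2 [hS : IsSimpleGroup G] {p : ℕ} [hp : Fact p.Prime] (hnc : ¬ IsMulCommutative G)
    (P : Sylow p G) (hP : Nat.card (P : Subgroup G) = p) (hlt : p < Nat.card G)
    (hN : Nat.card (Subgroup.normalizer ((P : Subgroup G) : Set G)) = p * 2) (hbig : 8 < p - 1) :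
    ∃ (d₂ d₃ : ℕ) (δ η : ℤ), d₂ ∣ Nat.card G ∧ d₃ ∣ Nat.card G ∧ d₂ ≠ 1 ∧ d₃ ≠ 1 ∧
      (δ = 1 ∨ δ = -1) ∧ (η = 1 ∨ η = -1) ∧ δ * d₂ + η * d₃ = 1 ∧
      (d₂ : ℤ) ≡ -δ [ZMOD p] ∧ (d₃ : ℤ) ≡ 2 * η [ZMOD p] := by
  classical
  haveI := Fintype.ofFinite G
  haveI := Fintype.ofFinite (IrrCharacter G)
  obtain ⟨x, hx, hC, he⟩ := exists_self_central (e := 2) Nat.prime_two P hP hlt hN
  obtain ⟨w, η, B, hη, hwo, hwB, hnorm, hrel, hcong, hB⟩ :=
    brauer_relation (G := G) hx hC 2 he (by omega)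
  have hBo : B ≠ oo := by
    rintro rfl
    omega
  have hoo : dd (oo : IrrCharacter G) = 1 := by
    have h1 := one_eq_charDegree (isCharacter_of_irr (oo : IrrCharacter G).2)
    have h2 : (charDegree (oo : IrrCharacter G).1 : ℂ) = 1 := by
      rw [← h1]
      rfl
    simp only [dd]
    exact_mod_cast h2
  have hsplit : ∑ χ ∈ univ.erase (oo : IrrCharacter G), w χ * w χ = 1 := by
    have h1 : ip w w = w oo * w oo + ∑ χ ∈ univ.erase (oo : IrrCharacter G), w χ * w χ :=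
      (add_sum_erase univ _ (mem_univ _)).symm
    rw [hnorm, hwo] at h1
    push_cast at h1
    omega
  obtain ⟨a, ha, ha1, ha0⟩ := sum_sq_one _ w hsplit
  have hao : a ≠ oo := (mem_erase.1 ha).1
  have hip : ip w dd = -1 + w a * dd a := by
    have h1 : ip w dd = w oo * dd oo + ∑ χ ∈ univ.erase (oo : IrrCharacter G), w χ * dd χ :=
      (add_sum_erase univ _ (mem_univ _)).symm
    rw [h1, hwo, hoo, sum_eq_single_of_mem a ha fun χ hχ hne => by rw [ha0 χ hχ hne, zero_mul]]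
    ring
  have hw0 : w a ≠ 0 := by
    rcases ha1 with h | h <;> rw [h] <;> norm_num
  refine ⟨charDegree a.1, charDegree B.1, w a, η, H22.charDegree_dvd_card a,
    H22.charDegree_dvd_card B, degree_ne_one hnc a hao, degree_ne_one hnc B hBo, ha1, hη, ?_,
    hcong a hw0, ?_⟩
  · have h1 : w a * dd a + η * dd B = 1 := by
      rw [hip] at hrel
      omega
    exact h1
  · have h2 : dd B ≡ (2 : ℕ) * η [ZMOD p] := hB
    push_cast at h2
    exact h2

/-- The relation for `e = 3`. -/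
theorem rel_e3 [hS : IsSimpleGroup G] {p : ℕ} [hp : Fact p.Prime] (hnc : ¬ IsMulCommutative G)
    (P : Sylow p G) (hP : Nat.card (P : Subgroup G) = p) (hlt : p < Nat.card G)
    (hN : Nat.card (Subgroup.normalizer ((P : Subgroup G) : Set G)) = p * 3) (hbig : 15 < p - 1) :
    ∃ (d₂ d₃ d₄ : ℕ) (δ₂ δ₃ η : ℤ), d₂ ∣ Nat.card G ∧ d₃ ∣ Nat.card G ∧ d₄ ∣ Nat.card G ∧
      d₂ ≠ 1 ∧ d₃ ≠ 1 ∧ d₄ ≠ 1 ∧
      (δ₂ = 1 ∨ δ₂ = -1) ∧ (δ₃ = 1 ∨ δ₃ = -1) ∧ (η = 1 ∨ η = -1) ∧
      δ₂ * d₂ + δ₃ * d₃ + η * d₄ = 1 ∧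
      (d₂ : ℤ) ≡ -δ₂ [ZMOD p] ∧ (d₃ : ℤ) ≡ -δ₃ [ZMOD p] ∧ (d₄ : ℤ) ≡ 3 * η [ZMOD p] := by
  classical
  haveI := Fintype.ofFinite G
  haveI := Fintype.ofFinite (IrrCharacter G)
  obtain ⟨x, hx, hC, he⟩ := exists_self_central (e := 3) Nat.prime_three P hP hlt hN
  obtain ⟨w, η, B, hη, hwo, hwB, hnorm, hrel, hcong, hB⟩ :=
    brauer_relation (G := G) hx hC 3 he (by omega)
  have hBo : B ≠ oo := by
    rintro rfl
    omega
  have hoo : dd (oo : IrrCharacter G) = 1 := by
    have h1 := one_eq_charDegree (isCharacter_of_irr (oo : IrrCharacter G).2)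
    have h2 : (charDegree (oo : IrrCharacter G).1 : ℂ) = 1 := by
      rw [← h1]
      rfl
    simp only [dd]
    exact_mod_cast h2
  have hsplit : ∑ χ ∈ univ.erase (oo : IrrCharacter G), w χ * w χ = 2 := by
    have h1 : ip w w = w oo * w oo + ∑ χ ∈ univ.erase (oo : IrrCharacter G), w χ * w χ :=
      (add_sum_erase univ _ (mem_univ _)).symm
    rw [hnorm, hwo] at h1
    push_cast at h1
    omega
  obtain ⟨a, ha, b, hb, hab, ha1, hb1, h0⟩ := sum_sq_two _ w hsplit
  have hao : a ≠ oo := (mem_erase.1 ha).1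
  have hbo : b ≠ oo := (mem_erase.1 hb).1
  have hip : ip w dd = -1 + (w a * dd a + w b * dd b) := by
    have h1 : ip w dd = w oo * dd oo + ∑ χ ∈ univ.erase (oo : IrrCharacter G), w χ * dd χ :=
      (add_sum_erase univ _ (mem_univ _)).symm
    rw [h1, hwo, hoo, ← add_sum_erase _ _ ha, ← add_sum_erase _ _ (mem_erase.2 ⟨hab.symm, hb⟩)]
    rw [sum_eq_zero (s := ((univ.erase (oo : IrrCharacter G)).erase a).erase b)]
    · ring
    · intro χ hχ
      have h2 := mem_erase.1 hχ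
      have h3 := mem_erase.1 h2.2
      rw [h0 χ h3.2 h3.1 h2.1, zero_mul]
  have hw0 : w a ≠ 0 := by
    rcases ha1 with h | h <;> rw [h] <;> norm_num
  have hw1 : w b ≠ 0 := by
    rcases hb1 with h | h <;> rw [h] <;> norm_num
  refine ⟨charDegree a.1, charDegree b.1, charDegree B.1, w a, w b, η, H22.charDegree_dvd_card a,
    H22.charDegree_dvd_card b, H22.charDegree_dvd_card B, degree_ne_one hnc a hao,
    degree_ne_one hnc b hbo, degree_ne_one hnc B hBo, ha1, hb1, hη, ?_,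
    hcong a hw0, hcong b hw1, ?_⟩
  · have h1 : w a * dd a + w b * dd b + η * dd B = 1 := by
      rw [hip] at hrel
      omega
    exact h1
  · have h2 : dd B ≡ (3 : ℕ) * η [ZMOD p] := hB
    push_cast at h2
    exact h2

end Cfsg.Agent.H17.Brd
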