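import Cfsg.Agent.Lib.H17.Brd5
import Cfsg.Agent.Lib.H17.Mob6

/-! # Nonexistence of simple groups from Brauer's relation: ready to use forms -/

set_option autoImplicit false
set_option linter.unusedSectionVars false
set_option linter.style.haveILetI false
set_option linter.unusedSimpArgs false
set_option linter.unusedVariables false

namespace Cfsg.Agent.H17.Brd

open Cfsg Cfsg.Agent.H21 Finset

universe u

variable {G : Type u} [Group G] [Finite G]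

/-- The finite check for `e = 2`. -/
def check2 (p m : ℕ) : Prop :=
  ∀ d₂ ∈ Nat.divisors m, ∀ d₃ ∈ Nat.divisors m, ∀ δ ∈ ({1, -1} : Finset ℤ),
    ∀ η ∈ ({1, -1} : Finset ℤ), d₂ ≠ 1 → d₃ ≠ 1 → δ * (d₂ : ℤ) + η * (d₃ : ℤ) = 1 →
      (-δ - (d₂ : ℤ)) % (p : ℤ) = 0 → (2 * η - (d₃ : ℤ)) % (p : ℤ) = 0 → False

/-- The finite check for `e = 3`. -/
def check3 (p m : ℕ) : Prop :=
  ∀ d₂ ∈ Nat.divisors m, ∀ d₃ ∈ Nat.divisors m, ∀ d₄ ∈ Nat.divisors m,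
    ∀ δ₂ ∈ ({1, -1} : Finset ℤ), ∀ δ₃ ∈ ({1, -1} : Finset ℤ), ∀ η ∈ ({1, -1} : Finset ℤ),
      d₂ ≠ 1 → d₃ ≠ 1 → d₄ ≠ 1 → δ₂ * (d₂ : ℤ) + δ₃ * (d₃ : ℤ) + η * (d₄ : ℤ) = 1 →
      (-δ₂ - (d₂ : ℤ)) % (p : ℤ) = 0 → (-δ₃ - (d₃ : ℤ)) % (p : ℤ) = 0 →
      (3 * η - (d₄ : ℤ)) % (p : ℤ) = 0 → False

theorem dvd_of_cong {p m d : ℕ} (hp : p.Prime) (hd : d ∣ p * m) {a : ℤ} (hcong : (d : ℤ) ≡ a [ZMOD p])
    (ha : ¬ (p : ℤ) ∣ a) : d ∣ m := by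
  have hcop : Nat.Coprime d p := by
    rw [Nat.coprime_comm, Nat.Prime.coprime_iff_not_dvd hp]
    intro hpd
    apply ha
    have h1 : (p : ℤ) ∣ (d : ℤ) := by exact_mod_cast hpd
    exact hcong.dvd_iff.1 h1
  exact hcop.dvd_of_dvd_mul_left hd

theorem not_dvd_sign {p : ℕ} (hp : 1 < p) {δ : ℤ} (h : δ = 1 ∨ δ = -1) : ¬ (p : ℤ) ∣ -δ := by
  intro h1
  have h2 : (p : ℤ) ∣ 1 := by
    rcases h with rfl | rfl
    · simpa using h1
    · simpa using h1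
  have h3 : p ∣ 1 := by exact_mod_cast h2
  have h4 := Nat.dvd_one.1 h3
  omega

theorem not_dvd_small {p k : ℕ} (hk0 : 0 < k) (hk : k < p) {η : ℤ} (h : η = 1 ∨ η = -1) :
    ¬ (p : ℤ) ∣ (k : ℤ) * η := by
  intro h1
  have h2 : (p : ℤ) ∣ (k : ℤ) := by
    rcases h with rfl | rfl
    · simpa using h1
    · simpa using h1
  have h3 : p ∣ k := by exact_mod_cast h2
  have h4 := Nat.le_of_dvd hk0 h3
  omega

theorem mem_sign {δ : ℤ} (h : δ = 1 ∨ δ = -1) : δ ∈ ({1, -1} : Finset ℤ) := by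
  rcases h with rfl | rfl <;> simp

/-- Nonexistence, `e = 2`. -/
theorem no_simple_e2 [hS : IsSimpleGroup G] {p m : ℕ} [hp : Fact p.Prime] (hcard : Nat.card G = p * m)
    (hnp : ¬ (Nat.card G).Prime) (hm : 1 < m) (P : Sylow p G)
    (hP : Nat.card (P : Subgroup G) = p)
    (hN : Nat.card (Subgroup.normalizer ((P : Subgroup G) : Set G)) = p * 2) (hbig : 8 < p - 1)
    (hcheck : check2 p m) : False := by
  have hp1 := hp.out.one_lt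
  have hlt : p < Nat.card G := by
    rw [hcard]
    nlinarith
  obtain ⟨d₂, d₃, δ, η, h2, h3, hd2, hd3, hδ, hη, hrel, hc2, hc3⟩ :=
    rel_e2 (not_comm_of_card hnp) P hP hlt hN hbig
  rw [hcard] at h2 h3
  have hm2 : d₂ ∣ m := dvd_of_cong hp.out h2 hc2 (not_dvd_sign hp1 hδ)
  have hm3 : d₃ ∣ m := dvd_of_cong hp.out h3 hc3 (by
    have := not_dvd_small (p := p) (k := 2) (by norm_num) (by omega) hη
    simpa using this)
  have hm0 : m ≠ 0 := by omega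
  refine hcheck d₂ (Nat.mem_divisors.2 ⟨hm2, hm0⟩) d₃ (Nat.mem_divisors.2 ⟨hm3, hm0⟩) δ (mem_sign hδ)
    η (mem_sign hη) hd2 hd3 hrel ?_ ?_
  · exact Int.emod_eq_zero_of_dvd (Int.modEq_iff_dvd.1 hc2)
  · exact Int.emod_eq_zero_of_dvd (Int.modEq_iff_dvd.1 hc3)

/-- Nonexistence, `e = 3`. -/
theorem no_simple_e3 [hS : IsSimpleGroup G] {p m : ℕ} [hp : Fact p.Prime] (hcard : Nat.card G = p * m)
    (hnp : ¬ (Nat.card G).Prime) (hm : 1 < m) (P : Sylow p G)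
    (hP : Nat.card (P : Subgroup G) = p)
    (hN : Nat.card (Subgroup.normalizer ((P : Subgroup G) : Set G)) = p * 3) (hbig : 15 < p - 1)
    (hcheck : check3 p m) : False := by
  have hp1 := hp.out.one_lt
  have hlt : p < Nat.card G := by
    rw [hcard]
    nlinarith
  obtain ⟨d₂, d₃, d₄, δ₂, δ₃, η, h2, h3, h4, hd2, hd3, hd4, hδ₂, hδ₃, hη, hrel, hc2, hc3, hc4⟩ :=
    rel_e3 (not_comm_of_card hnp) P hP hlt hN hbig
  rw [hcard] at h2 h3 h4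
  have hm2 : d₂ ∣ m := dvd_of_cong hp.out h2 hc2 (not_dvd_sign hp1 hδ₂)
  have hm3 : d₃ ∣ m := dvd_of_cong hp.out h3 hc3 (not_dvd_sign hp1 hδ₃)
  have hm4 : d₄ ∣ m := dvd_of_cong hp.out h4 hc4 (by
    have := not_dvd_small (p := p) (k := 3) (by norm_num) (by omega) hη
    simpa using this)
  have hm0 : m ≠ 0 := by omega
  refine hcheck d₂ (Nat.mem_divisors.2 ⟨hm2, hm0⟩) d₃ (Nat.mem_divisors.2 ⟨hm3, hm0⟩)
    d₄ (Nat.mem_divisors.2 ⟨hm4, hm0⟩) δ₂ (mem_sign hδ₂) δ₃ (mem_sign hδ₃)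
    η (mem_sign hη) hd2 hd3 hd4 hrel ?_ ?_ ?_
  · exact Int.emod_eq_zero_of_dvd (Int.modEq_iff_dvd.1 hc2)
  · exact Int.emod_eq_zero_of_dvd (Int.modEq_iff_dvd.1 hc3)
  · exact Int.emod_eq_zero_of_dvd (Int.modEq_iff_dvd.1 hc4)

end Cfsg.Agent.H17.Brd
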