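import Cfsg.Agent.Lib.H17.Mg3

/-! # Jordan sets: a quasiprimitive group with a small Jordan set is primitive -/

set_option autoImplicit false
set_option linter.unusedSectionVars false
set_option linter.style.haveILetI false
set_option linter.unusedSimpArgs false
set_option linter.unusedVariables false
set_option linter.style.longLine false

namespace Cfsg.Agent.H17.Marg

open MulAction
open scoped Pointwise

universe u v

theorem prim_of_qp {G : Type u} [Group G] [Finite G] (n : ℕ) :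
    ∀ (Ω : Type v) [MulAction G Ω] [Finite Ω], Nat.card Ω = n →
      (∀ N : Subgroup G, N.Normal → N ≠ ⊥ → IsPretransitive ↥N Ω) → ∀ Γ : Set Ω, Jor G Γ → 1 < Γ.ncard →
        2 * Γ.ncard < Nat.card Ω → IsPreprimitive G Ω := by
  induction n using Nat.strong_induction_on with
  | _ n ih =>
  intro Ω _ _ hn hqp Γ hJ h1 h2
  classical
  haveI := Fintype.ofFinite Ω
  haveI := Fintype.ofFinite G
  -- two points of `Γ`
  obtain ⟨a₀, ha₀, a₁, ha₁, ha01⟩ : ∃ a ∈ Γ, ∃ b ∈ Γ, a ≠ b := by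
    have h3 : 1 < (Set.toFinset Γ).card := by
      rw [← Set.ncard_eq_toFinset_card']
      exact h1
    obtain ⟨a, ha, b, hb, hab⟩ := Finset.one_lt_card.1 h3
    exact ⟨a, Set.mem_toFinset.1 ha, b, Set.mem_toFinset.1 hb, hab⟩
  -- transitivity
  have htop : (⊤ : Subgroup G) ≠ ⊥ := by
    intro htop
    obtain ⟨h, -, hh⟩ := hJ a₀ ha₀ a₁ ha₁
    have h3 : h ∈ (⊥ : Subgroup G) := htop ▸ Subgroup.mem_top h
    rw [Subgroup.mem_bot] at h3
    rw [h3, one_smul] at hh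
    exact ha01 hh
  have hT : IsPretransitive G Ω := by
    have h3 := hqp ⊤ inferInstance htop
    constructor
    intro x y
    obtain ⟨m, hm⟩ := h3.exists_smul_eq x y
    exact ⟨m, hm⟩
  refine { toIsPretransitive := hT, isTrivialBlock_of_isBlock := ?_ }
  intro B hB
  by_contra hnt
  unfold IsTrivialBlock at hnt
  push Not at hnt
  obtain ⟨hns, hnu⟩ := hnt
  obtain ⟨p, hp, p', hp', hpp'⟩ := hns
  obtain ⟨w₀, hw₀⟩ := Set.ne_univ_iff_exists_notMem _ |>.1 hnu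
  have hBne : B.Nonempty := ⟨p, hp⟩
  -- block facts
  have hcommon : ∀ {Y Y' : Set Ω}, Y ∈ orbit G B → Y' ∈ orbit G B → ∀ z, z ∈ Y → z ∈ Y' → Y = Y' := by
    rintro _ _ ⟨a, rfl⟩ ⟨b, rfl⟩ z hz hz'
    by_contra hne
    exact Set.disjoint_left.1 (hB hne) hz hz'
  have hsm : ∀ {Y : Set Ω} (g : G), Y ∈ orbit G B → g • Y ∈ orbit G B := by
    rintro _ g ⟨a, rfl⟩
    exact ⟨g * a, by rw [← mul_smul]⟩
  have hnonempty : ∀ {Y : Set Ω}, Y ∈ orbit G B → Y.Nonempty := by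
    rintro _ ⟨a, rfl⟩
    exact hBne.smul_set
  have hcover : ∀ z : Ω, ∃ Y ∈ orbit G B, z ∈ Y := by
    intro z
    obtain ⟨g, hg⟩ := hT.exists_smul_eq p z
    exact ⟨g • B, ⟨g, rfl⟩, hg ▸ Set.smul_mem_smul_set hp⟩
  have hstab : ∀ {Y : Set Ω} (g : G), Y ∈ orbit G B → ∀ z, z ∈ Y → g • z ∈ Y → g • Y = Y := by
    intro Y g hY z hz hgz
    exact hcommon (hsm g hY) hY _ (Set.smul_mem_smul_set hz) hgz
  have hfixset : ∀ {Y : Set Ω} (g : G), (∀ z ∈ Y, g • z = z) → g • Y = Y := by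
    intro Y g hg
    ext z
    rw [Set.mem_smul_set]
    constructor
    · rintro ⟨u, hu, rfl⟩
      rw [hg u hu]
      exact hu
    · intro hz
      exact ⟨z, hz, hg z hz⟩
  have hmemB : ∀ {g : G} {Y : Set Ω} {z : Ω}, z ∈ Y → g • z ∈ g • Y := fun hz => Set.smul_mem_smul_set hz
  -- the kernel on blocks is trivial
  have hK : ∀ g : G, (∀ Y ∈ orbit G B, g • Y = Y) → g = 1 := by
    intro g hg
    set N : Subgroup G := (MulAction.toPermHom G (orbit G B)).ker with hN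
    have hNn : N.Normal := MonoidHom.normal_ker _
    have hmemN : ∀ u : G, u ∈ N ↔ ∀ Y ∈ orbit G B, u • Y = Y := by
      intro u
      rw [hN, MonoidHom.mem_ker]
      constructor
      · intro h Y hY
        have h3 := DFunLike.congr_fun h ⟨Y, hY⟩
        exact congrArg Subtype.val h3
      · intro h
        ext ⟨Y, hY⟩ : 1
        exact Subtype.ext (h Y hY)
    by_contra hg1
    have hNbot : N ≠ ⊥ := by
      intro h3
      have h4 : g ∈ N := (hmemN g).2 hg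
      rw [h3, Subgroup.mem_bot] at h4
      exact hg1 h4
    haveI := hqp N hNn hNbot
    obtain ⟨u, hu⟩ := exists_smul_eq N p w₀
    have h3 : (u : G) • p = w₀ := hu
    have h4 := (hmemN u).1 u.2 B (mem_orbit_self B)
    have h5 : (u : G) • p ∈ (u : G) • B := Set.smul_mem_smul_set hp
    rw [h4, h3] at h5
    exact hw₀ h5
  -- a block meeting `Γ` lies inside `Γ`
  have hin : ∀ {Y : Set Ω}, Y ∈ orbit G B → ∀ a ∈ Y, a ∈ Γ → Y ⊆ Γ := by
    intro Y hY a haY ha δ hδ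
    by_contra hδΓ
    have hsub : Γ ⊆ Y := by
      intro b hb
      obtain ⟨h, h3, h4⟩ := hJ a ha b hb
      have h5 := hstab h hY δ hδ (by rw [h3 δ hδΓ]; exact hδ)
      rw [← h5, ← h4]
      exact Set.smul_mem_smul_set haY
    obtain ⟨h₀, h3, h4⟩ := hJ a₀ ha₀ a₁ ha₁
    have h5 : h₀ = 1 := by
      apply hK
      intro Z hZ
      by_cases hZY : Z = Y
      · rw [hZY]
        exact hstab h₀ hY δ hδ (by rw [h3 δ hδΓ]; exact hδ)
      · apply hfixset
        intro z hz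
        apply h3
        intro hzΓ
        exact hZY (hcommon hZ hY z hz (hsub hzΓ))
    rw [h5, one_smul] at h4
    exact ha01 h4
  -- the blocks
  let X := ↥(orbit G B)
  have hcoe : ∀ (g : G) (Y : X), ((g • Y : X) : Set Ω) = g • (Y : Set Ω) := fun _ _ => rfl
  let Γb : Set X := {Y | (Y : Set Ω) ⊆ Γ}
  have hnotin : ∀ Z : X, Z ∉ Γb → ∀ z ∈ (Z : Set Ω), z ∉ Γ := by
    intro Z hZ z hz hzΓ
    exact hZ (hin Z.2 z hz hzΓ)
  have hfixZ : ∀ {h : G}, (∀ u, u ∉ Γ → h • u = u) → ∀ Z : X, Z ∉ Γb → h • Z = Z := by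
    intro h hh Z hZ
    apply Subtype.ext
    rw [hcoe]
    exact hfixset h fun z hz => hh z (hnotin Z hZ z hz)
  have hJb : Jor G Γb := by
    intro Y₁ hY₁ Y₂ hY₂
    obtain ⟨a, ha⟩ := hnonempty Y₁.2
    obtain ⟨b, hb⟩ := hnonempty Y₂.2
    obtain ⟨h, h3, h4⟩ := hJ a (hY₁ ha) b (hY₂ hb)
    refine ⟨h, hfixZ h3, ?_⟩
    apply Subtype.ext
    rw [hcoe]
    exact hcommon (hsm h Y₁.2) Y₂.2 b (h4 ▸ Set.smul_mem_smul_set ha) hb
  -- counting
  have hcardY : ∀ Y ∈ orbit G B, Y.ncard = B.ncard := by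
    rintro _ ⟨a, rfl⟩
    exact Set.ncard_smul_set a B
  have hcΓ : Γ.ncard = Γb.ncard * B.ncard := by
    have hbu : (Set.toFinset Γ) = (Set.toFinset Γb).biUnion fun Y : X => Set.toFinset (Y : Set Ω) := by
      ext z
      simp only [Set.mem_toFinset, Finset.mem_biUnion]
      constructor
      · intro hz
        obtain ⟨Y, hY, hzY⟩ := hcover z
        exact ⟨⟨Y, hY⟩, hin hY z hzY hz, hzY⟩
      · rintro ⟨Y, hY, hzY⟩
        exact hY hzY
    rw [Set.ncard_eq_toFinset_card', hbu, Finset.card_biUnion, Set.ncard_eq_toFinset_card' Γb]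
    · rw [Finset.sum_congr rfl (g := fun _ => B.ncard), Finset.sum_const, smul_eq_mul]
      intro Y _
      rw [← Set.ncard_eq_toFinset_card']
      exact hcardY Y Y.2
    · intro Y₁ _ Y₂ _ hne
      show Disjoint (Set.toFinset (Y₁ : Set Ω)) (Set.toFinset (Y₂ : Set Ω))
      rw [Finset.disjoint_left]
      intro z hz1 hz2
      rw [Set.mem_toFinset] at hz1 hz2
      exact hne (Subtype.ext (hcommon Y₁.2 Y₂.2 z hz1 hz2))
  have hcΩ : Nat.card Ω = B.ncard * Nat.card X := by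
    have h3 := hB.ncard_block_mul_ncard_orbit_eq hBne
    have h4 : Nat.card X = (orbit G B).ncard := Nat.card_coe_set_eq _
    rw [h4, h3]
  have hb2 : 2 ≤ B.ncard := by
    have h3 : 1 < B.ncard := (Set.one_lt_ncard (Set.toFinite _)).2 ⟨p, hp, p', hp', hpp'⟩
    omega
  have hXlt : Nat.card X < n := by
    have hXpos : 0 < Nat.card X := Nat.card_pos_iff.2 ⟨⟨⟨B, mem_orbit_self B⟩⟩, inferInstance⟩
    rw [← hn, hcΩ]
    nlinarith
  have h2r : 2 * Γb.ncard < Nat.card X := by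
    rw [hcΓ, hcΩ] at h2
    have hbpos : 0 < B.ncard := by omega
    have h3 : B.ncard * (2 * Γb.ncard) < B.ncard * Nat.card X := by
      calc B.ncard * (2 * Γb.ncard) = 2 * (Γb.ncard * B.ncard) := by ring
        _ < _ := h2
    exact Nat.lt_of_mul_lt_mul_left h3
  -- at least two blocks in `Γ`
  have hr : 1 < Γb.ncard := by
    rw [Set.one_lt_ncard (Set.toFinite _)]
    by_contra hcon
    push Not at hcon
    obtain ⟨Y₀, hY₀, hzY₀⟩ := hcover a₀
    have hsubY : (⟨Y₀, hY₀⟩ : X) ∈ Γb := hin hY₀ a₀ hzY₀ ha₀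
    have hone : ∀ Z ∈ Γb, Z = (⟨Y₀, hY₀⟩ : X) := by
      intro Z hZ
      by_contra hne
      exact hne (hcon Z hZ _ hsubY) 
    obtain ⟨h₀, h3, h4⟩ := hJ a₀ ha₀ a₁ ha₁
    have h5 : h₀ = 1 := by
      apply hK
      intro Z hZ
      by_cases hZb : (⟨Z, hZ⟩ : X) ∈ Γb
      · have h6 := hone _ hZb
        have h7 : Z = Y₀ := congrArg Subtype.val h6
        rw [h7]
        obtain ⟨Y₁, hY₁, hzY₁⟩ := hcover a₁
        have h8 : (⟨Y₁, hY₁⟩ : X) ∈ Γb := hin hY₁ a₁ hzY₁ ha₁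
        have h9 : Y₁ = Y₀ := congrArg Subtype.val (hone _ h8)
        rw [h9] at hzY₁
        refine hstab h₀ hY₀ a₀ hzY₀ ?_
        rw [h4]
        exact hzY₁
      · have h6 := hfixZ h3 ⟨Z, hZ⟩ hZb
        exact congrArg Subtype.val h6
    rw [h5, one_smul] at h4
    exact ha01 h4
  -- the induction hypothesis
  have hqpX : ∀ N : Subgroup G, N.Normal → N ≠ ⊥ → IsPretransitive ↥N X := by
    intro N hN hN2
    haveI := hqp N hN hN2
    constructor
    intro Y₁ Y₂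
    obtain ⟨a, ha⟩ := hnonempty Y₁.2
    obtain ⟨b, hb⟩ := hnonempty Y₂.2
    obtain ⟨u, hu⟩ := exists_smul_eq N a b
    have hu' : (u : G) • a = b := hu
    refine ⟨u, Subtype.ext ?_⟩
    exact hcommon (hsm (u : G) Y₁.2) Y₂.2 b (hu' ▸ Set.smul_mem_smul_set ha) hb
  have hprimX : IsPreprimitive G X := ih _ hXlt X rfl hqpX Γb hJb hr h2r
  haveI : Fintype X := Fintype.ofFinite X
  have hdX : Γb.ncard < Γbᶜ.ncard := by
    have h3 : Γb.ncard + Γbᶜ.ncard = Nat.card X := Set.ncard_add_ncard_compl Γb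
    omega
  obtain ⟨g, Y₀, hY₀, hg⟩ := exists_one_point hprimX hJb (by omega) hdX
  -- the two elements
  have hY₀sub : (Y₀ : Set Ω) ⊆ Γ := hY₀
  have hgY₀ : g • Y₀ ∈ Γb := (hg Y₀ hY₀).2 rfl
  obtain ⟨q, hq⟩ : (Y₀ : Set Ω).Nonempty := hnonempty Y₀.2
  have hsize : 1 < (Y₀ : Set Ω).ncard := by
    rw [hcardY _ Y₀.2]
    omega
  obtain ⟨p₁, hp₁, p₂, hp₂, hp12⟩ := (Set.one_lt_ncard (Set.toFinite _)).1 hsize
  have hgmem : ∀ z ∈ (Y₀ : Set Ω), g • z ∈ Γ := by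
    intro z hz
    exact hgY₀ (Set.smul_mem_smul_set hz : g • z ∈ g • (Y₀ : Set Ω))
  obtain ⟨h, hh1, hh2⟩ := hJ _ (hgmem p₁ hp₁) _ (hgmem p₂ hp₂)
  set y := g⁻¹ * h * g with hy
  have hy1 : ∀ z, g • z ∉ Γ → y • z = z := by
    intro z hz
    rw [hy, mul_smul, mul_smul, hh1 _ hz, inv_smul_smul]
  have hy2 : y • p₁ = p₂ := by
    rw [hy, mul_smul, mul_smul, hh2, inv_smul_smul]
  -- a second block
  obtain ⟨Y₂, hY₂, hY₂ne⟩ : ∃ Y₂ ∈ Γb, Y₂ ≠ Y₀ := by
    obtain ⟨A, hA, C, hC, hAC⟩ := (Set.one_lt_ncard (Set.toFinite _)).1 hr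
    by_cases h3 : A = Y₀
    · exact ⟨C, hC, fun h4 => hAC (h3.trans h4.symm)⟩
    · exact ⟨A, hA, h3⟩
  obtain ⟨x, hx1, hx2⟩ := hJb Y₀ hY₀ Y₂ hY₂
  obtain ⟨r₀, hr₀⟩ : (Y₀ : Set Ω).Nonempty := hnonempty Y₀.2
  obtain ⟨s₀, hs₀⟩ : (Y₂ : Set Ω).Nonempty := hnonempty Y₂.2
  obtain ⟨x, hx1, hx2⟩ := hJ r₀ (hY₀sub hr₀) s₀ (hY₂ hs₀)
  have hxY₀ : x • (Y₀ : Set Ω) = (Y₂ : Set Ω) :=
    hcommon (hsm x Y₀.2) Y₂.2 s₀ (hx2 ▸ Set.smul_mem_smul_set hr₀) hs₀
  -- `y` acts trivially on the blocks of `Γ`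
  have hyfix : ∀ Z : X, Z ∈ Γb → Z ≠ Y₀ → ∀ z ∈ (Z : Set Ω), y • z = z := by
    intro Z hZ hne z hz
    apply hy1
    intro h3
    have h4 : g • Z ∉ Γb := fun h5 => hne ((hg Z hZ).1 h5)
    exact hnotin _ h4 _ (Set.smul_mem_smul_set hz : g • z ∈ g • (Z : Set Ω)) h3
  have hY₀y : y • (Y₀ : Set Ω) = (Y₀ : Set Ω) := hstab y Y₀.2 p₁ hp₁ (by rw [hy2]; exact hp₂)
  have hyZ1 : ∀ Z : X, Z ∈ Γb → y • Z = Z := by
    intro Z hZ
    apply Subtype.ext
    rw [hcoe]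
    by_cases hne : Z = Y₀
    · rw [hne]
      exact hY₀y
    · exact hfixset y (hyfix Z hZ hne)
  have hxZ : ∀ Z : X, Z ∈ Γb → x • Z ∈ Γb := by
    intro Z hZ
    obtain ⟨z, hz⟩ := hnonempty Z.2
    have h3 : x • z ∈ Γ := by
      by_contra h4
      have h5 := hx1 _ h4
      have h6 : x • z = z := MulAction.injective x h5
      rw [h6] at h4
      exact h4 (hZ hz)
    exact hin (hsm x Z.2) _ (Set.smul_mem_smul_set hz) h3
  have hcomm : x * y = y * x := by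
    have h3 : ∀ Z : X, x • y • Z = y • x • Z := by
      intro Z
      by_cases hZ : Z ∈ Γb
      · rw [hyZ1 Z hZ, hyZ1 _ (hxZ Z hZ)]
      · have h4 : y • Z ∉ Γb := by
          intro h5
          have h6 := hyZ1 _ h5
          exact hZ (MulAction.injective y h6 ▸ h5)
        rw [hfixZ hx1 Z hZ, hfixZ hx1 _ h4]
    have h4 : (y * x)⁻¹ * (x * y) = 1 := by
      apply hK
      intro Y hY
      have h5 := h3 ⟨Y, hY⟩
      have h6 : x • y • Y = y • x • Y := congrArg Subtype.val h5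
      rw [mul_smul, mul_smul x y Y, h6, ← mul_smul y x Y, inv_smul_smul]
    have h5 := inv_mul_eq_one.1 h4
    exact h5.symm
  -- the contradiction
  have h3 : x • p₁ ∈ (Y₂ : Set Ω) := hxY₀ ▸ Set.smul_mem_smul_set hp₁
  have h4 : y • x • p₁ = x • p₁ := hyfix Y₂ hY₂ hY₂ne _ h3
  have h5 : y • x • p₁ = x • p₂ := by
    rw [← mul_smul, ← hcomm, mul_smul, hy2]
  rw [h5] at h4
  exact hp12 (MulAction.injective x h4).symm

end Cfsg.Agent.H17.Marg
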