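import Mathlib
import Cfsg.Agent.Lib.H17.Mob2

/-! A backtracking version of the finite check of the functional equation. -/

set_option autoImplicit false
set_option linter.style.haveILetI false

namespace Cfsg.Agent.H17.Mob

/-- value of a partial table (`0` means not assigned) -/
def tv (p c : ℕ) (L : List (ℕ × ℕ)) (vals : List ℕ) (x : ℕ) : ℕ :=
  (c ^ (L.getD x (0, 0)).2 * vals.getD (L.getD x (0, 0)).1 0) % p

/-- the multiplier `l` is refuted for the shift `d` -/
def refB (p : ℕ) (T : ℕ → ℕ) (d l : ℕ) : Bool :=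
  (List.range p).any fun z =>
    z != 0 && z + d != p && T z != 0 &&
      ((l * (T z + p - T (p - d))) % p == 0 ||
        (T ((z + d) % p) != 0 && T ((l * (T z + p - T (p - d))) % p) != 0 &&
          (T ((z + d) % p) + p - T d) % p != T ((l * (T z + p - T (p - d))) % p)))

/-- the partial table contradicts the functional equation -/
def conflictB (p : ℕ) (roots : List ℕ) (T : ℕ → ℕ) : Bool :=
  (List.range p).any fun d => d != 0 && T d != 0 && T (p - d) != 0 && roots.all fun l => refB p T d l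

/-- backtracking on the values at the coset representatives -/
def dfsB (p c : ℕ) (roots : List ℕ) (L : List (ℕ × ℕ)) (leaf : (ℕ → ℕ) → Bool) : ℕ → List ℕ → Bool
  | 0, vals => conflictB p roots (tv p c L vals) || leaf (tv p c L vals)
  | n + 1, vals => conflictB p roots (tv p c L vals) ||
      (List.range p).all fun v => v == 0 || dfsB p c roots L leaf n (vals ++ [v])

/-- correctness of the logarithm table -/
def logC (p g₀ : ℕ) (reps : List ℕ) (L : List (ℕ × ℕ)) : Bool :=
  (List.range p).all fun x => x == 0 ||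
    (decide ((L.getD x (0, 0)).1 < reps.length) &&
      (g₀ ^ (L.getD x (0, 0)).2 * reps.getD (L.getD x (0, 0)).1 0) % p == x)

variable {p : ℕ} [hp : Fact p.Prime]

section Sound

variable (g₀ : ℕ) (reps roots : List ℕ) (L : List (ℕ × ℕ))
  (hL : logC p g₀ reps L = true) (hreps : ∀ r ∈ reps, (r : ZMod p) ≠ 0)
  (ι : ZMod p → ZMod p) (c : ZMod p) (hne : ∀ x : ZMod p, x ≠ 0 → ι x ≠ 0)
  (hinj : ∀ x y : ZMod p, x ≠ 0 → y ≠ 0 → ι x = ι y → x = y)
  (hg0 : (g₀ : ZMod p) ≠ 0)
  (hE : ∀ x : ZMod p, x ≠ 0 → ι ((g₀ : ZMod p) * x) = c * ι x)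
  (hstar : ∀ d : ZMod p, d ≠ 0 → ∃ l : ZMod p, l.val ∈ roots ∧ l ≠ 0 ∧ ∀ z : ZMod p, z ≠ 0 → z + d ≠ 0 →
    ι (z + d) - ι d = ι (l * (ι z - ι (-d))))

/-- the table agrees with the map on the assigned cosets -/
def Compat (reps : List ℕ) (ι : ZMod p → ZMod p) (vals : List ℕ) : Prop :=
  vals.length ≤ reps.length ∧
    ∀ e, e < vals.length → vals.getD e 0 = (ι ((reps.getD e 0 : ℕ) : ZMod p)).val

include hL hreps hg0 hE in
lemma tv_eq (vals : List ℕ) (hC : Compat reps ι vals) (x : ℕ) (hx0 : x ≠ 0) (hxp : x < p)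
    (he : (L.getD x (0, 0)).1 < vals.length) :
    tv p c.val L vals x = (ι (x : ZMod p)).val := by
  have hl := List.all_eq_true.mp hL x (List.mem_range.mpr hxp)
  simp only [Bool.or_eq_true, beq_iff_eq, Bool.and_eq_true, decide_eq_true_eq] at hl
  rcases hl with hl | ⟨hl1, hl2⟩
  · exact absurd hl hx0
  apply val_cast_eq
  have hcast : (x : ZMod p) = (g₀ : ZMod p) ^ (L.getD x (0, 0)).2 *
      ((reps.getD (L.getD x (0, 0)).1 0 : ℕ) : ZMod p) := by
    conv_lhs => rw [← hl2]
    rw [ZMod.natCast_mod]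
    push_cast
    rfl
  have hr0 : ((reps.getD (L.getD x (0, 0)).1 0 : ℕ) : ZMod p) ≠ 0 := by
    apply hreps
    rw [List.getD_eq_getElem _ _ hl1]
    exact List.getElem_mem _
  rw [hcast, iter ι _ c hg0 hE _ _ hr0, hC.2 _ he]
  push_cast
  rw [ZMod.natCast_val, ZMod.cast_id', id, ZMod.natCast_val, ZMod.cast_id', id]

include hL hreps hg0 hE hne in
lemma tv_ne (vals : List ℕ) (hC : Compat reps ι vals) (x : ℕ) (hx0 : x ≠ 0) (hxp : x < p)
    (h : tv p c.val L vals x ≠ 0) : tv p c.val L vals x = (ι (x : ZMod p)).val := by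
  apply tv_eq g₀ reps L hL hreps ι c hg0 hE vals hC x hx0 hxp
  by_contra hcon
  apply h
  have : vals.getD (L.getD x (0, 0)).1 0 = 0 := by
    rw [List.getD_eq_default]
    omega
  rw [tv, this]
  simp

include hL hreps hg0 hE hne hinj hstar in
lemma no_conflict (vals : List ℕ) (hC : Compat reps ι vals) :
    conflictB p roots (tv p c.val L vals) = false := by
  set T := tv p c.val L vals with hT
  have hTval : ∀ x : ℕ, x ≠ 0 → x < p → T x ≠ 0 → T x = (ι (x : ZMod p)).val :=
    fun x h0 h1 h2 => tv_ne g₀ reps L hL hreps ι c hne hg0 hE vals hC x h0 h1 h2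
  have hcastT : ∀ x : ℕ, x ≠ 0 → x < p → T x ≠ 0 → ((T x : ℕ) : ZMod p) = ι (x : ZMod p) := by
    intro x h0 h1 h2
    rw [hTval x h0 h1 h2, ZMod.natCast_val, ZMod.cast_id', id]
  rw [Bool.eq_false_iff]
  intro hcon
  unfold conflictB at hcon
  rw [List.any_eq_true] at hcon
  obtain ⟨d, hd, hcon⟩ := hcon
  simp only [Bool.and_eq_true, bne_iff_ne, ne_eq, List.all_eq_true] at hcon
  obtain ⟨⟨⟨hd0, hTd⟩, hTmd⟩, hall⟩ := hcon
  have hdp := List.mem_range.mp hd
  have hdd := cast_ne_zero_of hd0 hdp
  obtain ⟨l, hl, hl0, hlz⟩ := hstar _ hdd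
  have hr := hall _ hl
  unfold refB at hr
  rw [List.any_eq_true] at hr
  obtain ⟨z, hz, hr⟩ := hr
  simp only [Bool.and_eq_true, bne_iff_ne, ne_eq, Bool.or_eq_true, beq_iff_eq] at hr
  obtain ⟨⟨⟨hz0, hzd⟩, hTz⟩, hr⟩ := hr
  have hzp := List.mem_range.mp hz
  have hzz := cast_ne_zero_of hz0 hzp
  -- the point z + d
  have hw0 : (z + d) % p ≠ 0 := by
    intro h
    obtain ⟨k, hk⟩ := Nat.dvd_of_mod_eq_zero h
    have hk1 : k ≠ 0 := by
      rintro rfl
      omega
    have hk2 : k < 2 := by
      by_contra hc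
      have : p * 2 ≤ p * k := Nat.mul_le_mul_left _ (by omega)
      omega
    have hk3 : k = 1 := by omega
    subst hk3
    omega
  have hwp : (z + d) % p < p := Nat.mod_lt _ hp.out.pos
  have hwc : (((z + d) % p : ℕ) : ZMod p) = (z : ZMod p) + d := by
    rw [ZMod.natCast_mod]
    push_cast
    rfl
  have hzdd : (z : ZMod p) + d ≠ 0 := by
    rw [← hwc]
    exact cast_ne_zero_of hw0 hwp
  have hmd0 : p - d ≠ 0 := by omega
  have hmdp : p - d < p := by omega
  have hmdc : ((p - d : ℕ) : ZMod p) = -(d : ZMod p) := by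
    rw [Nat.cast_sub hdp.le, ZMod.natCast_self, zero_sub]
  have hTmdlt : T (p - d) < p := by
    rw [hTval _ hmd0 hmdp hTmd]
    exact ZMod.val_lt _
  have harg : (((T z + p - T (p - d) : ℕ)) : ZMod p) = ι z - ι (-(d : ZMod p)) := by
    rw [Nat.cast_sub (by omega)]
    push_cast
    rw [hcastT z hz0 hzp hTz, hcastT _ hmd0 hmdp hTmd, hmdc, ZMod.natCast_self, add_zero]
  have hrc : (((l.val * (T z + p - T (p - d))) % p : ℕ) : ZMod p) =
      l * (ι z - ι (-(d : ZMod p))) := by
    rw [ZMod.natCast_mod, Nat.cast_mul, harg, ZMod.natCast_val, ZMod.cast_id', id]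
  have hne2 : ι (z : ZMod p) ≠ ι (-(d : ZMod p)) := by
    intro e
    have := hinj _ _ hzz (neg_ne_zero.mpr hdd) e
    apply hzdd
    rw [this, neg_add_cancel]
  have hx : ι (z : ZMod p) - ι (-(d : ZMod p)) ≠ 0 := sub_ne_zero.mpr hne2
  have hr0 : (l.val * (T z + p - T (p - d))) % p ≠ 0 := by
    intro h
    have h2 := hrc
    rw [h] at h2
    simp only [Nat.cast_zero] at h2
    exact mul_ne_zero hl0 hx h2.symm
  have hrp : (l.val * (T z + p - T (p - d))) % p < p := Nat.mod_lt _ hp.out.pos
  rcases hr with hr | ⟨⟨hr1, hr2⟩, hr3⟩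
  · exact hr0 hr
  apply hr3
  rw [hTval _ hr0 hrp hr2, hrc, ← hlz _ hzz hzdd]
  apply val_cast_eq
  have hTd' : T d < p := by
    rw [hTval d hd0 hdp hTd]
    exact ZMod.val_lt _
  rw [Nat.cast_sub (by omega)]
  push_cast
  rw [hcastT _ hw0 hwp hr1, hwc, hcastT d hd0 hdp hTd, ZMod.natCast_self, add_zero]

include hL hreps hg0 hE hne hinj hstar in
/-- soundness of the search -/
theorem dfs_sound (leaf : (ℕ → ℕ) → Bool) (n : ℕ) (vals : List ℕ) (hC : Compat reps ι vals)
    (hlen : vals.length + n = reps.length) (h : dfsB p c.val roots L leaf n vals = true) :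
    ∃ vals' : List ℕ, Compat reps ι vals' ∧ vals'.length = reps.length ∧
      leaf (tv p c.val L vals') = true := by
  induction n generalizing vals with
  | zero =>
    refine ⟨vals, hC, by omega, ?_⟩
    simp only [dfsB, Bool.or_eq_true] at h
    rcases h with h | h
    · rw [no_conflict g₀ reps roots L hL hreps ι c hne hinj hg0 hE hstar vals hC] at h
      exact absurd h (by simp)
    · exact h
  | succ n ih =>
    simp only [dfsB, Bool.or_eq_true] at h
    rcases h with h | h
    · rw [no_conflict g₀ reps roots L hL hreps ι c hne hinj hg0 hE hstar vals hC] at h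
      exact absurd h (by simp)
    · have hlt : vals.length < reps.length := by omega
      have hr0 : ((reps.getD vals.length 0 : ℕ) : ZMod p) ≠ 0 := by
        apply hreps
        rw [List.getD_eq_getElem _ _ hlt]
        exact List.getElem_mem _
      have hv := List.all_eq_true.mp h (ι ((reps.getD vals.length 0 : ℕ) : ZMod p)).val
        (List.mem_range.mpr (ZMod.val_lt _))
      simp only [Bool.or_eq_true, beq_iff_eq] at hv
      rcases hv with hv | hv
      · exact absurd hv (cast_val_ne (hne _ hr0))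
      · apply ih _ ?_ (by simp; omega) hv
        refine ⟨by simp; omega, fun e he => ?_⟩
        simp only [List.length_append, List.length_cons, List.length_nil] at he
        by_cases hev : e < vals.length
        · rw [List.getD_append _ _ _ _ hev]
          exact hC.2 e hev
        · have : e = vals.length := by omega
          subst this
          rw [List.getD_append_right _ _ _ _ (le_refl _)]
          simp

include hL hreps hg0 hE hne in
/-- on a complete table the values are the true ones -/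
lemma tv_full (vals : List ℕ) (hC : Compat reps ι vals) (hlen : vals.length = reps.length) (x : ℕ)
    (hx0 : x ≠ 0) (hxp : x < p) : tv p c.val L vals x = (ι (x : ZMod p)).val := by
  apply tv_eq g₀ reps L hL hreps ι c hg0 hE vals hC x hx0 hxp
  have hl := List.all_eq_true.mp hL x (List.mem_range.mpr hxp)
  simp only [Bool.or_eq_true, beq_iff_eq, Bool.and_eq_true, decide_eq_true_eq] at hl
  rcases hl with hl | ⟨hl1, hl2⟩
  · exact absurd hl hx0
  omega

lemma compat_nil : Compat reps ι ([] : List ℕ) := ⟨by simp, fun e he => by simp at he⟩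

end Sound

end Cfsg.Agent.H17.Mob
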