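import Mathlib
import Cfsg.Agent.Lib.H17.Mob4
import Cfsg.Agent.Lib.H17.Mob6
import Cfsg.Agent.Lib.H17.Mob7

/-! Exclusions by backtracking, and recognition of `PGL₂(p)`. -/

set_option autoImplicit false
set_option linter.style.haveILetI false

namespace Cfsg.Agent.H17.Mob

open OnePoint Matrix
open scoped MatrixGroups

variable {p : ℕ} [hp : Fact p.Prime] {m : ℕ} {X : Type*} [Group X]
  {ρ : X →* Equiv.Perm (OnePoint (ZMod p))}

/-- the conclusion of a search -/
theorem search_main (h : AffAct m ρ) (g₀ : ℕ) (reps roots : List ℕ) (L : List (ℕ × ℕ))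
    (hL : logC p g₀ reps L = true) (hreps : ∀ r ∈ reps, (r : ZMod p) ≠ 0)
    (hroots : ∀ l : ZMod p, l ^ m = 1 → l.val ∈ roots) (hg0 : (g₀ : ZMod p) ≠ 0) (hg₀m : (g₀ : ZMod p) ^ m = 1)
    (leaf : (ℕ → ℕ) → Bool)
    (hchk : roots.all (fun c => dfsB p c roots L leaf reps.length []) = true) :
    ∃ (μ : X) (ι : ZMod p → ZMod p) (c : ZMod p) (vals : List ℕ), SwapData ρ μ ι ∧ Compat reps ι vals ∧
      vals.length = reps.length ∧ (∀ x : ZMod p, x ≠ 0 → ι ((g₀ : ZMod p) * x) = c * ι x) ∧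
      leaf (tv p c.val L vals) = true := by
  obtain ⟨μ, h1, h2⟩ := h.swap
  obtain ⟨ι, D⟩ := exists_swapData (ρ := ρ) μ h1 h2
  obtain ⟨c, hcm, hc0, hc⟩ := D.equivariant h _ hg₀m hg0
  have hc' := List.all_eq_true.mp hchk _ (hroots c hcm)
  obtain ⟨vals, hC, hlen, hleaf⟩ := dfs_sound g₀ reps roots L hL hreps ι c D.ne
    (fun x y hx hy e => D.inj hx hy e) hg0 hc (by
      intro d hd
      obtain ⟨l, hlm, hl0, hl⟩ := D.star h d hd
      exact ⟨l, hroots l hlm, hl0, hl⟩) leaf reps.length [] (compat_nil reps ι) (by simp) hc'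
  exact ⟨μ, ι, c, vals, D, hC, hlen, hc, hleaf⟩

/-- exclusion -/
theorem search_false (h : AffAct m ρ) (g₀ : ℕ) (reps roots : List ℕ) (L : List (ℕ × ℕ))
    (hL : logC p g₀ reps L = true) (hreps : ∀ r ∈ reps, (r : ZMod p) ≠ 0)
    (hroots : ∀ l : ZMod p, l ^ m = 1 → l.val ∈ roots) (hg0 : (g₀ : ZMod p) ≠ 0) (hg₀m : (g₀ : ZMod p) ^ m = 1)
    (hchk : roots.all (fun c => dfsB p c roots L (fun _ => false) reps.length []) = true) : False := by
  obtain ⟨μ, ι, c, vals, D, hC, hlen, hc, hleaf⟩ :=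
    search_main h g₀ reps roots L hL hreps hroots hg0 hg₀m (fun _ => false) hchk
  exact absurd hleaf (by simp)

/-- the leaf test for the reciprocal map -/
def recipB (p : ℕ) (T : ℕ → ℕ) : Bool :=
  (List.range p).all fun x => x == 0 || (x * T x) % p == T 1

/-- the full group case -/
theorem search_recip (h : AffAct m ρ) (g₀ : ℕ) (reps roots : List ℕ) (L : List (ℕ × ℕ))
    (hL : logC p g₀ reps L = true) (hreps : ∀ r ∈ reps, (r : ZMod p) ≠ 0)
    (hroots : ∀ l : ZMod p, l ^ m = 1 → l.val ∈ roots) (hg0 : (g₀ : ZMod p) ≠ 0) (hg₀m : (g₀ : ZMod p) ^ m = 1)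
    (hchk : roots.all (fun c => dfsB p c roots L (recipB p) reps.length []) = true) :
    ∃ (μ : X) (ι : ZMod p → ZMod p) (κ : ZMod p), SwapData ρ μ ι ∧ κ ≠ 0 ∧ ∀ x : ZMod p, x ≠ 0 → x * ι x = κ := by
  obtain ⟨μ, ι, c, vals, D, hC, hlen, hc, hleaf⟩ :=
    search_main h g₀ reps roots L hL hreps hroots hg0 hg₀m (recipB p) hchk
  have h10 : (1 : ZMod p) ≠ 0 := one_ne_zero
  have hp1 : 1 < p := hp.out.one_lt
  have hT : ∀ x : ℕ, x ≠ 0 → x < p → tv p c.val L vals x = (ι (x : ZMod p)).val :=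
    fun x h0 h1 => tv_full g₀ reps L hL hreps ι c D.ne hg0 hc vals hC hlen x h0 h1
  refine ⟨μ, ι, ι 1, D, D.ne 1 h10, fun x hx => ?_⟩
  have hx0 : x.val ≠ 0 := cast_val_ne hx
  have hxp : x.val < p := ZMod.val_lt _
  have h1 := List.all_eq_true.mp hleaf x.val (List.mem_range.mpr hxp)
  simp only [Bool.or_eq_true, beq_iff_eq] at h1
  rcases h1 with h1 | h1
  · exact absurd h1 hx0
  have h2 : (((x.val * tv p c.val L vals x.val) % p : ℕ) : ZMod p) = ((tv p c.val L vals 1 : ℕ) : ZMod p) := by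
    rw [h1]
  rw [ZMod.natCast_mod] at h2
  push_cast at h2
  rw [hT _ hx0 hxp, hT 1 one_ne_zero hp1, ZMod.natCast_val, ZMod.cast_id', id, ZMod.natCast_val, ZMod.cast_id', id] at h2
  simpa using h2

/-- upper triangular elements of `GL₂` -/
def glUp (l b : ZMod p) (hl : l ≠ 0) : GL (Fin 2) (ZMod p) :=
  Matrix.GeneralLinearGroup.mkOfDetNeZero !![l, b; 0, 1] (by simp [det_fin_two, hl])

/-- antidiagonal elements of `GL₂` -/
def glAnti (κ : ZMod p) (hκ : κ ≠ 0) : GL (Fin 2) (ZMod p) :=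
  Matrix.GeneralLinearGroup.mkOfDetNeZero !![0, κ; 1, 0] (by simp [det_fin_two, hκ])

lemma glPerm_up (l b : ZMod p) (hl : l ≠ 0) : glPerm (ZMod p) (glUp l b hl) ∞ = ∞ := by
  rw [glPerm_infty]
  simp [glUp, Matrix.GeneralLinearGroup.mkOfDetNeZero]

lemma glPerm_up_coe (l b k : ZMod p) (hl : l ≠ 0) :
    glPerm (ZMod p) (glUp l b hl) (k : OnePoint (ZMod p)) = ((l * k + b : ZMod p) : OnePoint (ZMod p)) := by
  rw [glPerm_coe]
  have h : (glUp l b hl).1 1 0 * k + (glUp l b hl).1 1 1 = 1 := by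
    simp [glUp, Matrix.GeneralLinearGroup.mkOfDetNeZero]
  rw [h, if_neg one_ne_zero, div_one]
  congr 1

lemma glPerm_anti (κ : ZMod p) (hκ : κ ≠ 0) : glPerm (ZMod p) (glAnti κ hκ) ∞ = ((0 : ZMod p) : OnePoint (ZMod p)) := by
  rw [glPerm_infty]
  simp [glAnti, Matrix.GeneralLinearGroup.mkOfDetNeZero]

lemma glPerm_anti_zero (κ : ZMod p) (hκ : κ ≠ 0) :
    glPerm (ZMod p) (glAnti κ hκ) ((0 : ZMod p) : OnePoint (ZMod p)) = ∞ := by
  rw [glPerm_coe]
  simp [glAnti, Matrix.GeneralLinearGroup.mkOfDetNeZero]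

lemma glPerm_anti_coe (κ k : ZMod p) (hκ : κ ≠ 0) (hk : k ≠ 0) :
    glPerm (ZMod p) (glAnti κ hκ) (k : OnePoint (ZMod p)) = ((κ / k : ZMod p) : OnePoint (ZMod p)) := by
  rw [glPerm_coe]
  have h : (glAnti κ hκ).1 1 0 * k + (glAnti κ hκ).1 1 1 = k := by
    simp [glAnti, Matrix.GeneralLinearGroup.mkOfDetNeZero]
  rw [h, if_neg hk]
  congr 1
  simp [glAnti, Matrix.GeneralLinearGroup.mkOfDetNeZero]

theorem range_le_gl (h : AffAct m ρ) (μ : X) (ι : ZMod p → ZMod p) (D : SwapData ρ μ ι)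
    (κ : ZMod p) (hκ : κ ≠ 0) (hι : ∀ x : ZMod p, x ≠ 0 → x * ι x = κ) :
    ρ.range ≤ (glPerm (ZMod p)).range := by
  have haff : ∀ g : X, ρ g ∞ = ∞ → ρ g ∈ (glPerm (ZMod p)).range := by
    intro g hg
    obtain ⟨l, b, hl0, hlm, hl⟩ := h.aff g hg
    refine ⟨glUp l b hl0, ?_⟩
    ext x
    induction x using OnePoint.rec with
    | infty => rw [glPerm_up, hg]
    | coe k => rw [glPerm_up_coe, hl]
  have hμ : ρ μ ∈ (glPerm (ZMod p)).range := by
    refine ⟨glAnti κ hκ, ?_⟩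
    ext x
    induction x using OnePoint.rec with
    | infty => rw [glPerm_anti, D.inf]
    | coe k =>
      by_cases hk : k = 0
      · subst hk
        rw [glPerm_anti_zero, D.zero]
      · rw [glPerm_anti_coe _ _ _ hk, D.act k hk]
        congr 1
        rw [← hι k hk]
        field_simp
  rintro _ ⟨g, rfl⟩
  by_cases hg : ρ g ∞ = ∞
  · exact haff g hg
  obtain ⟨t, ht⟩ := OnePoint.ne_infty_iff_exists.mp hg
  obtain ⟨u, hu0, hu⟩ := h.tr (-t)
  have h1 : ρ (μ * u * g) ∞ = ∞ := by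
    simp only [map_mul, Equiv.Perm.mul_apply]
    rw [← ht, hu, add_neg_cancel, D.zero]
  have hu' : ρ u ∈ (glPerm (ZMod p)).range := haff u hu0
  have h2 := haff _ h1
  have e : ρ g = (ρ u)⁻¹ * (ρ μ)⁻¹ * ρ (μ * u * g) := by
    simp only [map_mul]
    group
  rw [e]
  exact Subgroup.mul_mem _ (Subgroup.mul_mem _ (Subgroup.inv_mem _ hu') (Subgroup.inv_mem _ hμ)) h2

lemma card_center_gl : Nat.card (Subgroup.center (GL (Fin 2) (ZMod p))) = p - 1 := by
  rw [Matrix.GeneralLinearGroup.center_eq_range_scalar]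
  have hinj : Function.Injective (Matrix.GeneralLinearGroup.scalar (n := Fin 2) (R := ZMod p)) := by
    intro a b hab
    have h1 := congrArg (fun M : GL (Fin 2) (ZMod p) => (M : Matrix (Fin 2) (Fin 2) (ZMod p)) 0 0) hab
    apply Units.ext
    simpa using h1
  rw [Nat.card_congr (MonoidHom.ofInjective hinj).toEquiv.symm]
  rw [Nat.card_eq_fintype_card, ZMod.card_units_eq_totient, Nat.totient_prime hp.out]

lemma card_pgl : Nat.card (GL (Fin 2) (ZMod p) ⧸ Subgroup.center (GL (Fin 2) (ZMod p))) = p * (p ^ 2 - 1) := by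
  have h1 := Subgroup.card_eq_card_quotient_mul_card_subgroup (Subgroup.center (GL (Fin 2) (ZMod p)))
  rw [card_center_gl] at h1
  have h2 : Nat.card (GL (Fin 2) (ZMod p)) = (p ^ 2 - 1) * (p ^ 2 - p) := by
    rw [Matrix.card_GL_field, ZMod.card, Fin.prod_univ_two]
    simp
  have hp1 : 1 < p := hp.out.one_lt
  rw [h2] at h1
  have e : (p ^ 2 - 1) * (p ^ 2 - p) = (p * (p ^ 2 - 1)) * (p - 1) := by
    have : p ^ 2 - p = p * (p - 1) := by
      rw [Nat.mul_sub, mul_one, pow_two]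
    rw [this]
    ring
  rw [e] at h1
  exact (Nat.eq_of_mul_eq_mul_right (by omega) h1).symm

theorem pgl_of_range [Finite X] (hρ : Function.Injective ρ) (hcard : Nat.card X = p * (p ^ 2 - 1))
    (hle : ρ.range ≤ (glPerm (ZMod p)).range) :
    Nonempty (X ≃* (GL (Fin 2) (ZMod p) ⧸ Subgroup.center (GL (Fin 2) (ZMod p)))) := by
  have hker := glPerm_ker (K := ZMod p)
  let e1 : (GL (Fin 2) (ZMod p)) ⧸ (glPerm (ZMod p)).ker ≃* (GL (Fin 2) (ZMod p) ⧸ Subgroup.center (GL (Fin 2) (ZMod p))) :=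
    QuotientGroup.quotientMulEquivOfEq hker
  let e2 := QuotientGroup.quotientKerEquivRange (glPerm (ZMod p))
  let e3 := MonoidHom.ofInjective hρ
  have hc1 : Nat.card X = Nat.card ρ.range := Nat.card_congr e3.toEquiv
  have hc2 : Nat.card (glPerm (ZMod p)).range = Nat.card (GL (Fin 2) (ZMod p) ⧸ Subgroup.center (GL (Fin 2) (ZMod p))) :=
    Nat.card_congr (e2.symm.trans e1).toEquiv
  have hc3 : Nat.card X = Nat.card (GL (Fin 2) (ZMod p) ⧸ Subgroup.center (GL (Fin 2) (ZMod p))) := by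
    rw [card_pgl, hcard]
  have hreq : ρ.range = (glPerm (ZMod p)).range := by
    apply Subgroup.eq_of_le_of_card_ge hle
    rw [hc2, ← hc1, hc3]
  exact ⟨e3.trans ((MulEquiv.subgroupCongr hreq).trans (e2.symm.trans e1))⟩

/-- ring isomorphisms induce isomorphisms of projective general linear groups -/
theorem pgl_congr {F F' : Type*} [Field F] [Field F'] (e : F ≃+* F') :
    Nonempty ((GL (Fin 2) F ⧸ Subgroup.center (GL (Fin 2) F)) ≃*
      (GL (Fin 2) F' ⧸ Subgroup.center (GL (Fin 2) F'))) := by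
  let E : GL (Fin 2) F ≃* GL (Fin 2) F' := Units.mapEquiv (e.mapMatrix (m := Fin 2)).toMulEquiv
  have hc : (Subgroup.center (GL (Fin 2) F)).map E.toMonoidHom =
      Subgroup.center (GL (Fin 2) F') := by
    ext y
    constructor
    · rintro ⟨x, hx, rfl⟩
      rw [Subgroup.mem_center_iff]
      intro z
      obtain ⟨w, rfl⟩ := E.surjective z
      have h1 := (Subgroup.mem_center_iff.mp hx) w
      show E w * E x = E x * E w
      rw [← map_mul, ← map_mul, h1]
    · intro hy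
      refine ⟨E.symm y, ?_, by simp⟩
      rw [SetLike.mem_coe, Subgroup.mem_center_iff]
      intro z
      apply E.injective
      rw [map_mul, map_mul, E.apply_symm_apply]
      exact Subgroup.mem_center_iff.mp hy (E z)
  exact ⟨QuotientGroup.congr _ _ E hc⟩

end Cfsg.Agent.H17.Mob
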