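import Cfsg.Agent.Lib.H17.N21c

/-! # The main argument for degree 21 configurations -/

set_option autoImplicit false
set_option linter.unusedSectionVars false
set_option linter.style.haveILetI false
set_option linter.unusedSimpArgs false
set_option linter.unusedVariables false

namespace Cfsg.Agent.H17.N21

open Equiv Equiv.Perm MulAction Subgroup

/-- Transfer when the fusion of a power of `g` does not change the value of `ϕ`. -/
theorem transfer_eq_of_fusion {G A : Type*} [Group G] [CommGroup A] {H : Subgroup G}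
    [H.FiniteIndex] (ϕ : H →* A) (g : H)
    (key : ∀ (k : ℕ) (g₀ : G) (h : g₀⁻¹ * (g : G) ^ k * g₀ ∈ H), ϕ ⟨_, h⟩ = ϕ g ^ k) :
    ϕ.transfer (g : G) = ϕ g ^ H.index := by
  classical
  let := H.fintypeQuotientOfFiniteIndex
  rw [MonoidHom.transfer_eq_prod_quotient_orbitRel_zpowers_quot]
  simp_rw [key]
  rw [Finset.prod_pow_eq_pow_sum, index_eq_sum_minimalPeriod H (g : G)]

variable {Γ X : Type*} [Group Γ] [MulAction Γ X]

theorem hom_trivial_of_perfect {A : Type*} [CommGroup A] (f : Γ →* A)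
    (hperf : commutator Γ = ⊤) (g : Γ) : f g = 1 := by
  have h1 : commutator Γ ≤ f.ker := by
    rw [_root_.commutator_def, Subgroup.commutator_le]
    intro a _ b _
    simp [MonoidHom.mem_ker, commutatorElement_def, map_mul, map_inv, mul_comm]
  rw [hperf] at h1
  exact h1 (Subgroup.mem_top g)

theorem Cfg.sylow_eq [Finite Γ] (C : Cfg Γ X) (S : Sylow 5 Γ) (H : Subgroup Γ)
    (hH : H ≤ S) (hc : Nat.card H = 5) : (S : Subgroup Γ) = H := by
  obtain ⟨n, hn⟩ := IsPGroup.iff_card.1 S.2
  have h1 : Nat.card (S : Subgroup Γ) ∣ Nat.card Γ := Subgroup.card_subgroup_dvd_card _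
  have h2 : Nat.card H ∣ Nat.card (S : Subgroup Γ) := Subgroup.card_dvd_of_le hH
  have hn2 : n < 2 := by
    by_contra hc2
    push Not at hc2
    apply C.no25
    have : 5 ^ 2 ∣ Nat.card (S : Subgroup Γ) := by
      rw [hn]; exact pow_dvd_pow 5 hc2
    simpa using this.trans h1
  have hcard : Nat.card (S : Subgroup Γ) ≤ Nat.card H := by
    rw [hc, hn]
    interval_cases n <;> norm_num
  exact (Subgroup.eq_of_le_of_card_ge hH hcard).symm

open scoped Pointwise in
theorem Cfg.le_of_normal [Finite Γ] [Finite X] [FaithfulSMul Γ X] [IsPretransitive Γ X]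
    (C : Cfg Γ X) (hX : Nat.card X = 21) (A : Subgroup Γ) [hAn : A.Normal] (hA : A ≠ ⊥) (b : X) :
    C.P b ≤ A := by
  have h5 := C.five_dvd_of_normal hX A hA
  obtain ⟨z, hz⟩ := exists_prime_orderOf_dvd_card' (G := A) 5 h5
  have hzΓ : orderOf (z : Γ) = 5 := by rwa [Subgroup.orderOf_coe]
  have hcz : Nat.card (zpowers (z : Γ)) = 5 := by rw [Nat.card_zpowers, hzΓ]
  have hpz : IsPGroup 5 (zpowers (z : Γ)) := IsPGroup.of_card (n := 1) (by rw [hcz]; norm_num)
  have hpb : IsPGroup 5 (C.P b) := IsPGroup.of_card (n := 1) (by rw [C.card5 b]; norm_num)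
  obtain ⟨S₁, hS₁⟩ := hpz.exists_le_sylow
  obtain ⟨S₂, hS₂⟩ := hpb.exists_le_sylow
  have h1 := C.sylow_eq S₁ _ hS₁ hcz
  have h2 := C.sylow_eq S₂ _ hS₂ (C.card5 b)
  obtain ⟨g, hg⟩ := MulAction.exists_smul_eq Γ S₁ S₂
  intro y hy
  rw [← h2, ← hg, Sylow.coe_subgroup_smul, h1] at hy
  rw [Subgroup.mem_pointwise_smul_iff_inv_smul_mem] at hy
  obtain ⟨k, hk⟩ := hy
  have hmem : (z : Γ) ^ k ∈ A := zpow_mem z.2 k
  have h3 : y = g * (z : Γ) ^ k * g⁻¹ := by
    have h4 : (MulAut.conj g)⁻¹ • y = g⁻¹ * y * g := by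
      simp [MulAut.smul_def, MulAut.conj_symm_apply]
    change (z : Γ) ^ k = _ at hk
    rw [hk, h4]
    group
  rw [h3]
  exact hAn.conj_mem _ hmem g

theorem units5_pow_four : ∀ p : (ZMod 5)ˣ, p ^ 4 = 1 := by decide +kernel

theorem units5_aux : ∀ p q : (ZMod 5)ˣ, (p ^ 1 = 1 ↔ q ^ 1 = 1) → (p ^ 2 = 1 ↔ q ^ 2 = 1) →
    q = p ∨ q = p⁻¹ := by decide +kernel

theorem units5_ne_zero (u : (ZMod 5)ˣ) : (u : ZMod 5) ≠ 0 := Units.ne_zero u

/-- No perfect group has such a configuration. -/
theorem Cfg.no_perfect [Finite Γ] [Finite X] [FaithfulSMul Γ X] [IsPretransitive Γ X]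
    (C : Cfg Γ X) (hX : Nat.card X = 21) (hperf : commutator Γ = ⊤) : False := by
  classical
  have : Fintype X := Fintype.ofFinite X
  haveI : Fact (Nat.Prime 2) := ⟨Nat.prime_two⟩
  obtain ⟨R⟩ : Nonempty (Sylow 2 Γ) := inferInstance
  have hRodd : ¬ 2 ∣ (R : Subgroup Γ).index := R.not_dvd_index
  obtain ⟨a, ha⟩ : (fixedPoints (R : Subgroup Γ) X).Nonempty :=
    R.2.nonempty_fixed_point_of_prime_not_dvd_card X (by rw [hX]; norm_num)
  have ha' : ∀ r : (R : Subgroup Γ), (r : Γ) • a = a := ha
  obtain ⟨x, hx, hP⟩ := C.exists_gen a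
  have hx5 : x ^ 5 = 1 := by rw [← hx]; exact pow_orderOf_eq_one x
  obtain ⟨L⟩ := exists_lab hX hx5 (C.gen_fix hP) (C.fix_gen hP)
  obtain ⟨m, hm⟩ := exists_mult_hom hx a (fun u => C.conj_gen hP u u.2)
  -- all permutations are even
  have hsign : ∀ g : Γ, sign (MulAction.toPerm g : Perm X) = 1 := fun g =>
    hom_trivial_of_perfect (sign.comp (MulAction.toPermHom Γ X)) hperf g
  obtain ⟨ψ, hψ1, hψ2⟩ := L.exists_tau_hom hx5 (MonoidHom.id _)
    (fun u => ((m u : (ZMod 5)ˣ) : ZMod 5)) (fun u => units5_ne_zero _) hm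
  have hψs : ∀ u : stabilizer Γ a, sign (ψ u) = 1 := by
    intro u
    rw [← hψ2, MonoidHom.id_apply, L.sign_sig, hsign]
  let inR : (R : Subgroup Γ) →* stabilizer Γ a :=
    { toFun := fun r => ⟨r, ha' r⟩
      map_one' := rfl
      map_mul' := fun _ _ => rfl }
  have hR2 : ∀ r : (R : Subgroup Γ), ∃ k : ℕ, r ^ 2 ^ k = 1 := fun r => R.2 r
  -- dichotomy
  have hD : ∀ w : (R : Subgroup Γ), (∀ c : X, (w : Γ) • c = c → c = a) ∨ ψ (inR w) = 1 := by
    intro w
    by_cases h : ∀ c : X, (w : Γ) • c = c → c = a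
    · exact Or.inl h
    · right
      push Not at h
      obtain ⟨c, hc1, hc2⟩ := h
      obtain ⟨⟨i, j⟩, hij⟩ := L.E.surjective ⟨c, hc2⟩
      have hcE : ((L.E (i, j)) : X) = c := congrArg Subtype.val hij
      have h1 : L.sig (inR w) (i, j) = (i, j) := by
        apply L.E.injective
        apply Subtype.ext
        rw [L.E_sig, hcE]
        exact hc1
      have h2 : ψ (inR w) i = i := by
        have := hψ1 (inR w) i j
        rw [MonoidHom.id_apply, h1] at this
        exact this.symm
      obtain ⟨k, hk⟩ := hR2 w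
      have h3 : (ψ (inR w)) ^ 2 ^ k = 1 := by
        rw [← map_pow, ← map_pow, hk, map_one, map_one]
      exact perm4_even _ i (hψs _) h2 k h3
  -- kernel
  have h1val : ((1 : (ZMod 5)ˣ) : ZMod 5).val = 1 := by decide
  have hK : ∀ w : (R : Subgroup Γ), ψ (inR w) = 1 → m (inR w) = 1 → w = 1 := by
    intro w h1 h2
    have hτ : ∀ i j, (L.sig (inR w) (i, j)).1 = i := by
      intro i j
      have := hψ1 (inR w) i j
      rw [MonoidHom.id_apply] at this
      rw [this, h1]
      rfl
    have hu : ((inR w : stabilizer Γ a) : Γ) * x * ((inR w : stabilizer Γ a) : Γ)⁻¹ = x := by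
      have := hm (inR w)
      rw [h2, h1val, pow_one] at this
      exact this
    have h5 := L.pow_five_eq_one hx5 (inR w) hu hτ
    obtain ⟨k, hk⟩ := hR2 w
    have h6 : (w : Γ) ^ 2 ^ k = 1 := congrArg Subtype.val hk
    apply Subtype.ext
    exact eq_one_of_pow_coprime h5 h6 (Nat.Coprime.pow_right k (by norm_num))
  have hO : ∀ w : (R : Subgroup Γ), ψ (inR w) = 1 → ∀ k : ℕ, (w ^ k = 1 ↔ (m (inR w)) ^ k = 1) := by
    intro w h k
    constructor
    · intro h1
      rw [← map_pow, ← map_pow, h1, map_one, map_one]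
    · intro h1
      apply hK
      · rw [map_pow, map_pow, h, one_pow]
      · rw [map_pow, map_pow, h1]
  -- fusion
  have hF : ∀ e₀ : ℕ, (∀ r : (R : Subgroup Γ), (m (inR r) ^ e₀) ^ 2 = 1) →
      ∀ (w w' : (R : Subgroup Γ)) (g : Γ), (w' : Γ) = g⁻¹ * w * g →
        m (inR w') ^ e₀ = m (inR w) ^ e₀ := by
    intro e₀ he w w' g hg
    by_cases hA : ∀ c : X, (w : Γ) • c = c → c = a
    · have hga : g • a = a := by
        apply hA
        have h1 : (w : Γ) • g • a = g • (w' : Γ) • a := by
          rw [hg]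
          simp [mul_smul]
        rw [h1, ha' w']
      let ĝ : stabilizer Γ a := ⟨g, hga⟩
      have h2 : inR w' = ĝ⁻¹ * inR w * ĝ := Subtype.ext hg
      have h3 : m (inR w') = m (inR w) := by
        rw [h2, map_mul, map_mul, map_inv, mul_comm (m ĝ)⁻¹, inv_mul_cancel_right]
      rw [h3]
    · push Not at hA
      obtain ⟨c, hc1, hc2⟩ := hA
      have h1 : ψ (inR w) = 1 := (hD w).resolve_left (fun hB => hc2 (hB c hc1))
      have h2 : ¬ (∀ c : X, (w' : Γ) • c = c → c = a) := by
        intro hB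
        have h3 : g⁻¹ • c = a := hB _ (by
          rw [hg]
          simp [mul_smul, hc1])
        have h4 : g⁻¹ • a = a := hB _ (by
          rw [hg]
          simp [mul_smul, ha' w])
        have h5 : g⁻¹ • c = g⁻¹ • a := h3.trans h4.symm
        exact hc2 (MulAction.injective g⁻¹ h5)
      have h5 : ψ (inR w') = 1 := (hD w').resolve_left h2
      have hconj : ∀ k : ℕ, (w' : Γ) ^ k = g⁻¹ * (w : Γ) ^ k * g := by
        intro k
        rw [hg]
        have := conj_pow (a := g⁻¹) (b := (w : Γ)) (i := k)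
        simpa using this
      have hiff : ∀ k : ℕ, (m (inR w)) ^ k = 1 ↔ (m (inR w')) ^ k = 1 := by
        intro k
        rw [← hO w h1 k, ← hO w' h5 k]
        constructor
        · intro h6
          apply Subtype.ext
          have h7 : (w : Γ) ^ k = 1 := congrArg Subtype.val h6
          change (w' : Γ) ^ k = 1
          rw [hconj, h7]
          group
        · intro h6
          apply Subtype.ext
          have h7 : (w' : Γ) ^ k = 1 := congrArg Subtype.val h6
          rw [hconj] at h7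
          change (w : Γ) ^ k = 1
          have h8 : (w : Γ) ^ k = g * (g⁻¹ * (w : Γ) ^ k * g) * g⁻¹ := by group
          rw [h8, h7]
          group
      rcases units5_aux _ _ (hiff 1) (hiff 2) with h6 | h6
      · rw [h6]
      · rw [h6, inv_pow]
        have h7 := he w
        rw [pow_two] at h7
        exact inv_eq_of_mul_eq_one_left h7
  -- nontriviality
  have hNon : ∃ u : (R : Subgroup Γ), m (inR u) ≠ 1 := by
    by_contra hno
    push Not at hno
    have hmtriv : ∀ u : stabilizer Γ a, m u = 1 := by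
      have hRle : (R : Subgroup Γ) ≤ stabilizer Γ a := fun r hr => ha' ⟨r, hr⟩
      have hle : (R : Subgroup Γ).subgroupOf (stabilizer Γ a) ≤ m.ker := by
        intro r hr
        exact hno ⟨r, hr⟩
      have h1 : m.ker.index ∣ ((R : Subgroup Γ).subgroupOf (stabilizer Γ a)).index :=
        Subgroup.index_dvd_of_le hle
      have h2 : m.ker.index ∣ 4 := by
        rw [Subgroup.index_ker]
        have h3 : Nat.card m.range ∣ Nat.card (ZMod 5)ˣ := Subgroup.card_subgroup_dvd_card _
        have h4 : Nat.card (ZMod 5)ˣ = 4 := by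
          rw [Nat.card_eq_fintype_card, ZMod.card_units 5]
        rwa [h4] at h3
      have h3 : ((R : Subgroup Γ).subgroupOf (stabilizer Γ a)).index * (stabilizer Γ a).index =
          (R : Subgroup Γ).index := Subgroup.relIndex_mul_index hRle
      have h4 : ¬ 2 ∣ m.ker.index := by
        intro h5
        apply hRodd
        rw [← h3]
        exact (h5.trans h1).mul_right _
      have h5 : m.ker.index = 1 := by
        have hle4 := Nat.le_of_dvd (by norm_num) h2
        interval_cases hk : m.ker.index <;> omega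
      have h6 := Subgroup.index_eq_one.1 h5
      intro u
      have : u ∈ m.ker := by
        rw [h6]
        trivial
      exact this
    have hcx : Nat.card (zpowers x) = 5 := by rw [Nat.card_zpowers, hx]
    have hpx : IsPGroup 5 (zpowers x) := IsPGroup.of_card (n := 1) (by rw [hcx]; norm_num)
    obtain ⟨S, hSle⟩ := hpx.exists_le_sylow
    have hS := C.sylow_eq S _ hSle hcx
    have hxS : x ∈ (S : Subgroup Γ) := hSle (mem_zpowers x)
    have hnorm : Subgroup.normalizer ((S : Subgroup Γ) : Set Γ) ≤ centralizer ((S : Subgroup Γ) : Set Γ) := by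
      intro g hg
      have hga : g • a = a := by
        apply C.fix a (g • a)
        intro h hh
        have h1 : h ∈ (S : Subgroup Γ) := by rw [hS, ← hP]; exact hh
        have h2 : g⁻¹ * h * g ∈ (S : Subgroup Γ) := by
          have h3 := (Subgroup.mem_normalizer_iff.1 (inv_mem hg) h).1 h1
          simpa using h3
        rw [hS, ← hP] at h2
        have h3 := C.self_fix a _ h2
        have h4 : h • g • a = g • (g⁻¹ * h * g) • a := by
          simp [mul_smul]
        rw [h4, h3]
      have hgx : g * x * g⁻¹ = x := by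
        have := hm ⟨g, hga⟩
        rw [hmtriv, h1val, pow_one] at this
        exact this
      rw [Subgroup.mem_centralizer_iff]
      intro h hh
      have h1 : h ∈ zpowers x := by rw [← hS]; exact hh
      obtain ⟨k, rfl⟩ := h1
      have hcomm : Commute g x := by
        rw [commute_iff_eq]
        calc g * x = g * x * g⁻¹ * g := by group
          _ = x * g := by rw [hgx]
      exact (hcomm.zpow_right k).eq.symm
    let f := MonoidHom.transferSylow S hnorm
    have hf1 : f x = ⟨x ^ (S : Subgroup Γ).index, _⟩ := MonoidHom.transferSylow_eq_pow S hnorm x hxS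
    have hfcomm : ∀ a b : Γ, f (a * b * a⁻¹ * b⁻¹) = 1 := by
      intro a b
      have h2 : Commute (f a) (f b) := by
        apply Subtype.ext
        have h3 : ((f a : (S : Subgroup Γ)) : Γ) ∈ zpowers x := by rw [← hS]; exact (f a).2
        have h4 : ((f b : (S : Subgroup Γ)) : Γ) ∈ zpowers x := by rw [← hS]; exact (f b).2
        obtain ⟨k, hk⟩ := h3
        obtain ⟨l, hl⟩ := h4
        simp only [Subgroup.coe_mul]
        rw [← hk, ← hl]
        exact ((Commute.refl x).zpow_zpow k l).eq
      rw [map_mul, map_mul, map_mul, map_inv, map_inv, h2.eq]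
      group
    have hfk : commutator Γ ≤ f.ker := by
      rw [_root_.commutator_def, Subgroup.commutator_le]
      intro a _ b _
      exact hfcomm a b
    rw [hperf] at hfk
    have hfx : f x = 1 := hfk (Subgroup.mem_top x)
    rw [hf1] at hfx
    have h2 : x ^ (S : Subgroup Γ).index = 1 := congrArg Subtype.val hfx
    have h3 : orderOf x ∣ (S : Subgroup Γ).index := orderOf_dvd_of_pow_eq_one h2
    rw [hx] at h3
    exact S.not_dvd_index h3
  -- the final contradiction
  obtain ⟨e₀, he₁, u, hu⟩ : ∃ e₀ : ℕ, (∀ r : (R : Subgroup Γ), (m (inR r) ^ e₀) ^ 2 = 1) ∧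
      ∃ u : (R : Subgroup Γ), m (inR u) ^ e₀ ≠ 1 := by
    by_cases h : ∀ r : (R : Subgroup Γ), (m (inR r)) ^ 2 = 1
    · obtain ⟨u, hu⟩ := hNon
      exact ⟨1, fun r => by rw [pow_one]; exact h r, u, by rwa [pow_one]⟩
    · push Not at h
      obtain ⟨u, hu⟩ := h
      exact ⟨2, fun r => by rw [← pow_mul]; exact units5_pow_four _, u, hu⟩
  let ϕ : (R : Subgroup Γ) →* (ZMod 5)ˣ := (powMonoidHom e₀).comp (m.comp inR)
  have hϕ : ∀ r, ϕ r = m (inR r) ^ e₀ := fun r => rfl
  have htr := transfer_eq_of_fusion ϕ u (by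
    intro k g₀ h
    rw [← map_pow, hϕ, hϕ]
    exact hF e₀ he₁ (u ^ k) ⟨_, h⟩ g₀ rfl)
  have htriv := hom_trivial_of_perfect ϕ.transfer hperf (u : Γ)
  rw [htr] at htriv
  obtain ⟨d, hd⟩ : ∃ d, (R : Subgroup Γ).index = 2 * d + 1 := by
    have := Nat.odd_iff.2 (Nat.mod_two_ne_zero.1 (fun h => hRodd (Nat.dvd_of_mod_eq_zero h)))
    exact this
  rw [hd, pow_succ, pow_mul, hϕ, he₁ u, one_pow, one_mul] at htriv
  exact hu htriv

end Cfsg.Agent.H17.N21
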