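import Cfsg.Agent.Lib.H17.N22a

/-! # Twenty-two Sylow 3-subgroups: restriction to a perfect normal subgroup -/

set_option autoImplicit false
set_option linter.unusedSectionVars false
set_option linter.style.haveILetI false
set_option linter.unusedSimpArgs false
set_option linter.unusedVariables false

namespace Cfsg.Agent.H17.N22

open Equiv Equiv.Perm MulAction Subgroup

variable {Γ X : Type*} [Group Γ] [MulAction Γ X]

theorem relIndex_dvd_index_of_right_normal [Finite Γ] (H K : Subgroup Γ) [K.Normal] :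
    H.relIndex K ∣ H.index := by
  have h1 : K.relIndex (K ⊔ H) = K.relIndex H := Subgroup.relIndex_sup_left H K
  have hH : (H ⊓ K).relIndex H * Nat.card ↥(H ⊓ K) = Nat.card H := by
    have := Subgroup.relIndex_mul_relIndex (⊥ : Subgroup Γ) (H ⊓ K) H bot_le inf_le_left
    rw [Subgroup.relIndex_bot_left, Subgroup.relIndex_bot_left] at this
    rw [mul_comm]
    exact this
  have hK : (H ⊓ K).relIndex K * Nat.card ↥(H ⊓ K) = Nat.card K := by
    have := Subgroup.relIndex_mul_relIndex (⊥ : Subgroup Γ) (H ⊓ K) K bot_le inf_le_right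
    rw [Subgroup.relIndex_bot_left, Subgroup.relIndex_bot_left] at this
    rw [mul_comm]
    exact this
  rw [Subgroup.inf_relIndex_left] at hH
  rw [Subgroup.inf_relIndex_right] at hK
  have hT1 : H.relIndex (K ⊔ H) * Nat.card H = Nat.card ↥(K ⊔ H) := by
    have := Subgroup.relIndex_mul_relIndex (⊥ : Subgroup Γ) H (K ⊔ H) bot_le le_sup_right
    rw [Subgroup.relIndex_bot_left, Subgroup.relIndex_bot_left] at this
    rw [mul_comm]
    exact this
  have hT2 : K.relIndex (K ⊔ H) * Nat.card K = Nat.card ↥(K ⊔ H) := by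
    have := Subgroup.relIndex_mul_relIndex (⊥ : Subgroup Γ) K (K ⊔ H) bot_le le_sup_left
    rw [Subgroup.relIndex_bot_left, Subgroup.relIndex_bot_left] at this
    rw [mul_comm]
    exact this
  have h2 : H.relIndex (K ⊔ H) = H.relIndex K := by
    have hpos1 : 0 < K.relIndex H := by
      apply Nat.pos_of_ne_zero
      intro h0
      rw [h0, zero_mul] at hH
      exact (Nat.card_pos (α := H)).ne hH
    rw [h1, ← hK] at hT2
    rw [← hH] at hT1
    have h3 := hT1.trans hT2.symm
    have hpos2 : 0 < Nat.card ↥(H ⊓ K) := Nat.card_pos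
    have h4 : H.relIndex (K ⊔ H) * (K.relIndex H * Nat.card ↥(H ⊓ K)) =
        H.relIndex K * (K.relIndex H * Nat.card ↥(H ⊓ K)) := by
      rw [h3]
      ring
    exact Nat.eq_of_mul_eq_mul_right (Nat.mul_pos hpos1 hpos2) h4
  rw [← h2]
  exact ⟨_, (Subgroup.relIndex_mul_index le_sup_right).symm⟩

section main

variable [Finite Γ] [Finite X] [FaithfulSMul Γ X] [IsPretransitive Γ X]

theorem Cfg3.card_inf_normal (C : Cfg3 Γ X) (R : Subgroup Γ) [hR : R.Normal] (b c : X) :
    Nat.card ↥(C.P b ⊓ R) = Nat.card ↥(C.P c ⊓ R) := by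
  obtain ⟨g, rfl⟩ := MulAction.exists_smul_eq Γ b c
  apply Nat.card_congr
  exact
    { toFun := fun k => ⟨g * k * g⁻¹, C.conj g b k k.2.1, hR.conj_mem _ k.2.2 g⟩
      invFun := fun k => ⟨g⁻¹ * k * g, (C.mem_smul_iff g b k).1 k.2.1, by
        have := hR.conj_mem _ k.2.2 g⁻¹
        simpa using this⟩
      left_inv := fun k => Subtype.ext (by simp [mul_assoc])
      right_inv := fun k => Subtype.ext (by simp [mul_assoc]) }

theorem Cfg3.fix_restrict (C : Cfg3 Γ X) (hX : Nat.card X = 22) (R : Subgroup Γ) [hR : R.Normal]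
    (hne : R ≠ ⊥) (b c : X) (h : ∀ k ∈ C.P b ⊓ R, k • c = c) : c = b := by
  by_contra hcb
  have hle : C.P b ⊓ R ≤ C.P c ⊓ R := fun k hk => ⟨C.mem_of_fix hk.1 (h k hk), hk.2⟩
  have heq : C.P b ⊓ R = C.P c ⊓ R :=
    Subgroup.eq_of_le_of_card_ge hle (C.card_inf_normal R c b).le
  let N : X → Subgroup Γ := fun d => C.P d ⊓ R
  have hmem : ∀ (g : Γ) (d : X) (k : Γ), k ∈ N (g • d) ↔ g⁻¹ * k * g ∈ N d := by
    intro g d k
    have h1 : k ∈ R ↔ g⁻¹ * k * g ∈ R := by
      constructor
      · intro hk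
        have := hR.conj_mem _ hk g⁻¹
        simpa using this
      · intro hk
        have := hR.conj_mem _ hk g
        have h2 : g * (g⁻¹ * k * g) * g⁻¹ = k := by group
        rwa [h2] at this
    simp only [N, Subgroup.mem_inf, C.mem_smul_iff, h1]
  have hN : ∀ (g : Γ) (d e : X), N d = N e → N (g • d) = N (g • e) := by
    intro g d e hde
    ext k
    rw [hmem, hmem, hde]
  have hconst := C.block hX N hN (Ne.symm hcb) heq
  have h3 := C.three_dvd_of_normal hX R hne
  obtain ⟨z, hz⟩ := exists_prime_orderOf_dvd_card' (G := R) 3 h3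
  have hz3 : (z : Γ) ^ 3 = 1 := by
    have := pow_orderOf_eq_one z
    rw [hz] at this
    exact congrArg Subtype.val this
  obtain ⟨d, hd⟩ := Cfg3.exists_fix_three hX hz3
  have hzd : (z : Γ) ∈ N d := ⟨C.mem_of_pow_fix (k := 1) (by simpa using hz3) hd, z.2⟩
  have hz1 : (z : Γ) = 1 := by
    apply FaithfulSMul.eq_of_smul_eq_smul (α := X)
    intro e
    rw [one_smul]
    rw [hconst d e] at hzd
    exact C.self_fix e _ hzd.1
  have hz2 : z = 1 := Subtype.ext hz1
  rw [hz2, orderOf_one] at hz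
  omega

/-- Restriction of a configuration to a nontrivial normal subgroup. -/
def Cfg3.restrict (C : Cfg3 Γ X) (hX : Nat.card X = 22) (R : Subgroup Γ) [hR : R.Normal]
    (hne : R ≠ ⊥) : Cfg3 R X where
  P := fun b => (C.P b).subgroupOf R
  pgrp := fun b g => by
    obtain ⟨k, hk⟩ := C.pow_of_mem (Subgroup.mem_subgroupOf.1 g.2)
    exact ⟨k, Subtype.ext (Subtype.ext hk)⟩
  conj := fun g b h hh => by
    rw [Subgroup.mem_subgroupOf] at hh ⊢
    exact C.conj g b h hh
  self_fix := fun b h hh => by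
    rw [Subgroup.mem_subgroupOf] at hh
    exact C.self_fix b h hh
  fix := fun b c hc => by
    apply C.fix_restrict hX R hne
    intro k hk
    exact hc ⟨k, hk.2⟩ (by rw [Subgroup.mem_subgroupOf]; exact hk.1)
  syl := fun b h => C.syl b (h.trans (relIndex_dvd_index_of_right_normal (C.P b) R))

/-- There is a nontrivial perfect normal subgroup. -/
theorem Cfg3.exists_perfect (C : Cfg3 Γ X) (hX : Nat.card X = 22) :
    ∃ A : Subgroup Γ, A.Normal ∧ A ≠ ⊥ ∧ commutator A = ⊤ := by
  obtain ⟨a⟩ := Cfg3.nonempty_of_card hX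
  have htop : (⊤ : Subgroup Γ) ≠ ⊥ := by
    intro h
    have h1 : ∀ g : Γ, g = 1 := fun g => by
      have : g ∈ (⊥ : Subgroup Γ) := h ▸ Subgroup.mem_top g
      exact this
    have hnt : Nontrivial X := by
      rw [← Finite.one_lt_card_iff_nontrivial, hX]
      norm_num
    obtain ⟨c, hc⟩ := exists_ne a
    obtain ⟨g, hg⟩ := MulAction.exists_smul_eq Γ a c
    apply hc
    rw [← hg, h1 g, one_smul]
  let T : Set (Subgroup Γ) := {H | (∃ n, H = derivedSeries Γ n) ∧ H ≠ ⊥}
  have hT : T.Nonempty := ⟨⊤, ⟨0, rfl⟩, htop⟩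
  obtain ⟨A, hAmin⟩ := (Set.toFinite T).exists_minimal hT
  obtain ⟨⟨n, rfl⟩, hA⟩ := hAmin.1
  set A := derivedSeries Γ n with hAdef
  haveI hAn : A.Normal := derivedSeries_normal Γ n
  have hsucc : derivedSeries Γ (n + 1) = ⁅A, A⁆ := derivedSeries_succ Γ n
  have hle : ⁅A, A⁆ ≤ A := Subgroup.commutator_le_self A
  by_cases hbot : ⁅A, A⁆ = ⊥
  · exfalso
    haveI trans := C.transitive_of_normal hX A hA
    rw [Subgroup.commutator_eq_bot_iff_le_centralizer] at hbot
    have hstab : stabilizer A a = ⊥ := by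
      rw [eq_bot_iff]
      intro t ht
      rw [Subgroup.mem_bot]
      apply Subtype.ext
      apply FaithfulSMul.eq_of_smul_eq_smul (α := X)
      intro c
      obtain ⟨s, rfl⟩ := MulAction.exists_smul_eq A a c
      have ht' : ((t : A) : Γ) • a = a := ht
      have h1 : ((t : A) : Γ) * s = s * t := by
        have := Subgroup.mem_centralizer_iff.1 (hbot s.2) t t.2
        exact this
      change ((t : A) : Γ) • ((s : Γ) • a) = (1 : Γ) • (s : Γ) • a
      rw [← mul_smul, h1, mul_smul, ht', one_smul]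
    have h1 : (stabilizer A a).index = 22 := by
      rw [← hX]
      exact index_stabilizer_of_transitive A a
    rw [hstab, Subgroup.index_bot] at h1
    have h3 := C.three_dvd_of_normal hX A hA
    rw [h1] at h3
    omega
  · refine ⟨A, hAn, hA, ?_⟩
    have hmem : ⁅A, A⁆ ∈ T := ⟨⟨n + 1, hsucc.symm⟩, hbot⟩
    have hTeq : ⁅A, A⁆ = A := le_antisymm hle (hAmin.2 hmem hle)
    apply Subgroup.map_injective A.subtype_injective
    rw [Subgroup.map_subtype_commutator, hTeq]
    rw [← MonoidHom.range_eq_map, Subgroup.range_subtype]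

end main

end Cfsg.Agent.H17.N22
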