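import Cfsg.Agent.Lib.H17.N22b
import Cfsg.Agent.Lib.H17.N21d

/-! # Twenty-two Sylow 3-subgroups: the normaliser of a Sylow 11-subgroup -/

set_option autoImplicit false
set_option linter.unusedSectionVars false
set_option linter.style.haveILetI false
set_option linter.unusedSimpArgs false
set_option linter.unusedVariables false

namespace Cfsg.Agent.H17.N22

open Equiv Equiv.Perm MulAction Subgroup
open Cfsg.Agent.H17.N21 (hom_trivial_of_perfect eq_one_of_pow_coprime)

variable {Γ X : Type*} [Group Γ] [MulAction Γ X]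

/-- The multiplier homomorphism, for any prime. -/
theorem exists_mult_hom' {p : ℕ} [hp : Fact p.Prime] {x : Γ} (hx : orderOf x = p) {S : Type*} [Group S]
    (up : S →* Γ) (hn : ∀ t : S, up t * x * (up t)⁻¹ ∈ zpowers x) :
    ∃ m : S →* (ZMod p)ˣ, ∀ t : S, up t * x * (up t)⁻¹ = x ^ (((m t : (ZMod p)ˣ) : ZMod p)).val := by
  classical
  have hfin : IsOfFinOrder x := by
    rw [← orderOf_pos_iff, hx]
    exact hp.out.pos
  have h1 : ∀ t : S, ∃ j : ZMod p, up t * x * (up t)⁻¹ = x ^ j.val := by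
    intro t
    have h2 := hn t
    rw [← hfin.mem_powers_iff_mem_zpowers] at h2
    obtain ⟨n, hn2⟩ := h2
    have hn3 : x ^ n = up t * x * (up t)⁻¹ := hn2
    refine ⟨(n : ZMod p), ?_⟩
    rw [← hn3, ZMod.val_natCast, ← pow_mod_orderOf x n, hx]
  choose j hj using h1
  have huniq : ∀ a b : ZMod p, x ^ a.val = x ^ b.val → a = b := by
    intro a b h
    rw [pow_inj_mod, hx] at h
    have ha := ZMod.val_lt a
    have hb := ZMod.val_lt b
    rw [Nat.mod_eq_of_lt ha, Nat.mod_eq_of_lt hb] at h
    exact ZMod.val_injective p h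
  have hpowmul : ∀ a b : ZMod p, (x ^ a.val) ^ b.val = x ^ (a * b).val := by
    intro a b
    rw [← pow_mul, ZMod.val_mul, ← pow_mod_orderOf x (a.val * b.val), hx]
  let f : S →* ZMod p :=
    { toFun := j
      map_one' := by
        apply huniq
        rw [← hj, ZMod.val_one]
        simp
      map_mul' := by
        intro u v
        apply huniq
        rw [← hj, ← hpowmul, ← hj u, conj_pow, ← hj v]
        simp only [map_mul, mul_inv_rev]
        group }
  refine ⟨f.toHomUnits, fun u => ?_⟩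
  have : (((f.toHomUnits u : (ZMod p)ˣ) : ZMod p)) = j u := by
    simp [f]
  rw [this]
  exact hj u

/-- Burnside's transfer theorem for perfect groups. -/
theorem no_burnside {p : ℕ} [Fact p.Prime] [Finite Γ] (hperf : commutator Γ = ⊤) (S : Sylow p Γ)
    (hnorm : Subgroup.normalizer ((S : Subgroup Γ) : Set Γ) ≤ centralizer ((S : Subgroup Γ) : Set Γ))
    {z : Γ} (hz : z ∈ (S : Subgroup Γ)) : z = 1 := by
  let f := MonoidHom.transferSylow S hnorm
  have hf1 : f z = ⟨z ^ (S : Subgroup Γ).index, _⟩ := MonoidHom.transferSylow_eq_pow S hnorm z hz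
  have hScomm : ∀ a b : (S : Subgroup Γ), a * b = b * a := by
    intro a b
    apply Subtype.ext
    have h1 : (a : Γ) ∈ centralizer ((S : Subgroup Γ) : Set Γ) :=
      hnorm (Subgroup.le_normalizer a.2)
    exact (Subgroup.mem_centralizer_iff.1 h1 b b.2).symm
  have hfk : commutator Γ ≤ f.ker := by
    rw [_root_.commutator_def, Subgroup.commutator_le]
    intro a _ b _
    rw [MonoidHom.mem_ker, commutatorElement_def, map_mul, map_mul, map_mul, map_inv, map_inv,
      hScomm (f a) (f b)]
    group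
  rw [hperf] at hfk
  have hfz : f z = 1 := hfk (Subgroup.mem_top z)
  rw [hf1] at hfz
  have h2 : z ^ (S : Subgroup Γ).index = 1 := congrArg Subtype.val hfz
  obtain ⟨k, hk⟩ := S.2 ⟨z, hz⟩
  have h3 : z ^ p ^ k = 1 := congrArg Subtype.val hk
  refine eq_one_of_pow_coprime h2 h3 ?_
  exact Nat.Coprime.pow_right k ((Nat.Prime.coprime_iff_not_dvd Fact.out).2 S.not_dvd_index).symm

/-- The normaliser of the cyclic subgroup generated by an element. -/
abbrev Nm (y : Γ) : Subgroup Γ := Subgroup.normalizer ((zpowers y : Subgroup Γ) : Set Γ)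

/-- `u` has exactly two fixed points. -/
def Exact2 (X : Type*) [MulAction Γ X] (u : Γ) : Prop :=
  ∃ a a' : X, a ≠ a' ∧ u • a = a ∧ u • a' = a' ∧ ∀ d : X, u • d = d → d = a ∨ d = a'

theorem perm2_even : ∀ τ : Perm (Fin 2), sign τ = 1 → τ = 1 := by decide

section main

variable [Finite Γ] [Finite X] [FaithfulSMul Γ X] [IsPretransitive Γ X]

theorem Cfg3.card_eleven_le (C : Cfg3 Γ X) (hX : Nat.card X = 22) (S : Subgroup Γ)
    (hS : IsPGroup 11 S) : Nat.card S ≤ 11 := by
  obtain ⟨a⟩ := Cfg3.nonempty_of_card hX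
  have hpow : ∀ q : S, ∃ k, (q : Γ) ^ 11 ^ k = 1 := by
    intro q
    obtain ⟨k, hk⟩ := hS q
    exact ⟨k, congrArg Subtype.val hk⟩
  have hinj : Function.Injective (fun q : S => (q : Γ) • a) := by
    intro q r hqr
    have h1 : ((q⁻¹ * r : S) : Γ) • a = a := by
      have h2 : (q : Γ) • a = (r : Γ) • a := hqr
      simp only [Subgroup.coe_mul, InvMemClass.coe_inv, mul_smul]
      rw [inv_smul_eq_iff, h2]
    obtain ⟨k, hk⟩ := hpow (q⁻¹ * r)
    have h3 := C.no_eleven_pow_fix hX hk h1
    have h4 : q⁻¹ * r = 1 := Subtype.ext h3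
    exact (inv_mul_eq_one.1 h4)
  have hle : Nat.card S ≤ 22 := by
    rw [← hX]
    exact Nat.card_le_card_of_injective _ hinj
  obtain ⟨n, hn⟩ := IsPGroup.iff_card.1 hS
  rw [hn] at hle ⊢
  have hn2 : n < 2 := by
    by_contra hc
    push Not at hc
    have : 11 ^ 2 ≤ 11 ^ n := Nat.pow_le_pow_right (by norm_num) hc
    omega
  interval_cases n <;> norm_num

theorem Cfg3.exists_eleven (C : Cfg3 Γ X) (hX : Nat.card X = 22) : ∃ y : Γ, orderOf y = 11 := by
  obtain ⟨a⟩ := Cfg3.nonempty_of_card hX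
  have h1 : (stabilizer Γ a).index = 22 := by
    rw [← hX]
    exact index_stabilizer_of_transitive Γ a
  have h2 : 11 ∣ Nat.card Γ := by
    have := Subgroup.index_dvd_card (stabilizer Γ a)
    rw [h1] at this
    exact (by norm_num : 11 ∣ 22).trans this
  exact exists_prime_orderOf_dvd_card' 11 h2

theorem Cfg3.sylow_eleven (C : Cfg3 Γ X) (hX : Nat.card X = 22) {y : Γ} (hy : orderOf y = 11) :
    ∃ S : Sylow 11 Γ, (S : Subgroup Γ) = zpowers y := by
  have hcy : Nat.card (zpowers y) = 11 := by rw [Nat.card_zpowers, hy]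
  have hpy : IsPGroup 11 (zpowers y) := IsPGroup.of_card (n := 1) (by rw [hcy]; norm_num)
  obtain ⟨S, hS⟩ := hpy.exists_le_sylow
  refine ⟨S, ?_⟩
  apply (Subgroup.eq_of_le_of_card_ge hS ?_).symm
  rw [hcy]
  exact C.card_eleven_le hX _ S.2

theorem Cfg3.exists_labeling (C : Cfg3 Γ X) (hX : Nat.card X = 22) {y : Γ} (hy : orderOf y = 11) :
    ∃ E : Fin 2 × ZMod 11 ≃ X, ∀ i j, E (i, j + 1) = y • E (i, j) := by
  have hy1 : y ≠ 1 := by
    rintro rfl
    simp at hy
  have h11 : y ^ 11 = 1 := by rw [← hy]; exact pow_orderOf_eq_one y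
  let f : Perm X := MulAction.toPermHom Γ X y
  have hf : f ^ 11 = 1 := by
    simp only [f]
    rw [← map_pow, h11, map_one]
  have hfree : ∀ z, f z ≠ z := fun z hz => hy1 (C.no_eleven_fix hX h11 hz)
  obtain ⟨E, hE⟩ := Lab2.exists_labeling (p := 11) (r := 2) f hf hfree (by rw [hX])
  exact ⟨E, hE⟩

/-- Elements of the normaliser act affinely on the labels, preserving the two `y`-orbits. -/
theorem Cfg3.affine (C : Cfg3 Γ X) (hX : Nat.card X = 22) (hperf : commutator Γ = ⊤) {y : Γ}
    (hy : orderOf y = 11) (E : Fin 2 × ZMod 11 ≃ X) (hE : ∀ i j, E (i, j + 1) = y • E (i, j)) :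
    ∃ (m : Nm y →* (ZMod 11)ˣ) (c : Nm y → Fin 2 → ZMod 11),
      (∀ t : Nm y, (t : Γ) * y * (t : Γ)⁻¹ = y ^ (((m t : (ZMod 11)ˣ) : ZMod 11)).val) ∧
      ∀ (t : Nm y) i j, (t : Γ) • E (i, j) = E (i, ((m t : (ZMod 11)ˣ) : ZMod 11) * j + c t i) := by
  classical
  have : Fintype X := Fintype.ofFinite X
  let N := Nm y
  obtain ⟨m, hm⟩ := exists_mult_hom' hy N.subtype (fun t =>
    (Subgroup.mem_normalizer_iff.1 t.2 y).1 (mem_zpowers y))
  let f : Perm X := MulAction.toPermHom Γ X y
  have hE' : ∀ i j, E (i, j + 1) = f (E (i, j)) := hE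
  let ρ : N →* Perm X := (MulAction.toPermHom Γ X).comp N.subtype
  let mm : N → ZMod 11 := fun t => ((m t : (ZMod 11)ˣ) : ZMod 11)
  have hm0 : ∀ t, mm t ≠ 0 := fun t => Units.ne_zero _
  have hc : ∀ t, ρ t * f * (ρ t)⁻¹ = f ^ (mm t).val := by
    intro t
    simp only [ρ, f, MonoidHom.comp_apply]
    rw [← map_inv, ← map_mul, ← map_mul, ← map_pow]
    congr 1
    exact hm t
  obtain ⟨ψ, hψ1, hψ2⟩ := Lab2.exists_tau_hom (by norm_num) E f hE' ρ mm hm0 hc
  have hψ : ∀ t, ψ t = 1 := by
    intro t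
    apply perm2_even
    have h1 := hψ2 t
    have h2 : sign (ρ t) = 1 :=
      hom_trivial_of_perfect (sign.comp (MulAction.toPermHom Γ X)) hperf (t : Γ)
    rw [h2, Int.units_sq, mul_one] at h1
    exact h1.symm
  refine ⟨m, fun t i => (E.symm.permCongr (ρ t) (i, 0)).2, hm, ?_⟩
  intro t i j
  have hstep := Lab2.conj_step E f hE' (ρ t) (mm t) (hc t)
  have hform := Lab2.affine_form (E.symm.permCongr (ρ t)) (mm t) hstep i j
  have h1 : (E.symm.permCongr (ρ t) (i, 0)).1 = i := by
    have := hψ1 t i 0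
    rw [hψ t] at this
    simpa [Equiv.permCongr_apply] using this
  rw [h1] at hform
  have h2 : ρ t (E (i, j)) = E (i, mm t * j + (E.symm.permCongr (ρ t) (i, 0)).2) := by
    rw [← hform]
    simp [Equiv.permCongr_apply]
  exact h2


/-- The structure of the normaliser of a Sylow 11-subgroup. -/
theorem Cfg3.T2 (C : Cfg3 Γ X) (hX : Nat.card X = 22) (hperf : commutator Γ = ⊤) {y : Γ}
    (hy : orderOf y = 11) (E : Fin 2 × ZMod 11 ≃ X) (hE : ∀ i j, E (i, j + 1) = y • E (i, j)) :
    ∃ f : ℕ, f ∣ 10 ∧ f ≠ 1 ∧ Nat.card (Nm y) = 11 * f ∧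
      ∀ ℓ : ℕ, ℓ.Prime → ℓ ∣ f → ∃ u ∈ Nm y, orderOf u = ℓ ∧ Exact2 X u ∧
        ∃ k : ZMod 11, k ≠ 1 ∧ u * y * u⁻¹ = y ^ k.val := by
  classical
  obtain ⟨m, c, hm, haff⟩ := C.affine hX hperf hy E hE
  have h11 : y ^ 11 = 1 := by rw [← hy]; exact pow_orderOf_eq_one y
  have hy1 : y ≠ 1 := by
    rintro rfl
    simp at hy
  have hval1 : ((1 : (ZMod 11)ˣ) : ZMod 11).val = 1 := by decide
  have huniq : ∀ a b : ZMod 11, y ^ a.val = y ^ b.val → a = b := by
    intro a b h
    rw [pow_inj_mod, hy] at h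
    have ha := ZMod.val_lt a
    have hb := ZMod.val_lt b
    rw [Nat.mod_eq_of_lt ha, Nat.mod_eq_of_lt hb] at h
    exact ZMod.val_injective 11 h
  have hEpow : ∀ (i : Fin 2) (j : ZMod 11) (n : ℕ), E (i, j + n) = y ^ n • E (i, j) := by
    intro i j n
    induction n with
    | zero => simp
    | succ n ih =>
      have h1 : j + ((n + 1 : ℕ) : ZMod 11) = (j + n) + 1 := by push_cast; ring
      rw [h1, hE, ih, pow_succ', mul_smul]
  have hkerQ : ∀ t : Nm y, m t = 1 ↔ (t : Γ) ∈ zpowers y := by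
    intro t
    constructor
    · intro ht
      have haff1 : ∀ i j, (t : Γ) • E (i, j) = E (i, j + c t i) := by
        intro i j
        rw [haff, ht]
        simp
      have hcomm : (t : Γ) * y = y * t := by
        have h1 := hm t
        rw [ht, hval1, pow_one] at h1
        calc (t : Γ) * y = ((t : Γ) * y * (t : Γ)⁻¹) * t := by group
          _ = y * t := by rw [h1]
      have hpow : ∀ (n : ℕ) (i : Fin 2) (j : ZMod 11),
          ((t : Γ) ^ n) • E (i, j) = E (i, j + n * c t i) := by
        intro n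
        induction n with
        | zero => intro i j; simp
        | succ n ih =>
          intro i j
          rw [pow_succ, mul_smul, haff1, ih]
          congr 2
          push_cast
          ring
      have ht11 : (t : Γ) ^ 11 = 1 := by
        apply FaithfulSMul.eq_of_smul_eq_smul (α := X)
        intro d
        obtain ⟨⟨i, j⟩, rfl⟩ := E.surjective d
        rw [hpow, one_smul]
        have h0 : ((11 : ℕ) : ZMod 11) = 0 := by decide
        rw [h0]
        simp
      let k : ZMod 11 := c t 0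
      have hv1 : ((y ^ k.val)⁻¹ * t) • E (0, 0) = E (0, 0) := by
        rw [mul_smul, inv_smul_eq_iff, haff1, zero_add, ← hEpow, ZMod.natCast_zmod_val, zero_add]
      have hcomm2 : Commute (y ^ k.val)⁻¹ (t : Γ) := by
        have h1 : Commute y (t : Γ) := hcomm.symm
        exact (h1.pow_left k.val).inv_left
      have hv11 : ((y ^ k.val)⁻¹ * t) ^ 11 = 1 := by
        rw [hcomm2.mul_pow, ht11, mul_one, inv_pow, ← pow_mul, mul_comm, pow_mul, h11]
        simp
      have hv := C.no_eleven_fix hX hv11 hv1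
      have ht2 : (t : Γ) = y ^ k.val := by
        rw [inv_mul_eq_one] at hv
        exact hv.symm
      rw [ht2]
      exact Subgroup.pow_mem _ (mem_zpowers y) _
    · intro ht
      obtain ⟨n, hn⟩ := ht
      have h1 : (t : Γ) * y * (t : Γ)⁻¹ = y := by
        rw [← hn]
        have h2 : Commute (y ^ n) y := (Commute.refl y).zpow_left n
        rw [h2.eq]
        group
      have h2 := hm t
      rw [h1] at h2
      apply Units.ext
      apply huniq
      rw [← h2, hval1, pow_one]
  have hker : Nat.card m.ker = 11 := by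
    have hcy : Nat.card (zpowers y) = 11 := by rw [Nat.card_zpowers, hy]
    refine Eq.trans ?_ hcy
    apply Nat.card_congr
    exact
      { toFun := fun t => ⟨((t : Nm y) : Γ), (hkerQ _).1 t.2⟩
        invFun := fun z => ⟨⟨z, Subgroup.le_normalizer z.2⟩, (hkerQ _).2 z.2⟩
        left_inv := fun t => rfl
        right_inv := fun z => rfl }
  have hcardN : Nat.card (Nm y) = 11 * Nat.card m.range := by
    have h1 := Subgroup.card_mul_index m.ker
    rw [hker, Subgroup.index_ker] at h1
    exact h1.symm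
  have hdvd : Nat.card m.range ∣ 10 := by
    have h3 : Nat.card m.range ∣ Nat.card (ZMod 11)ˣ := Subgroup.card_subgroup_dvd_card _
    have h4 : Nat.card (ZMod 11)ˣ = 10 := by
      rw [Nat.card_eq_fintype_card, ZMod.card_units 11]
    rwa [h4] at h3
  refine ⟨Nat.card m.range, hdvd, ?_, hcardN, ?_⟩
  · intro hf1
    obtain ⟨S, hS⟩ := C.sylow_eleven hX hy
    have hmtriv : ∀ t : Nm y, m t = 1 := by
      intro t
      have h1 : m t ∈ m.range := ⟨t, rfl⟩
      have h2 : (1 : (ZMod 11)ˣ) ∈ m.range := m.range.one_mem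
      have h3 : Subsingleton m.range := (Nat.card_eq_one_iff_unique.1 hf1).1
      have h4 : (⟨m t, h1⟩ : m.range) = ⟨1, h2⟩ := Subsingleton.elim _ _
      exact congrArg Subtype.val h4
    apply hy1
    apply no_burnside hperf S _ (z := y) (by rw [hS]; exact mem_zpowers y)
    rw [hS]
    intro g hg
    have hg' := (hkerQ ⟨g, hg⟩).1 (hmtriv _)
    have h1 := hm ⟨g, hg⟩
    rw [hmtriv, hval1, pow_one] at h1
    rw [Subgroup.mem_centralizer_iff]
    intro h hh
    obtain ⟨n, rfl⟩ := hh
    have hcomm : Commute g y := by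
      rw [commute_iff_eq]
      calc g * y = g * y * g⁻¹ * g := by group
        _ = y * g := by rw [h1]
    exact (hcomm.zpow_right n).eq.symm
  · intro ℓ hℓ hℓf
    haveI : Fact ℓ.Prime := ⟨hℓ⟩
    have hℓN : ℓ ∣ Nat.card (Nm y) := by
      rw [hcardN]
      exact hℓf.mul_left _
    obtain ⟨u, hu⟩ := exists_prime_orderOf_dvd_card' (G := Nm y) ℓ hℓN
    have hℓ11 : ℓ ≠ 11 := by
      rintro rfl
      have := hℓf.trans hdvd
      omega
    have huℓ : (u : Γ) ^ ℓ = 1 := by
      have := pow_orderOf_eq_one u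
      rw [hu] at this
      exact congrArg Subtype.val this
    have hmu : m u ≠ 1 := by
      intro h1
      have h2 := (hkerQ u).1 h1
      obtain ⟨n, hn⟩ := h2
      have h3 : (u : Γ) ^ 11 = 1 := by
        rw [← hn, ← zpow_natCast, ← zpow_mul, mul_comm, zpow_mul, zpow_natCast, h11, one_zpow]
      have h4 := eq_one_of_pow_coprime huℓ h3
        ((Nat.coprime_primes hℓ (by norm_num)).2 hℓ11)
      have h5 : u = 1 := Subtype.ext h4
      rw [h5, orderOf_one] at hu
      exact hℓ.one_lt.ne hu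
    let v : ZMod 11 := ((m u : (ZMod 11)ˣ) : ZMod 11)
    have hv1 : v ≠ 1 := fun h => hmu (Units.ext h)
    have hv2 : v - 1 ≠ 0 := sub_ne_zero.2 hv1
    refine ⟨u, u.2, by rwa [Subgroup.orderOf_coe], ?_, v, hv1, hm u⟩
    let s : Fin 2 → ZMod 11 := fun i => (-(c u i)) * (v - 1)⁻¹
    have hs : ∀ i j, v * j + c u i = j ↔ j = s i := by
      intro i j
      have h1 : v * j + c u i - j = (v - 1) * (j - s i) := by
        simp only [s]
        field_simp
        ring
      constructor
      · intro h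
        have h2 : (v - 1) * (j - s i) = 0 := by
          rw [← h1, h, sub_self]
        have h3 := (mul_eq_zero.1 h2).resolve_left hv2
        exact sub_eq_zero.1 h3
      · intro h
        have h2 : v * j + c u i - j = 0 := by
          rw [h1, h, sub_self, mul_zero]
        exact sub_eq_zero.1 h2
    refine ⟨E (0, s 0), E (1, s 1), ?_, ?_, ?_, ?_⟩
    · intro h
      have := E.injective h
      simp at this
    · rw [haff]
      congr 2
      exact (hs 0 _).2 rfl
    · rw [haff]
      congr 2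
      exact (hs 1 _).2 rfl
    · intro d hd
      obtain ⟨⟨i, j⟩, rfl⟩ := E.surjective d
      rw [haff] at hd
      have h1 := E.injective hd
      have h2 : v * j + c u i = j := by
        simpa using h1
      have h3 := (hs i j).1 h2
      subst h3
      fin_cases i
      · left; rfl
      · right; rfl

end main

end Cfsg.Agent.H17.N22
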