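import Cfsg.Agent.Lib.H17.N22c

/-! # Twenty-two Sylow 3-subgroups: lines -/

set_option autoImplicit false
set_option linter.unusedSectionVars false
set_option linter.style.haveILetI false
set_option linter.unusedSimpArgs false
set_option linter.unusedVariables false

namespace Cfsg.Agent.H17.N22

open Equiv Equiv.Perm MulAction Subgroup

variable {Γ X : Type*} [Group Γ] [MulAction Γ X]

/-- Conjugate of a subgroup. -/
noncomputable def cj (g : Γ) (D : Subgroup Γ) : Subgroup Γ := D.map (MulAut.conj g).toMonoidHom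

theorem mem_cj (g : Γ) (D : Subgroup Γ) (k : Γ) : k ∈ cj g D ↔ g⁻¹ * k * g ∈ D := by
  simp only [cj]
  rw [Subgroup.mem_map_equiv]
  simp [MulAut.conj_symm_apply]

theorem cj_inv_cj (g : Γ) (D : Subgroup Γ) : cj g⁻¹ (cj g D) = D := by
  ext k
  rw [mem_cj, mem_cj]
  simp [mul_assoc]

theorem cj_cj_inv (g : Γ) (D : Subgroup Γ) : cj g (cj g⁻¹ D) = D := by
  have := cj_inv_cj g⁻¹ D
  rwa [inv_inv] at this

theorem card_cj (g : Γ) (D : Subgroup Γ) : Nat.card (cj g D) = Nat.card D :=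
  Subgroup.card_map_of_injective (MulAut.conj g).injective

theorem Cfg3.cj_le_iff (C : Cfg3 Γ X) (g : Γ) (D : Subgroup Γ) (b : X) :
    cj g D ≤ C.P (g • b) ↔ D ≤ C.P b := by
  constructor
  · intro h k hk
    have h1 : g * k * g⁻¹ ∈ cj g D := by
      rw [mem_cj]
      simpa [mul_assoc] using hk
    have h2 := (C.mem_smul_iff g b _).1 (h h1)
    simpa [mul_assoc] using h2
  · intro h k hk
    rw [mem_cj] at hk
    exact (C.mem_smul_iff g b _).2 (h hk)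

theorem Cfg3.cj_inf (C : Cfg3 Γ X) (g : Γ) (a c : X) :
    cj g (C.P a ⊓ C.P c) = C.P (g • a) ⊓ C.P (g • c) := by
  ext k
  rw [mem_cj]
  simp only [Subgroup.mem_inf, C.mem_smul_iff]

section main

variable [Finite Γ] [Fintype X] [FaithfulSMul Γ X] [IsPretransitive Γ X]

theorem Cfg3.card_inf_smul (C : Cfg3 Γ X) (g : Γ) (a c : X) :
    Nat.card ↥(C.P (g • a) ⊓ C.P (g • c)) = Nat.card ↥(C.P a ⊓ C.P c) := by
  rw [← C.cj_inf, card_cj]

theorem Cfg3.q_pos (C : Cfg3 Γ X) {q : ℕ} (hq : ∀ b, Nat.card (C.P b) = q) (a : X) : 0 < q := by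
  rw [← hq a]
  exact Nat.card_pos

theorem Cfg3.inf_cases (C : Cfg3 Γ X) (hX : Nat.card X = 22) {q : ℕ}
    (hq : ∀ b, Nat.card (C.P b) = q) (a : X) {c : X} (hc : c ≠ a) :
    3 * Nat.card ↥(C.P a ⊓ C.P c) = q ∨ 9 * Nat.card ↥(C.P a ⊓ C.P c) = q := by
  have h := C.orbit_mul a c
  rw [hq] at h
  rcases C.orbit_cases hX a hc with h1 | h1
  · left; rwa [h1] at h
  · right; rwa [h1] at h

/-- Adjacency: the intersection has index three. -/
def Cfg3.Adj (C : Cfg3 Γ X) (q : ℕ) (a c : X) : Prop :=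
  c ≠ a ∧ 3 * Nat.card ↥(C.P a ⊓ C.P c) = q

/-- The intersection has index nine. -/
def Cfg3.Far (C : Cfg3 Γ X) (q : ℕ) (a c : X) : Prop :=
  c ≠ a ∧ 9 * Nat.card ↥(C.P a ⊓ C.P c) = q

theorem Cfg3.Adj.symm {C : Cfg3 Γ X} {q : ℕ} {a c : X} (h : C.Adj q a c) : C.Adj q c a := by
  refine ⟨h.1.symm, ?_⟩
  rw [inf_comm]
  exact h.2

theorem Cfg3.adj_smul (C : Cfg3 Γ X) (q : ℕ) (g : Γ) (a c : X) :
    C.Adj q (g • a) (g • c) ↔ C.Adj q a c := by
  simp only [Cfg3.Adj, C.card_inf_smul]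
  constructor
  · rintro ⟨h1, h2⟩
    exact ⟨fun h => h1 (by rw [h]), h2⟩
  · rintro ⟨h1, h2⟩
    exact ⟨fun h => h1 (MulAction.injective g h), h2⟩

theorem Cfg3.far_smul (C : Cfg3 Γ X) (q : ℕ) (g : Γ) (a c : X) :
    C.Far q (g • a) (g • c) ↔ C.Far q a c := by
  simp only [Cfg3.Far, C.card_inf_smul]
  constructor
  · rintro ⟨h1, h2⟩
    exact ⟨fun h => h1 (by rw [h]), h2⟩
  · rintro ⟨h1, h2⟩
    exact ⟨fun h => h1 (MulAction.injective g h), h2⟩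

theorem Cfg3.adj_or_far (C : Cfg3 Γ X) (hX : Nat.card X = 22) {q : ℕ}
    (hq : ∀ b, Nat.card (C.P b) = q) (a : X) {c : X} (hc : c ≠ a) :
    C.Adj q a c ∨ C.Far q a c := by
  rcases C.inf_cases hX hq a hc with h | h
  · exact Or.inl ⟨hc, h⟩
  · exact Or.inr ⟨hc, h⟩

/-- Index three subgroups of `P a` are normal. -/
theorem Cfg3.inf_normal (C : Cfg3 Γ X) {q : ℕ} (hq : ∀ b, Nat.card (C.P b) = q) {a c : X}
    (h3 : 3 * Nat.card ↥(C.P a ⊓ C.P c) = q) {z k : Γ} (hz : z ∈ C.P a) (hk : k ∈ C.P a ⊓ C.P c) :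
    z * k * z⁻¹ ∈ C.P a ⊓ C.P c := by
  let H := (C.P c).subgroupOf (C.P a)
  have h1 : Nat.card H = Nat.card ↥(C.P a ⊓ C.P c) := Nat.card_congr
    ⟨fun x => ⟨x.1.1, x.1.2, x.2⟩, fun y => ⟨⟨y.1, y.2.1⟩, y.2.2⟩, fun _ => rfl, fun _ => rfl⟩
  have h2 := Subgroup.card_mul_index H
  rw [h1, hq a, ← h3] at h2
  have hpos : 0 < Nat.card ↥(C.P a ⊓ C.P c) := Nat.card_pos
  have h5 : H.index = 3 := by
    have : Nat.card ↥(C.P a ⊓ C.P c) * H.index = Nat.card ↥(C.P a ⊓ C.P c) * 3 := by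
      rw [h2]; ring
    exact Nat.eq_of_mul_eq_mul_left hpos this
  have hnorm : H.Normal := by
    apply Subgroup.normal_of_index_eq_minFac_card
    rw [h5]
    obtain ⟨n, hn⟩ := IsPGroup.iff_card.1 (C.pgrp a)
    have hn0 : n ≠ 0 := by
      rintro rfl
      rw [hq a] at hn
      have : 3 * Nat.card ↥(C.P a ⊓ C.P c) = 1 := by rw [h3, hn, pow_zero]
      omega
    rw [hn, Nat.Prime.pow_minFac (by norm_num) hn0]
  have h6 := hnorm.conj_mem ⟨k, hk.1⟩ (by rw [Subgroup.mem_subgroupOf]; exact hk.2) ⟨z, hz⟩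
  rw [Subgroup.mem_subgroupOf] at h6
  exact ⟨(C.P a).mul_mem ((C.P a).mul_mem hz hk.1) ((C.P a).inv_mem hz), h6⟩

/-- Two points determine the subgroup of a line. -/
theorem Cfg3.two_points (C : Cfg3 Γ X) (hX : Nat.card X = 22) {q : ℕ}
    (hq : ∀ b, Nat.card (C.P b) = q) {D : Subgroup Γ} (hD : 3 * Nat.card D = q) {d e : X} (hde : e ≠ d)
    (h1 : D ≤ C.P d) (h2 : D ≤ C.P e) : D = C.P d ⊓ C.P e := by
  have hle : D ≤ C.P d ⊓ C.P e := le_inf h1 h2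
  have hcard : Nat.card D ≤ Nat.card ↥(C.P d ⊓ C.P e) := Subgroup.card_le_of_le hle
  have hpos : 0 < Nat.card ↥(C.P d ⊓ C.P e) := Nat.card_pos
  apply Subgroup.eq_of_le_of_card_ge hle
  rcases C.inf_cases hX hq d hde with h | h <;> omega

open Classical in
/-- The fixed points of a subgroup, i.e. the line of the subgroup. -/
noncomputable def Cfg3.Fx (C : Cfg3 Γ X) (D : Subgroup Γ) : Finset X :=
  Finset.univ.filter (fun d => D ≤ C.P d)

theorem Cfg3.mem_Fx (C : Cfg3 Γ X) (D : Subgroup Γ) (d : X) : d ∈ C.Fx D ↔ D ≤ C.P d := by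
  simp [Cfg3.Fx]

/-- The subgroup of a line. -/
def Cfg3.IsL (C : Cfg3 Γ X) (q : ℕ) (D : Subgroup Γ) : Prop :=
  3 * Nat.card D = q ∧ ∃ e f : X, e ≠ f ∧ D ≤ C.P e ∧ D ≤ C.P f

theorem Cfg3.IsL.exists_other {C : Cfg3 Γ X} {q : ℕ} {D : Subgroup Γ} (h : C.IsL q D) (a : X) :
    ∃ c, c ≠ a ∧ D ≤ C.P c := by
  obtain ⟨-, e, f, hef, he, hf⟩ := h
  by_cases hea : e = a
  · refine ⟨f, ?_, hf⟩
    rintro rfl
    exact hef hea
  · exact ⟨e, hea, he⟩

theorem Cfg3.adj_isL (C : Cfg3 Γ X) {q : ℕ} {a c : X} (h : C.Adj q a c) :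
    C.IsL q (C.P a ⊓ C.P c) :=
  ⟨h.2, a, c, h.1.symm, inf_le_left, inf_le_right⟩

theorem Cfg3.isL_adj (C : Cfg3 Γ X) (hX : Nat.card X = 22) {q : ℕ} (hq : ∀ b, Nat.card (C.P b) = q)
    {D : Subgroup Γ} (h : C.IsL q D) {a c : X} (hc : c ≠ a) (h1 : D ≤ C.P a) (h2 : D ≤ C.P c) :
    D = C.P a ⊓ C.P c ∧ C.Adj q a c := by
  have h3 := C.two_points hX hq h.1 hc h1 h2
  refine ⟨h3, hc, ?_⟩
  rw [← h3]
  exact h.1

theorem Cfg3.isL_cj (C : Cfg3 Γ X) {q : ℕ} (g : Γ) {D : Subgroup Γ} (h : C.IsL q D) :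
    C.IsL q (cj g D) := by
  obtain ⟨h1, e, f, hef, he, hf⟩ := h
  refine ⟨by rw [card_cj]; exact h1, g • e, g • f, ?_, (C.cj_le_iff g D e).2 he,
    (C.cj_le_iff g D f).2 hf⟩
  intro h
  exact hef (MulAction.injective g h)

theorem Cfg3.card_Fx_cj (C : Cfg3 Γ X) (g : Γ) (D : Subgroup Γ) :
    (C.Fx (cj g D)).card = (C.Fx D).card := by
  symm
  apply Finset.card_bij (fun d _ => g • d)
  · intro d hd
    rw [C.mem_Fx] at hd ⊢
    exact (C.cj_le_iff g D d).2 hd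
  · intro d _ e _ h
    exact MulAction.injective g h
  · intro d hd
    refine ⟨g⁻¹ • d, ?_, smul_inv_smul _ _⟩
    rw [C.mem_Fx] at hd ⊢
    have h1 : cj g D ≤ C.P (g • (g⁻¹ • d)) := by
      rw [smul_inv_smul]
      exact hd
    exact (C.cj_le_iff g D _).1 h1

/-- Lines are `P a`-invariant. -/
theorem Cfg3.card_Fx_mod (C : Cfg3 Γ X) (hX : Nat.card X = 22) {q : ℕ}
    (hq : ∀ b, Nat.card (C.P b) = q) {D : Subgroup Γ} (h : C.IsL q D) {a : X} (ha : D ≤ C.P a) :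
    (C.Fx D).card % 3 = 1 := by
  obtain ⟨c, hc, hc2⟩ := h.exists_other a
  have hDeq := (C.isL_adj hX hq h hc ha hc2).1
  have h3 : 3 * Nat.card ↥(C.P a ⊓ C.P c) = q := by
    rw [← hDeq]
    exact h.1
  have hS : ∀ z ∈ C.P a, ∀ s ∈ ((C.Fx D : Finset X) : Set X), z • s ∈ ((C.Fx D : Finset X) : Set X) := by
    intro z hz s hs
    rw [Finset.mem_coe, C.mem_Fx] at hs ⊢
    intro k hk
    rw [C.mem_smul_iff]
    apply hs
    have h5 : k ∈ C.P a ⊓ C.P c := by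
      rw [← hDeq]
      exact hk
    have h6 := C.inf_normal hq h3 ((C.P a).inv_mem hz) h5
    rw [← hDeq, inv_inv] at h6
    exact h6
  have h1 := C.ncard_mod_one hS (by rw [Finset.mem_coe, C.mem_Fx]; exact ha)
  rwa [Set.ncard_coe_finset] at h1

end main

end Cfsg.Agent.H17.N22
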