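import Cfsg.Agent.Lib.H17.N22d

/-! # Twenty-two Sylow 3-subgroups: counting flags -/

set_option autoImplicit false
set_option linter.unusedSectionVars false
set_option linter.style.haveILetI false
set_option linter.unusedSimpArgs false
set_option linter.unusedVariables false

namespace Cfsg.Agent.H17.N22

open Equiv Equiv.Perm MulAction Subgroup

variable {Γ X : Type*} [Group Γ] [MulAction Γ X]

section main

variable [Finite Γ] [Fintype X] [FaithfulSMul Γ X] [IsPretransitive Γ X]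

/-- All line subgroups. -/
noncomputable def Cfg3.LA (C : Cfg3 Γ X) (q : ℕ) : Finset (Subgroup Γ) :=
  (Set.toFinite {D : Subgroup Γ | C.IsL q D}).toFinset

theorem Cfg3.mem_LA (C : Cfg3 Γ X) (q : ℕ) (D : Subgroup Γ) : D ∈ C.LA q ↔ C.IsL q D := by
  simp [Cfg3.LA]

open Classical in
/-- The lines through a point. -/
noncomputable def Cfg3.LT (C : Cfg3 Γ X) (q : ℕ) (a : X) : Finset (Subgroup Γ) :=
  (C.LA q).filter (fun D => D ≤ C.P a)

open Classical in
/-- The lines of size `k`. -/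
noncomputable def Cfg3.Lk (C : Cfg3 Γ X) (q k : ℕ) : Finset (Subgroup Γ) :=
  (C.LA q).filter (fun D => (C.Fx D).card = k)

open Classical in
/-- The lines of size `k` through a point. -/
noncomputable def Cfg3.LkT (C : Cfg3 Γ X) (q k : ℕ) (a : X) : Finset (Subgroup Γ) :=
  (C.Lk q k).filter (fun D => D ≤ C.P a)

open Classical in
/-- The points adjacent to `a`. -/
noncomputable def Cfg3.O3 (C : Cfg3 Γ X) (q : ℕ) (a : X) : Finset X :=
  Finset.univ.filter (fun c => C.Adj q a c)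

open Classical in
/-- The points far from `a`. -/
noncomputable def Cfg3.O9 (C : Cfg3 Γ X) (q : ℕ) (a : X) : Finset X :=
  Finset.univ.filter (fun c => C.Far q a c)

theorem Cfg3.mem_LT (C : Cfg3 Γ X) (q : ℕ) (a : X) (D : Subgroup Γ) :
    D ∈ C.LT q a ↔ C.IsL q D ∧ D ≤ C.P a := by
  simp [Cfg3.LT, C.mem_LA]

theorem Cfg3.mem_LkT (C : Cfg3 Γ X) (q k : ℕ) (a : X) (D : Subgroup Γ) :
    D ∈ C.LkT q k a ↔ (C.IsL q D ∧ (C.Fx D).card = k) ∧ D ≤ C.P a := by
  simp [Cfg3.LkT, Cfg3.Lk, C.mem_LA]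

theorem Cfg3.mem_O3 (C : Cfg3 Γ X) (q : ℕ) (a c : X) : c ∈ C.O3 q a ↔ C.Adj q a c := by
  simp [Cfg3.O3]

theorem Cfg3.mem_O9 (C : Cfg3 Γ X) (q : ℕ) (a c : X) : c ∈ C.O9 q a ↔ C.Far q a c := by
  simp [Cfg3.O9]

theorem Cfg3.card_LkT_le (C : Cfg3 Γ X) (q k : ℕ) (g : Γ) (a : X) :
    (C.LkT q k a).card ≤ (C.LkT q k (g • a)).card := by
  apply Finset.card_le_card_of_injOn (cj g)
  · intro D hD
    rw [Finset.mem_coe, C.mem_LkT] at hD ⊢
    obtain ⟨⟨h1, h2⟩, h3⟩ := hD
    exact ⟨⟨C.isL_cj g h1, by rw [C.card_Fx_cj]; exact h2⟩, (C.cj_le_iff g D a).2 h3⟩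
  · intro D _ D' _ h
    have h1 := congrArg (cj g⁻¹) h
    simpa only [cj_inv_cj] using h1

theorem Cfg3.card_LkT_eq (C : Cfg3 Γ X) (q k : ℕ) (a b : X) :
    (C.LkT q k a).card = (C.LkT q k b).card := by
  obtain ⟨g, rfl⟩ := MulAction.exists_smul_eq Γ a b
  apply le_antisymm (C.card_LkT_le q k g a)
  have := C.card_LkT_le q k g⁻¹ (g • a)
  rwa [inv_smul_smul] at this

/-- Flags. -/
theorem Cfg3.flags (C : Cfg3 Γ X) (hX : Nat.card X = 22) (q k : ℕ) :
    ∃ u n, (∀ a, (C.LkT q k a).card = u) ∧ 22 * u = n * k := by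
  classical
  obtain ⟨a⟩ := Cfg3.nonempty_of_card hX
  refine ⟨(C.LkT q k a).card, (C.Lk q k).card, fun b => C.card_LkT_eq q k b a, ?_⟩
  have key := Finset.sum_card_bipartiteAbove_eq_sum_card_bipartiteBelow
    (s := (Finset.univ : Finset X)) (t := C.Lk q k) (fun d D => D ≤ C.P d)
  have h1 : ∀ d ∈ (Finset.univ : Finset X),
      ((C.Lk q k).bipartiteAbove (fun d D => D ≤ C.P d) d).card = (C.LkT q k a).card := by
    intro d _
    rw [← C.card_LkT_eq q k d a]
    rfl
  have h2 : ∀ D ∈ C.Lk q k,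
      ((Finset.univ : Finset X).bipartiteBelow (fun d D => D ≤ C.P d) D).card = k := by
    intro D hD
    have h3 : (C.Fx D).card = k := (Finset.mem_filter.1 hD).2
    rw [← h3]
    congr 1
  rw [Finset.sum_congr rfl h1, Finset.sum_congr rfl h2, Finset.sum_const, Finset.sum_const,
    Finset.card_univ, ← Nat.card_eq_fintype_card, hX, smul_eq_mul, smul_eq_mul] at key
  exact key

/-- The points adjacent to `a` are partitioned by the lines through `a`. -/
theorem Cfg3.card_O3 (C : Cfg3 Γ X) (hX : Nat.card X = 22) {q : ℕ}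
    (hq : ∀ b, Nat.card (C.P b) = q) (a : X) :
    (C.O3 q a).card = ∑ D ∈ C.LT q a, ((C.Fx D).card - 1) := by
  classical
  have h1 : C.O3 q a = (C.LT q a).biUnion (fun D => (C.Fx D).erase a) := by
    ext d
    rw [C.mem_O3, Finset.mem_biUnion]
    constructor
    · intro h
      refine ⟨C.P a ⊓ C.P d, (C.mem_LT q a _).2 ⟨C.adj_isL h, inf_le_left⟩, ?_⟩
      rw [Finset.mem_erase, C.mem_Fx]
      exact ⟨h.1, inf_le_right⟩
    · rintro ⟨D, hD, hd⟩
      rw [C.mem_LT] at hD
      rw [Finset.mem_erase, C.mem_Fx] at hd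
      exact (C.isL_adj hX hq hD.1 hd.1 hD.2 hd.2).2
  rw [h1, Finset.card_biUnion]
  · apply Finset.sum_congr rfl
    intro D hD
    rw [C.mem_LT] at hD
    rw [Finset.card_erase_of_mem ((C.mem_Fx D a).2 hD.2)]
  · intro D hD D' hD' hne
    change _root_.Disjoint _ _
    rw [Finset.disjoint_left]
    intro d hd hd'
    rw [Finset.mem_coe, C.mem_LT] at hD hD'
    rw [Finset.mem_erase, C.mem_Fx] at hd hd'
    apply hne
    rw [(C.isL_adj hX hq hD.1 hd.1 hD.2 hd.2).1, (C.isL_adj hX hq hD'.1 hd'.1 hD'.2 hd'.2).1]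

theorem Cfg3.card_O3_le (C : Cfg3 Γ X) (hX : Nat.card X = 22) (q : ℕ) (a : X) :
    (C.O3 q a).card ≤ 21 := by
  classical
  have h1 : C.O3 q a ⊆ Finset.univ.erase a := by
    intro c hc
    rw [C.mem_O3] at hc
    exact Finset.mem_erase.2 ⟨hc.1, Finset.mem_univ _⟩
  have h2 := Finset.card_le_card h1
  rw [Finset.card_erase_of_mem (Finset.mem_univ _), Finset.card_univ,
    ← Nat.card_eq_fintype_card, hX] at h2
  exact h2

/-- The size of a line. -/
theorem Cfg3.card_Fx_cases (C : Cfg3 Γ X) (hX : Nat.card X = 22) {q : ℕ}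
    (hq : ∀ b, Nat.card (C.P b) = q) {D : Subgroup Γ} (h : C.IsL q D) :
    (C.Fx D).card = 4 ∨ (C.Fx D).card = 22 := by
  classical
  obtain ⟨-, a, f, haf, ha, hf⟩ := id h
  have hk1 := C.card_Fx_mod hX hq h ha
  have hk2 : 1 < (C.Fx D).card :=
    Finset.one_lt_card.2 ⟨a, (C.mem_Fx D a).2 ha, f, (C.mem_Fx D f).2 hf, haf⟩
  have hk3 : (C.Fx D).card ≤ 22 := by
    have := Finset.card_le_univ (C.Fx D)
    rwa [← Nat.card_eq_fintype_card, hX] at this
  obtain ⟨u, n, hu, hflag⟩ := C.flags hX q (C.Fx D).card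
  have hDmem : D ∈ C.LkT q (C.Fx D).card a := (C.mem_LkT q _ a D).2 ⟨⟨h, rfl⟩, ha⟩
  have hu1 : 1 ≤ u := by
    rw [← hu a]
    exact Finset.card_pos.2 ⟨D, hDmem⟩
  have hbound : u * ((C.Fx D).card - 1) ≤ 21 := by
    have h1 := C.card_O3_le hX q a
    rw [C.card_O3 hX hq a] at h1
    have hsub : C.LkT q (C.Fx D).card a ⊆ C.LT q a := by
      intro D' hD'
      rw [C.mem_LkT] at hD'
      exact (C.mem_LT q a D').2 ⟨hD'.1.1, hD'.2⟩
    have h2 := Finset.sum_le_sum_of_subset (f := fun D' => (C.Fx D').card - 1) hsub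
    have h3 : ∑ D' ∈ C.LkT q (C.Fx D).card a, ((C.Fx D').card - 1) =
        u * ((C.Fx D).card - 1) := by
      rw [← hu a, ← smul_eq_mul, ← Finset.sum_const]
      apply Finset.sum_congr rfl
      intro D' hD'
      rw [C.mem_LkT] at hD'
      rw [hD'.1.2]
    rw [h3] at h2
    exact h2.trans h1
  generalize (C.Fx D).card = k at *
  have hcases : k = 4 ∨ k = 7 ∨ k = 10 ∨ k = 13 ∨ k = 16 ∨ k = 19 ∨ k = 22 := by omega
  rcases hcases with rfl | rfl | rfl | rfl | rfl | rfl | rfl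
  · left; rfl
  · exfalso; omega
  · exfalso; omega
  · exfalso; omega
  · exfalso; omega
  · exfalso; omega
  · right; rfl

theorem Cfg3.nine_dvd (C : Cfg3 Γ X) (hX : Nat.card X = 22) {q : ℕ}
    (hq : ∀ b, Nat.card (C.P b) = q) (a : X) : 9 ∣ (C.O9 q a).card := by
  classical
  let π : X → Finset X := fun d => Finset.univ.filter (fun e => e ∈ orbit (C.P a) d)
  rw [Finset.card_eq_sum_card_image π (C.O9 q a)]
  apply Finset.dvd_sum
  intro v hv
  obtain ⟨d, hd, rfl⟩ := Finset.mem_image.1 hv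
  rw [C.mem_O9] at hd
  have hcoe : ((π d : Finset X) : Set X) = orbit (C.P a) d := by
    ext e
    simp [π]
  have hcard : (π d).card = 9 := by
    rw [← Set.ncard_coe_finset, hcoe]
    have h1 := C.orbit_mul a d
    rw [hq, ← hd.2] at h1
    exact Nat.eq_of_mul_eq_mul_right Nat.card_pos h1
  have hfib : (C.O9 q a).filter (fun e => π e = π d) = π d := by
    ext e
    rw [Finset.mem_filter, C.mem_O9]
    constructor
    · rintro ⟨-, h2⟩
      rw [← h2]
      simp [π]
    · intro h2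
      have h3 : e ∈ orbit (C.P a) d := by
        simpa [π] using h2
      obtain ⟨z, rfl⟩ := h3
      refine ⟨?_, ?_⟩
      · have h4 : (z : Γ) • a = a := C.self_fix a _ z.2
        have h5 := (C.far_smul q (z : Γ) a d).2 hd
        rwa [h4] at h5
      · have h4 : orbit (C.P a) (z • d) = orbit (C.P a) d := orbit_smul z d
        simp only [π]
        ext e'
        simp [h4]
  rw [hfib, hcard]

/-- The three cases. -/
theorem Cfg3.trichotomy (C : Cfg3 Γ X) (hX : Nat.card X = 22) {q : ℕ}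
    (hq : ∀ b, Nat.card (C.P b) = q) (a : X) :
    q = 3 ∨ ((∀ D, C.IsL q D → (C.Fx D).card = 4) ∧ (C.O3 q a).card = 12 ∧ (C.O9 q a).card = 9) := by
  classical
  by_cases h22 : ∃ D, C.IsL q D ∧ (C.Fx D).card = 22
  · left
    obtain ⟨D, hD, hc⟩ := h22
    have hu : C.Fx D = Finset.univ := by
      apply Finset.eq_univ_of_card
      rw [hc, ← Nat.card_eq_fintype_card, hX]
    have hle : ∀ d, D ≤ C.P d := fun d => (C.mem_Fx D d).1 (by rw [hu]; exact Finset.mem_univ _)
    have hbot : D = ⊥ := by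
      rw [eq_bot_iff]
      intro k hk
      rw [Subgroup.mem_bot]
      apply FaithfulSMul.eq_of_smul_eq_smul (α := X)
      intro d
      rw [one_smul]
      exact C.self_fix d k (hle d hk)
    have := hD.1
    rw [hbot] at this
    simpa using this.symm
  · right
    push Not at h22
    have h4 : ∀ D, C.IsL q D → (C.Fx D).card = 4 := fun D hD =>
      (C.card_Fx_cases hX hq hD).resolve_right (h22 D hD)
    refine ⟨h4, ?_⟩
    obtain ⟨u, n, hu, hflag⟩ := C.flags hX q 4
    have hLT : C.LkT q 4 a = C.LT q a := by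
      ext D
      rw [C.mem_LkT, C.mem_LT]
      constructor
      · rintro ⟨⟨h1, -⟩, h3⟩
        exact ⟨h1, h3⟩
      · rintro ⟨h1, h3⟩
        exact ⟨⟨h1, h4 D h1⟩, h3⟩
    have hO3 : (C.O3 q a).card = 3 * u := by
      rw [C.card_O3 hX hq a, ← hu a, hLT, mul_comm, ← smul_eq_mul, ← Finset.sum_const]
      apply Finset.sum_congr rfl
      intro D hD
      rw [C.mem_LT] at hD
      rw [h4 D hD.1]
    have hsum : (C.O3 q a).card + (C.O9 q a).card = 21 := by
      have hdisj : Disjoint (C.O3 q a) (C.O9 q a) := by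
        rw [Finset.disjoint_left]
        intro c h1 h2
        rw [C.mem_O3] at h1
        rw [C.mem_O9] at h2
        have h3 := h1.2
        have h5 := h2.2
        have h6 := C.q_pos hq a
        omega
      rw [← Finset.card_union_of_disjoint hdisj]
      have h7 : C.O3 q a ∪ C.O9 q a = Finset.univ.erase a := by
        ext c
        rw [Finset.mem_union, C.mem_O3, C.mem_O9, Finset.mem_erase]
        constructor
        · rintro (h | h)
          · exact ⟨h.1, Finset.mem_univ _⟩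
          · exact ⟨h.1, Finset.mem_univ _⟩
        · rintro ⟨h, -⟩
          exact C.adj_or_far hX hq a h
      rw [h7, Finset.card_erase_of_mem (Finset.mem_univ _), Finset.card_univ,
        ← Nat.card_eq_fintype_card, hX]
    obtain ⟨w, hw⟩ := C.nine_dvd hX hq a
    have : (C.O3 q a).card = 12 ∧ (C.O9 q a).card = 9 := by
      rw [hO3, hw] at hsum ⊢
      omega
    exact this

end main

end Cfsg.Agent.H17.N22
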