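import Cfsg.Agent.Lib.H17.N22e

/-! # Twenty-two Sylow 3-subgroups: the case of twelve adjacent points -/

set_option autoImplicit false
set_option linter.unusedSectionVars false
set_option linter.style.haveILetI false
set_option linter.unusedSimpArgs false
set_option linter.unusedVariables false

namespace Cfsg.Agent.H17.N22

open Equiv Equiv.Perm MulAction Subgroup

variable {Γ X : Type*} [Group Γ] [MulAction Γ X]

section main

variable [Finite Γ] [Fintype X] [FaithfulSMul Γ X] [IsPretransitive Γ X]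

/-- Closed neighbourhoods. -/
noncomputable def Cfg3.Nb [DecidableEq X] (C : Cfg3 Γ X) (q : ℕ) (d : X) : Finset X := insert d (C.O3 q d)

theorem Cfg3.mem_Nb [DecidableEq X] (C : Cfg3 Γ X) (q : ℕ) (d e : X) :
    e ∈ C.Nb q d ↔ e = d ∨ C.Adj q d e := by
  rw [Cfg3.Nb, Finset.mem_insert, C.mem_O3]

theorem Cfg3.inf_smul_of_mem (C : Cfg3 Γ X) {q : ℕ} (hq : ∀ b, Nat.card (C.P b) = q) {a c : X}
    (h3 : 3 * Nat.card ↥(C.P a ⊓ C.P c) = q) {z : Γ} (hz : z ∈ C.P a) :
    C.P a ⊓ C.P (z • c) = C.P a ⊓ C.P c := by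
  have hza : z • a = a := C.self_fix a z hz
  have h1 : cj z (C.P a ⊓ C.P c) = C.P a ⊓ C.P (z • c) := by
    rw [C.cj_inf, hza]
  rw [← h1]
  ext k
  rw [mem_cj]
  constructor
  · intro hk
    have := C.inf_normal hq h3 hz hk
    simpa [mul_assoc] using this
  · intro hk
    have := C.inf_normal hq h3 ((C.P a).inv_mem hz) hk
    simpa using this

variable (C : Cfg3 Γ X) (hX : Nat.card X = 22) {q : ℕ} (hq : ∀ b, Nat.card (C.P b) = q)
  (h4 : ∀ D, C.IsL q D → (C.Fx D).card = 4) (h12 : ∀ a, (C.O3 q a).card = 12)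
  (h9 : ∀ a, (C.O9 q a).card = 9)

include hX h12 in
theorem Cfg3.Nb_ne [DecidableEq X] {a c : X} (hc : c ≠ a) : C.Nb q c ≠ C.Nb q a := by
  intro h
  have hN : ∀ (g : Γ) (b d : X), C.Nb q b = C.Nb q d → C.Nb q (g • b) = C.Nb q (g • d) := by
    intro g b d hbd
    have key : ∀ (b e : X), e ∈ C.Nb q (g • b) ↔ g⁻¹ • e ∈ C.Nb q b := by
      intro b e
      rw [C.mem_Nb, C.mem_Nb]
      have h1 : C.Adj q (g • b) e ↔ C.Adj q b (g⁻¹ • e) := by
        rw [← C.adj_smul q g b (g⁻¹ • e), smul_inv_smul]
      rw [h1, inv_smul_eq_iff]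
    ext e
    rw [key, key, hbd]
  have hconst := C.block hX _ hN hc h
  have huniv : C.Nb q a = Finset.univ := by
    ext d
    simp only [Finset.mem_univ, iff_true]
    rw [hconst a d, C.mem_Nb]
    exact Or.inl rfl
  have hcard := congrArg Finset.card huniv
  have h2 : (C.Nb q a).card ≤ 13 := by
    rw [Cfg3.Nb]
    have := Finset.card_insert_le a (C.O3 q a)
    rw [h12] at this
    exact this
  rw [Finset.card_univ, ← Nat.card_eq_fintype_card, hX] at hcard
  omega

include hX hq h12 in
theorem Cfg3.exists_far_of_adj {a c : X} (hac : C.Adj q a c) : ∃ b, C.Adj q c b ∧ C.Far q a b := by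
  classical
  by_contra hne
  push Not at hne
  have hsub : C.Nb q c ⊆ C.Nb q a := by
    intro e he
    rw [C.mem_Nb] at he ⊢
    rcases he with rfl | he
    · exact Or.inr hac
    · by_cases hea : e = a
      · exact Or.inl hea
      · rcases C.adj_or_far hX hq a hea with h1 | h1
        · exact Or.inr h1
        · exact absurd h1 (hne e he)
  have hcard : ∀ d, (C.Nb q d).card = 13 := by
    intro d
    rw [Cfg3.Nb, Finset.card_insert_of_notMem, h12]
    rw [C.mem_O3]
    exact fun h => h.1 rfl
  have heq := Finset.eq_of_subset_of_card_le hsub (by rw [hcard, hcard])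
  exact C.Nb_ne hX h12 hac.1 heq

include hX hq h9 in
/-- The far points form a single orbit. -/
theorem Cfg3.far_orbit {a b b' : X} (hb : C.Far q a b) (hb' : C.Far q a b') :
    ∃ z ∈ C.P a, z • b = b' := by
  classical
  have h1 : (orbit (C.P a) b).ncard = 9 := by
    have h2 := C.orbit_mul a b
    rw [hq, ← hb.2] at h2
    exact Nat.eq_of_mul_eq_mul_right Nat.card_pos h2
  have hsub : orbit (C.P a) b ⊆ ((C.O9 q a : Finset X) : Set X) := by
    rintro _ ⟨z, rfl⟩
    rw [Finset.mem_coe, C.mem_O9]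
    have h4 : (z : Γ) • a = a := C.self_fix a _ z.2
    have h5 := (C.far_smul q (z : Γ) a b).2 hb
    rwa [h4] at h5
  have heq := Set.eq_of_subset_of_ncard_le hsub (by
    rw [Set.ncard_coe_finset, h9, h1])
  have hb'2 : b' ∈ orbit (C.P a) b := by
    rw [heq, Finset.mem_coe, C.mem_O9]
    exact hb'
  obtain ⟨z, hz⟩ := hb'2
  exact ⟨z, z.2, hz⟩

include hX hq h12 h9 in
/-- The intersection with a far point lies in the intersections with the adjacent points. -/
theorem Cfg3.far_le_adj {a b c : X} (hb : C.Far q a b) (hc : C.Adj q a c) :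
    C.P a ⊓ C.P b ≤ C.P a ⊓ C.P c := by
  obtain ⟨b₀, hb₀1, hb₀2⟩ := C.exists_far_of_adj hX hq h12 hc
  obtain ⟨z, hz, rfl⟩ := C.far_orbit hX hq h9 hb₀2 hb
  have hza : z • a = a := C.self_fix a z hz
  have hD := C.inf_smul_of_mem hq hc.2 hz
  rw [← hD]
  -- the point `c' = z • c`
  set c' := z • c with hc'
  have hac' : C.Adj q a c' := by
    have := (C.adj_smul q z a c).2 hc
    rwa [hza] at this
  have hc'b : C.Adj q c' (z • b₀) := (C.adj_smul q z c b₀).2 hb₀1
  intro e he
  have hfix : e • c' = c' := by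
    by_contra hne
    have hD1 : C.P a ⊓ C.P c' ≤ C.P (e • c') := by
      intro k hk
      rw [C.mem_smul_iff]
      have := C.inf_normal hq hac'.2 ((C.P a).inv_mem he.1) hk
      rw [inv_inv] at this
      exact this.2
    have hD2 : C.P (z • b₀) ⊓ C.P c' ≤ C.P (e • c') := by
      intro k hk
      rw [C.mem_smul_iff]
      have := C.inf_normal hq hc'b.symm.2 ((C.P (z • b₀)).inv_mem he.2) hk
      rw [inv_inv] at this
      exact this.2
    have hE1 := C.two_points hX hq hac'.2 hne inf_le_right hD1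
    have hE2 := C.two_points hX hq hc'b.symm.2 hne inf_le_right hD2
    have hE : C.P a ⊓ C.P c' = C.P (z • b₀) ⊓ C.P c' := hE1.trans hE2.symm
    have hle : C.P a ⊓ C.P c' ≤ C.P a ⊓ C.P (z • b₀) :=
      le_inf inf_le_left (by rw [hE]; exact inf_le_left)
    have hcard := Subgroup.card_le_of_le hle
    have h1 := hac'.2
    have h2 := hb.2
    have h3 := C.q_pos hq a
    omega
  exact ⟨he.1, C.mem_of_fix he.1 hfix⟩

include hX hq h4 h12 h9 in
/-- In this case `q = 9`, and far points meet trivially. -/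
theorem Cfg3.caseB (a : X) : q = 9 ∧ ∀ b, C.Far q a b → C.P a ⊓ C.P b = ⊥ := by
  classical
  -- two different subgroups
  obtain ⟨c₁, hc₁⟩ : (C.O3 q a).Nonempty := by
    rw [← Finset.card_pos, h12]
    norm_num
  rw [C.mem_O3] at hc₁
  have hL1 := C.adj_isL hc₁
  have hnotsub : ¬ (C.O3 q a ⊆ C.Fx (C.P a ⊓ C.P c₁)) := by
    intro h
    have := Finset.card_le_card h
    rw [h12, h4 _ hL1] at this
    omega
  rw [Finset.not_subset] at hnotsub
  obtain ⟨c₂, hc₂, hc₂'⟩ := hnotsub
  rw [C.mem_O3] at hc₂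
  rw [C.mem_Fx] at hc₂'
  set D₁ := C.P a ⊓ C.P c₁ with hD₁
  set D₂ := C.P a ⊓ C.P c₂ with hD₂
  set F := D₁ ⊓ D₂ with hF
  have hFlt : Nat.card F ≠ Nat.card D₁ := by
    intro h
    have h1 : F = D₁ := Subgroup.eq_of_le_of_card_ge inf_le_left h.ge
    apply hc₂'
    have h2 : D₁ ≤ D₂ := by
      rw [← h1]
      exact inf_le_right
    exact h2.trans inf_le_right
  -- cardinality of F
  have h3F : 3 * Nat.card F ≤ Nat.card D₁ := by
    obtain ⟨n, hn⟩ := IsPGroup.iff_card.1 ((C.pgrp a).to_le (inf_le_left : D₁ ≤ C.P a))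
    have h1 : Nat.card F ∣ Nat.card D₁ := Subgroup.card_dvd_of_le inf_le_left
    rw [hn] at h1 hFlt
    obtain ⟨m, hm, hm2⟩ := (Nat.dvd_prime_pow (by norm_num)).1 h1
    have hmn : m < n := by
      apply lt_of_le_of_ne hm
      rintro rfl
      exact hFlt hm2
    rw [hm2, hn]
    have : 3 ^ (m + 1) ≤ 3 ^ n := Nat.pow_le_pow_right (by norm_num) hmn
    rw [pow_succ] at this
    omega
  have h3D : 3 * Nat.card D₁ = q := hc₁.2
  have hfar : ∀ b, C.Far q a b → C.P a ⊓ C.P b = F := by
    intro b hb
    have hle : C.P a ⊓ C.P b ≤ F :=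
      le_inf (C.far_le_adj hX hq h12 h9 hb hc₁) (C.far_le_adj hX hq h12 h9 hb hc₂)
    apply Subgroup.eq_of_le_of_card_ge hle
    have := hb.2
    omega
  obtain ⟨b₀, hb₀⟩ : (C.O9 q a).Nonempty := by
    rw [← Finset.card_pos, h9]
    norm_num
  rw [C.mem_O9] at hb₀
  have hFle : ∀ d, F ≤ C.P d := by
    intro d
    by_cases hd : d = a
    · subst hd
      rw [← hfar b₀ hb₀]
      exact inf_le_left
    · rcases C.adj_or_far hX hq a hd with h | h
      · rw [← hfar b₀ hb₀]
        exact (C.far_le_adj hX hq h12 h9 hb₀ h).trans inf_le_right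
      · rw [← hfar d h]
        exact inf_le_right
  have hFbot : F = ⊥ := by
    rw [eq_bot_iff]
    intro k hk
    rw [Subgroup.mem_bot]
    apply FaithfulSMul.eq_of_smul_eq_smul (α := X)
    intro d
    rw [one_smul]
    exact C.self_fix d k (hFle d hk)
  refine ⟨?_, fun b hb => (hfar b hb).trans hFbot⟩
  have := hb₀.2
  rw [hfar b₀ hb₀, hFbot] at this
  simpa using this.symm

include hX hq h4 h12 h9 in
/-- The element `u` cannot exist. -/
theorem Cfg3.caseB_false {u : Γ} (hu : orderOf u = 2 ∨ orderOf u = 5) (h2 : Exact2 X u) : False := by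
  classical
  obtain ⟨a, a', haa', hua, hua', hfix⟩ := h2
  obtain ⟨hq9, hbot⟩ := C.caseB hX hq h4 h12 h9 a
  have hS : ∀ s ∈ ((C.O9 q a : Finset X) : Set X), u • s ∈ ((C.O9 q a : Finset X) : Set X) := by
    intro s hs
    rw [Finset.mem_coe, C.mem_O9] at hs ⊢
    have h5 := (C.far_smul q u a s).2 hs
    rwa [hua] at h5
  have hfixS : ∀ s ∈ ((C.O9 q a : Finset X) : Set X), u • s = s → s = a' := by
    intro s hs h1
    rw [Finset.mem_coe, C.mem_O9] at hs
    exact (hfix s h1).resolve_left hs.1
  rcases hu with hu | hu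
  · -- order 2
    have hu2 : u ^ 2 = 1 := by rw [← hu]; exact pow_orderOf_eq_one u
    have hcnt := ncard_fix_modEq hu2 hS
    rw [Set.ncard_coe_finset, h9] at hcnt
    obtain ⟨b, hb, hub⟩ : ∃ b ∈ ((C.O9 q a : Finset X) : Set X), u • b = b := by
      by_contra hne
      push Not at hne
      have h1 : {s ∈ ((C.O9 q a : Finset X) : Set X) | u • s = s} = ∅ := by
        ext s
        simp only [Set.mem_setOf_eq, Set.mem_empty_iff_false, iff_false, not_and]
        exact hne s
      rw [h1, Set.ncard_empty] at hcnt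
      exact absurd hcnt (by decide)
    have hba' := hfixS b hb hub
    subst hba'
    rw [Finset.mem_coe, C.mem_O9] at hb
    have hbotb := hbot b hb
    have hcomm : ∀ x y : C.P a, x * y = y * x :=
      IsPGroup.commutative_of_card_eq_prime_sq (p := 3) (by rw [hq a, hq9]; norm_num)
    have hconj : ∀ z ∈ C.P a, u * z * u⁻¹ ∈ C.P a := by
      intro z hz
      have := C.conj u a z hz
      rwa [hua] at this
    have huinv : u⁻¹ = u := by
      rw [inv_eq_iff_mul_eq_one, ← pow_two, hu2]
    -- `u` inverts `P a`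
    have hinv : ∀ z ∈ C.P a, u * z * u⁻¹ = z⁻¹ := by
      intro z hz
      have hz' := hconj z hz
      set w := z * (u * z * u⁻¹) with hw
      have hwP : w ∈ C.P a := (C.P a).mul_mem hz hz'
      have huw : u * w * u⁻¹ = w := by
        have h1 : z * (u * z * u⁻¹) = (u * z * u⁻¹) * z := by
          have := hcomm ⟨z, hz⟩ ⟨_, hz'⟩
          exact congrArg Subtype.val this
        have h2 : u * w * u⁻¹ = (u * z * u⁻¹) * (u * (u * z * u⁻¹) * u⁻¹) := by
          rw [hw]
          group
        have h3 : u * (u * z * u⁻¹) * u⁻¹ = z := by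
          have : u * (u * z * u⁻¹) * u⁻¹ = u ^ 2 * z * (u ^ 2)⁻¹ := by
            rw [pow_two]
            group
          rw [this, hu2]
          group
        rw [h2, h3, hw, h1]
      have hwb : u • (w • b) = w • b := by
        have : u • (w • b) = (u * w * u⁻¹) • (u • b) := by
          simp [mul_smul]
        rw [this, huw, hub]
      have hwb2 : w • b = b := by
        rcases hfix _ hwb with h1 | h1
        · exfalso
          have h5 : w • a = a := C.self_fix a w hwP
          have h6 : w • b = w • a := by rw [h1, h5]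
          exact hb.1 (MulAction.injective w h6)
        · exact h1
      have hwmem : w ∈ C.P a ⊓ C.P b := ⟨hwP, C.mem_of_fix hwP hwb2⟩
      rw [hbotb, Subgroup.mem_bot] at hwmem
      rw [hw] at hwmem
      exact eq_inv_of_mul_eq_one_right hwmem
    -- a line through `a`
    obtain ⟨c, hc⟩ : (C.O3 q a).Nonempty := by
      rw [← Finset.card_pos, h12]
      norm_num
    rw [C.mem_O3] at hc
    have hL := C.adj_isL hc
    set D := C.P a ⊓ C.P c with hD
    have hT : ∀ s ∈ (((C.Fx D).erase a : Finset X) : Set X), u • s ∈ (((C.Fx D).erase a : Finset X) : Set X) := by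
      intro s hs
      rw [Finset.mem_coe, Finset.mem_erase, C.mem_Fx] at hs ⊢
      refine ⟨fun h => hs.1 ?_, ?_⟩
      · have h6 : u • s = u • a := by rw [h, hua]
        exact MulAction.injective u h6
      · intro k hk
        rw [C.mem_smul_iff]
        apply hs.2
        have h7 : u⁻¹ * k * u = k⁻¹ := by
          have := hinv k hk.1
          rwa [huinv] at this ⊢
        rw [h7]
        exact D.inv_mem hk
    have hcnt2 := ncard_fix_modEq hu2 hT
    have hcard3 : (((C.Fx D).erase a : Finset X) : Set X).ncard = 3 := by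
      rw [Set.ncard_coe_finset, Finset.card_erase_of_mem ((C.mem_Fx D a).2 inf_le_left), h4 D hL]
    rw [hcard3] at hcnt2
    obtain ⟨e, he, hue⟩ : ∃ e ∈ (((C.Fx D).erase a : Finset X) : Set X), u • e = e := by
      by_contra hne
      push Not at hne
      have h1 : {s ∈ (((C.Fx D).erase a : Finset X) : Set X) | u • s = s} = ∅ := by
        ext s
        simp only [Set.mem_setOf_eq, Set.mem_empty_iff_false, iff_false, not_and]
        exact hne s
      rw [h1, Set.ncard_empty] at hcnt2
      exact absurd hcnt2 (by decide)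
    rw [Finset.mem_coe, Finset.mem_erase, C.mem_Fx] at he
    have heb : e = b := (hfix e hue).resolve_left he.1
    subst heb
    have hDle : D ≤ C.P a ⊓ C.P e := le_inf inf_le_left he.2
    rw [hbotb, le_bot_iff] at hDle
    have := hL.1
    rw [hDle] at this
    simp at this
    omega
  · -- order 5
    have hu5 : u ^ 5 = 1 := by rw [← hu]; exact pow_orderOf_eq_one u
    have hcnt := ncard_fix_modEq hu5 hS
    rw [Set.ncard_coe_finset, h9] at hcnt
    have hle : {s ∈ ((C.O9 q a : Finset X) : Set X) | u • s = s}.ncard ≤ 1 := by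
      have hsub : {s ∈ ((C.O9 q a : Finset X) : Set X) | u • s = s} ⊆ {a'} := by
        intro s hs
        exact hfixS s hs.1 hs.2
      have := Set.ncard_le_ncard hsub (Set.toFinite _)
      rwa [Set.ncard_singleton] at this
    have h6 : 9 % 5 = {s ∈ ((C.O9 q a : Finset X) : Set X) | u • s = s}.ncard % 5 := hcnt
    omega

end main

end Cfsg.Agent.H17.N22
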