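import Cfsg.Agent.Lib.H17.N22f

/-! # Twenty-two Sylow 3-subgroups: auxiliary results for the case `q = 3` -/

set_option autoImplicit false
set_option linter.unusedSectionVars false
set_option linter.style.haveILetI false
set_option linter.unusedSimpArgs false
set_option linter.unusedVariables false

namespace Cfsg.Agent.H17.N22

open Equiv Equiv.Perm MulAction Subgroup
open Cfsg.Agent.H17.N21 (hom_trivial_of_perfect eq_one_of_pow_coprime)

variable {Γ X : Type*} [Group Γ] [MulAction Γ X]

instance fact_prime_seven : Fact (Nat.Prime 7) := ⟨by norm_num⟩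

theorem stab_iff (a : X) (u : stabilizer Γ a) (c : X) :
    (MulAction.toPerm (u : Γ) : Perm X) c ≠ a ↔ c ≠ a := by
  have hu : (u : Γ) • a = a := u.2
  constructor
  · intro h hc
    apply h
    change (u : Γ) • c = a
    rw [hc, hu]
  · intro h hc
    apply h
    have : (u : Γ) • c = (u : Γ) • a := by
      rw [hu]; exact hc
    exact MulAction.injective (u : Γ) this

/-- The action of a point stabiliser on the other points. -/
def stabPerm (a : X) : stabilizer Γ a →* Perm {c : X // c ≠ a} :=
  MonoidHom.mk' (fun u => Perm.subtypePerm (MulAction.toPerm (u : Γ)) (stab_iff a u))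
    (by
      intro u v
      ext c : 1
      apply Subtype.ext
      exact mul_smul (u : Γ) (v : Γ) (c : X))

theorem stabPerm_apply (a : X) (u : stabilizer Γ a) (c : {c : X // c ≠ a}) :
    ((stabPerm a u c : {c : X // c ≠ a}) : X) = (u : Γ) • (c : X) := rfl

theorem sign_stabPerm [Fintype X] [DecidableEq X] (a : X) (u : stabilizer Γ a) :
    sign (stabPerm a u) = sign (MulAction.toPerm (u : Γ) : Perm X) := by
  refine sign_subtypePerm _ (stab_iff a u) ?_
  intro c hc h
  apply hc
  rw [h]
  exact u.2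

/-- Commuting elements of orders five and seven do not exist in degree seven. -/
theorem no_commuting_5_7 (r w : Perm (Fin 7)) (hr : r ^ 5 = 1) (hw : w ^ 7 = 1) (hr1 : r ≠ 1) (hw1 : w ≠ 1)
    (hc : r * w = w * r) : False := by
  have hfull : ∀ (g : Perm (Fin 7)) (F : Set (Fin 7)), (∀ i, i ∈ F ↔ g • i = i) → F.ncard = 7 → g = 1 := by
    intro g F hF h7
    have hFu : F = Set.univ := by
      apply Set.eq_of_subset_of_ncard_le (Set.subset_univ _)
      rw [Set.ncard_univ, h7]
      simp
    refine Equiv.ext fun i => ?_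
    have : i ∈ F := by rw [hFu]; trivial
    exact (hF i).1 this
  let Fr : Set (Fin 7) := {i | r • i = i}
  have h1 := ncard_fix_modEq hr (X := Fin 7) (S := Set.univ) (fun s _ => Set.mem_univ _)
  have h1' : {s ∈ (Set.univ : Set (Fin 7)) | r • s = s} = Fr := by
    ext s
    simp [Fr]
  rw [h1', Set.ncard_univ] at h1
  simp only [Nat.card_eq_fintype_card, Fintype.card_fin] at h1
  have hFrw : ∀ s ∈ Fr, w • s ∈ Fr := by
    intro s hs
    have hs' : r • s = s := hs
    change r • w • s = w • s
    rw [← mul_smul, hc, mul_smul, hs']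
  have h2 := ncard_fix_modEq hw hFrw
  -- `w` has no fixed points
  have hwfree : ∀ i : Fin 7, w • i ≠ i := by
    intro i hi
    apply hw1
    have h3 := ncard_fix_modEq hw (X := Fin 7) (S := Set.univ) (fun s _ => Set.mem_univ _)
    rw [Set.ncard_univ] at h3
    simp only [Nat.card_eq_fintype_card, Fintype.card_fin] at h3
    have h4 : 0 < {s ∈ (Set.univ : Set (Fin 7)) | w • s = s}.ncard := by
      rw [Set.ncard_pos]
      exact ⟨i, Set.mem_univ _, hi⟩
    have h5 : {s ∈ (Set.univ : Set (Fin 7)) | w • s = s}.ncard ≤ 7 := by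
      have := Set.ncard_le_card {s ∈ (Set.univ : Set (Fin 7)) | w • s = s}
      simpa using this
    have h6 : 7 % 7 = {s ∈ (Set.univ : Set (Fin 7)) | w • s = s}.ncard % 7 := h3
    have h7 : {s ∈ (Set.univ : Set (Fin 7)) | w • s = s}.ncard = 7 := by omega
    exact hfull w _ (fun j => by simp) h7
  have h8 : {s ∈ Fr | w • s = s} = ∅ := by
    ext s
    constructor
    · rintro ⟨-, h⟩
      exact absurd h (hwfree s)
    · intro h
      exact absurd h (Set.notMem_empty s)
  rw [h8, Set.ncard_empty] at h2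
  have h9 : Fr.ncard ≤ 7 := by
    have := Set.ncard_le_card Fr
    simpa using this
  have h10 : Fr.ncard % 7 = 0 := h2
  have h11 : 7 % 5 = Fr.ncard % 5 := h1
  have h12 : Fr.ncard = 7 := by omega
  exact hr1 (hfull r Fr (fun j => Iff.rfl) h12)

/-- No subgroup of order 35 in degree seven. -/
theorem no_sub35 (H : Subgroup (Perm (Fin 7))) : Nat.card H ≠ 35 := by
  intro h35
  obtain ⟨r, hr⟩ := exists_prime_orderOf_dvd_card' (G := H) 5 (by rw [h35]; norm_num)
  obtain ⟨w, hw⟩ := exists_prime_orderOf_dvd_card' (G := H) 7 (by rw [h35]; norm_num)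
  have hcw : Nat.card (zpowers w) = 7 := by rw [Nat.card_zpowers, hw]
  have hpw : IsPGroup 7 (zpowers w) := IsPGroup.of_card (n := 1) (by rw [hcw]; norm_num)
  obtain ⟨S, hS⟩ := hpw.exists_le_sylow
  have hScard : Nat.card (S : Subgroup H) = 7 := by
    obtain ⟨n, hn⟩ := IsPGroup.iff_card.1 S.2
    have h1 : Nat.card (S : Subgroup H) ∣ 35 := by
      rw [← h35]
      exact Subgroup.card_subgroup_dvd_card _
    have h2 : Nat.card (zpowers w) ∣ Nat.card (S : Subgroup H) := Subgroup.card_dvd_of_le hS
    rw [hcw] at h2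
    rw [hn] at h1 h2 ⊢
    have hn1 : n ≠ 0 := by
      rintro rfl
      simp at h2
    have hn2 : n < 2 := by
      by_contra hc
      push Not at hc
      have : 7 ^ 2 ∣ 7 ^ n := pow_dvd_pow 7 hc
      have := this.trans h1
      omega
    interval_cases n
    · exact absurd rfl hn1
    · rfl
  have hSw : (S : Subgroup H) = zpowers w :=
    (Subgroup.eq_of_le_of_card_ge hS (by rw [hScard, hcw])).symm
  have hn7 : Nat.card (Sylow 7 H) = 1 := by
    have h1 := card_sylow_modEq_one 7 H
    have h2 : Nat.card (Sylow 7 H) ∣ 5 := by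
      have h3 := Sylow.card_dvd_index S
      have h4 := Subgroup.card_mul_index (S : Subgroup H)
      rw [hScard, h35] at h4
      have h5 : (S : Subgroup H).index = 5 := by omega
      rwa [h5] at h3
    have h3 : Nat.card (Sylow 7 H) = 1 ∨ Nat.card (Sylow 7 H) = 5 :=
      (Nat.dvd_prime (by norm_num)).1 h2
    rcases h3 with h3 | h3
    · exact h3
    · rw [h3] at h1
      exact absurd h1 (by decide)
  have hsub : Subsingleton (Sylow 7 H) := (Nat.card_eq_one_iff_unique.1 hn7).1
  have hn : ∀ t : zpowers r, ((zpowers r).subtype t) * w * ((zpowers r).subtype t)⁻¹ ∈ zpowers w := by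
    intro t
    have h1 : ((t : H)) • S = S := Subsingleton.elim _ _
    rw [Sylow.smul_eq_iff_mem_normalizer] at h1
    have h2 := (Subgroup.mem_normalizer_iff.1 h1 w).1 (show w ∈ (S : Subgroup H) by
      rw [hSw]; exact mem_zpowers w)
    have h3 : (t : H) * w * (t : H)⁻¹ ∈ (S : Subgroup H) := h2
    rw [hSw] at h3
    exact h3
  obtain ⟨m, hm⟩ := exists_mult_hom' hw (zpowers r).subtype hn
  have hr5 : r ^ 5 = 1 := by
    have := pow_orderOf_eq_one r
    rwa [hr] at this
  have hw7 : w ^ 7 = 1 := by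
    have := pow_orderOf_eq_one w
    rwa [hw] at this
  let r' : zpowers r := ⟨r, mem_zpowers r⟩
  have hm1 : m r' = 1 := by
    have h1 : m r' ^ 5 = 1 := by
      rw [← map_pow]
      have : r' ^ 5 = 1 := Subtype.ext hr5
      rw [this, map_one]
    have h2 : m r' ^ 6 = 1 := by
      have h3 : Nat.card (ZMod 7)ˣ = 6 := by
        rw [Nat.card_eq_fintype_card, ZMod.card_units 7]
      rw [← h3]
      exact pow_card_eq_one'
    exact eq_one_of_pow_coprime h1 h2 (by norm_num)
  have hcomm : r * w = w * r := by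
    have h1 := hm r'
    rw [hm1] at h1
    have h2 : (((1 : (ZMod 7)ˣ) : ZMod 7)).val = 1 := by decide
    rw [h2, pow_one] at h1
    calc r * w = (r * w * r⁻¹) * r := by group
      _ = w * r := by rw [show r * w * r⁻¹ = w from h1]
  have hr1 : r ≠ 1 := by
    rintro rfl
    simp at hr
  have hw1 : w ≠ 1 := by
    rintro rfl
    simp at hw
  apply no_commuting_5_7 (r : Perm (Fin 7)) (w : Perm (Fin 7))
  · exact congrArg Subtype.val hr5
  · exact congrArg Subtype.val hw7
  · exact fun h => hr1 (Subtype.ext h)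
  · exact fun h => hw1 (Subtype.ext h)
  · exact congrArg Subtype.val hcomm

theorem sign_neg_one_eleven (h : (-1 : ZMod 11) ≠ 0) :
    sign (Units.mulLeft (Units.mk0 (-1 : ZMod 11) h) : Perm (ZMod 11)) = -1 := by
  have h1 : Units.mk0 (-1 : ZMod 11) h = -1 := Units.ext rfl
  rw [h1]
  decide +kernel

/-- With twelve Sylow 11-subgroups, an element inverting one of them is odd. -/
theorem no_twelve_sylow_eleven [Finite Γ] (hperf : commutator Γ = ⊤) (h12 : Nat.card (Sylow 11 Γ) = 12)
    {y t : Γ} (hy : orderOf y = 11) (S₀ : Sylow 11 Γ) (hS₀ : (S₀ : Subgroup Γ) = zpowers y)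
    (ht : t * y * t⁻¹ = y⁻¹) : False := by
  classical
  have : Fintype (Sylow 11 Γ) := Fintype.ofFinite _
  have h11 : y ^ 11 = 1 := by rw [← hy]; exact pow_orderOf_eq_one y
  have hfixS₀ : ∀ g : Γ, g * y * g⁻¹ ∈ zpowers y → g • S₀ = S₀ := by
    intro g hg
    rw [Sylow.smul_eq_iff_mem_normalizer]
    change g ∈ Subgroup.normalizer ((S₀ : Subgroup Γ) : Set Γ)
    rw [hS₀, Subgroup.mem_normalizer_iff]
    have hord : ∀ g : Γ, g * y * g⁻¹ ∈ zpowers y → ∀ k, k ∈ zpowers y → g * k * g⁻¹ ∈ zpowers y := by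
      intro g hg k hk
      obtain ⟨n, rfl⟩ := hk
      have : g * y ^ n * g⁻¹ = (g * y * g⁻¹) ^ n := by
        simp [conj_zpow]
      rw [this]
      exact Subgroup.zpow_mem _ hg n
    intro k
    constructor
    · exact hord g hg k
    · intro hk
      -- use finiteness: conjugation by `g` maps `zpowers y` injectively into itself
      have hinj : Function.Injective (fun z : zpowers y => (⟨g * z * g⁻¹, hord g hg z z.2⟩ : zpowers y)) := by
        intro z z' hzz
        have := congrArg Subtype.val hzz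
        simp only [mul_left_inj, mul_right_inj] at this
        exact Subtype.ext this
      have hsurj := Finite.surjective_of_injective hinj
      obtain ⟨z, hz⟩ := hsurj ⟨_, hk⟩
      have h1 : g * (z : Γ) * g⁻¹ = g * k * g⁻¹ := congrArg Subtype.val hz
      simp only [mul_left_inj, mul_right_inj] at h1
      rw [← h1]
      exact z.2
  have hyS : y • S₀ = S₀ := hfixS₀ y (by
    simp only [mul_inv_cancel_right]
    exact mem_zpowers y)
  have htS : t • S₀ = S₀ := hfixS₀ t (by
    rw [ht]
    exact (zpowers y).inv_mem (mem_zpowers y))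
  let Y : stabilizer Γ S₀ := ⟨y, hyS⟩
  let T : stabilizer Γ S₀ := ⟨t, htS⟩
  let f := stabPerm S₀ Y
  have hf : f ^ 11 = 1 := by
    simp only [f]
    rw [← map_pow]
    have : Y ^ 11 = 1 := Subtype.ext h11
    rw [this, map_one]
  have hpy : IsPGroup 11 (zpowers y) := by
    rw [← hS₀]
    exact S₀.2
  have hfree : ∀ z, f z ≠ z := by
    rintro ⟨R, hR⟩ hz
    apply hR
    have h1 : y • R = R := congrArg Subtype.val hz
    rw [Sylow.smul_eq_iff_mem_normalizer] at h1
    have h2 : y ∈ zpowers y ⊓ Subgroup.normalizer (R : Set Γ) := ⟨mem_zpowers y, h1⟩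
    rw [IsPGroup.inf_normalizer_sylow hpy R] at h2
    have h3 : (zpowers y) ≤ (R : Subgroup Γ) := by
      rw [Subgroup.zpowers_le]
      exact h2.2
    rw [← hS₀] at h3
    exact Sylow.ext (S₀.is_maximal' R.2 h3)
  have hcard : Nat.card {c : Sylow 11 Γ // c ≠ S₀} = 1 * 11 := by
    rw [Nat.card_eq_fintype_card, Fintype.card_subtype_compl]
    have h1 : Fintype.card (Sylow 11 Γ) = 12 := by rwa [← Nat.card_eq_fintype_card]
    simp [h1]
  obtain ⟨E, hE⟩ := Lab2.exists_labeling (p := 11) (r := 1) f hf hfree hcard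
  have hval : ((-1 : ZMod 11)).val = 10 := by decide
  have hc : stabPerm S₀ T * f * (stabPerm S₀ T)⁻¹ = f ^ ((-1 : ZMod 11)).val := by
    simp only [f]
    rw [← map_inv, ← map_mul, ← map_mul, ← map_pow, hval]
    congr 1
    apply Subtype.ext
    change t * y * t⁻¹ = y ^ 10
    rw [ht, eq_comm]
    apply eq_inv_of_mul_eq_one_left
    rw [← pow_succ]
    exact h11
  have hstep := Lab2.conj_step E f hE (stabPerm S₀ T) (-1) hc
  have hne : (-1 : ZMod 11) ≠ 0 := by decide
  obtain ⟨τ, -, hτ⟩ := Lab2.model_sign (by norm_num) _ (-1) hne hstep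
  rw [sign_permCongr, sign_stabPerm, sign_neg_one_eleven] at hτ
  have h1 : sign (MulAction.toPerm (T : Γ) : Perm (Sylow 11 Γ)) = 1 :=
    hom_trivial_of_perfect (sign.comp (MulAction.toPermHom Γ (Sylow 11 Γ))) hperf (T : Γ)
  have h2 : τ = 1 := Subsingleton.elim _ _
  rw [h1, h2] at hτ
  simp at hτ

end Cfsg.Agent.H17.N22
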