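import Cfsg.Agent.Lib.H17.N22g

/-! # Twenty-two Sylow 3-subgroups: the case `q = 3` and the conclusion -/

set_option autoImplicit false
set_option linter.unusedSectionVars false
set_option linter.style.haveILetI false
set_option linter.unusedSimpArgs false
set_option linter.unusedVariables false

namespace Cfsg.Agent.H17.N22

open Equiv Equiv.Perm MulAction Subgroup
open Cfsg.Agent.H17.N21 (hom_trivial_of_perfect eq_one_of_pow_coprime)

variable {Γ X : Type*} [Group Γ] [MulAction Γ X]

section main

variable [Finite Γ] [Fintype X] [FaithfulSMul Γ X] [IsPretransitive Γ X]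

theorem Cfg3.exists_gen (C : Cfg3 Γ X) {a : X} (h3 : Nat.card (C.P a) = 3) :
    ∃ x : Γ, orderOf x = 3 ∧ C.P a = zpowers x := by
  have : IsCyclic (C.P a) := isCyclic_of_prime_card (p := 3) h3
  obtain ⟨g, hg⟩ := IsCyclic.exists_generator (α := C.P a)
  refine ⟨(g : Γ), ?_, ?_⟩
  · have h1 : orderOf g = Nat.card (C.P a) := orderOf_eq_card_of_forall_mem_zpowers hg
    rw [h3] at h1
    rwa [Subgroup.orderOf_coe]
  · ext y
    constructor
    · intro hy
      have := hg ⟨y, hy⟩
      obtain ⟨k, hk⟩ := this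
      exact ⟨k, by simpa using congrArg Subtype.val hk⟩
    · rintro ⟨k, rfl⟩
      exact zpow_mem g.2 k

open Classical in
/-- The labelling for `q = 3`. -/
theorem Cfg3.setup3 (C : Cfg3 Γ X) (hX : Nat.card X = 22) (hperf : commutator Γ = ⊤) {a : X}
    (h3 : Nat.card (C.P a) = 3) :
    ∃ (x : Γ) (E : Fin 7 × ZMod 3 ≃ {c : X // c ≠ a}) (m : stabilizer Γ a →* (ZMod 3)ˣ)
      (ψ : stabilizer Γ a →* Perm (Fin 7)) (c : stabilizer Γ a → Fin 7 → ZMod 3),
      orderOf x = 3 ∧ C.P a = zpowers x ∧
      (∀ t : stabilizer Γ a, (t : Γ) * x * (t : Γ)⁻¹ = x ^ (((m t : (ZMod 3)ˣ) : ZMod 3)).val) ∧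
      (∀ i j, ((E (i, j + 1)) : X) = x • (E (i, j) : X)) ∧
      (∀ (t : stabilizer Γ a) i j, (t : Γ) • (E (i, j) : X) =
        E (ψ t i, ((m t : (ZMod 3)ˣ) : ZMod 3) * j + c t i)) ∧
      (∀ t, m t = 1 → sign (ψ t) = 1) := by
  obtain ⟨x, hx, hP⟩ := C.exists_gen h3
  have hx3 : x ^ 3 = 1 := by rw [← hx]; exact pow_orderOf_eq_one x
  have hxa : x • a = a := C.self_fix a x (by rw [hP]; exact mem_zpowers x)
  let xh : stabilizer Γ a := ⟨x, hxa⟩
  let f := stabPerm a xh
  have hf : f ^ 3 = 1 := by
    simp only [f]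
    rw [← map_pow]
    have : xh ^ 3 = 1 := Subtype.ext hx3
    rw [this, map_one]
  have hfix : ∀ d : X, x • d = d → d = a := by
    intro d hd
    apply C.fix
    intro h hh
    rw [hP] at hh
    obtain ⟨k, rfl⟩ := hh
    exact (MulAction.mem_stabilizer_iff.1 (zpow_mem (MulAction.mem_stabilizer_iff.2 hd) k) :)
  have hfree : ∀ z, f z ≠ z := by
    rintro ⟨d, hd⟩ hz
    exact hd (hfix d (congrArg Subtype.val hz))
  have hcard : Nat.card {c : X // c ≠ a} = 7 * 3 := by
    rw [Nat.card_eq_fintype_card, Fintype.card_subtype_compl]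
    have h1 : Fintype.card X = 22 := by rwa [← Nat.card_eq_fintype_card]
    simp [h1]
  obtain ⟨E, hE⟩ := Lab2.exists_labeling (p := 3) (r := 7) f hf hfree hcard
  have hconj : ∀ t : stabilizer Γ a, (t : Γ) * x * (t : Γ)⁻¹ ∈ zpowers x := by
    intro t
    have h1 := C.conj t a x (by rw [hP]; exact mem_zpowers x)
    have h2 : (t : Γ) • a = a := t.2
    rwa [h2, hP] at h1
  obtain ⟨m, hm⟩ := exists_mult_hom' hx (stabilizer Γ a).subtype hconj
  let ρ := stabPerm (Γ := Γ) a
  let mm : stabilizer Γ a → ZMod 3 := fun t => ((m t : (ZMod 3)ˣ) : ZMod 3)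
  have hm0 : ∀ t, mm t ≠ 0 := fun t => Units.ne_zero _
  have hc : ∀ t, ρ t * f * (ρ t)⁻¹ = f ^ (mm t).val := by
    intro t
    simp only [ρ, f]
    rw [← map_inv, ← map_mul, ← map_mul, ← map_pow]
    congr 1
    apply Subtype.ext
    exact hm t
  obtain ⟨ψ, hψ1, hψ2⟩ := Lab2.exists_tau_hom (by norm_num) E f hE ρ mm hm0 hc
  refine ⟨x, E, m, ψ, fun t i => (E.symm.permCongr (ρ t) (i, 0)).2, hx, hP, hm, fun i j => ?_, ?_, ?_⟩
  · exact congrArg Subtype.val (hE i j)
  · intro t i j
    have hstep := Lab2.conj_step E f hE (ρ t) (mm t) (hc t)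
    have hform := Lab2.affine_form (E.symm.permCongr (ρ t)) (mm t) hstep i j
    have h1 : (E.symm.permCongr (ρ t) (i, 0)).1 = ψ t i := by
      have := hψ1 t i 0
      simpa [Equiv.permCongr_apply] using this
    rw [h1] at hform
    have h2 : ρ t (E (i, j)) = E (ψ t i, mm t * j + (E.symm.permCongr (ρ t) (i, 0)).2) := by
      rw [← hform]
      simp [Equiv.permCongr_apply]
    exact congrArg Subtype.val h2
  · intro t ht
    have h1 := hψ2 t
    have h2 : Units.mk0 (mm t) (hm0 t) = 1 := by
      apply Units.ext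
      change mm t = 1
      simp only [mm]
      rw [ht]
      rfl
    rw [h2] at h1
    have h3 : (Units.mulLeft (1 : (ZMod 3)ˣ) : Perm (ZMod 3)) = 1 := by
      ext j
      simp [Units.mulLeft]
    rw [h3, map_one, one_pow, mul_one] at h1
    rw [← h1]
    have h4 : sign (ρ t) = sign (MulAction.toPerm (t : Γ) : Perm X) := sign_stabPerm a t
    rw [h4]
    exact hom_trivial_of_perfect (sign.comp (MulAction.toPermHom Γ X)) hperf (t : Γ)

theorem zmod3_five (c : ZMod 3) (h : (5 : ZMod 3) * c = 0) : c = 0 := by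
  revert c
  decide

theorem units3_sq : ∀ p : (ZMod 3)ˣ, p ^ 2 = 1 := by decide

/-- For `q = 3` there is no element of order five with exactly two fixed points. -/
theorem Cfg3.no_five (C : Cfg3 Γ X) (hX : Nat.card X = 22) (hperf : commutator Γ = ⊤)
    (hq3 : ∀ b, Nat.card (C.P b) = 3) {u : Γ} (hu : orderOf u = 5) (h2 : Exact2 X u) : False := by
  obtain ⟨a, a', haa', hua, hua', hfix⟩ := h2
  obtain ⟨x, E, m, ψ, c, hx, hP, hm, hE, haff, hsign⟩ := C.setup3 hX hperf (hq3 a)
  have hu5 : u ^ 5 = 1 := by rw [← hu]; exact pow_orderOf_eq_one u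
  let t : stabilizer Γ a := ⟨u, hua⟩
  have ht5 : t ^ 5 = 1 := Subtype.ext hu5
  have hmt : m t = 1 := by
    have h1 : m t ^ 5 = 1 := by rw [← map_pow, ht5, map_one]
    exact eq_one_of_pow_coprime h1 (units3_sq _) (by norm_num)
  have hψ5 : ψ t ^ 5 = 1 := by rw [← map_pow, ht5, map_one]
  obtain ⟨i, hi⟩ : ∃ i : Fin 7, ψ t • i = i := by
    by_contra hne
    push Not at hne
    have h1 := ncard_fix_modEq hψ5 (X := Fin 7) (S := Set.univ) (fun s _ => Set.mem_univ _)
    have h3 : {s ∈ (Set.univ : Set (Fin 7)) | ψ t • s = s} = ∅ := by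
      ext s
      simp only [Set.mem_setOf_eq, Set.mem_univ, true_and, Set.mem_empty_iff_false, iff_false]
      exact hne s
    rw [h3, Set.ncard_empty, Set.ncard_univ] at h1
    simp only [Nat.card_eq_fintype_card, Fintype.card_fin] at h1
    exact absurd h1 (by decide)
  have hi' : ψ t i = i := hi
  have hmt1 : ((m t : (ZMod 3)ˣ) : ZMod 3) = 1 := by rw [hmt]; rfl
  have hstep : ∀ j, u • (E (i, j) : X) = E (i, j + c t i) := by
    intro j
    have := haff t i j
    rw [hmt1, one_mul, hi'] at this
    exact this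
  have hpow : ∀ (n : ℕ) (j : ZMod 3), u ^ n • (E (i, j) : X) = E (i, j + n * c t i) := by
    intro n
    induction n with
    | zero => intro j; simp
    | succ n ih =>
      intro j
      rw [pow_succ, mul_smul, hstep, ih]
      congr 3
      push_cast
      ring
  have hc0 : c t i = 0 := by
    apply zmod3_five
    have h1 := hpow 5 0
    rw [hu5, one_smul] at h1
    have h3 := E.injective (Subtype.ext h1)
    have h4 : (0 : ZMod 3) = 0 + ((5 : ℕ) : ZMod 3) * c t i := (Prod.ext_iff.1 h3).2
    simpa using h4.symm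
  have hfixj : ∀ j, (E (i, j) : X) = a' := by
    intro j
    have h1 := hstep j
    rw [hc0, add_zero] at h1
    exact (hfix _ h1).resolve_left (E (i, j)).2
  have h01 := (hfixj 0).trans (hfixj 1).symm
  have h5 := E.injective (Subtype.ext h01)
  have h6 : (0 : ZMod 3) = 1 := (Prod.ext_iff.1 h5).2
  exact absurd h6 (by decide)

theorem perm_card_alt : Nat.card (alternatingGroup (Fin 7)) = 2520 := by
  have h := two_mul_card_alternatingGroup (α := Fin 7)
  rw [Fintype.card_perm] at h
  rw [Nat.card_eq_fintype_card]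
  simp only [Fintype.card_fin] at h
  have h7 : Nat.factorial 7 = 5040 := by decide
  omega

theorem dvd280_cases : ∀ k ≤ 280, k ∣ 280 → (6 * k) % 11 = 1 → k = 2 ∨ k = 35 := by decide +kernel

theorem zmod11_sq : ∀ k : ZMod 11, k * k = 1 → k ≠ 1 → k = -1 := by decide

/-- The case `q = 3`. -/
theorem Cfg3.caseA_false (C : Cfg3 Γ X) (hX : Nat.card X = 22) (hperf : commutator Γ = ⊤)
    (hq3 : ∀ b, Nat.card (C.P b) = 3) : False := by
  classical
  obtain ⟨a⟩ := Cfg3.nonempty_of_card hX
  obtain ⟨x, E, m, ψ, c, hx, hP, hm, hE, haff, hsign⟩ := C.setup3 hX hperf (hq3 a)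
  have hx3 : x ^ 3 = 1 := by rw [← hx]; exact pow_orderOf_eq_one x
  have hx1 : x ≠ 1 := by
    rintro rfl
    simp at hx
  have hxP : x ∈ C.P a := by rw [hP]; exact mem_zpowers x
  have hxa : x • a = a := C.self_fix a x hxP
  let xh : stabilizer Γ a := ⟨x, hxa⟩
  have hval1 : ((1 : (ZMod 3)ˣ) : ZMod 3).val = 1 := by decide
  have huniq : ∀ p q : ZMod 3, x ^ p.val = x ^ q.val → p = q := by
    intro p q h
    rw [pow_inj_mod, hx] at h
    have ha := ZMod.val_lt p
    have hb := ZMod.val_lt q
    rw [Nat.mod_eq_of_lt ha, Nat.mod_eq_of_lt hb] at h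
    exact ZMod.val_injective 3 h
  have hmcomm : ∀ t : stabilizer Γ a, (t : Γ) * x * (t : Γ)⁻¹ = x → m t = 1 := by
    intro t ht
    have h1 := hm t
    rw [ht] at h1
    apply Units.ext
    apply huniq
    rw [← h1, hval1, pow_one]
  have hmx : m xh = 1 := hmcomm xh (by simp [xh])
  have hψx : ψ xh = 1 := by
    ext i
    have h1 := haff xh i 0
    have h2 := hE i 0
    have h3 : (xh : Γ) • ((E (i, 0)) : X) = x • ((E (i, 0)) : X) := rfl
    rw [h3, ← h2] at h1
    have h4 := E.injective (Subtype.ext h1)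
    have h5 : i = ψ xh i := (Prod.ext_iff.1 h4).1
    rw [← h5]
    rfl
  let K : Subgroup (stabilizer Γ a) := m.ker
  let ψK : K →* Perm (Fin 7) := ψ.comp K.subtype
  have hrange : ψK.range ≤ alternatingGroup (Fin 7) := by
    rintro _ ⟨t, rfl⟩
    rw [Equiv.Perm.mem_alternatingGroup]
    exact hsign _ t.2
  have hk2520 : Nat.card ψK.range ∣ 2520 := by
    rw [← perm_card_alt]
    exact Subgroup.card_dvd_of_le hrange
  -- the kernel
  have hK1 : ∀ t : stabilizer Γ a, m t = 1 → ψ t = 1 → (t : Γ) ∈ C.P a := by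
    intro t ht1 ht2
    have hmt1 : ((m t : (ZMod 3)ˣ) : ZMod 3) = 1 := by rw [ht1]; rfl
    have hstep : ∀ i j, (t : Γ) • (E (i, j) : X) = E (i, j + c t i) := by
      intro i j
      have := haff t i j
      rw [hmt1, one_mul, ht2] at this
      exact this
    have hpow : ∀ (n : ℕ) (i : Fin 7) (j : ZMod 3),
        (t : Γ) ^ n • (E (i, j) : X) = E (i, j + n * c t i) := by
      intro n
      induction n with
      | zero => intro i j; simp
      | succ n ih =>
        intro i j
        rw [pow_succ, mul_smul, hstep, ih]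
        congr 3
        push_cast
        ring
    have ht3 : (t : Γ) ^ 3 = 1 := by
      apply FaithfulSMul.eq_of_smul_eq_smul (α := X)
      intro d
      rw [one_smul]
      by_cases hd : d = a
      · subst hd
        exact (t ^ 3).2
      · obtain ⟨⟨i, j⟩, hij⟩ := E.surjective ⟨d, hd⟩
        have h1 : (E (i, j) : X) = d := congrArg Subtype.val hij
        rw [← h1, hpow]
        have h0 : ((3 : ℕ) : ZMod 3) = 0 := by decide
        rw [h0]
        simp
    have hfx : (t : Γ) • a = a := t.2
    exact C.mem_of_pow_fix (k := 1) (by simpa using ht3) hfx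
  have hK2 : ∀ z ∈ C.P a, ∃ t : stabilizer Γ a, (t : Γ) = z ∧ m t = 1 ∧ ψ t = 1 := by
    intro z hz
    rw [hP] at hz
    obtain ⟨n, rfl⟩ := hz
    refine ⟨xh ^ n, rfl, ?_, ?_⟩
    · rw [map_zpow, hmx, one_zpow]
    · rw [map_zpow, hψx, one_zpow]
  have hkerCard : Nat.card ψK.ker = 3 := by
    refine Eq.trans ?_ (hq3 a)
    apply Nat.card_congr
    exact
      { toFun := fun t => ⟨(((t : K) : stabilizer Γ a) : Γ), hK1 _ (t : K).2 t.2⟩
        invFun := fun z =>
          let hz := hK2 z z.2
          ⟨⟨hz.choose, hz.choose_spec.2.1⟩, hz.choose_spec.2.2⟩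
        left_inv := fun t => by
          apply Subtype.ext
          apply Subtype.ext
          apply Subtype.ext
          exact (hK2 _ (hK1 _ (t : K).2 t.2)).choose_spec.1
        right_inv := fun z => by
          apply Subtype.ext
          exact (hK2 _ z.2).choose_spec.1 }
  have hKcard : Nat.card K = 3 * Nat.card ψK.range := by
    have h1 := Subgroup.card_mul_index ψK.ker
    rw [hkerCard, Subgroup.index_ker] at h1
    exact h1.symm
  -- the multipliers
  have hmrange : Nat.card m.range = 2 := by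
    have h3 : Nat.card m.range ∣ Nat.card (ZMod 3)ˣ := Subgroup.card_subgroup_dvd_card _
    have h4 : Nat.card (ZMod 3)ˣ = 2 := by
      rw [Nat.card_eq_fintype_card, ZMod.card_units 3]
    rw [h4] at h3
    rcases (Nat.dvd_prime (by norm_num)).1 h3 with hf1 | hf2
    · exfalso
      have hmtriv : ∀ t : stabilizer Γ a, m t = 1 := by
        intro t
        have h1 : m t ∈ m.range := ⟨t, rfl⟩
        have h2 : (1 : (ZMod 3)ˣ) ∈ m.range := m.range.one_mem
        have h3 : Subsingleton m.range := (Nat.card_eq_one_iff_unique.1 hf1).1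
        have h4 : (⟨m t, h1⟩ : m.range) = ⟨1, h2⟩ := Subsingleton.elim _ _
        exact congrArg Subtype.val h4
      let S : Sylow 3 Γ := (C.pgrp a).toSylow (C.syl a)
      have hS : (S : Subgroup Γ) = C.P a := rfl
      apply hx1
      apply no_burnside hperf S _ (z := x) (by rw [hS]; exact hxP)
      rw [hS]
      intro g hg
      have hga : g • a = a := by
        apply C.fix
        intro h hh
        have h2 : g⁻¹ * h * g ∈ C.P a := by
          have h3 := (Subgroup.mem_normalizer_iff.1 (inv_mem hg) h).1 hh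
          simpa using h3
        have h3 := C.self_fix a _ h2
        have h4 : h • g • a = g • (g⁻¹ * h * g) • a := by
          simp [mul_smul]
        rw [h4, h3]
      have h1 := hm ⟨g, hga⟩
      rw [hmtriv, hval1, pow_one] at h1
      have h1' : g * x * g⁻¹ = x := h1
      have hcomm : Commute g x := by
        rw [commute_iff_eq]
        calc g * x = g * x * g⁻¹ * g := by group
          _ = x * g := by rw [h1']
      rw [Subgroup.mem_centralizer_iff]
      intro h hh
      rw [hP] at hh
      obtain ⟨n, rfl⟩ := hh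
      exact (hcomm.zpow_right n).eq.symm
    · exact hf2
  have hStab : Nat.card (stabilizer Γ a) = Nat.card K * 2 := by
    have h1 := Subgroup.card_mul_index m.ker
    rw [Subgroup.index_ker, hmrange] at h1
    exact h1.symm
  have hGamma : Nat.card Γ = 132 * Nat.card ψK.range := by
    have h1 := Subgroup.card_mul_index (stabilizer Γ a)
    have h2 : (stabilizer Γ a).index = 22 := by
      rw [← hX]
      exact index_stabilizer_of_transitive Γ a
    rw [h2, hStab, hKcard] at h1
    rw [← h1]
    ring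
  set k := Nat.card ψK.range with hk
  have h3k : ¬ 3 ∣ k := by
    intro h3
    apply C.syl a
    have h1 := Subgroup.card_mul_index (C.P a)
    rw [hq3 a, hGamma] at h1
    have h2 : (C.P a).index = 44 * k := by omega
    rw [h2]
    exact h3.mul_left _
  have hk280 : k ∣ 280 := by
    have hcop : Nat.Coprime k 9 := by
      have h1 : Nat.Coprime k 3 := ((Nat.Prime.coprime_iff_not_dvd (by norm_num)).2 h3k).symm
      have : (9 : ℕ) = 3 ^ 2 := by norm_num
      rw [this]
      exact Nat.Coprime.pow_right 2 h1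
    have h2 : k ∣ 9 * 280 := hk2520
    exact hcop.dvd_of_dvd_mul_left h2
  -- eleven
  obtain ⟨y, hy⟩ := C.exists_eleven hX
  obtain ⟨E', hE'⟩ := C.exists_labeling hX hy
  obtain ⟨f, hf10, hf1, hcardN, hu⟩ := C.T2 hX hperf hy E' hE'
  have hf5 : ¬ 5 ∣ f := by
    intro h5
    obtain ⟨u, -, hu1, hu2, -⟩ := hu 5 (by norm_num) h5
    exact C.no_five hX hperf hq3 hu1 hu2
  have hf2 : f = 2 := by
    have hle := Nat.le_of_dvd (by norm_num) hf10
    interval_cases f <;> first | omega | rfl | (exfalso; revert hf10; decide) | (exfalso; exact hf5 (by decide))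
  subst hf2
  obtain ⟨S, hS⟩ := C.sylow_eleven hX hy
  have hn11 : Nat.card (Sylow 11 Γ) = 6 * k := by
    have h1 : Nat.card (Sylow 11 Γ) = (Nm y).index := by
      have := Sylow.card_eq_index_normalizer S
      have h0 : Subgroup.normalizer (S : Set Γ) = Nm y := by
        change Subgroup.normalizer ((S : Subgroup Γ) : Set Γ) = _
        rw [hS]
      rwa [h0] at this
    have h2 := Subgroup.card_mul_index (Nm y)
    rw [hcardN, hGamma, ← h1] at h2
    omega
  have hmod := card_sylow_modEq_one 11 Γ
  rw [hn11] at hmod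
  have hmod' : (6 * k) % 11 = 1 := hmod
  have hkle := Nat.le_of_dvd (by norm_num) hk280
  rcases dvd280_cases k hkle hk280 hmod' with h2 | h35
  · -- k = 2
    rw [h2] at hn11
    obtain ⟨u, huN, hu1, -, v, hv1, hv⟩ := hu 2 (by norm_num) (dvd_refl 2)
    have hu2 : u ^ 2 = 1 := by rw [← hu1]; exact pow_orderOf_eq_one u
    have h11 : y ^ 11 = 1 := by rw [← hy]; exact pow_orderOf_eq_one y
    have hvv : v * v = 1 := by
      have h1 : u * (u * y * u⁻¹) * u⁻¹ = y := by
        have : u * (u * y * u⁻¹) * u⁻¹ = u ^ 2 * y * (u ^ 2)⁻¹ := by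
          rw [pow_two]
          group
        rw [this, hu2]
        group
      rw [hv, ← conj_pow, hv, ← pow_mul] at h1
      have h3 : y ^ (v.val * v.val) = y ^ (1 : ZMod 11).val := by
        have h0 : (1 : ZMod 11).val = 1 := by decide
        rw [h0, pow_one]
        exact h1
      rw [pow_inj_mod, hy] at h3
      have h4 : (v * v).val = (1 : ZMod 11).val := by
        rw [ZMod.val_mul]
        have h0 : (1 : ZMod 11).val = 1 := by decide
        rw [h0] at h3 ⊢
        exact h3
      exact ZMod.val_injective 11 h4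
    have hvm := zmod11_sq v hvv hv1
    have ht : u * y * u⁻¹ = y⁻¹ := by
      rw [hv, hvm]
      have h0 : ((-1 : ZMod 11)).val = 10 := by decide
      rw [h0]
      apply eq_inv_of_mul_eq_one_left
      rw [← pow_succ]
      exact h11
    exact no_twelve_sylow_eleven hperf hn11 hy S hS ht
  · exact no_sub35 ψK.range h35

/-- No perfect group has such a configuration. -/
theorem Cfg3.false_of_perfect (C : Cfg3 Γ X) (hX : Nat.card X = 22) (hperf : commutator Γ = ⊤) :
    False := by
  classical
  obtain ⟨a⟩ := Cfg3.nonempty_of_card hX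
  let q := Nat.card (C.P a)
  have hq : ∀ b, Nat.card (C.P b) = q := fun b => C.card_eq b a
  by_cases hq3 : q = 3
  · exact C.caseA_false hX hperf (fun b => (hq b).trans hq3)
  · have h := fun b => (C.trichotomy hX hq b).resolve_left hq3
    obtain ⟨y, hy⟩ := C.exists_eleven hX
    obtain ⟨E', hE'⟩ := C.exists_labeling hX hy
    obtain ⟨f, hf10, hf1, hcardN, hu⟩ := C.T2 hX hperf hy E' hE'
    have hℓ : (Nat.minFac f).Prime := Nat.minFac_prime hf1
    have hℓf := Nat.minFac_dvd f
    obtain ⟨u, -, hu1, hu2, -⟩ := hu _ hℓ hℓf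
    have hℓ10 : Nat.minFac f ∣ 10 := hℓf.trans hf10
    have hcases : Nat.minFac f = 2 ∨ Nat.minFac f = 5 := by
      have h10 : (10 : ℕ) = 2 * 5 := by norm_num
      rw [h10] at hℓ10
      rcases (Nat.Prime.dvd_mul hℓ).1 hℓ10 with h1 | h1
      · left
        exact (Nat.prime_dvd_prime_iff_eq hℓ (by norm_num)).1 h1
      · right
        exact (Nat.prime_dvd_prime_iff_eq hℓ (by norm_num)).1 h1
    rw [← hu1] at hcases
    exact C.caseB_false hX hq (h a).1 (fun b => (h b).2.1) (fun b => (h b).2.2) hcases hu2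

end main

/-- There is no configuration at all. -/
theorem Cfg3.false [Finite Γ] [Finite X] [FaithfulSMul Γ X] [IsPretransitive Γ X]
    (C : Cfg3 Γ X) (hX : Nat.card X = 22) : False := by
  have : Fintype X := Fintype.ofFinite X
  obtain ⟨A, hAn, hA, hperf⟩ := C.exists_perfect hX
  haveI trans := C.transitive_of_normal hX A hA
  exact (C.restrict hX A hA).false_of_perfect hX hperf

variable {G : Type*} [Group G] [Finite G]

open scoped Pointwise in
/-- **No finite group has exactly 22 Sylow 3-subgroups.** -/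
theorem no_twenty_two : Nat.card (Sylow 3 G) ≠ 22 := by
  intro hS
  classical
  let ρ : G →* Perm (Sylow 3 G) := MulAction.toPermHom G (Sylow 3 G)
  let r : G →* ρ.range := ρ.rangeRestrict
  have hr : Function.Surjective r := MonoidHom.rangeRestrict_surjective ρ
  have happ : ∀ (g : G) (c : Sylow 3 G), (r g : ρ.range) • c = g • c := fun _ _ => rfl
  have hfix : ∀ (b : Sylow 3 G) (g : G), g ∈ (b : Subgroup G) → g • b = b := by
    intro b g hg
    rw [Sylow.smul_eq_iff_mem_normalizer]
    exact Subgroup.le_normalizer hg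
  let C : Cfg3 ρ.range (Sylow 3 G) :=
    { P := fun b => (b : Subgroup G).map r
      pgrp := by
        rintro b ⟨g, k, hk, rfl⟩
        obtain ⟨n, hn⟩ := b.2 ⟨k, hk⟩
        refine ⟨n, Subtype.ext ?_⟩
        have h1 : k ^ 3 ^ n = 1 := congrArg Subtype.val hn
        simp only [Subgroup.coe_pow, OneMemClass.coe_one]
        rw [← map_pow, h1, map_one]
      conj := by
        intro g b h hh
        obtain ⟨g₀, rfl⟩ := hr g
        obtain ⟨k, hk, rfl⟩ := hh
        refine ⟨g₀ * k * g₀⁻¹, ?_, by simp⟩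
        have h1 : g₀ * k * g₀⁻¹ ∈ ((g₀ • b : Sylow 3 G) : Subgroup G) := by
          rw [Sylow.coe_subgroup_smul]
          have h1 := Subgroup.smul_mem_pointwise_smul k (MulAut.conj g₀) (b : Subgroup G) hk
          simpa [MulAut.smul_def] using h1
        rw [happ]
        exact h1
      self_fix := by
        intro b h hh
        obtain ⟨k, hk, rfl⟩ := hh
        rw [happ]
        exact hfix b k hk
      fix := by
        intro b c hc
        have h1 : ∀ k ∈ (b : Subgroup G), k • c = c := fun k hk =>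
          hc (r k) ⟨k, hk, rfl⟩
        have h2 : (b : Subgroup G) ≤ Subgroup.normalizer (c : Set G) := fun k hk =>
          Sylow.smul_eq_iff_mem_normalizer.1 (h1 k hk)
        have h3 : (b : Subgroup G) ⊓ Subgroup.normalizer (c : Set G) = (b : Subgroup G) :=
          inf_eq_left.2 h2
        rw [IsPGroup.inf_normalizer_sylow b.2 c] at h3
        have h4 : (b : Subgroup G) ≤ c := inf_eq_left.1 h3
        exact Sylow.ext (b.is_maximal' c.2 h4)
      syl := by
        intro b h
        exact b.not_dvd_index (h.trans (Subgroup.index_map_dvd _ hr)) }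
  haveI htrans : IsPretransitive ρ.range (Sylow 3 G) := by
    refine ⟨fun c d => ?_⟩
    obtain ⟨g, hg⟩ := MulAction.exists_smul_eq G c d
    exact ⟨r g, hg⟩
  exact C.false hS

end Cfsg.Agent.H17.N22
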