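import Mathlib

/-!
Order types: counting solutions of `x ^ n = 1`, and certified small permutation groups
whose elements are coded as natural numbers (base 64 digits).
-/

set_option autoImplicit false
set_option linter.style.longLine false
set_option linter.unusedSectionVars false
set_option linter.unusedVariables false

namespace Cfsg.Agent.H17.OT

open Equiv

/-- number of solutions of `x ^ n = 1`. -/
noncomputable def Nsol (X : Type) [Monoid X] (n : ℕ) : ℕ := Nat.card {x : X // x ^ n = 1}

theorem Nsol_prod (X Y : Type) [Monoid X] [Monoid Y] [Finite X] [Finite Y] (n : ℕ) :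
    Nsol (X × Y) n = Nsol X n * Nsol Y n := by
  unfold Nsol
  rw [← Nat.card_prod]
  refine Nat.card_congr ?_
  exact
    { toFun := fun p => ⟨⟨p.1.1, by have := p.2; simpa [Prod.ext_iff] using (Prod.ext_iff.1 this).1⟩,
        ⟨p.1.2, by have := p.2; simpa [Prod.ext_iff] using (Prod.ext_iff.1 this).2⟩⟩
      invFun := fun q => ⟨(q.1.1, q.2.1), by
        have h1 := q.1.2
        have h2 := q.2.2
        simp [Prod.ext_iff, h1, h2]⟩
      left_inv := fun p => by simp
      right_inv := fun q => by simp }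

theorem Nsol_pi (X : Type) [Monoid X] [Finite X] (a n : ℕ) :
    Nsol (Fin a → X) n = Nsol X n ^ a := by
  unfold Nsol
  have : Nat.card {f : Fin a → X // f ^ n = 1} = Nat.card (Fin a → {x : X // x ^ n = 1}) := by
    refine Nat.card_congr ?_
    exact
      { toFun := fun f i => ⟨f.1 i, by
          have := congrFun f.2 i
          simpa using this⟩
        invFun := fun g => ⟨fun i => (g i).1, by
          funext i
          simpa using (g i).2⟩
        left_inv := fun f => by simp
        right_inv := fun g => by simp }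
  rw [this, Nat.card_fun, Nat.card_fin]

/-- counting solutions of `x ^ n = 1` for all `n` determines the number of elements of each order. -/
theorem card_order_eq_of_Nsol_eq (X Y : Type) [Group X] [Group Y] [Finite X] [Finite Y]
    (h : ∀ n, Nsol X n = Nsol Y n) (n : ℕ) :
    Nat.card {x : X // orderOf x = n} = Nat.card {y : Y // orderOf y = n} := by
  classical
  haveI := Fintype.ofFinite X
  haveI := Fintype.ofFinite Y
  have key : ∀ (Z : Type) [Group Z] [Fintype Z] (m : ℕ), 0 < m →
      Nsol Z m = ∑ d ∈ m.divisors, Nat.card {z : Z // orderOf z = d} := by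
    intro Z _ _ m hm
    unfold Nsol
    simp only [Nat.card_eq_fintype_card, Fintype.card_subtype]
    rw [Finset.card_eq_sum_card_fiberwise (f := fun z => orderOf z) (t := m.divisors)]
    · refine Finset.sum_congr rfl ?_
      intro d hd
      congr 1
      ext z
      simp only [Finset.mem_filter, Finset.mem_univ, true_and]
      constructor
      · rintro ⟨_, h2⟩; exact h2
      · intro h2
        refine ⟨?_, h2⟩
        rw [← orderOf_dvd_iff_pow_eq_one, h2]
        exact Nat.dvd_of_mem_divisors hd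
    · intro z hz
      simp only [Finset.coe_filter, Finset.mem_univ, true_and, Set.mem_setOf_eq] at hz
      simp only [Finset.mem_coe, Nat.mem_divisors]
      exact ⟨orderOf_dvd_of_pow_eq_one hz, hm.ne'⟩
  induction n using Nat.strong_induction_on with
  | _ n ih =>
    rcases Nat.eq_zero_or_pos n with rfl | hn
    · have h0 : ∀ (Z : Type) [Group Z] [Finite Z], Nat.card {z : Z // orderOf z = 0} = 0 := by
        intro Z _ _
        haveI : IsEmpty {z : Z // orderOf z = 0} :=
          ⟨fun z => (orderOf_pos z.1).ne' z.2⟩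
        exact Nat.card_of_isEmpty
      rw [h0, h0]
    · have h1 := key X n hn
      have h2 := key Y n hn
      rw [h n, h2] at h1
      rw [← Nat.insert_self_properDivisors hn.ne'] at h1
      rw [Finset.sum_insert Nat.self_notMem_properDivisors, Finset.sum_insert Nat.self_notMem_properDivisors] at h1
      have h3 : ∑ d ∈ n.properDivisors, Nat.card {z : X // orderOf z = d}
          = ∑ d ∈ n.properDivisors, Nat.card {z : Y // orderOf z = d} := by
        refine Finset.sum_congr rfl ?_
        intro d hd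
        exact ih d (Nat.mem_properDivisors.1 hd).2
      omega

theorem isSolvable_pi_fin (X : Type) [Group X] [Group.IsSolvable X] (a : ℕ) : Group.IsSolvable (Fin a → X) := by
  obtain ⟨n, hn⟩ := Group.IsSolvable.solvable (G := X)
  refine ⟨n, ?_⟩
  rw [eq_bot_iff]
  intro f hf
  rw [Subgroup.mem_bot]
  funext i
  have h1 : (Pi.evalMonoidHom (fun _ : Fin a => X) i) f ∈ derivedSeries X n := by
    have := map_derivedSeries_le_derivedSeries (Pi.evalMonoidHom (fun _ : Fin a => X) i) n
    exact this (Subgroup.mem_map_of_mem _ hf)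
  rw [hn, Subgroup.mem_bot] at h1
  simpa using h1

/-! ### codes -/

/-- digit `i` in base 64. -/
def dg (c i : ℕ) : ℕ := Nat.land (Nat.shiftRight c (Nat.mul 6 i)) 63

theorem dg_eq (c i : ℕ) : dg c i = c / 64 ^ i % 64 := by
  unfold dg
  show (c >>> (6 * i)) &&& 63 = _
  rw [Nat.shiftRight_eq_div_pow]
  have : (63 : ℕ) = 2 ^ 6 - 1 := by norm_num
  rw [this, Nat.and_two_pow_sub_one_eq_mod, pow_mul]
  norm_num

noncomputable def cmpAux (a b n : ℕ) : ℕ → ℕ :=
  Nat.rec (fun acc => acc) (fun n ih acc => ih (Nat.add (Nat.mul acc 64) (dg a (dg b n)))) n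

/-- composition `a ∘ b` of codes of degree `k`. -/
noncomputable def cmp (k a b : ℕ) : ℕ := cmpAux a b k 0

noncomputable def idAux (n : ℕ) : ℕ → ℕ :=
  Nat.rec (fun acc => acc) (fun n ih acc => ih (Nat.add (Nat.mul acc 64) n)) n

/-- the code of the identity. -/
noncomputable def idc (k : ℕ) : ℕ := idAux k 0

noncomputable def powc (k c : ℕ) : ℕ → ℕ
  | 0 => idc k
  | n + 1 => cmp k (powc k c n) c

theorem dg_add_mul (c x i : ℕ) (hx : x < 64) :
    dg (c * 64 + x) (i + 1) = dg c i := by
  rw [dg_eq, dg_eq, pow_succ', ← Nat.div_div_eq_div_mul]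
  congr 2
  rw [Nat.add_div_of_dvd_right (Dvd.intro_left c rfl)]
  simp only [Nat.ofNat_pos, Nat.mul_div_cancel]
  rw [Nat.div_eq_of_lt hx]
  simp

theorem dg_add_mul_zero (c x : ℕ) (hx : x < 64) :
    dg (c * 64 + x) 0 = x := by
  rw [dg_eq]
  simp only [pow_zero, Nat.div_one]
  omega

theorem dg_lt (c i : ℕ) : dg c i < 64 := by
  rw [dg_eq]; exact Nat.mod_lt _ (by norm_num)

/-- general digit description of an accumulator loop. -/
theorem cmpAux_spec {m : ℕ} (a b : ℕ) : ∀ (n acc : ℕ),
    (∀ i, i < n → dg (cmpAux a b n acc) i = dg a (dg b i)) ∧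
      (∀ i, dg (cmpAux a b n acc) (n + i) = dg acc i) ∧
      (acc < 64 ^ m → cmpAux a b n acc < 64 ^ (n + m)) := by
  intro n
  induction n generalizing m with
  | zero =>
    intro acc
    refine ⟨by intro i hi; omega, by intro i; simp [cmpAux], by intro h; simpa [cmpAux] using h⟩
  | succ n ih =>
    intro acc
    set x := dg a (dg b n) with hx
    have hx64 : x < 64 := dg_lt _ _
    have hih := ih (m := m + 1) (acc * 64 + x)
    refine ⟨?_, ?_, ?_⟩
    · intro i hi
      show dg (cmpAux a b n (acc * 64 + x)) i = _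
      rcases Nat.lt_succ_iff_lt_or_eq.1 hi with h | h
      · exact hih.1 i h
      · subst h
        have := hih.2.1 0
        simp only [Nat.add_zero] at this
        rw [this, dg_add_mul_zero _ _ hx64]
    · intro i
      show dg (cmpAux a b n (acc * 64 + x)) (n + 1 + i) = _
      have := hih.2.1 (i + 1)
      rw [show n + 1 + i = n + (i + 1) by ring, this, dg_add_mul _ _ _ hx64]
    · intro h
      show cmpAux a b n (acc * 64 + x) < _
      have h2 : acc * 64 + x < 64 ^ (m + 1) := by
        rw [pow_succ]; nlinarith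
      have := hih.2.2 h2
      rwa [show n + (m + 1) = n + 1 + m by ring] at this

theorem dg_cmp (k a b i : ℕ) (hi : i < k) : dg (cmp k a b) i = dg a (dg b i) :=
  (cmpAux_spec (m := 0) a b k 0).1 i hi

theorem cmp_lt (k a b : ℕ) : cmp k a b < 64 ^ k := by
  have := (cmpAux_spec (m := 0) a b k 0).2.2 (by simp)
  simpa [cmp] using this

theorem idAux_spec {m : ℕ} : ∀ (n acc : ℕ), n ≤ 64 →
    (∀ i, i < n → dg (idAux n acc) i = i) ∧ (∀ i, dg (idAux n acc) (n + i) = dg acc i) ∧
      (acc < 64 ^ m → idAux n acc < 64 ^ (n + m)) := by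
  intro n
  induction n generalizing m with
  | zero =>
    intro acc _
    refine ⟨by intro i hi; omega, by intro i; simp [idAux], by intro h; simpa [idAux] using h⟩
  | succ n ih =>
    intro acc hk
    have hn : n < 64 := by omega
    have hih := ih (m := m + 1) (acc * 64 + n) (by omega)
    refine ⟨?_, ?_, ?_⟩
    · intro i hi
      show dg (idAux n (acc * 64 + n)) i = _
      rcases Nat.lt_succ_iff_lt_or_eq.1 hi with h | h
      · exact hih.1 i h
      · subst h
        have := hih.2.1 0
        simp only [Nat.add_zero] at this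
        rw [this, dg_add_mul_zero _ _ hn]
    · intro i
      show dg (idAux n (acc * 64 + n)) (n + 1 + i) = _
      have := hih.2.1 (i + 1)
      rw [show n + 1 + i = n + (i + 1) by ring, this, dg_add_mul _ _ _ hn]
    · intro h
      show idAux n (acc * 64 + n) < _
      have h2 : acc * 64 + n < 64 ^ (m + 1) := by
        rw [pow_succ]; nlinarith
      have := hih.2.2 h2
      rwa [show n + (m + 1) = n + 1 + m by ring] at this

theorem dg_idc (k i : ℕ) (hk : k ≤ 64) (hi : i < k) : dg (idc k) i = i :=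
  (idAux_spec (m := 0) k 0 hk).1 i hi

theorem idc_lt (k : ℕ) (hk : k ≤ 64) : idc k < 64 ^ k := by
  have := (idAux_spec (m := 0) k 0 hk).2.2 (by simp)
  simpa [idc] using this

theorem code_ext : ∀ (k c c' : ℕ), c < 64 ^ k → c' < 64 ^ k → (∀ i, i < k → dg c i = dg c' i) → c = c' := by
  intro k
  induction k with
  | zero => intro c c' h h' _; simp at h h'; omega
  | succ k ih =>
    intro c c' h h' hd
    have h0 := hd 0 (by omega)
    simp only [dg_eq, pow_zero, Nat.div_one] at h0
    have hq : c / 64 = c' / 64 := by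
      apply ih
      · rw [pow_succ] at h; omega
      · rw [pow_succ] at h'; omega
      · intro i hi
        have := hd (i + 1) (by omega)
        simp only [dg_eq, pow_succ', ← Nat.div_div_eq_div_mul] at this ⊢
        exact this
    omega

/-- `c` codes the permutation `x`. -/
def Rep {k : ℕ} (x : Perm (Fin k)) (c : ℕ) : Prop := c < 64 ^ k ∧ ∀ i : Fin k, dg c i = (x i : ℕ)

theorem Rep.inj {k : ℕ} {x y : Perm (Fin k)} {c : ℕ} (hx : Rep x c) (hy : Rep y c) : x = y := by
  ext i
  rw [← hx.2 i, ← hy.2 i]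

theorem Rep.uniq {k : ℕ} {x : Perm (Fin k)} {c c' : ℕ} (h : Rep x c) (h' : Rep x c') : c = c' :=
  code_ext k c c' h.1 h'.1 (fun i hi => by rw [h.2 ⟨i, hi⟩, h'.2 ⟨i, hi⟩])

theorem Rep.mul {k : ℕ} {x y : Perm (Fin k)} {a b : ℕ} (hx : Rep x a) (hy : Rep y b) :
    Rep (x * y) (cmp k a b) := by
  refine ⟨cmp_lt _ _ _, fun i => ?_⟩
  rw [dg_cmp _ _ _ _ i.2, hy.2 i, hx.2 (y i)]
  rfl

theorem Rep.one {k : ℕ} (hk : k ≤ 64) : Rep (1 : Perm (Fin k)) (idc k) :=
  ⟨idc_lt k hk, fun i => by rw [dg_idc k i hk i.2]; rfl⟩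

theorem Rep.pow {k : ℕ} (hk : k ≤ 64) {x : Perm (Fin k)} {c : ℕ} (h : Rep x c) (n : ℕ) :
    Rep (x ^ n) (powc k c n) := by
  induction n with
  | zero => simpa [powc] using Rep.one hk
  | succ n ih =>
    rw [pow_succ]
    exact Rep.mul ih h

/-! ### generators -/

/-- validity test of a code and a code of its inverse. -/
def chk (k c c' : ℕ) : Bool :=
  decide (k ≤ 64) && decide (c < 64 ^ k) && decide (c' < 64 ^ k) &&
    (List.range k).all (fun i => decide (dg c i < k) && decide (dg c' i < k) &&
      decide (dg c' (dg c i) = i) && decide (dg c (dg c' i) = i))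

/-- a generator: a code with inverse code -/
structure Gen (k : ℕ) where
  c : ℕ
  c' : ℕ
  h : chk k c c' = true

theorem chk_spec {k c c' : ℕ} (h : chk k c c' = true) :
    k ≤ 64 ∧ c < 64 ^ k ∧ c' < 64 ^ k ∧ ∀ i, i < k → dg c i < k ∧ dg c' i < k ∧
      dg c' (dg c i) = i ∧ dg c (dg c' i) = i := by
  unfold chk at h
  simp only [Bool.and_eq_true, decide_eq_true_eq, List.all_eq_true, List.mem_range] at h
  obtain ⟨⟨⟨h1, h2⟩, h3⟩, h4⟩ := h
  refine ⟨h1, h2, h3, fun i hi => ?_⟩
  obtain ⟨⟨⟨a, b⟩, c⟩, d⟩ := h4 i hi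
  exact ⟨a, b, c, d⟩

/-- the permutation of a generator. -/
def Gen.perm {k : ℕ} (g : Gen k) : Perm (Fin k) where
  toFun i := ⟨dg g.c i, ((chk_spec g.h).2.2.2 i i.2).1⟩
  invFun i := ⟨dg g.c' i, ((chk_spec g.h).2.2.2 i i.2).2.1⟩
  left_inv i := Fin.ext ((chk_spec g.h).2.2.2 i i.2).2.2.1
  right_inv i := Fin.ext ((chk_spec g.h).2.2.2 i i.2).2.2.2

theorem Gen.rep {k : ℕ} (g : Gen k) : Rep g.perm g.c :=
  ⟨(chk_spec g.h).2.1, fun _ => rfl⟩

/-- the permutation whose code is the inverse code. -/
theorem Gen.rep_inv {k : ℕ} (g : Gen k) : Rep g.perm⁻¹ g.c' :=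
  ⟨(chk_spec g.h).2.2.1, fun _ => rfl⟩

/-- the subgroup generated by a list of generators. -/
def XX {k : ℕ} (gs : List (Gen k)) : Subgroup (Perm (Fin k)) :=
  Subgroup.closure {x | ∃ g ∈ gs, x = g.perm}

theorem nb_true {a b : ℕ} : Nat.beq a b = true ↔ a = b :=
  ⟨Nat.eq_of_beq_eq_true, fun h => h ▸ Nat.beq_refl a⟩

theorem nb_false {a b : ℕ} (h : a ≠ b) : Nat.beq a b = false := by
  cases h2 : Nat.beq a b with
  | false => rfl
  | true => exact absurd (nb_true.1 h2) h

/-- fast membership test. -/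
noncomputable def memb (c : ℕ) (l : List ℕ) : Bool :=
  List.rec false (fun a _ ih => Bool.rec ih true (Nat.beq a c)) l

theorem memb_nil (c : ℕ) : memb c [] = false := rfl
theorem memb_cons (c a : ℕ) (l : List ℕ) :
    memb c (a :: l) = Bool.rec (memb c l) true (Nat.beq a c) := rfl

theorem memb_iff (c : ℕ) : ∀ l : List ℕ, memb c l = true ↔ c ∈ l
  | [] => by simp [memb_nil]
  | a :: l => by
    rw [memb_cons]
    by_cases h : a = c
    · subst h
      simp
    · have h2 : Nat.beq a c = false := nb_false h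
      rw [h2]
      simp only [List.mem_cons, memb_iff c l]
      constructor
      · exact Or.inr
      · rintro (h3 | h3)
        · exact absurd h3.symm h
        · exact h3

/-- reachability certificate. -/
noncomputable def reach (k : ℕ) (gc : List ℕ) : List ℕ → List ℕ → List (ℕ × ℕ) → Bool
  | _, [], _ => true
  | _, _ :: _, [] => false
  | seen, c :: rest, (a, g) :: W =>
      memb a seen && memb g gc && Nat.beq (cmp k a g) c && reach k gc (c :: seen) rest W

/-- no duplicates. -/
noncomputable def ndp : List ℕ → Bool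
  | [] => true
  | a :: l => !memb a l && ndp l

theorem ndp_spec : ∀ l, ndp l = true → l.Nodup
  | [], _ => List.nodup_nil
  | a :: l, h => by
    simp only [ndp, Bool.and_eq_true, Bool.not_eq_true', Bool.eq_false_iff, ne_eq, memb_iff] at h
    exact List.nodup_cons.2 ⟨h.1, ndp_spec l h.2⟩

/-- the certificate that `L` is the list of codes of the elements of `XX gs`. -/
noncomputable def certOK {k : ℕ} (gs : List (Gen k)) (L : List ℕ) (W : List (ℕ × ℕ)) : Bool :=
  decide (k ≤ 64) && ndp (idc k :: L) &&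
    reach k (gs.map Gen.c) [idc k] L W &&
    (idc k :: L).all (fun a => gs.all (fun g => memb (cmp k a g.c) (idc k :: L)))

section main
variable {k : ℕ} {gs : List (Gen k)} {L : List ℕ} {W : List (ℕ × ℕ)}

theorem gen_mem {g : Gen k} (hg : g ∈ gs) : g.perm ∈ XX gs :=
  Subgroup.subset_closure ⟨g, hg, rfl⟩

theorem reach_spec (hk : k ≤ 64) : ∀ (seen L : List ℕ) (W : List (ℕ × ℕ)),
    reach k (gs.map Gen.c) seen L W = true →
    (∀ s ∈ seen, ∃ x ∈ XX gs, Rep x s) → ∀ c ∈ L, ∃ x ∈ XX gs, Rep x c := by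
  intro seen L
  induction L generalizing seen with
  | nil => intro _ _ _ c hc; simp at hc
  | cons c rest ih =>
    intro W hW hs d hd
    cases W with
    | nil => simp [reach] at hW
    | cons p W =>
      obtain ⟨a, g⟩ := p
      simp only [reach, Bool.and_eq_true, memb_iff, nb_true, List.mem_map] at hW
      obtain ⟨⟨⟨h1, ⟨g', hg', rfl⟩⟩, h3⟩, h4⟩ := hW
      obtain ⟨x, hx, hxr⟩ := hs a h1
      have hnew : ∃ y ∈ XX gs, Rep y c := by
        refine ⟨x * g'.perm, Subgroup.mul_mem _ hx (gen_mem hg'), ?_⟩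
        rw [← h3]
        exact Rep.mul hxr g'.rep
      have hs' : ∀ s ∈ c :: seen, ∃ x ∈ XX gs, Rep x s := by
        intro s hs2
        rcases List.mem_cons.1 hs2 with rfl | h
        · exact hnew
        · exact hs s h
      rcases List.mem_cons.1 hd with rfl | h
      · exact hnew
      · exact ih (c :: seen) W h4 hs' d h

/-- the elements of `XX gs` are exactly the ones coded in the list. -/
theorem mem_iff (h : certOK gs L W = true) :
    (∀ c ∈ idc k :: L, ∃ x ∈ XX gs, Rep x c) ∧ (∀ x ∈ XX gs, ∃ c ∈ idc k :: L, Rep x c) ∧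
      (idc k :: L).Nodup := by
  unfold certOK at h
  simp only [Bool.and_eq_true, decide_eq_true_eq, List.all_eq_true, memb_iff] at h
  obtain ⟨⟨⟨hk, hnd⟩, hre⟩, hcl⟩ := h
  have hid : ∃ x ∈ XX gs, Rep x (idc k) := ⟨1, Subgroup.one_mem _, Rep.one hk⟩
  have h1 : ∀ c ∈ idc k :: L, ∃ x ∈ XX gs, Rep x c := by
    intro c hc
    rcases List.mem_cons.1 hc with rfl | hc
    · exact hid
    · refine reach_spec hk _ L W hre ?_ c hc
      intro s hs
      rcases List.mem_cons.1 hs with rfl | hs
      · exact hid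
      · simp at hs
  refine ⟨h1, ?_, ndp_spec _ hnd⟩
  -- the finite set of permutations coded
  let S : Set (Perm (Fin k)) := {x | ∃ c ∈ idc k :: L, Rep x c}
  have hR : ∀ x ∈ XX gs, ∀ a ∈ S, a * x ∈ S := by
    intro x hx
    refine Subgroup.closure_induction (p := fun x _ => ∀ a ∈ S, a * x ∈ S) ?_ ?_ ?_ ?_ hx
    · rintro _ ⟨g, hg, rfl⟩ a ⟨c, hc, hac⟩
      have := hcl c hc g hg
      exact ⟨_, this, Rep.mul hac g.rep⟩
    · intro a ha; simpa using ha
    · intro x y _ _ hx hy a ha
      rw [← mul_assoc]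
      exact hy _ (hx _ ha)
    · intro x _ hx a ha
      have hfin : S.Finite := by exact Set.toFinite S
      have hinj : Set.InjOn (fun b => b * x) S := fun b _ b' _ hbb => mul_right_cancel hbb
      have hmap : Set.MapsTo (fun b => b * x) S S := fun b hb => hx b hb
      have hsub : (fun b => b * x) '' S ⊆ S := hmap.image_subset
      have hEq : (fun b => b * x) '' S = S :=
        Set.eq_of_subset_of_ncard_le hsub (by rw [Set.ncard_image_of_injOn hinj]) hfin
      rw [← hEq] at ha
      obtain ⟨b, hb, rfl⟩ := ha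
      simpa using hb
  intro x hx
  have := hR x hx 1 ⟨idc k, List.mem_cons_self, Rep.one hk⟩
  rw [one_mul] at this
  exact this

/-- count of elements with a decidable property of the code -/
theorem Nsol_eq (h : certOK gs L W = true) (d : ℕ) :
    Nsol (XX gs) d = ((idc k :: L).filter (fun c => powc k c d == idc k)).length := by
  obtain ⟨h1, h2, h3⟩ := mem_iff h
  have hk : k ≤ 64 := by
    unfold certOK at h
    simp only [Bool.and_eq_true, decide_eq_true_eq] at h
    exact h.1.1.1
  have hnd : ((idc k :: L).filter (fun c => powc k c d == idc k)).Nodup := h3.filter _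
  classical
  rw [← List.toFinset_card_of_nodup hnd]
  unfold Nsol
  set T := ((idc k :: L).filter (fun c => powc k c d == idc k)).toFinset with hT
  have hmemT : ∀ c, c ∈ T ↔ c ∈ idc k :: L ∧ powc k c d = idc k := by
    intro c
    simp [hT, List.mem_filter]
  have hch : ∀ c : {c // c ∈ T}, ∃ x ∈ XX gs, Rep x c.1 := fun c => h1 c.1 ((hmemT c.1).1 c.2).1
  let f : {c // c ∈ T} → {x : XX gs // x ^ d = 1} := fun c =>
    ⟨⟨Classical.choose (hch c), (Classical.choose_spec (hch c)).1⟩, by
      apply Subtype.ext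
      have hr := (Classical.choose_spec (hch c)).2
      have hp := Rep.pow hk hr d
      rw [((hmemT c.1).1 c.2).2] at hp
      exact hp.inj (Rep.one hk)⟩
  have hf : Function.Bijective f := by
    constructor
    · intro c c' hcc
      have h3 : Classical.choose (hch c) = Classical.choose (hch c') :=
        congrArg (fun y : {x : XX gs // x ^ d = 1} => (y.1 : Perm (Fin k))) hcc
      have hr := (Classical.choose_spec (hch c)).2
      have hr' := (Classical.choose_spec (hch c')).2
      rw [h3] at hr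
      exact Subtype.ext (hr.uniq hr')
    · rintro ⟨⟨x, hx⟩, hxd⟩
      obtain ⟨c, hc, hcr⟩ := h2 x hx
      have hxd' : x ^ d = 1 := by
        have := congrArg (fun y : XX gs => (y : Perm (Fin k))) hxd
        simpa using this
      have hp := Rep.pow hk hcr d
      rw [hxd'] at hp
      have hcT : c ∈ T := (hmemT c).2 ⟨hc, hp.uniq (Rep.one hk)⟩
      refine ⟨⟨c, hcT⟩, ?_⟩
      apply Subtype.ext
      apply Subtype.ext
      have hr := (Classical.choose_spec (hch ⟨c, hcT⟩)).2
      exact hr.inj hcr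
  rw [← Nat.card_congr (Equiv.ofBijective f hf), Nat.card_eq_fintype_card, Fintype.card_coe]

/-- the twelve divisors of `84`. -/
def divs84 : List ℕ := [1, 2, 3, 4, 6, 7, 12, 14, 21, 28, 42, 84]

theorem gcd_mem_divs84 (n : ℕ) : Nat.gcd n 84 ∈ divs84 := by
  have h : Nat.gcd n 84 ∈ Nat.divisors 84 :=
    Nat.mem_divisors.2 ⟨Nat.gcd_dvd_right n 84, by norm_num⟩
  have h2 : Nat.divisors 84 = {1, 2, 3, 4, 6, 7, 12, 14, 21, 28, 42, 84} := by decide +kernel
  rw [h2] at h
  simpa [divs84] using h

/-- lookup in a vector indexed by the divisors of `84`. -/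
def tab (v : List ℕ) (d : ℕ) : ℕ := v.getD (divs84.idxOf d) 0

/-- loop computing the order of a code: `0` means out of fuel. -/
noncomputable def ordLoop (k c idk : ℕ) (fuel : ℕ) : ℕ → ℕ → ℕ :=
  Nat.rec (fun _ _ => 0)
    (fun _ ih cur i => Bool.rec (ih (cmp k cur c) (Nat.succ i)) i (Nat.beq cur idk)) fuel

theorem ordLoop_spec {o : ℕ} (hk : k ≤ 64) {x : Perm (Fin k)} {c : ℕ} (hr : Rep x c) :
    ∀ (fuel i : ℕ), 0 < i → ordLoop k c (idc k) fuel (powc k c i) i = o → 0 < o →
      i ≤ o ∧ x ^ o = 1 ∧ ∀ j, i ≤ j → j < o → x ^ j ≠ 1 := by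
  intro fuel
  induction fuel with
  | zero =>
    intro i _ h ho
    have : ordLoop k c (idc k) 0 (powc k c i) i = 0 := rfl
    omega
  | succ fuel ih =>
    intro i hi h ho
    have hstep : ordLoop k c (idc k) (fuel + 1) (powc k c i) i =
        Bool.rec (ordLoop k c (idc k) fuel (cmp k (powc k c i) c) (Nat.succ i)) i (Nat.beq (powc k c i) (idc k)) := rfl
    rw [hstep] at h
    by_cases hb : powc k c i = idc k
    · have hb2 : Nat.beq (powc k c i) (idc k) = true := nb_true.2 hb
      rw [hb2] at h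
      have h3 : i = o := h
      subst h3
      refine ⟨le_rfl, ?_, fun j h1 h2 => absurd h1 (by omega)⟩
      have := Rep.pow hk hr i
      rw [hb] at this
      exact this.inj (Rep.one hk)
    · have hb2 : Nat.beq (powc k c i) (idc k) = false := nb_false hb
      rw [hb2] at h
      have h3 : ordLoop k c (idc k) fuel (powc k c (i + 1)) (i + 1) = o := h
      obtain ⟨h4, h5, h6⟩ := ih (i + 1) (by omega) h3 ho
      refine ⟨by omega, h5, ?_⟩
      intro j hj1 hj2
      rcases Nat.eq_or_lt_of_le hj1 with rfl | hj3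
      · intro hx
        apply hb
        have := Rep.pow hk hr i
        rw [hx] at this
        exact this.uniq (Rep.one hk)
      · exact h6 j hj3 hj2

/-- the order of a code; the fuel is `85`. -/
noncomputable def ordc (k c idk : ℕ) : ℕ :=
  Bool.rec (ordLoop k c idk 85 c 1) 1 (Nat.beq c idk)

/-- the loop checking a list of orders. -/
noncomputable def ordsOK (k idk : ℕ) : List ℕ → List ℕ → Bool
  | [], [] => true
  | c :: L, o :: O => Nat.beq (ordc k c idk) o && Nat.blt 0 o && ordsOK k idk L O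
  | _, _ => false

theorem orderOf_of_ordc (hk : k ≤ 64) {x : Perm (Fin k)} {c o : ℕ} (hr : Rep x c)
    (ho : ordc k c (idc k) = o) (h0 : 0 < o) : orderOf x = o := by
  unfold ordc at ho
  by_cases hb : c = idc k
  · have hb2 : Nat.beq c (idc k) = true := nb_true.2 hb
    rw [hb2] at ho
    have h1 : (1 : ℕ) = o := ho
    subst h1
    have hx : x = 1 := by
      rw [hb] at hr
      exact hr.inj (Rep.one hk)
    simp [hx]
  · have hb2 : Nat.beq c (idc k) = false := nb_false hb
    rw [hb2] at ho
    have hpow1 : powc k c 1 = c := by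
      have h1 := Rep.pow hk hr 1
      rw [pow_one] at h1
      exact h1.uniq hr
    have ho' : ordLoop k c (idc k) 85 (powc k c 1) 1 = o := by rw [hpow1]; exact ho
    obtain ⟨h4, h5, h6⟩ := ordLoop_spec hk hr 85 1 (by norm_num) ho' h0
    rw [orderOf_eq_iff h0]
    refine ⟨h5, fun m hm hm0 => h6 m (by omega) hm⟩

theorem ordsOK_spec (hk : k ≤ 64) : ∀ (L O : List ℕ), ordsOK k (idc k) L O = true →
    ∀ (hrep : ∀ c ∈ L, ∃ x : Perm (Fin k), Rep x c) (d : ℕ),
      (L.filter (fun c => powc k c d == idc k)).length = (O.filter (fun o => Nat.beq (d % o) 0)).length ∧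
      (∀ (c : ℕ), c ∈ L → Nat.beq (d % 84) 0 = true → (∀ o ∈ O, Nat.beq (84 % o) 0 = true) → powc k c d = idc k)
  | [], [], _, _, _ => by simp
  | [], _ :: _, h, _, _ => by simp [ordsOK] at h
  | _ :: _, [], h, _, _ => by simp [ordsOK] at h
  | c :: L, o :: O, h, hrep, d => by
    simp only [ordsOK, Bool.and_eq_true, nb_true] at h
    obtain ⟨⟨h1, h2⟩, h3⟩ := h
    have h0 : 0 < o := by simpa using h2
    have hih := ordsOK_spec hk L O h3 (fun c hc => hrep c (List.mem_cons_of_mem _ hc)) d
    obtain ⟨x, hx⟩ := hrep c List.mem_cons_self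
    have hord := orderOf_of_ordc hk hx h1 h0
    have hiff : powc k c d = idc k ↔ d % o = 0 := by
      rw [← Nat.dvd_iff_mod_eq_zero, ← hord, orderOf_dvd_iff_pow_eq_one]
      have hp := Rep.pow hk hx d
      constructor
      · intro h5
        rw [h5] at hp
        exact hp.inj (Rep.one hk)
      · intro h5
        rw [h5] at hp
        exact hp.uniq (Rep.one hk)
    constructor
    · by_cases hd : d % o = 0
      · have hc1 : powc k c d = idc k := hiff.2 hd
        simp only [List.filter_cons, hc1, beq_self_eq_true, if_true, hd, List.length_cons]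
        have : Nat.beq 0 0 = true := rfl
        simp only [this, if_true, List.length_cons, hih.1]
      · have hc1 : ¬ powc k c d = idc k := fun h5 => hd (hiff.1 h5)
        have hb1 : (powc k c d == idc k) = false := by simpa using hc1
        have hb2 : Nat.beq (d % o) 0 = false := nb_false hd
        simp only [List.filter_cons, hb1, hb2, if_false]
        exact hih.1
    · intro c' hc' h84 hall
      rcases List.mem_cons.1 hc' with rfl | hc'
      · apply hiff.2
        have h5 : 84 % o = 0 := nb_true.1 (hall o List.mem_cons_self)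
        have h6 : d % 84 = 0 := nb_true.1 h84
        exact Nat.mod_eq_zero_of_dvd ((Nat.dvd_of_mod_eq_zero h5).trans (Nat.dvd_of_mod_eq_zero h6))
      · exact hih.2 c' hc' h84 (fun o' ho' => hall o' (List.mem_cons_of_mem _ ho'))

/-- test of a vector of counts, and of exponent dividing `84`. -/
noncomputable def vecOK (k : ℕ) (L O v : List ℕ) : Bool :=
  ordsOK k (idc k) (idc k :: L) O &&
    O.all (fun o => Nat.beq (84 % o) 0) &&
    divs84.all (fun d => Nat.beq (O.filter (fun o => Nat.beq (d % o) 0)).length (tab v d))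

theorem Nsol_tab (h : certOK gs L W = true) {O v : List ℕ} (hv : vecOK k L O v = true) (n : ℕ) :
    Nsol (XX gs) n = tab v (Nat.gcd n 84) := by
  obtain ⟨h1, h2, h3⟩ := mem_iff h
  have hk : k ≤ 64 := by
    unfold certOK at h
    simp only [Bool.and_eq_true, decide_eq_true_eq] at h
    exact h.1.1.1
  unfold vecOK at hv
  simp only [Bool.and_eq_true, List.all_eq_true, nb_true] at hv
  obtain ⟨⟨hord, hall⟩, hd⟩ := hv
  have hrep : ∀ c ∈ idc k :: L, ∃ x : Perm (Fin k), Rep x c := by
    intro c hc
    obtain ⟨x, _, hr⟩ := h1 c hc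
    exact ⟨x, hr⟩
  have hexp : ∀ x ∈ XX gs, x ^ 84 = 1 := by
    intro x hx
    obtain ⟨c, hc, hr⟩ := h2 x hx
    have := Rep.pow hk hr 84
    have h5 := (ordsOK_spec hk _ _ hord hrep 84).2 c hc rfl (fun o ho => nb_true.2 (hall o ho))
    rw [h5] at this
    exact this.inj (Rep.one hk)
  have hstep : Nsol (XX gs) n = Nsol (XX gs) (Nat.gcd n 84) := by
    unfold Nsol
    refine Nat.card_congr (Equiv.subtypeEquivRight ?_)
    intro x
    have hx84 : x ^ 84 = 1 := by
      apply Subtype.ext
      simpa using hexp x.1 x.2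
    rw [← orderOf_dvd_iff_pow_eq_one, ← orderOf_dvd_iff_pow_eq_one]
    constructor
    · intro hn
      exact Nat.dvd_gcd hn (orderOf_dvd_of_pow_eq_one hx84)
    · intro hg
      exact hg.trans (Nat.gcd_dvd_left _ _)
  rw [hstep, Nsol_eq h, (ordsOK_spec hk _ _ hord hrep _).1]
  exact hd _ (gcd_mem_divs84 n)

/-! ### solvability certificates -/

theorem xx_le_normalizer {S T : List (Gen k)} {LT : List ℕ} {WT : List (ℕ × ℕ)}
    (hc : certOK T LT WT = true)
    (h2 : S.all (fun g => T.all (fun t => memb (cmp k (cmp k g.c t.c) g.c') (idc k :: LT) &&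
      memb (cmp k (cmp k g.c' t.c) g.c) (idc k :: LT))) = true) :
    XX S ≤ Subgroup.normalizer (XX T : Set (Perm (Fin k))) := by
  obtain ⟨h11, h12, h13⟩ := mem_iff hc
  simp only [List.all_eq_true, Bool.and_eq_true, memb_iff] at h2
  have hmemc : ∀ {x c}, c ∈ idc k :: LT → Rep x c → x ∈ XX T := by
    intro x c hc hr
    obtain ⟨y, hy, hry⟩ := h11 c hc
    rwa [hr.inj hry]
  have hconj : ∀ g ∈ S, ∀ x ∈ XX T, g.perm * x * g.perm⁻¹ ∈ XX T ∧ g.perm⁻¹ * x * g.perm ∈ XX T := by
    intro g hg x hx
    refine Subgroup.closure_induction (p := fun x _ => g.perm * x * g.perm⁻¹ ∈ XX T ∧ g.perm⁻¹ * x * g.perm ∈ XX T) ?_ ?_ ?_ ?_ hx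
    · rintro _ ⟨t, ht, rfl⟩
      obtain ⟨h1, h2'⟩ := h2 g hg t ht
      exact ⟨hmemc h1 ((g.rep.mul t.rep).mul g.rep_inv), hmemc h2' ((g.rep_inv.mul t.rep).mul g.rep)⟩
    · simp [Subgroup.one_mem]
    · intro x y _ _ hx hy
      constructor
      · have := Subgroup.mul_mem _ hx.1 hy.1
        simpa [mul_assoc] using this
      · have := Subgroup.mul_mem _ hx.2 hy.2
        simpa [mul_assoc] using this
    · intro x _ hx
      constructor
      · have := Subgroup.inv_mem _ hx.1
        simpa [mul_assoc] using this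
      · have := Subgroup.inv_mem _ hx.2
        simpa [mul_assoc] using this
  refine (Subgroup.closure_le _).2 ?_
  rintro _ ⟨g, hg, rfl⟩
  rw [SetLike.mem_coe, Subgroup.mem_normalizer_iff]
  intro x
  constructor
  · intro hx
    exact (hconj g hg x hx).1
  · intro hx
    have := (hconj g hg _ hx).2
    simpa [mul_assoc] using this

theorem comm_mem_of_gens {A : Type} [Group A] {s : Set A} {N : Subgroup A}
    (hn : Subgroup.closure s ≤ Subgroup.normalizer (N : Set A))
    (hc : ∀ g ∈ s, ∀ h ∈ s, g * h * g⁻¹ * h⁻¹ ∈ N) :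
    ∀ x ∈ Subgroup.closure s, ∀ y ∈ Subgroup.closure s, x * y * x⁻¹ * y⁻¹ ∈ N := by
  intro x hx y hy
  have hnorm : ∀ (u z : A), u ∈ Subgroup.closure s → z ∈ N → u * z * u⁻¹ ∈ N := by
    intro u z hu hz
    exact (Subgroup.mem_normalizer_iff.1 (hn hu) z).1 hz
  refine Subgroup.closure_induction₂ (p := fun x y _ _ => x * y * x⁻¹ * y⁻¹ ∈ N) ?_ ?_ ?_ ?_ ?_ ?_ ?_ hx hy
  · intro a b ha hb
    exact hc a ha b hb
  · intro a _; simp [Subgroup.one_mem]
  · intro a _; simp [Subgroup.one_mem]
  · intro a b c ha hb hc' h1 h2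
    have := Subgroup.mul_mem _ (hnorm a _ ha h2) h1
    convert this using 1
    group
  · intro a b c ha hb hc' h1 h2
    have := Subgroup.mul_mem _ h1 (hnorm a _ ha h2)
    convert this using 1
    group
  · intro a b ha hb h1
    have := hnorm a⁻¹ _ (Subgroup.inv_mem _ ha) (Subgroup.inv_mem _ h1)
    convert this using 1
    group
  · intro a b ha hb h1
    have := hnorm b⁻¹ _ (Subgroup.inv_mem _ hb) (Subgroup.inv_mem _ h1)
    convert this using 1
    group

theorem solv_of_comm_le {A : Type} [Group A] {K N : Subgroup A} (hN : Group.IsSolvable N)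
    (h : ∀ x ∈ K, ∀ y ∈ K, x * y * x⁻¹ * y⁻¹ ∈ N) : Group.IsSolvable K := by
  haveI : Group.IsSolvable (N.subgroupOf K) := by
    let f : N.subgroupOf K →* N :=
      { toFun := fun x => ⟨x.1.1, x.2⟩
        map_one' := rfl
        map_mul' := fun _ _ => rfl }
    refine Group.isSolvable_of_isSolvable_injective (f := f) ?_
    intro a b hab
    have := congrArg (fun z : N => (z : A)) hab
    exact Subtype.ext (Subtype.ext this)
  refine Group.isSolvable_of_ker_le_range (N.subgroupOf K).subtype (Abelianization.of (G := K)) ?_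
  rw [Abelianization.ker_of, Subgroup.range_subtype]
  unfold commutator
  rw [Subgroup.commutator_le]
  intro p _ q _
  rw [Subgroup.mem_subgroupOf]
  exact h p.1 p.2 q.1 q.2

theorem solv_nil : Group.IsSolvable (XX ([] : List (Gen k))) := by
  have : XX ([] : List (Gen k)) = ⊥ := by
    unfold XX
    simp
  rw [this]
  infer_instance

theorem solv_step {S T : List (Gen k)} {LT : List ℕ} {WT : List (ℕ × ℕ)}
    (hc : certOK T LT WT = true) (hT : Group.IsSolvable (XX T))
    (h1 : S.all (fun g => S.all (fun h => memb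
      (cmp k (cmp k (cmp k g.c h.c) g.c') h.c') (idc k :: LT))) = true)
    (h2 : S.all (fun g => T.all (fun t => memb (cmp k (cmp k g.c t.c) g.c') (idc k :: LT) &&
      memb (cmp k (cmp k g.c' t.c) g.c) (idc k :: LT))) = true) :
    Group.IsSolvable (XX S) := by
  refine solv_of_comm_le hT ?_
  obtain ⟨h11, _, _⟩ := mem_iff hc
  refine comm_mem_of_gens (xx_le_normalizer hc h2) ?_
  rintro _ ⟨g, hg, rfl⟩ _ ⟨h, hh, rfl⟩
  simp only [List.all_eq_true, memb_iff] at h1
  obtain ⟨y, hy, hry⟩ := h11 _ (h1 g hg h hh)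
  rwa [(((g.rep.mul h.rep).mul g.rep_inv).mul h.rep_inv).inj hry]

/-- a perfect generating set: not solvable. -/
theorem not_solv_of_perfect {A : Type} [Group A] {s : Set A} (hs : ∃ a ∈ s, a ≠ 1)
    (h : ∀ a ∈ s, ∃ u ∈ s, ∃ v ∈ s, a = u * v * u⁻¹ * v⁻¹) :
    ¬ Group.IsSolvable (Subgroup.closure s) := by
  intro hsol
  set K := Subgroup.closure s
  obtain ⟨n, hn⟩ := hsol.solvable
  have hsK : ∀ a ∈ s, a ∈ K := fun a ha => Subgroup.subset_closure ha
  have key : ∀ m, ∀ a (ha : a ∈ s), (⟨a, hsK a ha⟩ : K) ∈ derivedSeries K m := by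
    intro m
    induction m with
    | zero => intro a ha; simp
    | succ m ih =>
      intro a ha
      obtain ⟨u, hu, v, hv, rfl⟩ := h a ha
      rw [derivedSeries_succ]
      have := Subgroup.commutator_mem_commutator (ih u hu) (ih v hv)
      convert this using 1
      apply Subtype.ext
      simp [commutatorElement_def]
  obtain ⟨a, ha, hne⟩ := hs
  have := key n a ha
  rw [hn, Subgroup.mem_bot] at this
  exact hne (congrArg Subtype.val this)

end main

theorem not_solv_XX {k : ℕ} {gs : List (Gen k)} (hs : ∃ g ∈ gs, g.c ≠ idc k) (hk : k ≤ 64)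
    (h : gs.all (fun a => gs.any (fun u => gs.any (fun v =>
      a.c == cmp k (cmp k (cmp k u.c v.c) u.c') v.c'))) = true) :
    ¬ Group.IsSolvable (XX gs) := by
  refine not_solv_of_perfect ?_ ?_
  · obtain ⟨g, hg, hne⟩ := hs
    refine ⟨g.perm, ⟨g, hg, rfl⟩, ?_⟩
    intro h1
    apply hne
    have := g.rep
    rw [h1] at this
    exact this.uniq (Rep.one hk)
  · rintro _ ⟨a, ha, rfl⟩
    simp only [List.all_eq_true, List.any_eq_true, beq_iff_eq] at h
    obtain ⟨u, hu, v, hv, huv⟩ := h a ha
    refine ⟨u.perm, ⟨u, hu, rfl⟩, v.perm, ⟨v, hv, rfl⟩, ?_⟩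
    have h1 := ((u.rep.mul v.rep).mul u.rep_inv).mul v.rep_inv
    rw [← huv] at h1
    exact a.rep.inj h1

end Cfsg.Agent.H17.OT

namespace Cfsg.Agent.H17.OT

theorem Nsol_prodG (X Y : Type) [Group X] [Group Y] [Finite X] [Finite Y] (n : ℕ) :
    Nsol (X × Y) n = Nsol X n * Nsol Y n := Nsol_prod X Y n

theorem Nsol_piG (X : Type) [Group X] [Finite X] (a n : ℕ) :
    Nsol (Fin a → X) n = Nsol X n ^ a := Nsol_pi X a n

end Cfsg.Agent.H17.OT
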