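import Cfsg.Agent.Lib.H17.OT0

set_option linter.style.longLine false
set_option maxRecDepth 100000
set_option maxHeartbeats 0

namespace Cfsg.Agent.H17.OT.G16

def gs0 : List (Gen 4) := [⟨274560, 528576, by decide +kernel⟩, ⟨536577, 536577, by decide +kernel⟩]
def L0 : List ℕ := [274560, 536577, 528576, 790530, 8385, 270339, 12354, 786561, 524355, 4227, 262338]
def W0 : List (ℕ × ℕ) := [(794688, 274560), (794688, 536577), (274560, 274560), (274560, 536577), (536577, 274560), (528576, 536577), (790530, 274560), (8385, 274560), (8385, 536577), (270339, 274560), (12354, 274560)]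
def v : List ℕ := [1, 4, 9, 4, 12, 1, 12, 4, 9, 4, 12, 12]
def O0 : List ℕ := [1, 3, 2, 3, 3, 3, 3, 3, 3, 3, 2, 2]
theorem cert0 : certOK gs0 L0 W0 = true := by decide +kernel
theorem vec0 : vecOK 4 L0 O0 v = true := by decide +kernel
theorem nsol (n : ℕ) : Nsol (XX gs0) n = tab v (Nat.gcd n 84) := Nsol_tab cert0 vec0 n

end Cfsg.Agent.H17.OT.G16
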