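import Cfsg.Agent.Lib.H17.OT0

set_option linter.style.longLine false
set_option maxRecDepth 100000
set_option maxHeartbeats 0

namespace Cfsg.Agent.H17.OT.G17

def gs0 : List (Gen 7) := [⟨212685824001, 347944263681, by decide +kernel⟩, ⟨278201106561, 278201110530, by decide +kernel⟩]
def L0 : List ℕ := [212685824001, 278201106561, 278201114688, 347944259712, 347944255554, 417753468930, 347944263681, 417753464961, 212685815874, 212685820032, 278201110530]
def W0 : List (ℕ × ℕ) := [(417753473088, 212685824001), (417753473088, 278201106561), (212685824001, 212685824001), (212685824001, 278201106561), (278201106561, 212685824001), (278201106561, 278201106561), (278201114688, 212685824001), (278201114688, 278201106561), (347944259712, 278201106561), (417753468930, 212685824001), (417753464961, 278201106561)]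
def v : List ℕ := [1, 2, 3, 8, 6, 1, 12, 2, 3, 8, 6, 12]
def O0 : List ℕ := [1, 4, 6, 2, 4, 4, 3, 4, 3, 4, 4, 6]
theorem cert0 : certOK gs0 L0 W0 = true := by decide +kernel
theorem vec0 : vecOK 7 L0 O0 v = true := by decide +kernel
theorem nsol (n : ℕ) : Nsol (XX gs0) n = tab v (Nat.gcd n 84) := Nsol_tab cert0 vec0 n
theorem solv2 : Group.IsSolvable (XX ([] : List (Gen 7))) := solv_nil
def gs2 : List (Gen 7) := []
def L2 : List ℕ := []
def W2 : List (ℕ × ℕ) := []
theorem cert2 : certOK gs2 L2 W2 = true := by decide +kernel
def gs1 : List (Gen 7) := [⟨417753464961, 417753468930, by decide +kernel⟩]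
def L1 : List ℕ := [417753464961, 417753468930]
def W1 : List (ℕ × ℕ) := [(417753473088, 417753464961), (417753464961, 417753464961)]
theorem cert1 : certOK gs1 L1 W1 = true := by decide +kernel
theorem solv1 : Group.IsSolvable (XX gs1) := solv_step cert2 solv2 (by decide +kernel) (by decide +kernel)
theorem solv0 : Group.IsSolvable (XX gs0) := solv_step cert1 solv1 (by decide +kernel) (by decide +kernel)

end Cfsg.Agent.H17.OT.G17
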