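import Cfsg.Agent.Lib.H17.OT0

set_option linter.style.longLine false
set_option maxRecDepth 100000
set_option maxHeartbeats 0

namespace Cfsg.Agent.H17.OT.G19

def gs0 : List (Gen 7) := [⟨415572967425, 415572967425, by decide +kernel⟩, ⟨350107205826, 350107205826, by decide +kernel⟩]
def L0 : List ℕ := [415572967425, 350107205826, 212634440004, 344672714883, 206176788741, 74088722820, 3239072130, 70918603014, 4379644038, 138564100416, 274962342081, 141834858501, 277126074435]
def W0 : List (ℕ × ℕ) := [(417753473088, 415572967425), (417753473088, 350107205826), (415572967425, 350107205826), (350107205826, 415572967425), (212634440004, 415572967425), (344672714883, 350107205826), (206176788741, 350107205826), (74088722820, 415572967425), (3239072130, 415572967425), (70918603014, 350107205826), (4379644038, 350107205826), (138564100416, 415572967425), (274962342081, 415572967425)]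
def v : List ℕ := [1, 8, 1, 8, 8, 7, 8, 14, 7, 14, 14, 14]
def O0 : List ℕ := [1, 2, 2, 7, 7, 2, 2, 7, 7, 2, 2, 7, 7, 2]
theorem cert0 : certOK gs0 L0 W0 = true := by decide +kernel
theorem vec0 : vecOK 7 L0 O0 v = true := by decide +kernel
theorem nsol (n : ℕ) : Nsol (XX gs0) n = tab v (Nat.gcd n 84) := Nsol_tab cert0 vec0 n
theorem solv2 : Group.IsSolvable (XX ([] : List (Gen 7))) := solv_nil
def gs2 : List (Gen 7) := []
def L2 : List ℕ := []
def W2 : List (ℕ × ℕ) := []
theorem cert2 : certOK gs2 L2 W2 = true := by decide +kernel
def gs1 : List (Gen 7) := [⟨3239072130, 70918603014, by decide +kernel⟩]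
def L1 : List ℕ := [3239072130, 141834858501, 344672714883, 212634440004, 274962342081, 70918603014]
def W1 : List (ℕ × ℕ) := [(417753473088, 3239072130), (3239072130, 3239072130), (141834858501, 3239072130), (344672714883, 3239072130), (212634440004, 3239072130), (274962342081, 3239072130)]
theorem cert1 : certOK gs1 L1 W1 = true := by decide +kernel
theorem solv1 : Group.IsSolvable (XX gs1) := solv_step cert2 solv2 (by decide +kernel) (by decide +kernel)
theorem solv0 : Group.IsSolvable (XX gs0) := solv_step cert1 solv1 (by decide +kernel) (by decide +kernel)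

end Cfsg.Agent.H17.OT.G19
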