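import Cfsg.Agent.Lib.H17.OT0

set_option linter.style.longLine false
set_option maxRecDepth 100000
set_option maxHeartbeats 0

namespace Cfsg.Agent.H17.OT.G2

def gs0 : List (Gen 3) := [⟨129, 4098, by decide +kernel⟩]
def L0 : List ℕ := [129, 4098]
def W0 : List (ℕ × ℕ) := [(8256, 129), (129, 129)]
def v : List ℕ := [1, 1, 3, 1, 3, 1, 3, 1, 3, 1, 3, 3]
def O0 : List ℕ := [1, 3, 3]
theorem cert0 : certOK gs0 L0 W0 = true := by decide +kernel
theorem vec0 : vecOK 3 L0 O0 v = true := by decide +kernel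
theorem nsol (n : ℕ) : Nsol (XX gs0) n = tab v (Nat.gcd n 84) := Nsol_tab cert0 vec0 n

end Cfsg.Agent.H17.OT.G2
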