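import Cfsg.Agent.Lib.H17.OT0

set_option linter.style.longLine false
set_option maxRecDepth 100000
set_option maxHeartbeats 0

namespace Cfsg.Agent.H17.OT.G28

def gs0 : List (Gen 7) := [⟨206260420737, 278134263813, by decide +kernel⟩, ⟨281404252353, 347993284611, by decide +kernel⟩]
def L0 : List ℕ := [206260420737, 281404252353, 344721481986, 415538364738, 1142444163, 347993284611, 2231644548, 211544465412, 70968410373, 6493323333, 274895491458, 72025661568, 73014988998, 343631999046, 141785567616, 413425467588, 142809248001, 208373027142, 143899230531, 278134263813]
def W0 : List (ℕ × ℕ) := [(417753473088, 206260420737), (417753473088, 281404252353), (206260420737, 206260420737), (206260420737, 281404252353), (281404252353, 206260420737), (281404252353, 281404252353), (344721481986, 206260420737), (344721481986, 281404252353), (415538364738, 206260420737), (415538364738, 281404252353), (1142444163, 281404252353), (347993284611, 206260420737), (2231644548, 206260420737), (2231644548, 281404252353), (211544465412, 206260420737), (70968410373, 281404252353), (6493323333, 206260420737), (274895491458, 206260420737), (73014988998, 206260420737),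 (208373027142, 281404252353)]
def v : List ℕ := [1, 1, 15, 1, 15, 7, 15, 7, 21, 7, 21, 21]
def O0 : List ℕ := [1, 7, 3, 7, 3, 3, 3, 7, 3, 3, 3, 3, 3, 7, 3, 3, 3, 3, 3, 7, 7]
theorem cert0 : certOK gs0 L0 W0 = true := by decide +kernel
theorem vec0 : vecOK 7 L0 O0 v = true := by decide +kernel
theorem nsol (n : ℕ) : Nsol (XX gs0) n = tab v (Nat.gcd n 84) := Nsol_tab cert0 vec0 n

end Cfsg.Agent.H17.OT.G28
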