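import Cfsg.Agent.Lib.H17.OT0

set_option linter.style.longLine false
set_option maxRecDepth 100000
set_option maxHeartbeats 0

namespace Cfsg.Agent.H17.OT.G3

def gs0 : List (Gen 4) := [⟨12417, 528387, by decide +kernel⟩]
def L0 : List ℕ := [12417, 262338, 528387]
def W0 : List (ℕ × ℕ) := [(794688, 12417), (12417, 12417), (262338, 12417)]
def v : List ℕ := [1, 2, 1, 4, 2, 1, 4, 2, 1, 4, 2, 4]
def O0 : List ℕ := [1, 4, 2, 4]
theorem cert0 : certOK gs0 L0 W0 = true := by decide +kernel
theorem vec0 : vecOK 4 L0 O0 v = true := by decide +kernel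
theorem nsol (n : ℕ) : Nsol (XX gs0) n = tab v (Nat.gcd n 84) := Nsol_tab cert0 vec0 n
theorem solv1 : Group.IsSolvable (XX ([] : List (Gen 4))) := solv_nil
def gs1 : List (Gen 4) := []
def L1 : List ℕ := []
def W1 : List (ℕ × ℕ) := []
theorem cert1 : certOK gs1 L1 W1 = true := by decide +kernel
theorem solv0 : Group.IsSolvable (XX gs0) := solv_step cert1 solv1 (by decide +kernel) (by decide +kernel)

end Cfsg.Agent.H17.OT.G3
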