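import Cfsg.Agent.Lib.H17.OT0

set_option linter.style.longLine false
set_option maxRecDepth 100000
set_option maxHeartbeats 0

namespace Cfsg.Agent.H17.OT.G31

def gs0 : List (Gen 4) := [⟨8385, 270339, by decide +kernel⟩, ⟨786498, 786498, by decide +kernel⟩]
def L0 : List ℕ := [8385, 786498, 270339, 4290, 524481, 274434, 528387, 262275, 528576, 536640, 790656, 536577, 274560, 4227, 12417, 524355, 786561, 12354, 790530, 262338, 8259, 794625, 270528]
def W0 : List (ℕ × ℕ) := [(794688, 8385), (794688, 786498), (8385, 8385), (8385, 786498), (786498, 8385), (270339, 786498), (4290, 8385), (524481, 8385), (524481, 786498), (274434, 8385), (528387, 8385), (528387, 786498), (262275, 786498), (528576, 8385), (536640, 8385), (536640, 786498), (790656, 786498), (274560, 8385), (4227, 8385), (786561, 8385), (12354, 786498), (790530, 786498), (262338, 786498)]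
def v : List ℕ := [1, 10, 9, 16, 18, 1, 24, 10, 9, 16, 18, 24]
def O0 : List ℕ := [1, 3, 2, 3, 4, 4, 4, 4, 4, 3, 2, 2, 2, 3, 2, 4, 3, 3, 3, 3, 2, 2, 2, 2]
theorem cert0 : certOK gs0 L0 W0 = true := by decide +kernel
theorem vec0 : vecOK 4 L0 O0 v = true := by decide +kernel
theorem nsol (n : ℕ) : Nsol (XX gs0) n = tab v (Nat.gcd n 84) := Nsol_tab cert0 vec0 n
theorem solv3 : Group.IsSolvable (XX ([] : List (Gen 4))) := solv_nil
def gs3 : List (Gen 4) := []
def L3 : List ℕ := []
def W3 : List (ℕ × ℕ) := []
theorem cert3 : certOK gs3 L3 W3 = true := by decide +kernel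
def gs2 : List (Gen 4) := [⟨262338, 262338, by decide +kernel⟩, ⟨536577, 536577, by decide +kernel⟩]
def L2 : List ℕ := [262338, 536577, 4227]
def W2 : List (ℕ × ℕ) := [(794688, 262338), (794688, 536577), (262338, 536577)]
theorem cert2 : certOK gs2 L2 W2 = true := by decide +kernel
theorem solv2 : Group.IsSolvable (XX gs2) := solv_step cert3 solv3 (by decide +kernel) (by decide +kernel)
def gs1 : List (Gen 4) := [⟨786561, 790530, by decide +kernel⟩, ⟨528576, 274560, by decide +kernel⟩]
def L1 : List ℕ := [786561, 528576, 790530, 8385, 524355, 274560, 262338, 4227, 536577, 270339, 12354]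
def W1 : List (ℕ × ℕ) := [(794688, 786561), (794688, 528576), (786561, 786561), (786561, 528576), (528576, 786561), (528576, 528576), (790530, 528576), (8385, 786561), (8385, 528576), (262338, 786561), (262338, 528576)]
theorem cert1 : certOK gs1 L1 W1 = true := by decide +kernel
theorem solv1 : Group.IsSolvable (XX gs1) := solv_step cert2 solv2 (by decide +kernel) (by decide +kernel)
theorem solv0 : Group.IsSolvable (XX gs0) := solv_step cert1 solv1 (by decide +kernel) (by decide +kernel)

end Cfsg.Agent.H17.OT.G31
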