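import Cfsg.Agent.Lib.H17.OT0

set_option linter.style.longLine false
set_option maxRecDepth 100000
set_option maxHeartbeats 0

namespace Cfsg.Agent.H17.OT.G33

def gs0 : List (Gen 8) := [⟨13613990690944, 22405806035200, by decide +kernel⟩, ⟨31134318600385, 31067730092035, by decide +kernel⟩]
def L0 : List ℕ := [13613990690944, 31134318600385, 22405806035200, 13676350292290, 351164981377, 31067730092035, 22198639137220, 484341735682, 13269419442181, 17935818830209, 4680442204291, 211645128772, 22134165344263, 4879150764418, 8868035326213, 17594417689030, 26664266105155, 9002269569412, 17734995292231, 4402459463878, 26459213922757, 8797218173254, 26530031075527]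
def W0 : List (ℕ × ℕ) := [(31204079050816, 13613990690944), (31204079050816, 31134318600385), (13613990690944, 13613990690944), (13613990690944, 31134318600385), (31134318600385, 13613990690944), (31134318600385, 31134318600385), (22405806035200, 31134318600385), (13676350292290, 13613990690944), (13676350292290, 31134318600385), (351164981377, 13613990690944), (31067730092035, 13613990690944), (22198639137220, 13613990690944), (22198639137220, 31134318600385), (484341735682, 13613990690944), (13269419442181, 13613990690944), (17935818830209, 31134318600385), (4680442204291, 13613990690944), (211645128772, 13613990690944), (22134165344263, 13613990690944), (4879150764418, 31134318600385), (8868035326213, 13613990690944), (9002269569412, 31134318600385), (17734995292231, 13613990690944)]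
def v : List ℕ := [1, 2, 9, 8, 18, 1, 24, 2, 9, 8, 18, 24]
def O0 : List ℕ := [1, 3, 3, 3, 6, 6, 3, 4, 4, 4, 4, 4, 3, 6, 3, 6, 6, 6, 6, 3, 6, 3, 2, 4]
theorem cert0 : certOK gs0 L0 W0 = true := by decide +kernel
theorem vec0 : vecOK 8 L0 O0 v = true := by decide +kernel
theorem nsol (n : ℕ) : Nsol (XX gs0) n = tab v (Nat.gcd n 84) := Nsol_tab cert0 vec0 n
theorem solv3 : Group.IsSolvable (XX ([] : List (Gen 8))) := solv_nil
def gs3 : List (Gen 8) := []
def L3 : List ℕ := []
def W3 : List (ℕ × ℕ) := []
theorem cert3 : certOK gs3 L3 W3 = true := by decide +kernel
def gs2 : List (Gen 8) := [⟨8797218173254, 8797218173254, by decide +kernel⟩]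
def L2 : List ℕ := [8797218173254]
def W2 : List (ℕ × ℕ) := [(31204079050816, 8797218173254)]
theorem cert2 : certOK gs2 L2 W2 = true := by decide +kernel
theorem solv2 : Group.IsSolvable (XX gs2) := solv_step cert3 solv3 (by decide +kernel) (by decide +kernel)
def gs1 : List (Gen 8) := [⟨4680442204291, 22198639137220, by decide +kernel⟩, ⟨13269419442181, 17935818830209, by decide +kernel⟩]
def L1 : List ℕ := [4680442204291, 13269419442181, 8797218173254, 26530031075527, 484341735682, 22198639137220, 17935818830209]
def W1 : List (ℕ × ℕ) := [(31204079050816, 4680442204291), (31204079050816, 13269419442181), (4680442204291, 4680442204291), (4680442204291, 13269419442181), (13269419442181, 4680442204291), (8797218173254, 4680442204291), (8797218173254, 13269419442181)]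
theorem cert1 : certOK gs1 L1 W1 = true := by decide +kernel
theorem solv1 : Group.IsSolvable (XX gs1) := solv_step cert2 solv2 (by decide +kernel) (by decide +kernel)
theorem solv0 : Group.IsSolvable (XX gs0) := solv_step cert1 solv1 (by decide +kernel) (by decide +kernel)

end Cfsg.Agent.H17.OT.G33
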