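import Cfsg.Agent.Lib.H17.OT0

set_option linter.style.longLine false
set_option maxRecDepth 100000
set_option maxHeartbeats 0

namespace Cfsg.Agent.H17.OT.G43

def gs0 : List (Gen 11) := [⟨10558443452461232257, 10558443452461748227, by decide +kernel⟩, ⟨9404681855489540290, 10505231352482496706, by decide +kernel⟩]
def L0 : List ℕ := [10558443452461232257, 9404681855489540290, 11693627636546011330, 8234031757750964227, 11675881451278569475, 4757534527613313088, 10558443452461748227, 9404681855490072640, 10505231352483029056, 5892437305439826049, 9298271255494930561, 6991029810265063618, 8234031757750448257, 11675881451278053505, 4757534527612780738, 8163082742083616962, 7008758403414102019, 4722046825690304515, 5874682527050637376, 10505231352482496706, 5892437305440342019, 9298271255495446531, 6991029810265595968, 4722046825689788545, 7008758403413586049, 8163082742084149312, 5874682527050105026]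
def W0 : List (ℕ × ℕ) := [(11693627636546543680, 10558443452461232257), (11693627636546543680, 9404681855489540290), (10558443452461232257, 10558443452461232257), (10558443452461232257, 9404681855489540290), (9404681855489540290, 10558443452461232257), (9404681855489540290, 9404681855489540290), (11693627636546011330, 10558443452461232257), (11693627636546011330, 9404681855489540290), (8234031757750964227, 10558443452461232257), (8234031757750964227, 9404681855489540290), (4757534527613313088, 10558443452461232257), (4757534527613313088, 9404681855489540290), (10558443452461748227, 9404681855489540290), (9404681855490072640, 10558443452461232257), (9404681855490072640, 9404681855489540290), (5892437305439826049, 10558443452461232257), (5892437305439826049, 9404681855489540290), (6991029810265063618, 10558443452461232257), (6991029810265063618, 9404681855489540290), (8234031757750448257, 10558443452461232257), (8234031757750448257, 9404681855489540290), (4757534527612780738, 10558443452461232257), (4757534527612780738, 9404681855489540290), (7008758403414102019, 9404681855489540290), (5874682527050637376, 10558443452461232257), (5892437305440342019, 10558443452461232257), (6991029810265595968, 9404681855489540290)]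
def v : List ℕ := [1, 2, 1, 16, 2, 7, 16, 14, 7, 28, 14, 28]
def O0 : List ℕ := [1, 4, 14, 2, 4, 4, 7, 4, 7, 7, 4, 4, 14, 4, 4, 14, 14, 4, 4, 7, 14, 4, 4, 7, 4, 4, 7, 14]
theorem cert0 : certOK gs0 L0 W0 = true := by decide +kernel
theorem vec0 : vecOK 11 L0 O0 v = true := by decide +kernel
theorem nsol (n : ℕ) : Nsol (XX gs0) n = tab v (Nat.gcd n 84) := Nsol_tab cert0 vec0 n
theorem solv2 : Group.IsSolvable (XX ([] : List (Gen 11))) := solv_nil
def gs2 : List (Gen 11) := []
def L2 : List ℕ := []
def W2 : List (ℕ × ℕ) := []
theorem cert2 : certOK gs2 L2 W2 = true := by decide +kernel
def gs1 : List (Gen 11) := [⟨8163082742084149312, 4757534527613313088, by decide +kernel⟩]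
def L1 : List ℕ := [8163082742084149312, 6991029810265595968, 9404681855490072640, 10505231352483029056, 5874682527050637376, 4757534527613313088]
def W1 : List (ℕ × ℕ) := [(11693627636546543680, 8163082742084149312), (8163082742084149312, 8163082742084149312), (6991029810265595968, 8163082742084149312), (9404681855490072640, 8163082742084149312), (10505231352483029056, 8163082742084149312), (5874682527050637376, 8163082742084149312)]
theorem cert1 : certOK gs1 L1 W1 = true := by decide +kernel
theorem solv1 : Group.IsSolvable (XX gs1) := solv_step cert2 solv2 (by decide +kernel) (by decide +kernel)
theorem solv0 : Group.IsSolvable (XX gs0) := solv_step cert1 solv1 (by decide +kernel) (by decide +kernel)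

end Cfsg.Agent.H17.OT.G43
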