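import Cfsg.Agent.Lib.H17.OT0

set_option linter.style.longLine false
set_option maxRecDepth 100000
set_option maxHeartbeats 0

namespace Cfsg.Agent.H17.OT.G6

def gs0 : List (Gen 3) := [⟨8193, 8193, by decide +kernel⟩, ⟨4224, 4224, by decide +kernel⟩]
def L0 : List ℕ := [8193, 4224, 129, 4098, 66]
def W0 : List (ℕ × ℕ) := [(8256, 8193), (8256, 4224), (8193, 4224), (4224, 8193), (129, 8193)]
def v : List ℕ := [1, 4, 3, 4, 6, 1, 6, 4, 3, 4, 6, 6]
def O0 : List ℕ := [1, 2, 2, 3, 3, 2]
theorem cert0 : certOK gs0 L0 W0 = true := by decide +kernel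
theorem vec0 : vecOK 3 L0 O0 v = true := by decide +kernel
theorem nsol (n : ℕ) : Nsol (XX gs0) n = tab v (Nat.gcd n 84) := Nsol_tab cert0 vec0 n
theorem solv2 : Group.IsSolvable (XX ([] : List (Gen 3))) := solv_nil
def gs2 : List (Gen 3) := []
def L2 : List ℕ := []
def W2 : List (ℕ × ℕ) := []
theorem cert2 : certOK gs2 L2 W2 = true := by decide +kernel
def gs1 : List (Gen 3) := [⟨4098, 129, by decide +kernel⟩]
def L1 : List ℕ := [4098, 129]
def W1 : List (ℕ × ℕ) := [(8256, 4098), (4098, 4098)]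
theorem cert1 : certOK gs1 L1 W1 = true := by decide +kernel
theorem solv1 : Group.IsSolvable (XX gs1) := solv_step cert2 solv2 (by decide +kernel) (by decide +kernel)
theorem solv0 : Group.IsSolvable (XX gs0) := solv_step cert1 solv1 (by decide +kernel) (by decide +kernel)

end Cfsg.Agent.H17.OT.G6
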