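import Cfsg.Agent.Lib.H17.OT0

set_option linter.style.longLine false
set_option maxRecDepth 100000
set_option maxHeartbeats 0

namespace Cfsg.Agent.H17.OT.G62

def gs0 : List (Gen 7) := [⟨281404518528, 347993542848, by decide +kernel⟩, ⟨350091223041, 350091223041, by decide +kernel⟩]
def L0 : List ℕ := [281404518528, 350091223041, 347993542848, 416629927938, 211627819137, 280281747459, 75229057218, 415622496513, 346820198466, 141817831491, 276053098818, 413391671427, 212635746372, 5419327746, 345812238723, 277026726081, 73066348677, 6459769155, 140761124868, 206243369346, 343614972036, 142825488582, 4329329025, 207299829765, 68821459203, 412350693573, 414514680132, 208324284672, 3289649286, 74088722820, 70951649286, 137507647809, 274928783430, 278115918213, 71975330112, 1159209156, 143882195205, 344704692486, 138564354432, 2249207877, 210453668166]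
def W0 : List (ℕ × ℕ) := [(417753473088, 281404518528), (417753473088, 350091223041), (281404518528, 281404518528), (281404518528, 350091223041), (350091223041, 281404518528), (347993542848, 350091223041), (416629927938, 281404518528), (211627819137, 281404518528), (211627819137, 350091223041), (280281747459, 281404518528), (75229057218, 281404518528), (75229057218, 350091223041), (415622496513, 350091223041), (346820198466, 281404518528), (141817831491, 281404518528), (141817831491, 350091223041), (276053098818, 350091223041), (413391671427, 281404518528), (212635746372, 281404518528), (5419327746, 281404518528), (5419327746, 350091223041), (345812238723, 350091223041), (277026726081, 281404518528), (73066348677, 281404518528), (6459769155, 281404518528), (6459769155, 350091223041), (140761124868, 281404518528), (140761124868, 350091223041), (206243369346, 350091223041), (343614972036, 281404518528), (142825488582, 281404518528), (4329329025, 281404518528), (4329329025, 350091223041), (207299829765, 281404518528), (207299829765, 350091223041), (68821459203, 350091223041), (412350693573, 281404518528), (74088722820, 350091223041), (70951649286, 350091223041), (137507647809, 350091223041),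 (274928783430, 281404518528)]
def v : List ℕ := [1, 8, 15, 8, 36, 7, 36, 14, 21, 14, 42, 42]
def O0 : List ℕ := [1, 3, 2, 3, 6, 6, 6, 6, 6, 3, 2, 2, 3, 3, 3, 6, 7, 7, 7, 7, 7, 6, 3, 3, 3, 3, 2, 3, 2, 2, 2, 3, 3, 6, 3, 6, 6, 6, 7, 6, 6, 6]
theorem cert0 : certOK gs0 L0 W0 = true := by decide +kernel
theorem vec0 : vecOK 7 L0 O0 v = true := by decide +kernel
theorem nsol (n : ℕ) : Nsol (XX gs0) n = tab v (Nat.gcd n 84) := Nsol_tab cert0 vec0 n
theorem solv2 : Group.IsSolvable (XX ([] : List (Gen 7))) := solv_nil
def gs2 : List (Gen 7) := []
def L2 : List ℕ := []
def W2 : List (ℕ × ℕ) := []
theorem cert2 : certOK gs2 L2 W2 = true := by decide +kernel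
def gs1 : List (Gen 7) := [⟨73066348677, 206243369346, by decide +kernel⟩]
def L1 : List ℕ := [73066348677, 140761124868, 6459769155, 344704692486, 277026726081, 206243369346]
def W1 : List (ℕ × ℕ) := [(417753473088, 73066348677), (73066348677, 73066348677), (140761124868, 73066348677), (6459769155, 73066348677), (344704692486, 73066348677), (277026726081, 73066348677)]
theorem cert1 : certOK gs1 L1 W1 = true := by decide +kernel
theorem solv1 : Group.IsSolvable (XX gs1) := solv_step cert2 solv2 (by decide +kernel) (by decide +kernel)
theorem solv0 : Group.IsSolvable (XX gs0) := solv_step cert1 solv1 (by decide +kernel) (by decide +kernel)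

end Cfsg.Agent.H17.OT.G62
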