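import Cfsg.Agent.Lib.H17.OT0

set_option linter.style.longLine false
set_option maxRecDepth 100000
set_option maxHeartbeats 0

namespace Cfsg.Agent.H17.OT.G7

def gs0 : List (Gen 7) := [⟨6527398017, 347943211014, by decide +kernel⟩]
def L0 : List ℕ := [6527398017, 68821467330, 138514288899, 208322715972, 278132949381, 347943211014]
def W0 : List (ℕ × ℕ) := [(417753473088, 6527398017), (6527398017, 6527398017), (68821467330, 6527398017), (138514288899, 6527398017), (208322715972, 6527398017), (278132949381, 6527398017)]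
def v : List ℕ := [1, 1, 1, 1, 1, 7, 1, 7, 7, 7, 7, 7]
def O0 : List ℕ := [1, 7, 7, 7, 7, 7, 7]
theorem cert0 : certOK gs0 L0 W0 = true := by decide +kernel
theorem vec0 : vecOK 7 L0 O0 v = true := by decide +kernel
theorem nsol (n : ℕ) : Nsol (XX gs0) n = tab v (Nat.gcd n 84) := Nsol_tab cert0 vec0 n
theorem solv1 : Group.IsSolvable (XX ([] : List (Gen 7))) := solv_nil
def gs1 : List (Gen 7) := []
def L1 : List ℕ := []
def W1 : List (ℕ × ℕ) := []
theorem cert1 : certOK gs1 L1 W1 = true := by decide +kernel
theorem solv0 : Group.IsSolvable (XX gs0) := solv_step cert1 solv1 (by decide +kernel) (by decide +kernel)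

end Cfsg.Agent.H17.OT.G7
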