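import Cfsg.Agent.Lib.H17.OT0

set_option linter.style.longLine false
set_option maxRecDepth 100000
set_option maxHeartbeats 0

namespace Cfsg.Agent.H17.OT.G8

def gs0 : List (Gen 4) := [⟨536577, 536577, by decide +kernel⟩, ⟨786498, 786498, by decide +kernel⟩]
def L0 : List ℕ := [536577, 786498, 528387, 12417, 270528, 4227, 262338]
def W0 : List (ℕ × ℕ) := [(794688, 536577), (794688, 786498), (536577, 786498), (786498, 536577), (528387, 536577), (12417, 786498), (270528, 786498)]
def v : List ℕ := [1, 6, 1, 8, 6, 1, 8, 6, 1, 8, 6, 8]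
def O0 : List ℕ := [1, 2, 2, 4, 4, 2, 2, 2]
theorem cert0 : certOK gs0 L0 W0 = true := by decide +kernel
theorem vec0 : vecOK 4 L0 O0 v = true := by decide +kernel
theorem nsol (n : ℕ) : Nsol (XX gs0) n = tab v (Nat.gcd n 84) := Nsol_tab cert0 vec0 n

end Cfsg.Agent.H17.OT.G8
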