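import Mathlib

/-!
Semidirect products `W ⋊ L` with `W` an elementary abelian `p`-group having the same prime
graph as `L`.
-/

set_option autoImplicit false
set_option linter.style.haveILetI false

namespace Cfsg.Agent.H17

/-- the semidirect product `W ⋊ L` -/
@[ext] structure Cov (L W : Type*) where
  /-- translation part -/
  v : W
  /-- linear part -/
  g : L

section

variable {L W : Type*} [Group L] [AddCommGroup W] [DistribMulAction L W]

instance : Mul (Cov L W) := ⟨fun a b => ⟨a.v + a.g • b.v, a.g * b.g⟩⟩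
instance : One (Cov L W) := ⟨⟨0, 1⟩⟩
instance : Inv (Cov L W) := ⟨fun a => ⟨-(a.g⁻¹ • a.v), a.g⁻¹⟩⟩

@[simp] lemma Cov.mul_v (a b : Cov L W) : (a * b).v = a.v + a.g • b.v := rfl
@[simp] lemma Cov.mul_g (a b : Cov L W) : (a * b).g = a.g * b.g := rfl
@[simp] lemma Cov.one_v : (1 : Cov L W).v = 0 := rfl
@[simp] lemma Cov.one_g : (1 : Cov L W).g = 1 := rfl
@[simp] lemma Cov.inv_v (a : Cov L W) : (a⁻¹).v = -(a.g⁻¹ • a.v) := rfl
@[simp] lemma Cov.inv_g (a : Cov L W) : (a⁻¹).g = a.g⁻¹ := rfl

instance : Group (Cov L W) :=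
  Group.ofLeftAxioms
    (by
      intro a b c
      ext1
      · simp [smul_add, add_assoc, mul_smul]
      · simp [mul_assoc])
    (by
      intro a
      ext1
      · simp
      · simp)
    (by
      intro a
      ext1
      · simp
      · simp)

/-- the projection -/
def covPi : Cov L W →* L where
  toFun a := a.g
  map_one' := rfl
  map_mul' _ _ := rfl

/-- the section -/
def covI : L →* Cov L W where
  toFun g := ⟨0, g⟩
  map_one' := rfl
  map_mul' a b := by
    ext1
    · simp
    · simp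

lemma covI_injective : Function.Injective (covI : L →* Cov L W) := by
  intro a b h
  exact congrArg Cov.g h

lemma Cov.pow_g (a : Cov L W) (n : ℕ) : (a ^ n).g = a.g ^ n :=
  map_pow (covPi (L := L) (W := W)) a n

lemma Cov.transl_pow (u : W) (n : ℕ) : (⟨u, 1⟩ : Cov L W) ^ n = ⟨n • u, 1⟩ := by
  induction n with
  | zero => 
    ext1
    · simp
    · simp
  | succ n ih =>
    rw [pow_succ, ih]
    ext1
    · simp [succ_nsmul]
    · simp

/-- the structure of elements of order `r * s`. -/
lemma Cov.order_cases {p : ℕ} (hp : p.Prime) (hW : ∀ w : W, p • w = 0) {r s : ℕ} (hr : r.Prime)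
    (hs : s.Prime) (y : Cov L W) (hy : orderOf y = r * s) :
    orderOf y.g = r * s ∨ (s = p ∧ orderOf y.g = r ∧ ∃ w : W, w ≠ 0 ∧ y.g • w = w) ∨
      (r = p ∧ orderOf y.g = s ∧ ∃ w : W, w ≠ 0 ∧ y.g • w = w) := by
  set t := orderOf y.g with ht
  have htd : t ∣ r * s := by
    rw [← hy]
    exact orderOf_map_dvd (covPi (L := L) (W := W)) y
  have hyt : (y ^ t).g = 1 := by
    rw [Cov.pow_g, ht, pow_orderOf_eq_one]
  have hform : y ^ t = ⟨(y ^ t).v, 1⟩ := by
    ext1
    · rfl
    · exact hyt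
  have hdvd : r * s ∣ t * p := by
    rw [← hy]
    apply orderOf_dvd_of_pow_eq_one
    rw [pow_mul, hform, Cov.transl_pow, hW]
    rfl
  have hfix : y.g • (y ^ t).v = (y ^ t).v := by
    have hcomm : y * y ^ t = y ^ t * y := (Commute.pow_right (Commute.refl y) t).eq
    have := congrArg Cov.v hcomm
    simp only [Cov.mul_v, hyt, one_smul] at this
    exact add_left_cancel (this.trans (add_comm _ _))
  have hne : t ≠ r * s → (y ^ t).v ≠ 0 := by
    intro hts h0
    have h1 : y ^ t = 1 := by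
      rw [hform, h0]
      rfl
    have h2 := orderOf_dvd_of_pow_eq_one h1
    rw [hy] at h2
    exact hts (Nat.dvd_antisymm htd h2)
  have htpos : 0 < t := by
    apply Nat.pos_of_ne_zero
    intro h0
    rw [h0] at htd
    have := Nat.eq_zero_of_zero_dvd htd
    exact (Nat.mul_ne_zero hr.ne_zero hs.ne_zero) this
  -- the divisors of `r * s`
  have hcases : t = 1 ∨ t = r ∨ t = s ∨ t = r * s := by
    obtain ⟨a, b, ha, hb, hab⟩ := (Nat.dvd_mul).1 htd
    rcases (Nat.dvd_prime hr).1 ha with rfl | rfl <;> rcases (Nat.dvd_prime hs).1 hb with rfl | rfl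
    · left; omega
    · right; right; left; omega
    · right; left; omega
    · right; right; right; omega
  rcases hcases with h1 | h1 | h1 | h1
  · exfalso
    rw [h1, one_mul] at hdvd
    have hrs := (Nat.dvd_prime hp).1 hdvd
    rcases hrs with h2 | h2
    · have := hr.one_lt
      have := hs.one_lt
      nlinarith
    · exact Nat.not_prime_mul hr.ne_one hs.ne_one (h2 ▸ hp)
  · right; left
    have h2 : s ∣ p := by
      rw [h1] at hdvd
      exact Nat.dvd_of_mul_dvd_mul_left hr.pos hdvd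
    have h3 : s = p := (Nat.prime_dvd_prime_iff_eq hs hp).1 h2
    refine ⟨h3, h1, (y ^ t).v, hne ?_, hfix⟩
    rw [h1]
    have := hs.one_lt
    have := hr.pos
    nlinarith
  · right; right
    have h2 : r ∣ p := by
      rw [h1, mul_comm r s] at hdvd
      exact Nat.dvd_of_mul_dvd_mul_left hs.pos hdvd
    have h3 : r = p := (Nat.prime_dvd_prime_iff_eq hr hp).1 h2
    refine ⟨h3, h1, (y ^ t).v, hne ?_, hfix⟩
    rw [h1]
    have := hr.one_lt
    have := hs.pos
    nlinarith
  · left
    exact h1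

lemma Cov.orderOf_covI (x : L) : orderOf (covI x : Cov L W) = orderOf x :=
  orderOf_injective _ covI_injective x

/-- `Cov L W` and `L × W` have the same cardinality. -/
def Cov.equivProd : Cov L W ≃ W × L where
  toFun a := (a.v, a.g)
  invFun p := ⟨p.1, p.2⟩
  left_inv _ := rfl
  right_inv _ := rfl

lemma Cov.card : Nat.card (Cov L W) = Nat.card W * Nat.card L := by
  rw [Nat.card_congr Cov.equivProd, Nat.card_prod]

/-- the prime graph of `W ⋊ L` is that of `L`. -/
theorem Cov.same_graph [Finite L] [Finite W] {p : ℕ} (hp : p.Prime) (hW : ∀ w : W, p • w = 0)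
    (hpL : p ∣ Nat.card L)
    (hfix : ∀ (s : ℕ) (x : L) (w : W), s.Prime → s ≠ p → orderOf x = s → w ≠ 0 → x • w = w →
      ∃ g : L, orderOf g = p * s) :
    (∀ r : ℕ, r.Prime → (r ∣ Nat.card L ↔ r ∣ Nat.card (Cov L W))) ∧
    (∀ r s : ℕ, r.Prime → s.Prime → r ≠ s →
      ((∃ x : L, orderOf x = r * s) ↔ ∃ y : Cov L W, orderOf y = r * s)) := by
  constructor
  · intro r hr
    rw [Cov.card]
    constructor
    · intro h
      exact Dvd.dvd.mul_left h _
    · intro h
      rcases (Nat.Prime.dvd_mul hr).1 h with h1 | h1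
      · haveI : Fact r.Prime := ⟨hr⟩
        haveI : Fintype W := Fintype.ofFinite W
        rw [Nat.card_eq_fintype_card] at h1
        obtain ⟨w, hw⟩ := exists_prime_addOrderOf_dvd_card r h1
        have h2 : addOrderOf w ∣ p := addOrderOf_dvd_of_nsmul_eq_zero (hW w)
        rw [hw] at h2
        have h3 : r = p := (Nat.prime_dvd_prime_iff_eq hr hp).1 h2
        rwa [h3]
      · exact h1
  · intro r s hr hs hrs
    constructor
    · rintro ⟨x, hx⟩
      exact ⟨covI x, by rw [Cov.orderOf_covI, hx]⟩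
    · rintro ⟨y, hy⟩
      rcases Cov.order_cases hp hW hr hs y hy with h | ⟨h1, h2, w, hw, hf⟩ | ⟨h1, h2, w, hw, hf⟩
      · exact ⟨y.g, h⟩
      · -- `s = p`, element of order `r`
        obtain ⟨g, hg⟩ := hfix r y.g w hr (fun h => hrs (h.trans h1.symm)) h2 hw hf
        exact ⟨g, by rw [hg, h1, mul_comm]⟩
      · obtain ⟨g, hg⟩ := hfix s y.g w hs (fun h => hrs (h1.trans h.symm)) h2 hw hf
        exact ⟨g, by rw [hg, h1]⟩

/-- A finite group is isomorphic to a group in `Type`. -/
lemma exists_type0 (S : Type*) [Group S] [Finite S] :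
    ∃ (T : Type) (_ : Group T) (_ : Finite T), Nonempty (T ≃* S) :=
  ⟨Fin (Nat.card S), (Finite.equivFin S).symm.group, inferInstance,
    ⟨(Finite.equivFin S).symm.mulEquiv⟩⟩

/-- Groups of arbitrarily large order with the same prime graph. -/
theorem unbounded_prime_graph {V : Type*} [AddCommGroup V] [DistribMulAction L V] [Finite L]
    [Finite V] [Nontrivial V] {p : ℕ} (hp : p.Prime) (hV : ∀ w : V, p • w = 0)
    (hpL : p ∣ Nat.card L)
    (hfix : ∀ (s : ℕ) (x : L) (w : V), s.Prime → s ≠ p → orderOf x = s → w ≠ 0 → x • w = w →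
      ∃ g : L, orderOf g = p * s) (N : ℕ) :
    ∃ (H : Type) (_ : Group H) (_ : Finite H), N < Nat.card H ∧
      (∀ r : ℕ, r.Prime → (r ∣ Nat.card L ↔ r ∣ Nat.card H)) ∧
      (∀ r s : ℕ, r.Prime → s.Prime → r ≠ s →
        ((∃ x : L, orderOf x = r * s) ↔ ∃ y : H, orderOf y = r * s)) := by
  let W := Fin N → V
  have hW : ∀ w : W, p • w = 0 := by
    intro w
    funext i
    exact hV (w i)
  have hfixW : ∀ (s : ℕ) (x : L) (w : W), s.Prime → s ≠ p → orderOf x = s → w ≠ 0 → x • w = w →
      ∃ g : L, orderOf g = p * s := by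
    intro s x w hs hsp hx hw hf
    obtain ⟨i, hi⟩ := Function.ne_iff.1 hw
    exact hfix s x (w i) hs hsp hx hi (congrFun hf i)
  obtain ⟨h1, h2⟩ := Cov.same_graph (L := L) (W := W) hp hW hpL hfixW
  haveI : Finite (Cov L W) := Finite.of_equiv _ (Cov.equivProd (L := L) (W := W)).symm
  obtain ⟨T, iT, fT, ⟨e⟩⟩ := exists_type0 (Cov L W)
  refine ⟨T, iT, fT, ?_, ?_, ?_⟩
  · rw [Nat.card_congr e.toEquiv, Cov.card]
    have h3 : Nat.card W = Nat.card V ^ N := by
      show Nat.card (Fin N → V) = _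
      rw [Nat.card_fun, Nat.card_fin]
    have h4 : 2 ≤ Nat.card V := Finite.one_lt_card
    have h5 : N < 2 ^ N := Nat.lt_two_pow_self
    have h6 : 2 ^ N ≤ Nat.card V ^ N := Nat.pow_le_pow_left h4 N
    have h7 : 0 < Nat.card L := Nat.card_pos
    rw [h3]
    nlinarith
  · intro r hr
    rw [Nat.card_congr e.toEquiv]
    exact h1 r hr
  · intro r s hr hs hrs
    rw [h2 r s hr hs hrs]
    constructor
    · rintro ⟨y, hy⟩
      exact ⟨e.symm y, by rw [MulEquiv.orderOf_eq, hy]⟩
    · rintro ⟨y, hy⟩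
      exact ⟨e y, by rw [MulEquiv.orderOf_eq, hy]⟩

end

end Cfsg.Agent.H17
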