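import Mathlib

/-! Quotient by the kernel of the action on the Sylow subgroups. -/

set_option autoImplicit false
set_option linter.style.haveILetI false

namespace Cfsg.Agent.H17.Mob

variable {G : Type*} [Group G] [Finite G]

section
variable (K : Subgroup G) [K.Normal] (q : ℕ) [Fact q.Prime]

/-- images of the Sylow subgroups in the quotient -/
noncomputable def smap (S : Sylow q G) : Sylow q (G ⧸ K) :=
  S.mapSurjective (QuotientGroup.mk'_surjective K)

lemma coe_smap (S : Sylow q G) :
    (smap K q S : Subgroup (G ⧸ K)) = (S : Subgroup G).map (QuotientGroup.mk' K) := rfl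

lemma smap_surj : Function.Surjective (smap K q) :=
  Sylow.mapSurjective_surjective (QuotientGroup.mk'_surjective K) q

lemma smap_smul (g : G) (S : Sylow q G) : smap K q (g • S) = (g : G ⧸ K) • smap K q S := by
  apply Sylow.ext
  rw [Sylow.coe_subgroup_smul, coe_smap, coe_smap, Sylow.coe_subgroup_smul]
  ext x
  simp only [Subgroup.mem_map, Subgroup.mem_pointwise_smul_iff_inv_smul_mem]
  constructor
  · rintro ⟨y, hy, rfl⟩
    refine ⟨(MulAut.conj g)⁻¹ • y, hy, ?_⟩
    have e : (MulAut.conj (g : G ⧸ K))⁻¹ • ((QuotientGroup.mk' K) y) = (QuotientGroup.mk' K) ((MulAut.conj g)⁻¹ • y) := by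
      show (MulAut.conj (g : G ⧸ K))⁻¹ ((QuotientGroup.mk' K) y) = (QuotientGroup.mk' K) ((MulAut.conj g)⁻¹ y)
      rw [MulAut.conj_inv_apply, MulAut.conj_inv_apply, map_mul, map_mul, map_inv]
      rfl
    exact e.symm
  · rintro ⟨y, hy, hye⟩
    refine ⟨MulAut.conj g • y, ?_, ?_⟩
    · rw [inv_smul_smul]
      exact hy
    · have e : (QuotientGroup.mk' K) (MulAut.conj g • y) = MulAut.conj (g : G ⧸ K) • ((QuotientGroup.mk' K) y) := by
        show (QuotientGroup.mk' K) (MulAut.conj g y) = MulAut.conj (g : G ⧸ K) ((QuotientGroup.mk' K) y)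
        rw [MulAut.conj_apply, MulAut.conj_apply, map_mul, map_mul, map_inv]
        rfl
      rw [e, hye]
      exact smul_inv_smul _ _

lemma card_quot_le : Nat.card (Sylow q (G ⧸ K)) ≤ Nat.card (Sylow q G) :=
  Nat.card_le_card_of_surjective _ (smap_surj K q)

/-- if the numbers agree, `K` normalizes all Sylow subgroups -/
lemma smul_eq_of_card (h : Nat.card (Sylow q G) ≤ Nat.card (Sylow q (G ⧸ K))) (k : G) (hk : k ∈ K)
    (S : Sylow q G) : k • S = S := by
  have hb : Function.Bijective (smap K q) := (smap_surj K q).bijective_of_nat_card_le h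
  apply hb.1
  rw [smap_smul]
  have : ((k : G) : G ⧸ K) = 1 := (QuotientGroup.eq_one_iff k).2 hk
  rw [this, one_smul]

end

section

/-- the kernel of the action on the Sylow subgroups -/
def sylKer (G : Type*) [Group G] (p : ℕ) : Subgroup G := (MulAction.toPermHom G (Sylow p G)).ker

instance sylKer_normal (G : Type*) [Group G] (p : ℕ) : (sylKer G p).Normal := MonoidHom.normal_ker _

variable (p : ℕ) [Fact p.Prime]

lemma mem_sylKer {g : G} : g ∈ sylKer G p ↔ ∀ S : Sylow p G, g • S = S := by
  rw [sylKer, MonoidHom.mem_ker]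
  constructor
  · intro h S
    exact congrArg (fun f : Equiv.Perm (Sylow p G) => f S) h
  · intro h
    exact Equiv.ext h

/-- the images in the quotient by the kernel are different. -/
lemma smap_inj_sylKer : Function.Injective (smap (sylKer G p) p) := by
  intro S S' h
  have h1 : (S' : Subgroup G) ≤ Subgroup.normalizer (S : Set G) := by
    intro x hx
    have h2 : ((x : G) : G ⧸ sylKer G p) ∈ (smap (sylKer G p) p S' : Subgroup (G ⧸ sylKer G p)) := by
      rw [coe_smap]
      exact ⟨x, hx, rfl⟩
    rw [← h, coe_smap] at h2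
    obtain ⟨y, hy, hye⟩ := h2
    have h3 : y⁻¹ * x ∈ sylKer G p := (QuotientGroup.eq).1 hye
    have h4 : y ∈ Subgroup.normalizer (S : Set G) := Subgroup.le_normalizer hy
    have h5 : y⁻¹ * x ∈ Subgroup.normalizer (S : Set G) :=
      Sylow.smul_eq_iff_mem_normalizer.mp ((mem_sylKer p).1 h3 S)
    have e : x = y * (y⁻¹ * x) := by group
    rw [e]
    exact Subgroup.mul_mem _ h4 h5
  have h2 : (S' : Subgroup G) ≤ (S' : Subgroup G) ⊓ Subgroup.normalizer (S : Set G) := le_inf le_rfl h1
  rw [IsPGroup.inf_normalizer_sylow S'.isPGroup' S] at h2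
  have h3 : (S' : Subgroup G) ≤ S := h2.trans inf_le_right
  apply Sylow.ext
  exact S'.is_maximal' S.isPGroup' h3

lemma card_sylow_quot_sylKer : Nat.card (Sylow p (G ⧸ sylKer G p)) = Nat.card (Sylow p G) :=
  (Nat.card_congr (Equiv.ofBijective _ ⟨smap_inj_sylKer p, smap_surj _ p⟩)).symm

lemma faithful_quot_sylKer : Function.Injective (MulAction.toPermHom (G ⧸ sylKer G p) (Sylow p (G ⧸ sylKer G p))) := by
  rw [injective_iff_map_eq_one]
  intro x hx
  obtain ⟨g, rfl⟩ := QuotientGroup.mk_surjective x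
  rw [QuotientGroup.eq_one_iff, mem_sylKer]
  intro S
  apply smap_inj_sylKer p
  rw [smap_smul]
  exact congrArg (fun f : Equiv.Perm (Sylow p (G ⧸ sylKer G p)) => f (smap _ p S)) hx

end

end Cfsg.Agent.H17.Mob
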