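import Mathlib
import Cfsg.Agent.Lib.H17.Q17
import Cfsg.Agent.Lib.H09.KSeq2
import Cfsg.Agent.Lib.H19.AbelianSylow

/-! Normal subgroups normalizing all Sylow subgroups. -/

set_option autoImplicit false
set_option linter.style.haveILetI false

namespace Cfsg.Agent.H17.Mob

variable {G : Type*} [Group G] [Finite G]

/-- a normal subgroup normalizing all Sylow subgroups is central-by-... : trivial if the centre is trivial -/
theorem ker_bot (K : Subgroup G) [hKn : K.Normal] (hZ : Subgroup.center G = ⊥)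
    (hp : ∀ q : ℕ, ∀ _ : Fact q.Prime, ∀ k ∈ K, ∀ S : Sylow q G, k • S = S) : K = ⊥ := by
  rcases K.bot_or_exists_ne_one with h | ⟨x, hxK, hx1⟩
  · exact h
  exfalso
  have h1 : orderOf x ≠ 1 := by
    rwa [Ne, orderOf_eq_one_iff]
  have hrp : (orderOf x).minFac.Prime := Nat.minFac_prime h1
  obtain ⟨r, hre⟩ : ∃ r, r = (orderOf x).minFac := ⟨_, rfl⟩
  rw [← hre] at hrp
  haveI hfr : Fact r.Prime := ⟨hrp⟩
  have hdiv : r ∣ orderOf x := hre ▸ Nat.minFac_dvd _
  obtain ⟨y, hye⟩ : ∃ y, y = x ^ (orderOf x / r) := ⟨_, rfl⟩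
  have hy : orderOf y = r := hye ▸ orderOf_pow_orderOf_div (orderOf_pos x).ne' hdiv
  have hyK : y ∈ K := hye ▸ K.pow_mem hxK _
  have hy1 : y ≠ 1 := by
    intro h
    rw [h, orderOf_one] at hy
    exact hrp.one_lt.ne hy
  have hyp : IsPGroup r (Subgroup.zpowers y) := by
    apply IsPGroup.of_card (n := 1)
    rw [Nat.card_zpowers, hy, pow_one]
  obtain ⟨S, hS⟩ := hyp.exists_le_sylow
  have hyS : y ∈ (S : Subgroup G) := hS (Subgroup.mem_zpowers y)
  -- a central element of `S`
  let M : Subgroup S := K.subgroupOf S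
  haveI hMn : M.Normal := hKn.subgroupOf S
  have hMne : M ≠ ⊥ := by
    intro h
    have : (⟨y, hyS⟩ : S) ∈ M := Subgroup.mem_subgroupOf.2 hyK
    rw [h, Subgroup.mem_bot] at this
    exact hy1 (congrArg Subtype.val this)
  have h2 := Cfsg.Agent.H09.normal_inf_center_ne_bot S.isPGroup' M hMne
  obtain ⟨⟨z, hzS⟩, ⟨hzM, hzc⟩, hz1⟩ := (Subgroup.bot_or_exists_ne_one (M ⊓ Subgroup.center S)).resolve_left h2
  have hzK : z ∈ K := Subgroup.mem_subgroupOf.1 hzM
  have hz1' : z ≠ 1 := fun h => hz1 (Subtype.ext h)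
  have hzS' : ∀ s ∈ (S : Subgroup G), s * z = z * s := by
    intro s hs
    have := (Subgroup.mem_center_iff.mp hzc) ⟨s, hs⟩
    exact congrArg Subtype.val this
  -- `z` is an `r`-element
  have hzp : IsPGroup r (Subgroup.zpowers z) := by
    apply S.isPGroup'.to_le
    rw [Subgroup.zpowers_le]
    exact hzS
  -- it lies in all Sylow `r`-subgroups
  have hall : ∀ S' : Sylow r G, z ∈ (S' : Subgroup G) := by
    intro S'
    have h3 : z ∈ Subgroup.normalizer (S' : Set G) := Sylow.smul_eq_iff_mem_normalizer.mp (hp r hfr z hzK S')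
    have h4 : z ∈ Subgroup.zpowers z ⊓ Subgroup.normalizer (S' : Set G) := ⟨Subgroup.mem_zpowers z, h3⟩
    rw [IsPGroup.inf_normalizer_sylow hzp S'] at h4
    exact h4.2
  -- the centralizer of `z`
  have hcen : ∀ g : G, g * z = z * g := by
    let Cz : Subgroup G := Subgroup.centralizer {z}
    have hCz : ∀ g, g ∈ Cz ↔ g * z = z * g := by
      intro g
      rw [Subgroup.mem_centralizer_iff]
      simp [eq_comm]
    have htop : Cz.index = 1 := by
      by_contra hne
      have hq : (Cz.index).minFac.Prime := Nat.minFac_prime hne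
      obtain ⟨q, hqe⟩ : ∃ q, q = (Cz.index).minFac := ⟨_, rfl⟩
      rw [← hqe] at hq
      haveI hfq : Fact q.Prime := ⟨hq⟩
      have hqd : q ∣ Cz.index := hqe ▸ Nat.minFac_dvd _
      -- a Sylow `q`-subgroup inside
      have hle : ∃ T : Sylow q G, (T : Subgroup G) ≤ Cz := by
        by_cases hqr : q = r
        · subst hqr
          refine ⟨S, fun s hs => (hCz s).2 (hzS' s hs)⟩
        · obtain ⟨T⟩ : Nonempty (Sylow q G) := inferInstance
          refine ⟨T, fun t ht => (hCz t).2 ?_⟩
          have h3 : z ∈ Subgroup.normalizer (T : Set G) := Sylow.smul_eq_iff_mem_normalizer.mp (hp q hfq z hzK T)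
          have h4 : z * t * z⁻¹ ∈ (T : Subgroup G) := (Subgroup.mem_normalizer_iff.mp h3 t).mp ht
          have h5 : z⁻¹ * t * z * t⁻¹ ∈ (T : Subgroup G) := by
            have h6 : z⁻¹ ∈ Subgroup.normalizer (T : Set G) := Subgroup.inv_mem _ h3
            have h7 := (Subgroup.mem_normalizer_iff.mp h6 t).mp ht
            have e : z⁻¹ * t * z * t⁻¹ = (z⁻¹ * t * z⁻¹⁻¹) * t⁻¹ := by group
            rw [e]
            exact (T : Subgroup G).mul_mem h7 ((T : Subgroup G).inv_mem ht)
          have h8 : t * z * t⁻¹ ∈ (S : Subgroup G) := by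
            have h9 := hall (t⁻¹ • S)
            rw [Sylow.coe_subgroup_smul, Subgroup.mem_pointwise_smul_iff_inv_smul_mem] at h9
            have e : (MulAut.conj t⁻¹)⁻¹ • z = t * z * t⁻¹ := by
              show (MulAut.conj t⁻¹)⁻¹ z = _
              rw [MulAut.conj_inv_apply, inv_inv]
            rwa [e] at h9
          have h10 : z⁻¹ * t * z * t⁻¹ ∈ (S : Subgroup G) := by
            have e : z⁻¹ * t * z * t⁻¹ = z⁻¹ * (t * z * t⁻¹) := by group
            rw [e]
            exact (S : Subgroup G).mul_mem ((S : Subgroup G).inv_mem hzS) h8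
          have hdisj := IsPGroup.disjoint_of_ne r q (Ne.symm hqr) _ _ S.isPGroup' T.isPGroup'
          have h11 : z⁻¹ * t * z * t⁻¹ = 1 := by
            have := Subgroup.disjoint_def.mp hdisj h10 h5
            exact this
          have h12 : t * z = z * t := by
            have h13 : z⁻¹ * t * z = t := by
              have := congrArg (· * t) h11
              simpa using this
            calc t * z = z * (z⁻¹ * t * z) := by group
              _ = z * t := by rw [h13]
          exact h12
      obtain ⟨T, hT⟩ := hle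
      have h3 : Cz.index ∣ (T : Subgroup G).index := Subgroup.index_dvd_of_le hT
      exact T.not_dvd_index (hqd.trans h3)
    have h3 : Cz = ⊤ := Subgroup.index_eq_one.mp htop
    intro g
    exact (hCz g).1 (h3 ▸ Subgroup.mem_top g)
  have hzc' : z ∈ Subgroup.center G := by
    rw [Subgroup.mem_center_iff]
    exact hcen
  rw [hZ, Subgroup.mem_bot] at hzc'
  exact hz1' hzc'

variable (r : ℕ) [hr : Fact r.Prime]

/-- Sylow `r`-subgroups inside the kernel of the action on the 17-Sylow subgroups. -/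
theorem no_prime [hf17 : Fact (Nat.Prime 17)] (hr17 : r ≠ 17) (hr16 : ¬ r ∣ 16) (c : ℕ) (hc : ¬ 17 ∣ c)
    (hn : Nat.card (Sylow r G) = 17 * c)
    (hR : ∀ R : Sylow r G, ∀ x ∈ (R : Subgroup G), x ∈ sylKer G 17) : False := by
  obtain ⟨R⟩ : Nonempty (Sylow r G) := inferInstance
  set N : Subgroup G := Subgroup.normalizer (R : Set G) with hN
  have hidx : Nat.card (Sylow r G) = N.index := Sylow.card_eq_index_normalizer R
  have hGN := N.card_mul_index
  rw [← hidx, hn] at hGN
  have hc0 : c ≠ 0 := by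
    rintro rfl
    exact hc (dvd_zero _)
  have hNpos : Nat.card N ≠ 0 := Nat.card_pos.ne'
  obtain ⟨P₁⟩ : Nonempty (Sylow 17 N) := inferInstance
  have hP₁ := Sylow.card_eq_multiplicity P₁
  set a := (Nat.card N).factorization 17 with ha
  let A : Subgroup G := (P₁ : Subgroup N).map N.subtype
  have hA : IsPGroup 17 A := P₁.isPGroup'.map _
  have hAcard : Nat.card A = 17 ^ a := by
    rw [← hP₁]
    exact Nat.card_congr ((P₁ : Subgroup N).equivMapOfInjective N.subtype N.subtype_injective).toEquiv.symm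
  obtain ⟨P, hAP⟩ := hA.exists_le_sylow
  have hPcard : Nat.card P = 17 ^ (a + 1) := by
    have hv : (Nat.card G).factorization 17 = a + 1 := by
      rw [← hGN, Nat.factorization_mul hNpos (by positivity)]
      simp only [Finsupp.coe_add, Pi.add_apply]
      rw [Nat.factorization_mul (by norm_num) hc0]
      simp only [Finsupp.coe_add, Pi.add_apply]
      rw [Nat.Prime.factorization_self (by norm_num), Nat.factorization_eq_zero_of_not_dvd hc]
    rw [Sylow.card_eq_multiplicity P, hv]
  have hAN : A ≤ N := Subgroup.map_subtype_le _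
  have hRN : (R : Subgroup G) ≤ Subgroup.normalizer (P : Set G) := by
    intro x hx
    exact Sylow.smul_eq_iff_mem_normalizer.mp ((mem_sylKer 17).1 (hR R x hx) P)
  have hmod := Cfsg.Agent.H19.card_modEq_inf_centralizer (A := (R : Subgroup G)) (D := (P : Subgroup G)) R.isPGroup'
    (by
      intro x hx
      exact hRN hx)
  have hdisj : Disjoint (R : Subgroup G) (P : Subgroup G) :=
    IsPGroup.disjoint_of_ne r 17 hr17 _ _ R.isPGroup' P.isPGroup'
  set B : Subgroup G := (P : Subgroup G) ⊓ Subgroup.centralizer ((R : Subgroup G) : Set G) with hB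
  have hAB : A ≤ B := by
    intro x hx
    refine ⟨hAP hx, (Subgroup.mem_centralizer_iff.2 ?_)⟩
    intro y hy
    have hxN : x ∈ N := hAN hx
    have hxP : x ∈ (P : Subgroup G) := hAP hx
    have h1 : x * y * x⁻¹ ∈ (R : Subgroup G) := (Subgroup.mem_normalizer_iff.mp hxN y).mp hy
    have h2 : y * x⁻¹ * y⁻¹ ∈ (P : Subgroup G) :=
      (Subgroup.mem_normalizer_iff.mp (hRN hy) x⁻¹).mp ((P : Subgroup G).inv_mem hxP)
    have h3 : x * y * x⁻¹ * y⁻¹ ∈ (R : Subgroup G) := (R : Subgroup G).mul_mem h1 ((R : Subgroup G).inv_mem hy)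
    have h4 : x * y * x⁻¹ * y⁻¹ ∈ (P : Subgroup G) := by
      have e : x * y * x⁻¹ * y⁻¹ = x * (y * x⁻¹ * y⁻¹) := by group
      rw [e]
      exact (P : Subgroup G).mul_mem hxP h2
    have h5 : x * y * x⁻¹ * y⁻¹ = 1 := Subgroup.disjoint_def.mp hdisj h3 h4
    have h6 : x * y * x⁻¹ = y := by
      have := congrArg (· * y) h5
      simpa using this
    calc y * x = (x * y * x⁻¹) * x := by rw [h6]
      _ = x * y := by group
  have hBP : B ≤ (P : Subgroup G) := inf_le_left
  have hBd : Nat.card B ∣ 17 ^ (a + 1) := by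
    rw [← hPcard]
    exact Subgroup.card_dvd_of_le hBP
  obtain ⟨b, hb, hBc⟩ := (Nat.dvd_prime_pow (by norm_num)).1 hBd
  have hAd : 17 ^ a ∣ 17 ^ b := by
    rw [← hAcard, ← hBc]
    exact Subgroup.card_dvd_of_le hAB
  have hab : a ≤ b := (Nat.pow_dvd_pow_iff_le_right (by norm_num)).1 hAd
  rcases (show b = a ∨ b = a + 1 by omega) with rfl | rfl
  · -- the congruence
    rw [hPcard, hBc] at hmod
    have h1 : r ∣ 17 ^ (a + 1) - 17 ^ a := (Nat.modEq_iff_dvd' (Nat.pow_le_pow_right (by norm_num) (by omega))).1 hmod.symm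
    have e : 17 ^ (a + 1) - 17 ^ a = 17 ^ a * 16 := by
      rw [pow_succ]
      omega
    rw [e] at h1
    rcases (Nat.Prime.dvd_mul hr.out).1 h1 with h2 | h2
    · have h3 := hr.out.dvd_of_dvd_pow h2
      exact hr17 ((Nat.prime_dvd_prime_iff_eq hr.out (by norm_num)).1 h3)
    · exact hr16 h2
  · have hBe : B = (P : Subgroup G) := by
      apply Subgroup.eq_of_le_of_card_ge hBP
      rw [hPcard, hBc]
    have hPN : (P : Subgroup G) ≤ N := by
      rw [← hBe]
      exact inf_le_right.trans (Subgroup.centralizer_le_normalizer _)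
    have h1 : 17 ^ (a + 1) ∣ Nat.card N := by
      rw [← hPcard]
      exact Subgroup.card_dvd_of_le hPN
    rw [(show Nat.Prime 17 by norm_num).pow_dvd_iff_le_factorization hNpos] at h1
    omega

end Cfsg.Agent.H17.Mob
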