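import Cfsg.Agent.Lib.H17.TW2

/-!
# Thompson--Wielandt for primitive permutation groups
-/

set_option autoImplicit false
set_option linter.style.longLine false
set_option linter.unusedSectionVars false

namespace Cfsg.Agent.H17.TW

open Cfsg Cfsg.Agent.H13 Cfsg.Agent.H05 Subgroup MulAction

variable {G Ω : Type*} [Group G] [Finite G] [MulAction G Ω] [FaithfulSMul G Ω]

theorem core_stabilizer_eq_bot (hprim : IsPretransitive G Ω) (a : Ω) : (stabilizer G a).normalCore = ⊥ := by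
  rw [eq_bot_iff]
  intro x hx
  rw [Subgroup.mem_bot]
  apply FaithfulSMul.eq_of_smul_eq_smul (α := Ω)
  intro c
  obtain ⟨g, rfl⟩ := hprim.exists_smul_eq a c
  have h1 := (Subgroup.normalCore_le _) ((Subgroup.normalCore_normal _).conj_mem x hx g⁻¹)
  rw [mem_stabilizer_iff] at h1
  simp only [inv_inv, mul_smul] at h1
  simp only [one_smul]
  have h3 := congrArg (fun y => g • y) h1
  simpa using h3

/-- The basic facts on a suborbit of length `d ≥ 2`. -/
theorem action_facts (hprim : IsPreprimitive G Ω) (a b : Ω) (d : ℕ)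
    (hd : Nat.card (orbit (stabilizer G a) b) = d) (h2 : 2 ≤ d) :
    IsCoatom (stabilizer G a) ∧ (stabilizer G a).normalCore = ⊥ ∧ stabilizer G a ≠ stabilizer G b ∧
      (∃ g : G, stabilizer G b = (stabilizer G a).map (MulAut.conj g).toMonoidHom) ∧
      (stabilizer G a ⊓ stabilizer G b).relIndex (stabilizer G a) = d ∧
      (stabilizer G a ⊓ stabilizer G b).relIndex (stabilizer G b) = d := by
  haveI hpt : IsPretransitive G Ω := hprim.toIsPretransitive
  have hne : stabilizer G a ≠ stabilizer G b := by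
    intro he
    have h3 : orbit (stabilizer G a) b = {b} := by
      ext c
      constructor
      · rintro ⟨h, rfl⟩
        have : (h : G) ∈ stabilizer G b := he ▸ h.2
        exact this
      · rintro rfl
        exact mem_orbit_self _
    rw [h3] at hd
    simp at hd
    omega
  have hab : a ≠ b := by
    rintro rfl
    exact hne rfl
  haveI : Nontrivial Ω := ⟨a, b, hab⟩
  obtain ⟨g, hg⟩ := hpt.exists_smul_eq a b
  have hconj : stabilizer G b = (stabilizer G a).map (MulAut.conj g).toMonoidHom := by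
    rw [← hg]
    exact stabilizer_smul_eq_stabilizer_map_conj g a
  have hi : (stabilizer G b).relIndex (stabilizer G a) = d := by
    have h4 := index_stabilizer (stabilizer G a) b
    have h5 : stabilizer (stabilizer G a) b = (stabilizer G b).subgroupOf (stabilizer G a) := by
      ext x
      simp [mem_subgroupOf, mem_stabilizer_iff]
      rfl
    rw [h5] at h4
    rw [Subgroup.relIndex, h4, ← Nat.card_coe_set_eq]
    exact hd
  have hi1 : (stabilizer G a ⊓ stabilizer G b).relIndex (stabilizer G a) = d := by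
    rw [inf_comm, inf_relIndex_right]
    exact hi
  have hcard : Nat.card (stabilizer G a) = Nat.card (stabilizer G b) := by
    rw [hconj]
    exact Nat.card_congr ((stabilizer G a).equivMapOfInjective _ (MulAut.conj g).injective).toEquiv
  have hi2 : (stabilizer G a ⊓ stabilizer G b).relIndex (stabilizer G b) = d := by
    have h6 := card_mul_relIndex (inf_le_left : stabilizer G a ⊓ stabilizer G b ≤ stabilizer G a)
    have h7 := card_mul_relIndex (inf_le_right : stabilizer G a ⊓ stabilizer G b ≤ stabilizer G b)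
    rw [← hi1]
    exact Nat.eq_of_mul_eq_mul_left Nat.card_pos (h7.trans (hcard.symm.trans h6.symm))
  exact ⟨(isCoatom_stabilizer_iff_preprimitive G a).mpr hprim, core_stabilizer_eq_bot hpt a, hne, ⟨g, hconj⟩, hi1, hi2⟩

/-- The bound for the whole stabilizer when a second core vanishes. -/
theorem card_dvd_of_bot {M₁ M₂ A B X Y : Subgroup G} (h : Setup M₁ M₂ A B X Y) {d : ℕ}
    (hd₁ : (M₁ ⊓ M₂).relIndex M₁ = d) (hd₂ : (M₁ ⊓ M₂).relIndex M₂ = d)
    (hcard : Nat.card M₁ = Nat.card M₂) (hb : X = ⊥ ∨ Y = ⊥) :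
    Nat.card M₁ ∣ d.factorial * ((d - 1).factorial) ^ d := by
  rcases hb with hb | hb
  · have h1 := index_bound h hd₁ hd₂
    have h2 := card_mul_relIndex (h.X_le.trans (inf_le_left.trans (A_le_M₁ h)))
    rw [hb, Subgroup.card_bot, one_mul] at h2
    rw [hb] at h1
    rwa [h2] at h1
  · have h1 := index_bound h.symm (d := d) (by rw [inf_comm]; exact hd₂) (by rw [inf_comm]; exact hd₁)
    have h2 := card_mul_relIndex (h.Y_le.trans (inf_le_right.trans (B_le_M₂ h)))
    rw [hb, Subgroup.card_bot, one_mul] at h2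
    rw [hb] at h1
    rw [h2] at h1
    rwa [hcard]

/-- The main dichotomy for primitive groups. -/
theorem action_main (hprim : IsPreprimitive G Ω) (a b : Ω) (d : ℕ)
    (hd : Nat.card (orbit (stabilizer G a) b) = d) (h2 : 2 ≤ d) :
    ∃ A B X Y : Subgroup G, Setup (stabilizer G a) (stabilizer G b) A B X Y ∧
      X.relIndex (stabilizer G a) ∣ d.factorial * ((d - 1).factorial) ^ d ∧
      ((X = ⊥ ∨ Y = ⊥) ∧ Nat.card (stabilizer G a) ∣ d.factorial * ((d - 1).factorial) ^ d ∨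
        X ≠ ⊥ ∧ Y ≠ ⊥ ∧ ∃ p : ℕ, p.Prime ∧ IsPGroup p X ∧
          generalizedFittingSubgroup ↥(stabilizer G a) = pCore p ↥(stabilizer G a)) := by
  obtain ⟨hmax, hcore, hne, ⟨g, hconj⟩, hi1, hi2⟩ := action_facts hprim a b d hd h2
  have hs := main_of_conj hmax g hconj hne hcore
  refine ⟨_, _, _, _, hs, index_bound hs hi1 hi2, ?_⟩
  have hcard : Nat.card (stabilizer G a) = Nat.card (stabilizer G b) := by
    rw [hconj]
    exact Nat.card_congr ((stabilizer G a).equivMapOfInjective _ (MulAut.conj g).injective).toEquiv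
  by_cases hb : coreIn (stabilizer G a) (coreIn (stabilizer G a) (stabilizer G a ⊓ stabilizer G b) ⊓ coreIn (stabilizer G b) (stabilizer G a ⊓ stabilizer G b)) = ⊥ ∨
      coreIn (stabilizer G b) (coreIn (stabilizer G a) (stabilizer G a ⊓ stabilizer G b) ⊓ coreIn (stabilizer G b) (stabilizer G a ⊓ stabilizer G b)) = ⊥
  · exact Or.inl ⟨hb, card_dvd_of_bot hs hi1 hi2 hcard hb⟩
  · push Not at hb
    right
    refine ⟨hb.1, hb.2, ?_⟩
    obtain ⟨p, hp, h1, _, _, h3, _⟩ := main hs hb.1 hb.2 (fun p _ => by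
      rw [hconj]
      exact card_pCoreOf_map_conj _ g)
    exact ⟨p, hp, h1, h3⟩

/-- Growth of normalizers in `p`-groups. -/
theorem le_of_inf_le {p : ℕ} [Fact p.Prime] {S T M : Subgroup G} (hSp : IsPGroup p S) (hTp : IsPGroup p T)
    (hTS : T ≤ normalizer (S : Set G)) (hNT : normalizer (T : Set G) ≤ M) (hinf : S ⊓ M ≤ T) : S ≤ T := by
  by_contra hne
  have hPp : IsPGroup p ↥(S ⊔ T) := by
    rw [sup_comm]
    exact IsPGroup.to_sup_of_normal_right' hTp hSp hTS
  have hlt : T.subgroupOf (S ⊔ T) < ⊤ := lt_top_iff_ne_top.mpr fun ht =>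
    hne (le_sup_left.trans (Subgroup.subgroupOf_eq_top.mp ht))
  haveI := hPp.isNilpotent
  have hN := normalizerCondition_of_isNilpotent (G := ↥(S ⊔ T)) _ hlt
  obtain ⟨x, hx, hxn⟩ := SetLike.exists_of_lt hN
  have hxM : (x : G) ∈ M := by
    apply hNT
    apply mem_normalizer_of_map_conj_le
    rintro _ ⟨y, hy, rfl⟩
    have hyP : y ∈ S ⊔ T := (le_sup_right : T ≤ S ⊔ T) hy
    have := (mem_normalizer_iff.mp hx ⟨y, hyP⟩).mp hy
    exact this
  obtain ⟨r1, hr1, r2, hr2, hxe⟩ := H01.exists_mul_of_mem_sup (N := S) (A := T) hTS x.2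
  have hT2 : r2 ∈ M := hNT (Subgroup.le_normalizer hr2)
  have hr1M : r1 ∈ M := by
    have e : r1 = (x : G) * r2⁻¹ := by rw [hxe]; group
    rw [e]
    exact M.mul_mem hxM (M.inv_mem hT2)
  have hr1R : r1 ∈ T := hinf ⟨hr1, hr1M⟩
  apply hxn
  show (x : G) ∈ T
  rw [hxe]
  exact T.mul_mem hr1R hr2

/-- If `O_p(M₁ ⊓ M₂)` is normal in `M₁`, it is trivial. -/
theorem pCoreOf_inf_eq_bot {M₁ M₂ : Subgroup G} (hmax : IsCoatom M₁) (hcore : M₁.normalCore = ⊥) (g : G)
    (hconj : M₂ = M₁.map (MulAut.conj g).toMonoidHom) (hne : M₁ ≠ M₂) {p : ℕ} [Fact p.Prime]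
    (hT : M₁ ≤ normalizer (pCoreOf p (M₁ ⊓ M₂) : Set G)) : pCoreOf p (M₁ ⊓ M₂) = ⊥ := by
  set T := pCoreOf p (M₁ ⊓ M₂) with hTdef
  have hTD : T ≤ M₁ ⊓ M₂ := pCoreOf_le _
  have hTp : IsPGroup p T := isPGroup_pCoreOf _
  by_contra hTne
  set M₃ := M₁.map (MulAut.conj g⁻¹).toMonoidHom with hM₃
  set T₃ := T.map (MulAut.conj g⁻¹).toMonoidHom with hT₃
  have memM₃ : ∀ x, x ∈ M₃ ↔ g * x * g⁻¹ ∈ M₁ := fun x => by
    rw [hM₃, mem_map_conj]; simp
  have memT₃ : ∀ x, x ∈ T₃ ↔ g * x * g⁻¹ ∈ T := fun x => by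
    rw [hT₃, mem_map_conj]; simp
  have memM₂ : ∀ x, x ∈ M₂ ↔ g⁻¹ * x * g ∈ M₁ := fun x => by
    rw [hconj, mem_map_conj]
  have hT₃M₃ : T₃ ≤ M₃ := by
    intro x hx
    rw [memM₃]
    exact (hTD ((memT₃ x).mp hx)).1
  have hT₃M₁ : T₃ ≤ M₁ := by
    intro x hx
    have := (memM₂ _).mp (hTD ((memT₃ x).mp hx)).2
    have e : g⁻¹ * (g * x * g⁻¹) * g = x := by group
    rwa [e] at this
  have hT₃n : M₃ ≤ normalizer (T₃ : Set G) := by
    apply le_normalizer_of_conj
    intro m hm x hx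
    rw [memT₃] at hx ⊢
    have := conj_mem hT ((memM₃ m).mp hm) hx
    have e : g * (m * x * m⁻¹) * g⁻¹ = (g * m * g⁻¹) * (g * x * g⁻¹) * (g * m * g⁻¹)⁻¹ := by group
    rw [e]
    exact this
  have hT₃ne : T₃ ≠ ⊥ := by
    intro he
    apply hTne
    rw [hT₃] at he
    exact (Subgroup.map_eq_bot_iff_of_injective _ (MulAut.conj g⁻¹).injective).mp he
  have hmax₃ : IsCoatom M₃ := isCoatom_map_conj hmax g⁻¹
  have hcore₃ : M₃.normalCore = ⊥ := normalCore_map_conj hcore g⁻¹
  have hN₃ : normalizer (T₃ : Set G) = M₃ := normalizer_eq hmax₃ hcore₃ hT₃M₃ hT₃n hT₃ne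
  have hinf : T ⊓ M₃ ≤ T₃ := by
    intro x hx
    rw [memT₃]
    have h1 : (T ⊓ M₃).map (MulAut.conj g).toMonoidHom ≤ T := by
      apply le_pCoreOf
      · rintro _ ⟨y, ⟨hy1, hy2⟩, rfl⟩
        refine ⟨(memM₃ y).mp hy2, (memM₂ _).mpr ?_⟩
        have e : g⁻¹ * ((MulAut.conj g).toMonoidHom y) * g = y := by
          simp [MulAut.conj_apply, mul_assoc]
        rw [e]
        exact (hTD hy1).1
      · exact (hTp.to_le inf_le_left).map _
      · apply le_normalizer_of_conj
        rintro d ⟨hd1, hd2⟩ _ ⟨y, ⟨hy1, hy2⟩, rfl⟩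
        have hd' : g⁻¹ * d * g ∈ M₁ := (memM₂ d).mp hd2
        have hd'' : g⁻¹ * d * g ∈ M₃ := by
          rw [memM₃]
          have e : g * (g⁻¹ * d * g) * g⁻¹ = d := by group
          rw [e]
          exact hd1
        refine ⟨(g⁻¹ * d * g) * y * (g⁻¹ * d * g)⁻¹, ⟨conj_mem hT hd' hy1, M₃.mul_mem (M₃.mul_mem hd'' hy2) (M₃.inv_mem hd'')⟩, ?_⟩
        simp [MulAut.conj_apply]
        group
    exact h1 ⟨x, hx, rfl⟩
  have hle : T ≤ T₃ := le_of_inf_le hTp (hTp.map _) (hT₃M₁.trans hT) hN₃.le hinf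
  have hcardT : Nat.card T₃ = Nat.card T :=
    (Nat.card_congr (T.equivMapOfInjective _ (MulAut.conj g⁻¹).injective).toEquiv).symm
  have hTT : T = T₃ := Subgroup.eq_of_le_of_card_ge hle hcardT.le
  have hN₁ : normalizer (T : Set G) = M₁ := normalizer_eq hmax hcore (hTD.trans inf_le_left) hT hTne
  rw [← hTT, hN₁] at hN₃
  -- `M₁ = M₃`, so `M₂ = M₁`
  apply hne
  rw [hconj]
  conv_rhs => rw [hN₃, hM₃]
  rw [map_conj_map_conj_inv]

end Cfsg.Agent.H17.TW
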