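import Cfsg.Agent.Lib.H17.TW3

/-!
# Thompson--Wielandt: Fitting-free two-point constituents
-/

set_option autoImplicit false
set_option linter.style.longLine false
set_option linter.unusedSectionVars false

namespace Cfsg.Agent.H17.TW

open Cfsg Cfsg.Agent.H13 Cfsg.Agent.H05 Subgroup MulAction

/-- A normal `p`-subgroup of `D'` dies in a homomorphic image of `D'` with trivial Fitting subgroup. -/
theorem le_ker_of_fitting {H K : Type*} [Group H] [Finite H] [Group K] [Finite K] (φ : H →* K) {D' T₁ : Subgroup H}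
    {p : ℕ} [Fact p.Prime] (hle : T₁ ≤ D') (hn : D' ≤ normalizer (T₁ : Set H)) (hp : IsPGroup p T₁)
    (hF : fittingSubgroup ↥(D'.map φ) = ⊥) : ∀ x ∈ T₁, φ x = 1 := by
  have hsub : T₁.map φ ≤ D'.map φ := Subgroup.map_mono hle
  have hN : ((T₁.map φ).subgroupOf (D'.map φ)).Normal := by
    constructor
    rintro ⟨z, hz⟩ hz' ⟨y, hy⟩
    obtain ⟨d, hd, rfl⟩ := hy
    obtain ⟨t, ht, rfl⟩ : z ∈ T₁.map φ := hz'
    refine ⟨d * t * d⁻¹, H01.conj_mem_of_mem_normalizer (hn hd) ht, ?_⟩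
    simp
  have hP : IsPGroup p ↥((T₁.map φ).subgroupOf (D'.map φ)) :=
    (hp.map φ).of_equiv (Subgroup.subgroupOfEquivOfLe hsub).symm
  have hle2 : (T₁.map φ).subgroupOf (D'.map φ) ≤ fittingSubgroup ↥(D'.map φ) :=
    le_sSup ⟨hN, hP.isNilpotent⟩
  rw [hF] at hle2
  intro x hx
  have hmem : (⟨φ x, hsub ⟨x, hx, rfl⟩⟩ : ↥(D'.map φ)) ∈ (T₁.map φ).subgroupOf (D'.map φ) := ⟨x, hx, rfl⟩
  have := hle2 hmem
  rw [Subgroup.mem_bot] at this
  exact congrArg Subtype.val this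

end Cfsg.Agent.H17.TW
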